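import Cfsg.Agent.H3.Conway
import Cfsg.Agent.H8.SylowIn

/-! The sign changes `2^12` and the monomial subgroup `2^12 : M24` of the lattice group. -/

set_option autoImplicit false

namespace Cfsg.Agent.H5.Co

open Cfsg Cfsg.Agent.H1 Cfsg.Agent.H3 Finset
open scoped Pointwise symmDiff

/-- the code words as a multiplicative group -/
def Cw : Type := {c : Finset GolayPt // c ∈ GC}

instance : CommGroup Cw where
  mul a b := ⟨a.1 ∆ b.1, symmDiff_mem_GC a.2 b.2⟩
  one := ⟨∅, empty_mem_GC⟩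
  inv a := a
  mul_assoc a b c := Subtype.ext (symmDiff_assoc a.1 b.1 c.1)
  one_mul a := Subtype.ext (bot_symmDiff a.1)
  mul_one a := Subtype.ext (symmDiff_bot a.1)
  inv_mul_cancel a := Subtype.ext (symmDiff_self a.1)
  mul_comm a b := Subtype.ext (symmDiff_comm a.1 b.1)

theorem Cw.ext {a b : Cw} (h : ∀ i, i ∈ a.1 ↔ i ∈ b.1) : a = b := Subtype.ext (Finset.ext h)

theorem coe_mul (a b : Cw) : (a * b).1 = a.1 ∆ b.1 := rfl
theorem coe_one : (1 : Cw).1 = ∅ := rfl
theorem cw_inv (a : Cw) : a⁻¹ = a := rfl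
theorem cw_sq (a : Cw) : a * a = 1 := inv_mul_cancel a

theorem mem_mul {a b : Cw} {i : GolayPt} : i ∈ (a * b).1 ↔ ¬ (i ∈ a.1 ↔ i ∈ b.1) := by
  rw [coe_mul, mem_symmDiff]; tauto

instance : Finite Cw := inferInstanceAs (Finite {c : Finset GolayPt // c ∈ GC})

theorem card_Cw : Nat.card Cw = 4096 := by
  rw [← ncard_GC_eq, ← Nat.card_coe_set_eq]; rfl

instance : MulDistribMulAction M24 Cw where
  smul σ c := ⟨σ.1 • c.1, H1.smul_mem_GC σ.2 c.2⟩
  one_smul c := Subtype.ext (one_smul _ c.1)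
  mul_smul a b c := Subtype.ext (mul_smul a.1 b.1 c.1)
  smul_mul σ a b := Subtype.ext (smul_symmDiff σ.1 a.1 b.1)
  smul_one σ := Subtype.ext (smul_finset_empty σ.1)

theorem coe_smul (σ : M24) (c : Cw) : (σ • c).1 = σ.1 • c.1 := rfl

theorem mem_smul {σ : M24} {c : Cw} {i : GolayPt} : i ∈ (σ • c).1 ↔ σ.1⁻¹ i ∈ c.1 := H1.mem_smul_iff

theorem apply_mem {σ : M24} {c : Cw} {i : GolayPt} : σ.1 i ∈ (σ • c).1 ↔ i ∈ c.1 := H1.apply_mem_smul

theorem card_smul (σ : M24) (c : Cw) : (σ • c).1.card = c.1.card := card_smul' _ _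

/-- the word of weight `24` -/
def tw : Cw := ⟨univ, univ_mem_GC⟩

theorem smul_tw (σ : M24) : σ • tw = tw := Cw.ext fun i => by rw [mem_smul]; simp [tw]

theorem coe_tw_mul (c : Cw) : (tw * c).1 = c.1ᶜ := by
  ext i; rw [mem_mul]; simp [tw]

theorem card_tw_mul (c : Cw) : (tw * c).1.card = 24 - c.1.card := by
  rw [coe_tw_mul, card_compl, card_golayPt]

theorem sep {i j : GolayPt} (h : ∀ c : Cw, i ∈ c.1 ↔ j ∈ c.1) : i = j := by
  by_contra hne
  obtain ⟨c, hc, h1, h2⟩ := exists_sep hne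
  exact h2 ((h ⟨c, hc⟩).1 h1)

theorem smul_faithful {σ : M24} (h : ∀ c : Cw, σ • c = c) : σ = 1 :=
  Subtype.ext (Equiv.ext fun i => sep fun c => by rw [← h c, apply_mem, h c]; rfl)

theorem co_ext {g g' : Co0} (h : ∀ (v : L) i, ((g • v : L) : V) i = ((g' • v : L) : V) i) : g = g' :=
  eq_of_fix_e8 fun p => Subtype.ext (funext (h (e8 p)))

theorem sgn_sgn (c : Finset GolayPt) (x : V) : sgn c (sgn c x) = x := by
  funext i; simp only [sgn]; split_ifs <;> simp

/-- the sign change on a code word -/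
def eps : Cw →* Co0 where
  toFun c := ⟨
    { toFun := fun v => mkL (sgn c.1 v) ((isL_coe v).sgn c.2)
      invFun := fun v => mkL (sgn c.1 v) ((isL_coe v).sgn c.2)
      left_inv := fun v => Subtype.ext (sgn_sgn c.1 v)
      right_inv := fun v => Subtype.ext (sgn_sgn c.1 v) },
    fun v w => Subtype.ext (funext fun i => by
      change sgn c.1 ((v : V) + w) i = sgn c.1 v i + sgn c.1 w i
      simp only [sgn, Pi.add_apply]; split_ifs <;> ring),
    fun v => sum_congr rfl fun i _ => by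
      change sgn c.1 v i ^ 2 = _
      simp only [sgn]; split_ifs <;> ring⟩
  map_one' := co_ext fun v i => by
    change sgn ∅ v i = _
    simp [sgn]
  map_mul' a b := co_ext fun v i => by
    change sgn (a * b).1 v i = sgn a.1 (sgn b.1 v) i
    simp only [sgn, mem_mul]
    by_cases h1 : i ∈ a.1 <;> by_cases h2 : i ∈ b.1 <;> simp [h1, h2]

theorem eps_apply (c : Cw) (v : L) (i : GolayPt) :
    ((eps c • v : L) : V) i = if i ∈ c.1 then -(v : V) i else (v : V) i := rfl

theorem eps_sq (c : Cw) : eps c * eps c = 1 := by rw [← map_mul, cw_sq, map_one]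

theorem eps_inv (c : Cw) : (eps c)⁻¹ = eps c := by rw [← map_inv, cw_inv]

theorem perm_eps (σ : M24) (c : Cw) : permHom σ * eps c = eps (σ • c) * permHom σ :=
  co_ext fun v i => by
    rw [mul_smul, mul_smul, permHom_apply, eps_apply, eps_apply, permHom_apply]
    simp only [mem_smul]

theorem perm_conj (σ : M24) (c : Cw) : permHom σ * eps c * (permHom σ)⁻¹ = eps (σ • c) := by
  rw [perm_eps, mul_inv_cancel_right]

theorem eps_tw : eps tw = negCo := co_ext fun v i => by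
  rw [eps_apply, negCo_smul]; simp [tw]

theorem mono_e8 (c : Cw) (σ : M24) (p q : GolayPt) : (((eps c * permHom σ) • e8 p : L) : V) q =
    if q = σ.1 p then (if q ∈ c.1 then -8 else 8) else 0 := by
  rw [mul_smul, permHom_e8, eps_apply]
  change (if q ∈ c.1 then -sg (σ.1 p) 8 q else sg (σ.1 p) 8 q) = _
  simp only [sg]; split_ifs <;> rfl

theorem mono_inj {c d : Cw} {σ τ : M24} (h : eps c * permHom σ = eps d * permHom τ) : c = d ∧ σ = τ := by
  have key : ∀ p, σ.1 p = τ.1 p ∧ (σ.1 p ∈ c.1 ↔ σ.1 p ∈ d.1) := fun p => by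
    have := mono_e8 c σ p (σ.1 p)
    rw [h, mono_e8, if_pos rfl] at this
    by_cases h1 : σ.1 p = τ.1 p <;> by_cases h2 : σ.1 p ∈ c.1 <;> by_cases h3 : σ.1 p ∈ d.1 <;>
      simp_all
  exact ⟨Cw.ext fun i => by simpa using (key (σ.1⁻¹ i)).2, Subtype.ext (Equiv.ext fun p => (key p).1)⟩

theorem eps_injective : Function.Injective eps := fun a b h =>
  (mono_inj (σ := 1) (τ := 1) (by rw [h])).1

theorem mono_mul (c d : Cw) (σ τ : M24) :
    eps c * permHom σ * (eps d * permHom τ) = eps (c * σ • d) * permHom (σ * τ) := by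
  rw [map_mul, map_mul, mul_assoc, ← mul_assoc (permHom σ), perm_eps]; simp only [mul_assoc]

theorem mono_inv (c : Cw) (σ : M24) : (eps c * permHom σ)⁻¹ = eps (σ⁻¹ • c) * permHom σ⁻¹ := by
  rw [mul_inv_rev, eps_inv, ← map_inv, perm_eps]

theorem mono_conj (c d : Cw) (σ : M24) : eps c * permHom σ * eps d * (eps c * permHom σ)⁻¹ = eps (σ • d) := by
  rw [mul_inv_rev, mul_assoc (eps c), perm_eps, eps_inv]
  calc _ = eps c * eps (σ • d) * eps c := by group
    _ = _ := by rw [← map_mul, ← map_mul, mul_right_comm, cw_sq, one_mul]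

/-- `2^12` -/
def EE : Subgroup Co0 := eps.range

/-- `2^12 : M24` -/
def MM : Subgroup Co0 where
  carrier := {g | ∃ c σ, g = eps c * permHom σ}
  one_mem' := ⟨1, 1, by simp⟩
  mul_mem' := by rintro _ _ ⟨c, σ, rfl⟩ ⟨d, τ, rfl⟩; exact ⟨_, _, mono_mul c d σ τ⟩
  inv_mem' := by rintro _ ⟨c, σ, rfl⟩; exact ⟨_, _, mono_inv c σ⟩

theorem eps_mem (c : Cw) : eps c ∈ MM := ⟨c, 1, by simp⟩
theorem perm_mem (σ : M24) : permHom σ ∈ MM := ⟨1, σ, by simp⟩

theorem card_EE : Nat.card EE = 4096 := by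
  rw [← card_Cw]; exact (Nat.card_congr (MonoidHom.ofInjective eps_injective).toEquiv).symm

theorem card_MM : Nat.card MM = 4096 * 244823040 := by
  rw [← card_Cw, ← card_M24, ← Nat.card_prod]
  refine (Nat.card_congr (Equiv.ofBijective (fun x : Cw × M24 => (⟨_, x.1, x.2, rfl⟩ : MM)) ⟨?_, ?_⟩)).symm
  · intro x y h
    exact Prod.ext (mono_inj (congrArg Subtype.val h)).1 (mono_inj (congrArg Subtype.val h)).2
  · rintro ⟨_, c, σ, rfl⟩; exact ⟨(c, σ), rfl⟩

theorem exists_cj_le_MM {P : Subgroup Co0} (hP : IsPGroup 2 P) : ∃ g, H8.cj g P ≤ MM := by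
  obtain ⟨S, hS⟩ := H8.exists_isSylowIn 2 MM
  have h1 : MM.index = 8292375 := by
    have := MM.card_mul_index
    rw [card_MM, card_Co0] at this
    omega
  have h2 : H8.IsSylowIn 2 S ⊤ := H8.IsSylowIn.of_not_dvd_relIndex le_top hS.pgroup (by
    rw [Subgroup.relIndex_top_right, ← Subgroup.relIndex_mul_index hS.le, h1]
    exact fun h => ((Nat.Prime.dvd_mul Nat.prime_two).1 h).elim hS.not_dvd_relIndex (by norm_num))
  obtain ⟨T, hT, h3⟩ := H8.exists_isSylowIn_ge hP le_top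
  obtain ⟨g, -, rfl⟩ := hT.exists_cj_eq h2
  exact ⟨g, (H8.cj_mono g h3).trans hS.le⟩

theorem mem_MM_of_real {g : Co0} {c : Finset GolayPt} (hc : c ∈ GC) {τ : Equiv.Perm GolayPt} (hτ : τ ∈ M24)
    (e : ∀ v : L, ((g • v : L) : V) = monoMap c τ v) : g ∈ MM :=
  ⟨⟨c, hc⟩, (⟨τ, hτ⟩ : M24)⁻¹, co_ext fun v i => by rw [e]; rfl⟩

theorem mem_MM_of_single {g : Co0} {p q : GolayPt} (h : ∀ r, r ≠ q → ((g • e8 p : L) : V) r = 0) : g ∈ MM := by
  have h1 : ((g • e8 p : L) : V) q ^ 2 = 8 ^ 2 := by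
    rw [← sqNorm_sg p 8, ← show sqNorm ((g • e8 p : L) : V) = sqNorm (sg p 8) from co_norm g (e8 p), sqNorm_def,
      sum_eq_single q (fun r _ hr => by rw [h r hr]; rfl) (by simp)]
  obtain ⟨σ, hσ⟩ := exists_M24_map q p
  have hσ' : σ.1⁻¹ p = q := by rw [Equiv.Perm.inv_eq_iff_eq]; exact hσ.symm
  obtain ⟨c, hc⟩ : ∃ c : Cw, (eps c * permHom σ * g) • e8 p = e8 p := by
    have key : ∀ c : Cw, (if p ∈ c.1 then -((g • e8 p : L) : V) q else ((g • e8 p : L) : V) q) = 8 →
        (eps c * permHom σ * g) • e8 p = e8 p := fun c hc => Subtype.ext (funext fun r => by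
      rw [mul_smul, mul_smul, eps_apply, permHom_apply]
      change _ = sg p 8 r
      by_cases hr : r = p
      · rw [hr, hσ', hc]; simp [sg]
      · rw [h _ (fun e => hr (σ.1⁻¹.injective (e.trans hσ'.symm)))]; simp [sg, hr])
    rcases sq_eq_sq_iff_eq_or_eq_neg.1 h1 with h2 | h2
    · exact ⟨1, key 1 (by rw [h2]; simp [coe_one])⟩
    · exact ⟨tw, key tw (by rw [h2]; simp [tw])⟩
  obtain ⟨d, hd, τ, hτ, e⟩ := monomial_of_fix hc
  exact (MM.mul_mem_cancel_left (mul_mem (eps_mem c) (perm_mem σ))).1 (mem_MM_of_real hd hτ e)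

theorem supp {g : Co0} {c d : Cw} (h : g * eps c = eps d * g) {p q : GolayPt}
    (h1 : ((g • e8 p : L) : V) q ≠ 0) : p ∈ c.1 ↔ q ∈ d.1 := by
  have h2 : eps c • e8 p = if p ∈ c.1 then -e8 p else e8 p := Subtype.ext (funext fun r => by
    rw [eps_apply]
    by_cases hr : r = p
    · subst hr; split_ifs <;> rfl
    · have : (e8 p : V) r = 0 := by simp [e8, sg, hr]
      split_ifs <;> simp [this])
  have h3 := congrArg (fun x : Co0 => ((x • e8 p : L) : V) q) h
  simp only [mul_smul, h2, eps_apply] at h3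
  by_cases a : p ∈ c.1 <;> by_cases b : q ∈ d.1 <;> simp only [a, b, if_true, if_false, co_neg,
    AddSubgroup.coe_neg, Pi.neg_apply] at h3 ⊢ <;> omega

theorem exists_supp (g : Co0) (p : GolayPt) : ∃ q, ((g • e8 p : L) : V) q ≠ 0 := by
  by_contra h
  push Not at h
  have := co_norm g (e8 p)
  rw [show sqNorm (e8 p : V) = 8 ^ 2 from sqNorm_sg p 8, sqNorm_def] at this
  simp [h] at this

theorem mem_MM_of_norm {g : Co0} (h : ∀ d : Cw, ∃ c : Cw, g * eps c = eps d * g) : g ∈ MM := by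
  obtain ⟨q, hq⟩ := exists_supp g none
  refine mem_MM_of_single (p := none) (q := q) fun r hr => by_contra fun h1 => hr (sep fun d => ?_)
  obtain ⟨c, hc⟩ := h d
  exact (supp hc h1).symm.trans (supp hc hq)

/-- an element commuting with a separating family of sign changes is a sign change -/
theorem eps_of_comm {g : Co0} (h : ∀ p q, (∀ c : Cw, g * eps c = eps c * g → (p ∈ c.1 ↔ q ∈ c.1)) → p = q) :
    ∃ d, g = eps d := by
  have key : ∀ p q, ((g • e8 p : L) : V) q ≠ 0 → p = q := fun p q h1 => h p q fun c hc => supp hc h1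
  obtain ⟨d, σ, rfl⟩ := mem_MM_of_single (g := g) (p := none) (q := none) fun r hr =>
    by_contra fun h1 => hr (key _ _ h1).symm
  have : σ = 1 := Subtype.ext (Equiv.ext fun p => (key p (σ.1 p) (by
    rw [mono_e8, if_pos rfl]; split_ifs <;> norm_num)).symm)
  exact ⟨d, by rw [this, map_one, mul_one]⟩

theorem eps_of_cent {g : Co0} (h : ∀ c : Cw, g * eps c = eps c * g) : ∃ d, g = eps d :=
  eps_of_comm fun _ _ e => sep fun c => e c (h c)

end Cfsg.Agent.H5.Co
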