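import Cfsg.Agent.H5.Co3

/-! `2^12` is the only elementary abelian subgroup of its order in `2^12 : M24`. -/

set_option autoImplicit false

namespace Cfsg.Agent.H5.Co

open Cfsg Cfsg.Agent.H1 Cfsg.Agent.H3 Finset MulAction
open scoped Pointwise symmDiff

theorem numeric (a0 a1 a2 a3 a4 n : ℕ) (hs : a0 + 2 * a1 + 4 * a2 + 8 * a3 + 16 * a4 = 24) (hn : 1 ≤ n)
    (hb : (a0 + a1 + a2 + a3 + a4) * 2 ^ n ≤ 16 + 8 * 2 ^ n)
    (h3 : ∀ r0 r1 r2 r3 r4, r0 ≤ a0 → r1 ≤ a1 → r2 ≤ a2 → r3 ≤ a3 → r4 ≤ a4 →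
      9 ≤ r0 + 2 * r1 + 4 * r2 + 8 * r3 + 16 * r4 → n ≤ r1 + 2 * r2 + 3 * r3 + 4 * r4) :
    ∃ r0 r1 r2, r0 ≤ a0 ∧ r1 ≤ a1 ∧ r2 ≤ a2 ∧ r0 + 2 * r1 + 4 * r2 ≤ 7 ∧
      n + (a0 + a1 + a2 + a3 + a4) ≤ 11 + (r0 + r1 + r2) := by
  have h6 : n ≤ 6 := by
    have := h3 0 0 0 0 1
    have := h3 0 0 0 2 0
    have := h3 1 0 0 1 0
    have := h3 0 1 0 1 0
    have := h3 0 0 1 1 0
    have := h3 0 0 3 0 0
    have := h3 0 1 2 0 0
    have := h3 1 0 2 0 0
    have := h3 0 3 1 0 0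
    have := h3 5 0 1 0 0
    have := h3 0 5 0 0 0
    have := h3 9 0 0 0 0
    omega
  refine ⟨min a0 7, min a1 ((7 - min a0 7) / 2), min a2 ((7 - min a0 7 - 2 * min a1 ((7 - min a0 7) / 2)) / 4),
    by omega, by omega, by omega, by omega, ?_⟩
  interval_cases n <;> omega

theorem exists_sel {Ω : Type*} [Fintype Ω] [DecidableEq Ω] (e : Ω → Fin 5) (r : Fin 5 → ℕ)
    (h : ∀ j, r j ≤ (univ.filter fun ω => e ω = j).card) :
    ∃ R : Finset Ω, ∀ f : Fin 5 → ℕ, ∑ ω ∈ R, f (e ω) = ∑ j, r j * f j := by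
  choose T h1 h2 using fun j => exists_subset_card_eq (h j)
  have h3 : ∀ j, ∀ ω ∈ T j, e ω = j := fun j ω hω => (mem_filter.1 (h1 j hω)).2
  refine ⟨univ.biUnion T, fun f => ?_⟩
  rw [sum_biUnion fun i _ j _ hij => disjoint_left.2 fun ω a b => hij ((h3 i ω a).symm.trans (h3 j ω b))]
  refine sum_congr rfl fun j _ => ?_
  rw [sum_congr rfl fun ω hω => by rw [h3 j ω hω], sum_const, h2, smul_eq_mul]

theorem offender {B : Subgroup M24} (h2 : ∀ b ∈ B, b * b = 1) (h1 : B ≠ ⊥) :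
    Nat.card B * {c : Cw | ∀ b ∈ B, b • c = c}.ncard < 4096 := by
  classical
  have hp : IsPGroup 2 B := fun a => ⟨1, Subtype.ext (by simpa [pow_two] using h2 a a.2)⟩
  have hc : ∀ a b : B, a * b = b * a := fun a b => by
    have hi : ∀ x : B, x⁻¹ = x := fun x => inv_eq_of_mul_eq_one_right (Subtype.ext (h2 x x.2))
    rw [← hi (a * b), mul_inv_rev, hi, hi]
  obtain ⟨n, hn⟩ := hp.exists_card_eq
  have hn1 : 1 ≤ n := Nat.pos_of_ne_zero fun e => h1 (Subgroup.card_eq_one.1 (by rw [hn, e, pow_zero]))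
  let Ω := orbitRel.Quotient B GolayPt
  letI : Fintype Ω := Fintype.ofFinite Ω
  letI : Fintype B := Fintype.ofFinite B
  let π : GolayPt → Ω := Quotient.mk _
  have hπ : ∀ x y, π x = π y ↔ ∃ b : B, b • y = x := fun x y => Quotient.eq
  have hout : ∀ ω : Ω, π ω.out = ω := fun ω => Quotient.out_eq ω
  let fib : Ω → Finset GolayPt := fun ω => univ.filter fun x => π x = ω
  have hfib : ∀ R : Finset Ω, (univ.filter fun x => π x ∈ R).card = ∑ ω ∈ R, (fib ω).card := fun R => by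
    rw [card_eq_sum_card_fiberwise (f := π) (s := univ.filter fun x => π x ∈ R) (t := R)
      fun x hx => (mem_filter.1 hx).2]
    refine sum_congr rfl fun ω hω => congrArg card ?_
    ext x
    simp only [fib, mem_filter, mem_univ, true_and]
    exact ⟨fun h => h.2, fun h => ⟨h ▸ hω, h⟩⟩
  have h24 : ∑ ω, (fib ω).card = 24 := by rw [← hfib]; simp
  obtain ⟨e, he⟩ : ∃ e : Ω → Fin 5, ∀ ω, (fib ω).card = 2 ^ (e ω).val := by
    have key : ∀ ω, ∃ j : Fin 5, (fib ω).card = 2 ^ j.val := fun ω => by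
      have h3 : (fib ω).card = (stabilizer B ω.out).index := by
        rw [index_stabilizer, ← Set.ncard_coe_finset]
        congr 1
        ext x
        simp only [fib, coe_filter, mem_univ, true_and, Set.mem_ofPred_eq]
        rw [← hout ω, hπ, hout ω]; rfl
      have h4 : (fib ω).card ∣ 2 ^ n := by rw [h3, ← hn]; exact Subgroup.index_dvd_card _
      obtain ⟨j, -, hj⟩ := (Nat.dvd_prime_pow Nat.prime_two).1 h4
      have h5 : (fib ω).card ≤ 24 := card_golayPt ▸ card_le_univ _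
      have : j < 5 := by
        by_contra h
        have := Nat.pow_le_pow_right (n := 2) (by norm_num) (not_lt.1 h)
        omega
      exact ⟨⟨j, this⟩, hj⟩
    choose e he using key
    exact ⟨e, he⟩
  let a : Fin 5 → ℕ := fun j => (univ.filter fun ω => e ω = j).card
  have ha : ∀ f : Fin 5 → ℕ, ∑ ω, f (e ω) = ∑ j, a j * f j := fun f => by
    rw [← sum_fiberwise univ e]
    refine sum_congr rfl fun j _ => ?_
    rw [sum_congr rfl fun ω hω => by rw [(mem_filter.1 hω).2], sum_const, smul_eq_mul]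
  have hk : Fintype.card Ω = a 0 + a 1 + a 2 + a 3 + a 4 := by
    have := ha fun _ => 1
    simpa [Fin.sum_univ_five] using this
  have hfix : ∀ b : B, b ≠ 1 → (univ.filter fun p => b • p = p).card ≤ 8 := fun b hb =>
    card_fix_le (h2 b b.2) fun e => hb (Subtype.ext e)
  have hb : (a 0 + a 1 + a 2 + a 3 + a 4) * 2 ^ n ≤ 16 + 8 * 2 ^ n := by
    rw [← hk, ← hn, Nat.card_eq_fintype_card, ← sum_card_fixedBy_eq_card_orbits_mul_card_group]
    calc _ ≤ ∑ b : B, ((if b = 1 then 16 else 0) + 8) := sum_le_sum fun b _ => by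
          rw [Fintype.card_subtype]
          split_ifs with h
          · exact (card_le_univ _).trans card_golayPt.le
          · exact (hfix b h).trans' (by simp [mem_fixedBy])
      _ = _ := by rw [sum_add_distrib]; simp [mul_comm]
  obtain ⟨r0, r1, r2, b0, b1, b2, b3, b4⟩ := numeric (a 0) (a 1) (a 2) (a 3) (a 4) n (by
      have := ha fun j => 2 ^ j.val
      simp only [← he, h24, Fin.sum_univ_five] at this
      simp at this; omega) hn1 hb (by
      intro r0 r1 r2 r3 r4 b0 b1 b2 b3 b4 h9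
      obtain ⟨R, hR⟩ := exists_sel e ![r0, r1, r2, r3, r4] fun j => by fin_cases j <;> assumption
      have c1 := hR fun j => 2 ^ j.val
      have c2 := hR fun j => j.val
      simp only [← he, ← hfib, Fin.sum_univ_five] at c1 c2
      simp at c1 c2
      have c3 : Fintype.card B ≤ (R.pi fib).card := by
        refine card_le_card_of_injOn (fun b ω _ => b • ω.out) (fun b _ => ?_) fun b _ b' _ h => ?_
        · exact mem_coe.2 (mem_pi.2 fun ω _ => mem_filter.2 ⟨mem_univ _, ((hπ _ _).2 ⟨b, rfl⟩).trans (hout ω)⟩)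
        · by_contra hne
          have c4 := hfix (b'⁻¹ * b) fun e => hne (inv_mul_eq_one.1 e).symm
          refine absurd ((card_le_card fun x hx => mem_filter.2 ⟨mem_univ _, ?_⟩).trans c4)
            (show ¬ (univ.filter fun x => π x ∈ R).card ≤ 8 by omega)
          obtain ⟨d, hd⟩ := (hπ x (π x).out).1 (hout _).symm
          have c5 : b • (π x).out = b' • (π x).out := congrFun (congrFun h (π x)) (mem_filter.1 hx).2
          rw [← hd, ← mul_smul, hc, mul_smul, mul_smul, c5, inv_smul_smul]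
      rw [← Nat.card_eq_fintype_card, hn, card_pi, prod_congr rfl fun ω _ => he ω, prod_pow_eq_pow_sum] at c3
      have := (Nat.pow_le_pow_iff_right one_lt_two).1 c3
      omega)
  obtain ⟨R, hR⟩ := exists_sel e ![r0, r1, r2, 0, 0] fun j => by
    fin_cases j <;> first | assumption | exact Nat.zero_le _
  have c1 := hR fun j => 2 ^ j.val
  have c2 := hR fun _ => 1
  simp only [← he, ← hfib, Fin.sum_univ_five] at c1 c2
  simp at c1 c2
  have c3 : {c : Cw | ∀ b ∈ B, b • c = c}.ncard ≤ (Rᶜ.powerset).card := by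
    rw [← Set.ncard_coe_finset]
    refine Set.ncard_le_ncard_of_injOn (fun c => Rᶜ.filter fun ω => ω.out ∈ c.1)
      (fun c _ => mem_coe.2 (mem_powerset.2 (filter_subset _ _))) (fun c hc d hd h => ?_) (finite_toSet _)
    have key : ∀ c : Cw, (∀ b ∈ B, b • c = c) → ∀ x, x ∈ c.1 ↔ (π x).out ∈ c.1 := fun c hc x => by
      obtain ⟨b, hb⟩ := (hπ x (π x).out).1 (hout _).symm
      conv_lhs => rw [← hb, ← hc b.1 b.2]
      exact apply_mem
    have c4 : (c * d).1 = ∅ := eq_empty_of_card_lt (c * d).2 (lt_of_le_of_lt (card_le_card (t := univ.filter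
      fun x => π x ∈ R) fun x hx => mem_filter.2 ⟨mem_univ _, by_contra fun hx' => mem_mul.1 hx (by
        rw [key c hc, key d hd]
        simpa [hx'] using Finset.ext_iff.1 h (π x))⟩) (by omega))
    rw [← cw_inv d]
    exact eq_inv_of_mul_eq_one_left (Subtype.ext c4)
  rw [card_powerset, card_compl, hk, c2] at c3
  calc _ ≤ 2 ^ n * 2 ^ (a 0 + a 1 + a 2 + a 3 + a 4 - (r0 + r1 + r2)) := by rw [hn]; exact Nat.mul_le_mul_left _ c3
    _ ≤ 2 ^ 11 := by
      rw [← pow_add]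
      refine Nat.pow_le_pow_right (by norm_num) ?_
      have : R.card ≤ Fintype.card Ω := card_le_univ R
      omega
    _ < 4096 := by norm_num

theorem eq_EE {V : Subgroup Co0} (hV : V ≤ MM) (h2 : ∀ v ∈ V, v * v = 1) (hc : 4096 ≤ Nat.card V) : V = EE := by
  let B : Subgroup M24 :=
    { carrier := {σ | ∃ c, eps c * permHom σ ∈ V}
      one_mem' := ⟨1, by simp⟩
      mul_mem' := fun ⟨c, h⟩ ⟨d, k⟩ => ⟨_, mono_mul c d _ _ ▸ mul_mem h k⟩
      inv_mem' := fun ⟨c, h⟩ => ⟨_, mono_inv c _ ▸ inv_mem h⟩ }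
  by_cases h1 : B = ⊥
  · refine Subgroup.eq_of_le_of_card_ge (fun v hv => ?_) (card_EE ▸ hc)
    obtain ⟨c, σ, rfl⟩ := hV hv
    have h3 : σ = 1 := Subgroup.mem_bot.1 (h1.le (⟨c, hv⟩ : σ ∈ B))
    rw [h3, map_one, mul_one]
    exact ⟨c, rfl⟩
  refine absurd (offender (B := B) (fun σ ⟨c, h⟩ => ?_) h1) (not_lt.2 (hc.trans ?_))
  · have := h2 _ h
    rw [mono_mul] at this
    exact (mono_inj (d := 1) (τ := 1) (by rw [this]; simp)).2
  have hi : ∀ v ∈ V, v⁻¹ = v := fun v hv => inv_eq_of_mul_eq_one_right (h2 v hv)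
  choose c σ hσ using fun v : V => hV v.2
  have hB : ∀ v, σ v ∈ B := fun v => ⟨c v, hσ v ▸ v.2⟩
  choose d hd using fun b : B => b.2
  rw [← Nat.card_coe_set_eq, ← Nat.card_prod]
  refine Nat.card_le_card_of_injective (fun v => (⟨σ v, hB v⟩, ⟨c v * d ⟨σ v, hB v⟩, fun b ⟨x, hx⟩ => ?_⟩)) fun v w h => ?_
  · have h3 : eps (c v * d ⟨σ v, hB v⟩) ∈ V := by
      have := mul_mem (hσ v ▸ v.2 : eps (c v) * permHom (σ v) ∈ V) (inv_mem (hd ⟨σ v, hB v⟩))
      rwa [mul_inv_rev, mul_assoc, mul_inv_cancel_left, eps_inv, ← map_mul] at this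
    apply eps_injective
    rw [← mono_conj x, mul_inv_eq_iff_eq_mul, ← hi _ (mul_mem hx h3), mul_inv_rev, hi _ hx, hi _ h3]
  · have h3 : σ v = σ w := congrArg (fun x => x.1.1) h
    have h4 : c v * d ⟨σ v, hB v⟩ = c w * d ⟨σ w, hB w⟩ := congrArg (fun x => x.2.1) h
    simp only [h3] at h4
    exact Subtype.ext (by rw [hσ, hσ, h3, mul_right_cancel h4])

theorem exists_cj_eq_EE {V : Subgroup Co0} (h2 : ∀ v ∈ V, v * v = 1) (hc : 4096 ≤ Nat.card V) :
    ∃ g, H8.cj g V = EE := by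
  obtain ⟨g, hg⟩ := exists_cj_le_MM (P := V) fun a => ⟨1, Subtype.ext (by simpa [pow_two] using h2 a a.2)⟩
  refine ⟨g, eq_EE hg ?_ (by rwa [H8.card_cj])⟩
  rintro _ ⟨v, hv, rfl⟩
  rw [← map_mul, h2 v hv, map_one]

end Cfsg.Agent.H5.Co
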