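import Cfsg.Agent.H5.Co2
import Cfsg.Agent.H5.Co4

/-! Every involution of the lattice group is conjugate to a sign change. -/

set_option autoImplicit false

namespace Cfsg.Agent.H5.Co

open Cfsg Cfsg.Agent.H1 Cfsg.Agent.H3 Finset
open scoped Pointwise symmDiff

/-- the tetrad of a point -/
def tl (i : ℕ) : ℕ := [0, 0, 0, 0, 4, 2, 5, 4, 3, 5, 4, 5, 4, 1, 2, 3, 3, 2, 1, 3, 1, 1, 5, 2].getD i 0

/-- eight times the matrix of the extra generator -/
def xm (i j : ℕ) : ℤ :=
  if tl i = tl j then (if tl j = 0 then 4 - (if i = j then 8 else 0) else (if i = j then 8 else 0) - 4) else 0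

theorem xg_e8 (p q : GolayPt) : ((xg • e8 p : L) : V) q = xm (ix p) (ix q) := by
  rw [xg_apply]
  change xi (sg p 8) q = _
  revert p q
  decide +kernel

/-- the sign at a coordinate -/
def sm (m i : ℕ) : ℤ := bif m.testBit i then -1 else 1

theorem eps_cw (m : ℕ) (h : isCode m = true) (v : L) (q : GolayPt) :
    ((eps (cw m h) • v : L) : V) q = sm m (ix q) * (v : V) q := by
  rw [eps_apply]
  change (if q ∈ toSet m then _ else _) = _
  simp only [mem_toSet, sm]
  cases m.testBit (ix q) <;> simp

theorem eps_cw_e8 (m : ℕ) (h : isCode m = true) (p : GolayPt) : eps (cw m h) • e8 p = sm m (ix p) • e8 p :=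
  Subtype.ext (funext fun q => by
    rw [eps_cw]
    change _ * sg p 8 q = _ * sg p 8 q
    unfold sg
    split_ifs with e
    · rw [e]
    · simp)

/-- check of a conjugate of a sign change -/
def xiChk (m m' c : ℕ) : Bool := (List.range 24).all fun i => (List.range 24).all fun j =>
  sm m i * xm i (ap c j) == sm m' (ap c j) * xm i j

theorem xi_eps {m m' c : ℕ} (h : isCode m = true) (h' : isCode m' = true) {σ : M24} (r : Rep σ.1 c)
    (hc : xiChk m m' c = true) : xg * eps (cw m h) * xg⁻¹ = eps (cw m' h') * permHom σ := by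
  rw [mul_inv_eq_iff_eq_mul]
  refine eq_of_fix_e8 fun p => Subtype.ext (funext fun q => ?_)
  obtain ⟨q, rfl⟩ := σ.1.surjective q
  rw [mul_smul, mul_smul, mul_smul, eps_cw_e8, co_zsmul, eps_cw, permHom_apply, Equiv.Perm.coe_inv, Equiv.symm_apply_apply, xg_e8]
  change _ * ((xg • e8 p : L) : V) _ = _
  rw [xg_e8, r q]
  exact beq_iff_eq.1 (List.all_eq_true.1 (List.all_eq_true.1 hc _ (List.mem_range.2 (ix_lt p))) _
    (List.mem_range.2 (ix_lt q)))

theorem xi_perm {c : ℕ} {σ : M24} (r : Rep σ.1 c)
    (hc : ((List.range 24).all fun i => (List.range 24).all fun j => xm (ap c i) (ap c j) == xm i j) = true) :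
    xg * permHom σ = permHom σ * xg := by
  refine eq_of_fix_e8 fun p => Subtype.ext (funext fun q => ?_)
  obtain ⟨q, rfl⟩ := σ.1.surjective q
  rw [mul_smul, mul_smul, permHom_e8, permHom_apply, Equiv.Perm.coe_inv, Equiv.symm_apply_apply, xg_e8, xg_e8]
  change xm (ix (σ.1 p)) _ = _
  rw [r p, r q]
  exact beq_iff_eq.1 (List.all_eq_true.1 (List.all_eq_true.1 hc _ (List.mem_range.2 (ix_lt p))) _
    (List.mem_range.2 (ix_lt q)))

theorem to_E {τ : M24} {ct : ℕ} (r : Rep τ.1 ct) (Ls : List ℕ) (Ld Gd : List (ℕ × ℕ))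
    (h1 : (Ls.all fun s => inM24 s && cmul s ct == cmul ct s) = true)
    (h2 : (Ld.all fun p => isCode p.1 && p.1 ^^^ cimg ct p.1 == p.2) = true)
    (h3 : (Gd.all fun q => isCode q.1 && isCode q.2 && xiChk q.1 q.2 ct) = true)
    (h4 : allC (fun c => cimg ct c != c || Ls.any fun s => frc (cimg s c) fun x => Ld.any fun p => Gd.any fun q =>
      q.2 == p.2 ^^^ x) rows 0 = true) {c : Cw} (hc : τ • c = c) :
    ∃ g d, g * (eps c * permHom τ) * g⁻¹ = eps d := by
  obtain ⟨m, hm, rfl⟩ := exists_cw c
  have h5 := forall_isCode _ h4 hm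
  simp only [(smul_eq_iff r hm hm).1 hc, bne_self_eq_false, Bool.false_or, List.any_eq_true, beq_iff_eq,
    frc_eq] at h5
  obtain ⟨s, hs, p, hp, q, hq, e⟩ := h5
  have a1 := List.all_eq_true.1 h1 s hs
  have a2 := List.all_eq_true.1 h2 p hp
  have a3 := List.all_eq_true.1 h3 q hq
  simp only [Bool.and_eq_true, beq_iff_eq] at a1 a2 a3
  have rs := rep_el s a1.1
  have b1 := mul_eq_of_rep rs r r rs a1.2
  generalize el s a1.1 = σ at rs b1
  have b2 : cw p.1 a2.1 * σ • cw m hm = cw q.2 a3.1.2 * τ • cw p.1 a2.1 := Subtype.ext (by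
    change toSet p.1 ∆ (σ.1 • toSet m) = toSet q.2 ∆ (τ.1 • toSet p.1)
    rw [rs.smul_toSet, r.smul_toSet, e, ← a2.2, toSet_xor, toSet_xor, symmDiff_right_comm, symmDiff_symmDiff_cancel_right])
  refine ⟨xg⁻¹ * (eps (cw p.1 a2.1) * permHom σ), cw q.1 a3.1.1, ?_⟩
  have b3 : eps (cw p.1 a2.1) * permHom σ * (eps (cw m hm) * permHom τ) =
      eps (cw q.2 a3.1.2) * permHom τ * (eps (cw p.1 a2.1) * permHom σ) := by rw [mono_mul, mono_mul, b1, b2]
  rw [mul_assoc xg⁻¹, b3, ← xi_eps a3.1.1 a3.1.2 r a3.2]
  group

theorem to_E_A {c : Cw} (hc : tA • c = c) : ∃ g d, g * (eps c * permHom tA) * g⁻¹ = eps d :=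
  to_E rep_tA [395564612399078640041510081672577356, 819550275413608881851309058645138468,
  984818244535754528103549039458486304, 649743532240662320721710919545032931,
  726220128188444759303987032475412551, 260230463455845729131650637209047362,
  230143571410352238517521407288543460]
  [(0, 0), (13062145, 5621792), (4845570, 6842656), (9347075, 4038912), (13938692, 14919680),
  (1302533, 11952160), (10305542, 9158944), (5902343, 14551296), (15515712, 16771936), (2854977, 11150144),
  (10825794, 9929280), (6447171, 12733024), (3698756, 1852256), (16719941, 4819776), (7438406, 7612992),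
  (11980871, 2220640)]
  [(9929280, 6842656), (10723919, 6048047), (10729168, 6053296), (9934559, 6847935)]
  (by decide +kernel) (by decide +kernel) (by decide +kernel) (by decide +kernel) hc

theorem to_E_B {c : Cw} (hc : tB • c = c) : ∃ g d, g * (eps c * permHom tB) * g⁻¹ = eps d :=
  to_E rep_tB [cid]
  [(0, 0), (13062145, 6673507), (4845570, 5797219), (9347075, 4038912), (13938692, 15176780),
  (1302533, 8536111), (10305542, 12575023), (5902343, 14300492), (10170384, 628112), (6053905, 7094771),
  (13811730, 5366003), (1413139, 3421328), (5210132, 15598044), (8966165, 9164223), (421910, 11957439),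
  (12656663, 13869276), (15515712, 9158944), (2854977, 15603011), (10825794, 13874243), (6447171, 11952160),
  (3698756, 7099756), (16719941, 622863), (7438406, 3416079), (11980871, 5370988), (7860304, 8541360),
  (11575377, 15171795), (4063314, 14295507), (16339027, 12580272), (10698836, 6668540), (6557781, 5279),
  (15380566, 4044191), (3006551, 5792252), (8077824, 16771936), (12325377, 10108675), (3322370, 10984963),
  (16114179, 12733024), (11530756, 1605420), (6857221, 8235855), (15073798, 4196943), (2183687, 2481708),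
  (14709264, 16154352), (2564625, 9677459), (11108882, 11406227), (7262739, 13361136), (3457556, 1174204),
  (15962645, 7618271), (8204822, 4825055), (12214807, 2902972), (9929280, 7612992), (5296705, 1179171),
  (14578242, 2907939), (1647171, 4819776), (4403780, 9682444), (8675909, 16149103), (705094, 13355887),
  (13472327, 11411212), (832080, 8241104), (13361745, 1600435), (4538962, 2476723), (8524371, 4202192),
  (14156372, 10103708), (2052693, 16777215), (9564758, 12738303), (5677655, 10979996)]
  [(15171795, 1605420)]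
  (by decide +kernel) (by decide +kernel) (by decide +kernel) (by decide +kernel) hc

theorem inv_conj {s : Co0} (h : s * s = 1) : ∃ g d, g * s * g⁻¹ = eps d := by
  obtain ⟨g, hg⟩ := exists_cj_le_MM (P := Subgroup.zpowers s) (by
    rintro ⟨_, k, rfl⟩
    refine ⟨1, Subtype.ext ?_⟩
    change (s ^ k) ^ 2 ^ 1 = 1
    rw [pow_one, ← zpow_natCast, ← zpow_mul, mul_comm, zpow_mul, zpow_natCast, pow_two, h, one_zpow])
  obtain ⟨c, τ, e⟩ := hg (H8.conj_mem_cj g (Subgroup.mem_zpowers s))
  have h1 : eps c * permHom τ * (eps c * permHom τ) = eps 1 * permHom 1 := by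
    rw [← e, conj_mul, h]; simp
  rw [mono_mul] at h1
  obtain ⟨h2, h3⟩ := mono_inj h1
  by_cases h4 : τ = 1
  · exact ⟨g, c, by rw [e, h4, map_one, mul_one]⟩
  obtain ⟨σ, h5⟩ := inv_class h3 h4
  have h6 : (σ * τ * σ⁻¹) • σ • c = σ • c := by
    rw [← mul_smul, inv_mul_cancel_right, mul_smul, ← eq_inv_of_mul_eq_one_right h2 |>.trans (cw_inv c) |>.symm]
  have h7 : permHom σ * g * s * (permHom σ * g)⁻¹ = eps (σ • c) * permHom (σ * τ * σ⁻¹) := by
    rw [← perm_conj, map_mul, map_mul, map_inv]
    calc _ = permHom σ * (g * s * g⁻¹) * (permHom σ)⁻¹ := by group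
      _ = _ := by rw [e]; group
  have h8 : ∃ g d, g * (eps (σ • c) * permHom (σ * τ * σ⁻¹)) * g⁻¹ = eps d := by
    rcases h5 with h5 | h5 <;> rw [h5] at h6 ⊢
    · exact to_E_A h6
    · exact to_E_B h6
  obtain ⟨k, d, h8⟩ := h8
  exact ⟨k * (permHom σ * g), d, by rw [← h8, ← h7]; group⟩

/-- words separating the points whose sign changes stay monomial -/
def lSep : List (ℕ × ℕ × ℕ) := [(2744762, 10458373, 735260944179207422204995828047708258),
  (3946314, 7710869, 970538992418718774876113737513730146),
  (13380915, 3396300, 222808941315343168920901544778468353),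
  (7233493, 13745914, 236996496736617905827622674440945762),
  (1346463, 6894671, 963721886883755259286232606933354528),
  (4521254, 12255961, 721269757000026622558066059189945411)]

theorem xi_cent {w : Co0} (h : ∀ a ∈ MM, xg * a * xg⁻¹ ∈ MM → w * a = a * w) : w = 1 ∨ w = negCo := by
  have h1 : ∀ x ∈ lSep, ∃ hx : isCode x.1 = true, w * eps (cw x.1 hx) = eps (cw x.1 hx) * w := fun x hx => by
    have := List.all_eq_true.1 (show (lSep.all fun x => isCode x.1 && isCode x.2.1 && inM24 x.2.2 &&
      xiChk x.1 x.2.1 x.2.2) = true by decide +kernel) x hx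
    simp only [Bool.and_eq_true] at this
    exact ⟨this.1.1.1, h _ (eps_mem _) (by
      rw [xi_eps this.1.1.1 this.1.1.2 (rep_el _ this.1.2) this.2]; exact ⟨_, _, rfl⟩)⟩
  obtain ⟨d, rfl⟩ := eps_of_comm (g := w) fun p q e => by
    have key : ∀ p q : GolayPt, (∀ x ∈ lSep, x.1.testBit (ix p) = x.1.testBit (ix q)) → p = q := by
      decide +kernel
    refine key p q fun x hx => ?_
    obtain ⟨a, b⟩ := h1 x hx
    have := e _ b
    rw [Bool.eq_iff_iff, ← mem_toSet, ← mem_toSet]
    exact this
  have h2 : ∀ (c : ℕ) (hc : inM24 c = true), ((List.range 24).all fun i => (List.range 24).all fun j =>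
      xm (ap c i) (ap c j) == xm i j) = true → el c hc • d = d := fun c hc hx => by
    have := h _ (perm_mem (el c hc)) (by rw [xi_perm (rep_el c hc) hx, mul_inv_cancel_right]; exact perm_mem _)
    rw [perm_eps] at this
    exact (mono_inj this).1.symm
  obtain ⟨m, hm, rfl⟩ := exists_cw d
  have a1 := (smul_eq_iff (rep_el _ _) hm hm).1 (h2 753591153210571931659637845389215841 (by decide +kernel) (by decide +kernel))
  have a2 := (smul_eq_iff (rep_el _ _) hm hm).1 (h2 920967582115930552876818991341896802 (by decide +kernel) (by decide +kernel))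
  have h3 := forall_isCode (fun m => cimg 753591153210571931659637845389215841 m != m ||
    cimg 920967582115930552876818991341896802 m != m || m == 0 || m == 16777215) (by decide +kernel) hm
  simp only [a1, a2, bne_self_eq_false, Bool.false_or, Bool.or_eq_true, beq_iff_eq] at h3
  rcases h3 with rfl | rfl
  · exact Or.inl (by rw [show cw 0 hm = 1 from Subtype.ext toSet_zero, map_one])
  · exact Or.inr (by rw [show cw 16777215 hm = tw from Subtype.ext toSet_full, eps_tw])

end Cfsg.Agent.H5.Co
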