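import Cfsg.Agent.H5.Co3

/-! Automorphisms of the code that are compatible with `M24`. -/

set_option autoImplicit false

namespace Cfsg.Agent.H5.Co

open Cfsg Cfsg.Agent.H1 Cfsg.Agent.H3 Finset
open scoped Pointwise symmDiff

theorem trans8 {a b : Cw} (ha : a.1.card = 8) (hb : b.1.card = 8) : ∃ σ : M24, σ • a = b := by
  obtain ⟨g, hg, e⟩ := octad_transitive (mem_octads.2 ⟨a.2, ha⟩) (mem_octads.2 ⟨b.2, hb⟩)
  exact ⟨⟨g, hg⟩, Subtype.ext e⟩

theorem trans12 {a b : Cw} (ha : a.1.card = 12) (hb : b.1.card = 12) : ∃ σ : M24, σ • a = b := by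
  obtain ⟨g, hg, e⟩ := dodecad_transitive (mem_dodecads.2 ⟨a.2, ha⟩) (mem_dodecads.2 ⟨b.2, hb⟩)
  exact ⟨⟨g, hg⟩, Subtype.ext e⟩

theorem trans16 {a b : Cw} (ha : a.1.card = 16) (hb : b.1.card = 16) : ∃ σ : M24, σ • a = b := by
  obtain ⟨σ, e⟩ := trans8 (a := tw * a) (b := tw * b) (by rw [card_tw_mul, ha]) (by rw [card_tw_mul, hb])
  rw [smul_mul', smul_tw] at e
  exact ⟨σ, mul_left_cancel e⟩

theorem cases_card (c : Cw) : c = 1 ∨ c = tw ∨ c.1.card = 8 ∨ c.1.card = 12 ∨ c.1.card = 16 := by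
  rcases card_of_mem_GC c.2 with h | h | h | h | h
  · exact Or.inl (Subtype.ext (card_eq_zero.1 h))
  · tauto
  · tauto
  · tauto
  · exact Or.inr (Or.inl (Subtype.ext (eq_univ_of_card _ (h.trans card_golayPt.symm))))

theorem card_one : (1 : Cw).1.card = 0 := rfl
theorem card_tw : tw.1.card = 24 := card_golayPt

theorem cw_mul {m m' : ℕ} (h : isCode m = true) (h' : isCode m' = true) :
    cw m h * cw m' h' = cw (m ^^^ m') (isCode_xor h h') := Subtype.ext (toSet_xor m m').symm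

theorem card_cw {m : ℕ} (h : isCode m = true) : (cw m h).1.card = pc 24 m := card_toSet m

theorem seven (a b c : Cw) : a.1.card + b.1.card + c.1.card + (a * b).1.card + (a * c).1.card + (b * c).1.card +
    (a * b * c).1.card ≤ 96 := by
  have key : ∀ x : Cw, x.1.card = ∑ i, if i ∈ x.1 then 1 else 0 := fun x => by simp
  simp only [key, ← sum_add_distrib, mem_mul]
  refine (sum_le_sum (g := fun _ => 4) fun i _ => ?_).trans (by simp)
  by_cases h1 : i ∈ a.1 <;> by_cases h2 : i ∈ b.1 <;> by_cases h3 : i ∈ c.1 <;> simp [h1, h2, h3]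

theorem oct {φ : Cw ≃* Cw} (ht : φ tw = tw) (h1 : ∀ σ : M24, ∃ σ' : M24, ∀ c, φ (σ • c) = σ' • φ c)
    (h2 : ∀ σ' : M24, ∃ σ : M24, ∀ c, φ (σ • c) = σ' • φ c) {c : Cw} (hc : c.1.card = 8) : (φ c).1.card = 8 := by
  rcases cases_card (φ c) with h | h | h | h | h
  · rw [(map_eq_one_iff φ φ.injective).1 h, card_one] at hc; omega
  · rw [φ.injective (h.trans ht.symm), card_tw] at hc; omega
  · exact h
  · obtain ⟨σ', e⟩ := trans12 (b := tw * φ c) h (by rw [card_tw_mul, h])
    obtain ⟨σ, e'⟩ := h2 σ'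
    rw [← e', ← ht, ← map_mul] at e
    have := card_smul σ c
    rw [φ.injective e, card_tw_mul] at this
    omega
  · have key : ∀ d : Cw, d.1.card = 8 → (φ d).1.card = 16 := fun d hd => by
      obtain ⟨σ, rfl⟩ := trans8 hc hd
      obtain ⟨σ', e⟩ := h1 σ
      rw [e, card_smul, h]
    have := seven (φ (cw 13062145 (by decide +kernel))) (φ (cw 4845570 (by decide +kernel)))
      (φ (cw 13938692 (by decide +kernel)))
    simp only [← map_mul, cw_mul] at this
    rw [key, key, key, key, key, key, key] at this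
    · omega
    all_goals rw [card_cw]; decide +kernel

theorem weight {φ : Cw ≃* Cw} (ht : φ tw = tw) (h1 : ∀ σ : M24, ∃ σ' : M24, ∀ c, φ (σ • c) = σ' • φ c)
    (h2 : ∀ σ' : M24, ∃ σ : M24, ∀ c, φ (σ • c) = σ' • φ c) (c : Cw) : (φ c).1.card = c.1.card := by
  have h3 : ∀ d : Cw, d.1.card = 8 → (φ.symm d).1.card = 8 := fun d =>
    oct (φ := φ.symm) (by rw [φ.symm_apply_eq, ht])
      (fun σ => (h2 σ).imp fun τ e x => by rw [φ.symm_apply_eq, e, φ.apply_symm_apply])
      fun σ => (h1 σ).imp fun τ e x => by rw [φ.symm_apply_eq, e, φ.apply_symm_apply]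
  have h4 : ∀ d : Cw, (φ d).1.card = 8 ↔ d.1.card = 8 := fun d =>
    ⟨fun e => by simpa using h3 _ e, oct ht h1 h2⟩
  have h5 := h4 c
  have h6 := h4 (tw * c)
  rw [map_mul, ht, card_tw_mul, card_tw_mul] at h6
  rcases cases_card c with h | h | h | h | h
  · rw [h, map_one]
  · rw [h, ht]
  · omega
  · rcases cases_card (φ c) with k | k | k | k | k
    · rw [(map_eq_one_iff φ φ.injective).1 k, map_one]
    · rw [φ.injective (k.trans ht.symm), ht]
    all_goals omega
  · have := card_of_mem_GC (φ c).2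
    omega

/-- the sign character of a coordinate -/
def lam (i : GolayPt) : Cw →* ℤ where
  toFun c := if i ∈ c.1 then -1 else 1
  map_one' := by simp [coe_one]
  map_mul' a b := by
    simp only [mem_mul]
    by_cases h1 : i ∈ a.1 <;> by_cases h2 : i ∈ b.1 <;> simp [h1, h2]

theorem lam_eq {i j : GolayPt} {a b : Cw} (h : lam i a = lam j b) : i ∈ a.1 ↔ j ∈ b.1 := by
  change (if _ then _ else _) = if _ then _ else _ at h
  by_cases h1 : i ∈ a.1 <;> by_cases h2 : j ∈ b.1 <;> simp_all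

theorem macw {φ : Cw ≃* Cw} (h : ∀ c, (φ c).1.card = c.1.card) : ∃ σ : M24, ∀ c, φ c = σ • c := by
  classical
  have key : ∀ i, ∃ j, (lam i).comp φ.toMonoidHom = lam j := fun i => by
    by_contra hn
    push Not at hn
    have h1 := linearIndependent_iff.1 (linearIndependent_monoidHom Cw ℤ)
      (∑ k, Finsupp.single ((lam k).comp φ.toMonoidHom) 1 - ∑ k, Finsupp.single (lam k) 1) (by
        simp only [map_sub, map_sum, Finsupp.linearCombination_single, one_smul]
        funext c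
        simp only [Pi.sub_apply, Finset.sum_apply, Pi.zero_apply, sub_eq_zero]
        exact (sum_ite_mem_const (φ c).1 (-1) 1).trans (by rw [h]; exact (sum_ite_mem_const c.1 (-1) 1).symm))
    have h2 := DFunLike.congr_fun h1 ((lam i).comp φ.toMonoidHom)
    simp only [Finsupp.sub_apply, Finsupp.finsetSum_apply, Finsupp.single_apply, Finsupp.zero_apply] at h2
    rw [sum_eq_zero (s := univ) fun j _ => if_neg (hn j).symm, sub_zero] at h2
    have h3 := (sum_eq_zero_iff_of_nonneg fun k _ => by split_ifs <;> norm_num).1 h2 i (mem_univ i)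
    simp at h3
  choose s hs using key
  have h1 : ∀ i c, i ∈ (φ c).1 ↔ s i ∈ c.1 := fun i c => lam_eq (DFunLike.congr_fun (hs i) c)
  have h2 : Function.Injective s := fun i j e => sep fun c => by rw [← φ.apply_symm_apply c, h1, h1, e]
  let σ : Equiv.Perm GolayPt := Equiv.ofBijective s (Finite.injective_iff_bijective.1 h2)
  have h3 : ∀ c : Cw, σ⁻¹ • c.1 = (φ c).1 := fun c => by
    ext i; rw [H1.mem_smul_iff, inv_inv, h1]; rfl
  exact ⟨⟨σ⁻¹, mem_M24.2 fun c hc => h3 ⟨c, hc⟩ ▸ (φ ⟨c, hc⟩).2⟩, fun c => Subtype.ext (h3 c).symm⟩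

theorem mem_GC_of_fixed {c : Finset GolayPt} (h : ∀ σ : M24, c ∆ (σ.1 • c) ∈ GC) : c ∈ GC := by
  have h0 := toSet_mem_GC_of_isCode (isCode_comb (mask c))
  have hm : (mask c ^^^ comb rows (mask c)) < 2 ^ 24 := Nat.xor_lt_two_pow (mask_lt c) (comb_rows_lt _)
  have h1 : (mask c ^^^ comb rows (mask c)) % 2 ^ 12 = 0 := by
    rw [Nat.xor_mod_two_pow, show 2 ^ 12 = 4096 from rfl, comb_rows_mod, Nat.xor_self]
  have h2 : toSet (mask c ^^^ comb rows (mask c)) = c ∆ toSet (comb rows (mask c)) := by rw [toSet_xor, toSet_mask]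
  generalize mask c ^^^ comb rows (mask c) = m at hm h1 h2
  have h3 : ∀ (σ : M24) (s : ℕ), Rep σ.1 s → isCode (m ^^^ cimg s m) = true := fun σ s r => by
    rw [← toSet_mem_GC_iff (Nat.xor_lt_two_pow hm (r.cimg_lt m)), toSet_xor, ← r.smul_toSet, h2, smul_symmDiff,
      symmDiff_symmDiff_symmDiff_comm]
    exact symmDiff_mem_GC (h σ) (symmDiff_mem_GC h0 (H1.smul_mem_GC σ.2 h0))
  have h4 := List.all_eq_true.1 (show ((List.range 4096).all fun k => frc (4096 * k) fun m =>
    k == 0 || !isCode (m ^^^ cimg cShift m) || !isCode (m ^^^ cimg cInv m)) = true by decide +kernel)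
    (m / 4096) (List.mem_range.2 (by omega))
  rw [frc_eq, show 4096 * (m / 4096) = m by omega, h3 ⟨_, shift_mem_M24⟩ _ rep_shift,
    h3 ⟨_, projInv_mem_M24⟩ _ rep_projInv] at h4
  have h5 : m = 0 := by simp at h4; omega
  rw [h5, toSet_zero, eq_comm] at h2
  exact symmDiff_eq_bot.1 h2 ▸ h0

theorem shapiro (f : M24 → Cw) (hf : ∀ σ τ, f (σ * τ) = f σ * σ • f τ) : ∃ c : Cw, ∀ σ, f σ = c * σ • c := by
  have h1 : ∀ σ : M24, σ • (none : GolayPt) = none → none ∉ (f σ).1 := by
    let χ : MulAction.stabilizer M24 (none : GolayPt) →* ℤˣ := MonoidHom.mk'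
      (fun σ => if none ∈ (f σ).1 then -1 else 1) fun σ τ => by
        have e : none ∈ (σ.1 • f τ).1 ↔ none ∈ (f τ).1 := by
          have := apply_mem (σ := σ.1) (c := f τ) (i := none)
          rwa [show σ.1.1 none = none from σ.2] at this
        simp only [Subgroup.coe_mul, hf, mem_mul, e]
        by_cases h1 : none ∈ (f σ).1 <;> by_cases h2 : none ∈ (f τ).1 <;> simp [h1, h2]
    obtain ⟨e⟩ := nonempty_stab1_equiv none
    haveI := simple_fix1
    haveI := e.isSimpleGroup
    rcases (inferInstance : χ.ker.Normal).eq_bot_or_eq_top with h | h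
    · have := Nat.card_le_card_of_injective χ ((MonoidHom.ker_eq_bot_iff χ).1 h)
      rw [Nat.card_congr e.toEquiv, card_fix1, Nat.card_eq_fintype_card, Fintype.card_units_int] at this
      omega
    · intro σ hσ hn
      have : χ ⟨σ, hσ⟩ = 1 := h.ge (Subgroup.mem_top _)
      change (if none ∈ (f σ).1 then -1 else 1) = 1 at this
      rw [if_pos hn] at this
      exact absurd this (by decide)
  choose g hg using exists_M24_map none
  let c : Finset GolayPt := univ.filter fun j => j ∈ (f (g j)).1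
  have h2 : ∀ σ : M24, σ.1 none ∈ (f σ).1 ↔ σ.1 none ∈ c := fun σ => by
    have e : g (σ.1 none) * ((g (σ.1 none))⁻¹ * σ) = σ := mul_inv_cancel_left _ _
    have e1 := h1 ((g (σ.1 none))⁻¹ * σ) (by rw [mul_smul, inv_smul_eq_iff, hg]; rfl)
    have e2 := hf (g (σ.1 none)) ((g (σ.1 none))⁻¹ * σ)
    rw [← apply_mem (σ := g (σ.1 none)), show (g (σ.1 none)).1 none = σ.1 none from hg _] at e1
    rw [e] at e2
    rw [e2, mem_mul]
    simp [c, e1]
  have h3 : ∀ σ : M24, (f σ).1 = c ∆ (σ.1 • c) := fun σ => by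
    ext p
    obtain ⟨j, rfl⟩ := σ.1.surjective p
    have e := h2 (σ * g j)
    have e1 : (σ * g j).1 none = σ.1 j := congrArg σ.1 (hg j)
    rw [e1, hf, mem_mul, apply_mem] at e
    have e2 : j ∈ (f (g j)).1 ↔ j ∈ c := by simp [c]
    rw [mem_symmDiff, apply_mem_smul, ← e, e2]
    tauto
  exact ⟨⟨c, mem_GC_of_fixed fun σ => h3 σ ▸ (f σ).2⟩, fun σ => Subtype.ext (h3 σ)⟩

theorem span_top {S : Subgroup Cw} (ht : tw ∈ S) {c : Cw} (h1 : c ≠ 1) (h2 : c ≠ tw) (h : ∀ σ : M24, σ • c ∈ S) :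
    S = ⊤ := by
  have key : ∀ d : Cw, d.1.card = 8 → d ∈ S := fun d hd => by
    rcases cases_card c with k | k | k | k | k
    · exact absurd k h1
    · exact absurd k h2
    · obtain ⟨σ, rfl⟩ := trans8 k hd
      exact h σ
    · obtain ⟨σ, rfl⟩ := trans8 (a := cw 340831 (by decide +kernel) * cw 12739422 (by decide +kernel))
        (by rw [cw_mul, card_cw]; decide +kernel) hd
      have : ∀ x : Cw, x.1.card = 12 → σ • x ∈ S := fun x hx => by
        obtain ⟨τ, rfl⟩ := trans12 k hx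
        rw [← mul_smul]; exact h _
      rw [smul_mul']
      exact mul_mem (this _ (by rw [card_cw]; decide +kernel)) (this _ (by rw [card_cw]; decide +kernel))
    · obtain ⟨σ, e⟩ := trans16 (b := tw * d) k (by rw [card_tw_mul, hd])
      exact (S.mul_mem_cancel_left ht).1 (e ▸ h σ)
  refine (Subgroup.eq_top_iff' S).2 fun d => ?_
  obtain ⟨_, e⟩ := GC_induction (P := fun s => ∃ hs : s ∈ GC, (⟨s, hs⟩ : Cw) ∈ S) ⟨_, one_mem S⟩
    (fun s t ⟨a, b⟩ ⟨a', b'⟩ => ⟨_, mul_mem b b'⟩)
    (fun b hb => ⟨rows_mem_GC b hb, key _ (mem_octads.1 (rows_mem_octads b hb)).2⟩) d.2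
  exact e

theorem no_fusion {D : Set Cw} (h1 : 1 ∉ D) (ht : tw ∈ D) {c : Cw} (hc : c ∈ D) (hct : c ≠ tw)
    (hM : ∀ σ : M24, ∀ d ∈ D, σ • d ∈ D)
    (h : ∀ d ∈ D, ∃ φ : Cw ≃* Cw, φ tw = d ∧ (∀ x, φ x ∈ D ↔ x ∈ D) ∧
      ∀ σ : M24, σ • d = d → ∃ σ' : M24, ∀ x, φ (σ' • x) = σ • φ x) : False := by
  have hA : tA * tA = 1 := by
    rw [← mul_one 1]
    exact mul_eq_of_rep rep_tA rep_tA rep_one rep_one (by decide +kernel)
  have key : ∀ x : Cw, x * tA • x ∉ D := fun x hx => by
    obtain ⟨φ, e1, -, e2⟩ := h _ hx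
    obtain ⟨τ, e3⟩ := e2 tA (by rw [smul_mul', ← mul_smul, hA, one_smul, mul_comm])
    have a1 : τ * τ = 1 := smul_faithful fun y => φ.injective (by rw [mul_smul, e3, e3, ← mul_smul, hA, one_smul])
    have a2 : φ.symm x * τ • φ.symm x = tw := φ.injective (by rw [map_mul, e3, φ.apply_symm_apply, e1])
    have a3 : ∀ p, τ.1 p ≠ p := fun p e => by
      have : p ∈ (φ.symm x * τ • φ.symm x).1 := a2 ▸ mem_univ p
      rw [mem_mul] at this
      have e' := apply_mem (σ := τ) (c := φ.symm x) (i := p)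
      rw [e] at e'
      exact this e'.symm
    have a4 : {y : Cw | τ • y = y}.ncard = 256 := by
      rw [← card_fixed_tA]
      exact Set.ncard_congr (fun y _ => φ y) (fun y hy => by rw [Set.mem_ofPred_eq, ← e3, hy])
        (fun a b _ _ e => φ.injective e) fun y hy => ⟨φ.symm y, φ.injective (by
          rw [e3, φ.apply_symm_apply]; exact hy), φ.apply_symm_apply y⟩
    obtain ⟨g, k | k⟩ := inv_class a1 fun e => a3 none (by rw [e]; rfl)
    · have := card_fix_conj g τ
      rw [k, card_fix_rep rep_tA, filter_false_of_mem fun p _ => a3 p] at this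
      exact absurd this (by decide +kernel)
    · have : {y : Cw | τ • y = y}.ncard = 64 := by
        rw [← card_fixed_tB, ← k]
        exact Set.ncard_congr (fun y _ => g • y) (fun y hy => by
            rw [Set.mem_ofPred_eq, ← mul_smul, inv_mul_cancel_right, mul_smul, hy])
          (fun a b _ _ e => MulAction.injective g e) fun y hy => ⟨g⁻¹ • y, by
            rw [Set.mem_ofPred_eq, eq_inv_smul_iff, ← mul_smul, ← mul_smul]; exact hy, smul_inv_smul g y⟩
      omega
  have hw : ∀ (m : ℕ) (hm : isCode m = true), (cw m hm * tA • cw m hm).1.card = pc 24 (m ^^^ cimg cA m) :=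
    fun m hm => by
      change (toSet m ∆ (tA.1 • toSet m)).card = _
      rw [rep_tA.smul_toSet, ← toSet_xor, card_toSet]
  have h8 : ∀ d ∈ D, d.1.card ≠ 8 := fun d hd e => by
    obtain ⟨σ, k⟩ := trans8 e ((hw 13062145 (by decide +kernel)).trans (by decide +kernel))
    exact key _ (k ▸ hM σ d hd)
  have h16 : ∀ d ∈ D, d.1.card ≠ 16 := fun d hd e => by
    obtain ⟨σ, k⟩ := trans16 e ((hw 15515712 (by decide +kernel)).trans (by decide +kernel))
    exact key _ (k ▸ hM σ d hd)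
  have h12 : ∀ d ∈ D, d ≠ tw → d.1.card = 12 := fun d hd e => by
    rcases cases_card d with k | k | k | k | k
    · exact absurd (k ▸ hd) h1
    · exact absurd k e
    · exact absurd k (h8 d hd)
    · exact k
    · exact absurd k (h16 d hd)
  have hD : ∀ d : Cw, d.1.card = 12 → d ∈ D := fun d hd => by
    obtain ⟨σ, rfl⟩ := trans12 (h12 c hc hct) hd
    exact hM σ c hc
  obtain ⟨φ, e1, e2, -⟩ := h (cw 340831 (by decide +kernel)) (hD _ (by rw [card_cw]; decide +kernel))
  have a1 : φ.symm (cw 12739422 (by decide +kernel)) ∈ D := by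
    rw [← e2, φ.apply_symm_apply]; exact hD _ (by rw [card_cw]; decide +kernel)
  have a2 := h12 _ a1 fun e => by
    rw [φ.symm_apply_eq, e1] at e
    exact absurd ((toSet_inj (by norm_num) (by norm_num)).1 (congrArg Subtype.val e)) (by norm_num)
  have a3 := (e2 _).2 (hD (tw * _) (by rw [card_tw_mul, a2]))
  rw [map_mul, e1, φ.apply_symm_apply, cw_mul] at a3
  exact h8 _ a3 (by rw [card_cw]; decide +kernel)

end Cfsg.Agent.H5.Co
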