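import Cfsg.Agent.H5.Co5
import Cfsg.Agent.H5.Co6

/-! Every automorphism of the lattice group is inner. -/

set_option autoImplicit false

namespace Cfsg.Agent.H5.Co

open Cfsg Cfsg.Agent.H1 Cfsg.Agent.H3

theorem exists_phi {X G : Type*} [Group X] [Finite X] [Group G] {j : X →* G} (hj : Function.Injective j) (β : G ≃* G)
    (h : ∀ c, ∃ d, β (j c) = j d) : ∃ φ : X ≃* X, ∀ c, β (j c) = j (φ c) := by
  choose f hf using h
  let F : X →* X := MonoidHom.mk' f fun a b => hj (by rw [← hf, map_mul, map_mul, map_mul, hf, hf])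
  have : Function.Injective F := fun a b e => hj (β.injective (by rw [hf, hf]; exact congrArg j e))
  exact ⟨MulEquiv.ofBijective F (Finite.injective_iff_bijective.1 this), hf⟩

theorem act_of {α : Co0 ≃* Co0} {φ : Cw ≃* Cw} (h : ∀ c, α (eps c) = eps (φ c)) (σ : M24) :
    ∃ x τ, α (permHom σ) = eps x * permHom τ ∧ ∀ c, φ (σ • c) = τ • φ c := by
  obtain ⟨x, τ, e⟩ := mem_MM_of_norm (g := α (permHom σ)) fun d => ⟨φ (σ⁻¹ • φ.symm d), by
    rw [← h, ← map_mul, perm_eps, smul_inv_smul, map_mul, h, φ.apply_symm_apply]⟩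
  refine ⟨x, τ, e, fun c => eps_injective ?_⟩
  rw [← h, ← perm_conj, map_mul, map_mul, map_inv, e, h, mono_conj]

theorem negCo_sq : negCo * negCo = 1 := eps_tw ▸ eps_sq tw

theorem negCo_comm (x : Co0) : x * negCo = negCo * x := Subgroup.mem_center_iff.1 negCo_mem_center x

theorem aut_negCo (α : Co0 ≃* Co0) : α negCo = negCo :=
  (mem_center_iff.1 (Subgroup.mem_center_iff.2 fun g => by
    rw [← α.apply_symm_apply g, ← map_mul, negCo_comm, map_mul])).resolve_left
    fun e => negCo_ne_one ((map_eq_one_iff α α.injective).1 e)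

theorem aut_eq_of_fix {α : Co0 ≃* Co0} (h : ∀ a ∈ MM, α a = a) (x : Co0) : α x = x := by
  let F : Subgroup Co0 :=
    { carrier := {g | α g = g ∨ α g = negCo * g}
      one_mem' := Or.inl (map_one α)
      mul_mem' := fun {a b} ha hb => by
        rcases ha with ha | ha <;> rcases hb with hb | hb
        · exact Or.inl (by rw [map_mul, ha, hb])
        · exact Or.inr (by rw [map_mul, ha, hb, ← mul_assoc, negCo_comm, mul_assoc])
        · exact Or.inr (by rw [map_mul, ha, hb, mul_assoc])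
        · exact Or.inl (by rw [map_mul, ha, hb, ← negCo_comm a, mul_assoc, ← mul_assoc negCo, negCo_sq, one_mul])
      inv_mem' := fun {a} ha => by
        rcases ha with ha | ha
        · exact Or.inl (by rw [map_inv, ha])
        · exact Or.inr (by rw [map_inv, ha, mul_inv_rev, inv_eq_of_mul_eq_one_right negCo_sq, negCo_comm]) }
  have hF : F = ⊤ := gen_top (fun a ha => Or.inl (h a ha)) (by
    rcases xi_cent (w := xg⁻¹ * α xg) (fun a ha hb => by
      have := h _ hb
      rw [map_mul, map_mul, map_inv, h a ha] at this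
      calc xg⁻¹ * α xg * a = xg⁻¹ * (α xg * a * (α xg)⁻¹) * α xg := by group
        _ = _ := by rw [this]; group) with e | e
    · exact Or.inl (inv_mul_eq_one.1 e).symm
    · exact Or.inr (by rw [← negCo_comm, ← e, mul_inv_cancel_left]))
  let K : Subgroup Co0 := α.toMonoidHom.eqLocus (MonoidHom.id _)
  haveI : K.Normal := ⟨fun a (ha : α a = a) g => by
    change α (g * a * g⁻¹) = g * a * g⁻¹
    rw [map_mul, map_mul, map_inv, ha]
    rcases (hF.ge (Subgroup.mem_top g) : α g = g ∨ α g = negCo * g) with e | e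
    · rw [e]
    · rw [e, mul_inv_rev, ← mul_assoc, mul_assoc negCo, mul_assoc negCo, ← negCo_comm, mul_inv_cancel_right]⟩
  rcases normal_Co0 K (fun z hz => by
    rcases mem_center_iff.1 hz with rfl | rfl
    · exact one_mem K
    · exact aut_negCo α) with e | e
  · have h1 : EE ≤ Subgroup.center Co0 := by rintro _ ⟨c, rfl⟩; exact e.le (h _ (eps_mem c))
    have := Subgroup.card_le_of_le h1
    rw [card_EE, card_center] at this
    omega
  · exact e.ge (Subgroup.mem_top x)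

theorem inner_of {α : Co0 ≃* Co0} {g : Co0} (h : ∃ y, ∀ x, (α.trans (MulAut.conj g)) x = y * x * y⁻¹) :
    ∃ y, ∀ x, α x = y * x * y⁻¹ := by
  obtain ⟨y, h⟩ := h
  refine ⟨g⁻¹ * y, fun x => ?_⟩
  have : g * α x * g⁻¹ = y * x * y⁻¹ := h x
  calc α x = g⁻¹ * (g * α x * g⁻¹) * g := by group
    _ = _ := by rw [this]; group

theorem inner1 {α : Co0 ≃* Co0} (h : ∀ c, α (eps c) = eps c) : ∃ y, ∀ x, α x = y * x * y⁻¹ := by
  choose f τ e1 e2 using act_of (φ := MulEquiv.refl Cw) h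
  have h1 : ∀ σ, τ σ = σ := fun σ => inv_mul_eq_one.1 (smul_faithful fun c => by
    rw [mul_smul, inv_smul_eq_iff]; exact e2 σ c)
  simp only [h1] at e1
  obtain ⟨c, hc⟩ := shapiro f fun σ ρ => (mono_inj (by rw [← e1, ← mono_mul, ← e1, ← e1, map_mul, map_mul])).1
  refine inner_of (g := eps c) ⟨1, fun x => ?_⟩
  rw [aut_eq_of_fix, one_mul, inv_one, mul_one]
  rintro _ ⟨d, σ, rfl⟩
  change eps c * α (eps d * permHom σ) * (eps c)⁻¹ = _
  rw [map_mul, h, e1, hc, eps_inv, mul_assoc, mul_assoc, mul_assoc, perm_eps, ← mul_assoc, ← mul_assoc, ← mul_assoc,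
    ← map_mul, ← map_mul, ← map_mul, mul_assoc, mul_assoc c (σ • c), cw_sq, mul_one, mul_right_comm, cw_sq, one_mul]

theorem inner2 {α : Co0 ≃* Co0} (h : ∀ c, ∃ d, α (eps c) = eps d) : ∃ y, ∀ x, α x = y * x * y⁻¹ := by
  obtain ⟨φ, h1⟩ := exists_phi eps_injective α h
  have h2 : ∀ c, α.symm (eps c) = eps (φ.symm c) := fun c => by rw [α.symm_apply_eq, h1, φ.apply_symm_apply]
  obtain ⟨σ, h3⟩ := macw (weight (φ := φ) (eps_injective (by rw [← h1, eps_tw, aut_negCo]))
    (fun σ => let ⟨_, τ, _, e⟩ := act_of h1 σ; ⟨τ, e⟩) fun σ => by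
      obtain ⟨_, τ, _, e⟩ := act_of h2 σ
      exact ⟨τ, fun c => by rw [← φ.symm_apply_apply c, ← e, φ.apply_symm_apply, φ.apply_symm_apply]⟩)
  refine inner_of (g := permHom σ⁻¹) (inner1 fun c => ?_)
  change permHom σ⁻¹ * α (eps c) * (permHom σ⁻¹)⁻¹ = _
  rw [h1, h3, perm_conj, inv_smul_smul]

theorem inner (α : Co0 ≃* Co0) : ∃ y, ∀ x, α x = y * x * y⁻¹ := by
  obtain ⟨g, hg⟩ := exists_cj_eq_EE (V := EE.map α.toMonoidHom) (by
    rintro _ ⟨_, ⟨c, rfl⟩, rfl⟩
    rw [← map_mul, eps_sq, map_one]) (by rw [Subgroup.card_map_of_injective α.injective, card_EE])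
  refine inner_of (g := g) (inner2 fun c => ?_)
  obtain ⟨d, hd⟩ := hg.le (H8.conj_mem_cj g ⟨eps c, ⟨c, rfl⟩, rfl⟩)
  exact ⟨d, hd.symm⟩

end Cfsg.Agent.H5.Co
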