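import Cfsg.Agent.H5.Co7
import Cfsg.Agent.H7.ZStar
import Cfsg.Agent.H9.Extra

/-! A standard subgroup isomorphic to the lattice group. -/

set_option autoImplicit false
set_option linter.unusedSectionVars false

namespace Cfsg.Agent.H5.Co

open Cfsg Cfsg.Agent.H1 Cfsg.Agent.H3 Cfsg.Agent.H8 Subgroup

variable {G : Type*} [Group G] [Finite G] {ι : Co0 →* G} {g k n : G} {R : Subgroup G}

/-- the hypotheses -/
structure St (ι : Co0 →* G) : Prop where
  inj : Function.Injective ι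
  nc : centralizer {ι negCo} ≤ normalizer (ι.range : Set G)
  cyc : ∀ R, IsSylowIn 2 R (centralizer (ι.range : Set G)) → IsCyclic R

theorem comm_of_K (hk : k ∈ centralizer (ι.range : Set G)) (x : Co0) : ι x * k = k * ι x :=
  mem_centralizer_iff.1 hk _ ⟨x, rfl⟩

theorem t_mem (ι : Co0 →* G) : ι negCo ∈ centralizer (ι.range : Set G) := mem_centralizer_iff.2 (by
  rintro _ ⟨x, rfl⟩; rw [← map_mul, negCo_comm, map_mul])

theorem t_sq (ι : Co0 →* G) : ι negCo * ι negCo = 1 := by rw [← map_mul, negCo_sq, map_one]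

namespace St

theorem t_ne (h : St ι) : ι negCo ≠ 1 := fun e => negCo_ne_one ((map_eq_one_iff ι h.inj).1 e)

theorem dec (h : St ι) (hn : n * ι negCo = ι negCo * n) :
    ∃ y, ∃ k ∈ centralizer (ι.range : Set G), n = ι y * k := by
  have h1 := h.nc (mem_centralizer_singleton_iff.2 hn)
  obtain ⟨α, e⟩ := exists_phi h.inj (MulAut.conj n) fun x => by
    obtain ⟨y, hy⟩ := (mem_normalizer_iff.1 h1 _).1 (⟨x, rfl⟩ : ι x ∈ ι.range)
    exact ⟨y, hy.symm⟩
  obtain ⟨y, hy⟩ := inner α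
  refine ⟨y, (ι y)⁻¹ * n, mem_centralizer_iff.2 ?_, (mul_inv_cancel_left _ _).symm⟩
  rintro _ ⟨x, rfl⟩
  have := e x
  rw [hy, map_mul, map_mul, map_inv, MulAut.conj_apply] at this
  calc ι x * ((ι y)⁻¹ * n) = (ι y)⁻¹ * (ι y * ι x * (ι y)⁻¹) * n := by group
    _ = _ := by rw [← this]; group

theorem inf (h : St ι) (h1 : k ∈ ι.range) (h2 : k ∈ centralizer (ι.range : Set G)) : k * k = 1 := by
  obtain ⟨x, rfl⟩ := h1
  rcases H3.mem_center_iff.1 (Subgroup.mem_center_iff.2 fun y => h.inj (by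
    rw [map_mul, map_mul, comm_of_K h2]) : x ∈ center Co0) with rfl | rfl
  · simp
  · exact t_sq ι

theorem t_syl (hR : IsSylowIn 2 R (centralizer (ι.range : Set G))) : ι negCo ∈ R :=
  hR.le_of_le_normalizer (H9.isPGroup_zpowers ⟨1, (pow_two _).trans (t_sq ι)⟩) (zpowers_le.2 (t_mem ι))
    (fun r hr => centralizer_le_normalizer _ (mem_centralizer_iff.2 (by
      rintro _ ⟨i, rfl⟩
      exact (Commute.zpow_left (comm_of_K (hR.le hr) negCo) i).eq))) (mem_zpowers _)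

theorem invol (h : St ι) (hk : k ∈ centralizer (ι.range : Set G)) (h2 : k * k = 1) : k = 1 ∨ k = ι negCo := by
  obtain ⟨R, hR, h1⟩ := exists_isSylowIn_ge (p := 2) (H9.isPGroup_zpowers ⟨1, (pow_two _).trans h2⟩) (zpowers_le.2 hk)
  exact or_iff_not_imp_left.2 fun e =>
    H9.eq_of_isCyclic_of_mul_self (h.cyc R hR) (h1 (mem_zpowers _)) (t_syl hR) h2 (t_sq ι) e h.t_ne

theorem power (h : St ι) (hR : IsSylowIn 2 R (centralizer (ι.range : Set G)))
    (hc : R ≤ centralizer {g * ι negCo * g⁻¹}) : g⁻¹ * ι negCo * g ∈ ι.range := by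
  obtain ⟨ρ, rfl⟩ := (Subgroup.isCyclic_iff_exists_zpowers_eq_top R).1 (h.cyc R hR)
  obtain ⟨r, hr⟩ := hR.pgroup.exists_card_eq
  obtain ⟨j, rfl⟩ : ∃ j, r = j + 1 := Nat.exists_eq_add_one_of_ne_zero fun e =>
    h.t_ne (mem_bot.1 ((card_eq_one.1 (by rw [hr, e, pow_zero])).le (t_syl hR)))
  have sq : ∀ (x : G) (i : ℕ), x ^ 2 ^ i * x ^ 2 ^ i = x ^ 2 ^ (i + 1) := fun x i => by
    rw [← pow_add, pow_succ, mul_two]
  have h0 : orderOf ρ = 2 ^ (j + 1) := by rw [← Nat.card_zpowers, hr]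
  have h1 : ρ ^ 2 ^ (j + 1) = 1 := by rw [← h0, pow_orderOf_eq_one]
  have h2 : ρ ^ 2 ^ j = ι negCo :=
    (h.invol (pow_mem (hR.le (mem_zpowers ρ)) _) (by rw [sq, h1])).resolve_left fun e => by
      have := Nat.le_of_dvd (by positivity) (orderOf_dvd_of_pow_eq_one e)
      rw [h0, Nat.pow_le_pow_iff_right one_lt_two] at this
      omega
  obtain ⟨y, k, hk, e⟩ := h.dec (n := g⁻¹ * ρ * g) (by
    have := mem_centralizer_singleton_iff.1 (hc (mem_zpowers ρ))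
    calc g⁻¹ * ρ * g * ι negCo = g⁻¹ * (ρ * (g * ι negCo * g⁻¹)) * g := by group
      _ = _ := by rw [this]; group)
  have h3 : ∀ i, g⁻¹ * ρ ^ i * g = ι y ^ i * k ^ i := fun i => by
    rw [← Commute.mul_pow (comm_of_K hk y), ← e]
    simpa using (conj_pow (a := g⁻¹) (b := ρ) (i := i)).symm
  have h4 : k ^ 2 ^ (j + 1) ∈ ι.range := by
    have := h3 (2 ^ (j + 1))
    rw [h1, mul_one, inv_mul_cancel] at this
    rw [eq_inv_of_mul_eq_one_right this.symm]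
    exact inv_mem (pow_mem (⟨y, rfl⟩ : ι y ∈ ι.range) _)
  obtain ⟨R', hR', h5⟩ := exists_isSylowIn_ge (p := 2)
    (H9.isPGroup_zpowers ⟨j + 1 + 1, by rw [← sq]; exact h.inf h4 (pow_mem hk _)⟩) (zpowers_le.2 hk)
  have h6 : k ^ 2 ^ (j + 1) = 1 := by
    rw [← hr, hR.card_eq_card hR']
    exact congrArg Subtype.val (pow_card_eq_one' (x := (⟨k, h5 (mem_zpowers k)⟩ : R')))
  rw [← h2, h3]
  refine mul_mem (pow_mem (⟨y, rfl⟩ : ι y ∈ ι.range) _) ?_
  rcases h.invol (pow_mem hk (2 ^ j)) (by rw [sq, h6]) with e | e <;> rw [e]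
  · exact one_mem _
  · exact ⟨_, rfl⟩

theorem mem_range (h : St ι) (hc : g * ι negCo * g⁻¹ * ι negCo = ι negCo * (g * ι negCo * g⁻¹)) :
    g * ι negCo * g⁻¹ ∈ ι.range := by
  obtain ⟨y, k, hk, e⟩ := h.dec hc
  have h1 : k * k ∈ ι.range := by
    have : ι y * ι y * (k * k) = 1 := by
      rw [mul_assoc, ← mul_assoc (ι y) k, comm_of_K hk, mul_assoc, comm_of_K hk, ← mul_assoc, ← comm_of_K hk, ← e,
        conj_mul, t_sq, mul_one, mul_inv_cancel]
    rw [eq_inv_of_mul_eq_one_right this]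
    exact inv_mem (mul_mem ⟨y, rfl⟩ ⟨y, rfl⟩)
  obtain ⟨R, hR, h2⟩ := exists_isSylowIn_ge (p := 2) (H9.isPGroup_zpowers ⟨2, by
    rw [← h.inf h1 (mul_mem hk hk), show 2 ^ 2 = 2 + 2 from rfl, pow_add, pow_two]⟩) (zpowers_le.2 hk)
  obtain ⟨x, hx⟩ := h.power (g := g) hR fun r hr => mem_centralizer_singleton_iff.2 (by
    haveI := h.cyc R hR
    have : r * k = k * r := congrArg Subtype.val
      (IsCyclic.isMulCommutative.is_comm.comm (⟨r, hr⟩ : R) ⟨k, h2 (mem_zpowers k)⟩)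
    rw [e, ← mul_assoc, ← comm_of_K (hR.le hr), mul_assoc, this, mul_assoc])
  have := h.power (g := g⁻¹) hR fun r hr => mem_centralizer_singleton_iff.2 (by
    rw [inv_inv, ← hx, comm_of_K (hR.le hr)])
  rwa [inv_inv] at this

theorem central (h : St ι) (hc : g * ι negCo * g⁻¹ * ι negCo = ι negCo * (g * ι negCo * g⁻¹)) :
    g * ι negCo * g⁻¹ = ι negCo := by
  by_contra hne
  obtain ⟨x, hx⟩ := h.mem_range hc
  obtain ⟨y, c, hy⟩ := inv_conj (s := x) (h.inj (by rw [map_mul, hx, conj_mul, t_sq]; simp))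
  let D : Set Cw := {d | ∃ a : G, ι (eps d) = a * ι negCo * a⁻¹}
  have hcD : c ∈ D := ⟨ι y * g, by rw [← hy, map_mul, map_mul, map_inv, hx]; group⟩
  have hD1 : 1 ∉ D := fun ⟨a, e⟩ => h.t_ne (by simpa using e.symm)
  have hct : c ≠ tw := fun e => hne (by
    rw [e, eps_tw, mul_inv_eq_iff_eq_mul, ← negCo_comm] at hy
    rw [← hx, mul_left_cancel hy])
  have hDt : tw ∈ D := ⟨1, by rw [eps_tw]; simp⟩
  have hDM : ∀ σ : M24, ∀ d ∈ D, σ • d ∈ D := fun σ d ⟨a, e⟩ =>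
    ⟨ι (permHom σ) * a, by rw [← perm_conj, map_mul, map_mul, map_inv, e]; group⟩
  have hj : Function.Injective (ι.comp eps) := h.inj.comp eps_injective
  refine no_fusion hD1 hDt hcD hct hDM fun d ⟨a, ha⟩ => ?_
  have h1 : ∀ z ∈ D, a⁻¹ * ι (eps z) * a ∈ ι.range := fun z ⟨b, hb⟩ => by
    have e : a⁻¹ * ι (eps z) * a = a⁻¹ * b * ι negCo * (a⁻¹ * b)⁻¹ := by rw [hb]; group
    rw [e]
    refine h.mem_range ?_
    have : ι (eps z) * ι (eps d) = ι (eps d) * ι (eps z) := by rw [← map_mul, ← map_mul, mul_comm, map_mul, map_mul]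
    rw [← e]
    calc a⁻¹ * ι (eps z) * a * ι negCo = a⁻¹ * (ι (eps z) * ι (eps d)) * a := by rw [ha]; group
      _ = _ := by rw [this, ha]; group
  let β : Cw →* G := (MulAut.conj a⁻¹).toMonoidHom.comp (ι.comp eps)
  have hβ : ∀ z, β z = a⁻¹ * ι (eps z) * a := fun z => by simp [β]
  have h2 : ι.range.comap β = ⊤ := span_top (c := c) (by rw [mem_comap, hβ]; exact h1 _ hDt)
    (fun e => hD1 (e ▸ hcD)) hct fun σ => by rw [mem_comap, hβ]; exact h1 _ (hDM σ c hcD)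
  have h3 : β.range ≤ ι.range := by rintro _ ⟨z, rfl⟩; exact h2.ge (mem_top z)
  obtain ⟨u, hu⟩ := exists_cj_eq_EE (V := β.range.comap ι) (by
    rintro v ⟨z, hz⟩
    exact h.inj (by rw [map_mul, ← hz, ← map_mul, cw_sq, map_one, map_one])) (by
      rw [← card_map_of_injective h.inj, map_comap_eq_self h3, ← card_Cw]
      exact (Nat.card_congr (MonoidHom.ofInjective (f := β)
        ((MulAut.conj a⁻¹).injective.comp hj)).toEquiv).le)
  obtain ⟨φ, hφ⟩ := exists_phi hj (MulAut.conj (a * (ι u)⁻¹)) fun z => by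
    obtain ⟨w, hw⟩ := mem_cj.1 (hu.ge (⟨z, rfl⟩ : eps z ∈ EE))
    refine ⟨w, ?_⟩
    rw [hβ, map_mul, map_mul, map_inv] at hw
    change a * (ι u)⁻¹ * ι (eps z) * (a * (ι u)⁻¹)⁻¹ = ι (eps w)
    calc _ = a * ((ι u)⁻¹ * ι (eps z) * ι u) * a⁻¹ := by group
      _ = _ := by rw [← hw]; group
  simp only [MulAut.conj_apply, MonoidHom.comp_apply] at hφ
  have h4 : a * (ι u)⁻¹ * ι negCo * (a * (ι u)⁻¹)⁻¹ = ι (eps d) := by
    rw [ha, mul_assoc a, ← map_inv, comm_of_K (t_mem ι), map_inv]; group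
  generalize a * (ι u)⁻¹ = b at hφ h4
  refine ⟨φ, hj (by change ι (eps (φ tw)) = ι (eps d); rw [← hφ, eps_tw, h4]), fun z => ⟨fun ⟨w, e⟩ => ⟨b⁻¹ * w, ?_⟩,
    fun ⟨w, e⟩ => ⟨b * w, by rw [← hφ, e]; group⟩⟩, fun σ hσ => ?_⟩
  · rw [← hφ] at e
    calc ι (eps z) = b⁻¹ * (b * ι (eps z) * b⁻¹) * b := by group
      _ = _ := by rw [e]; group
  obtain ⟨v, k, hk, e⟩ := h.dec (n := b⁻¹ * ι (permHom σ) * b) (by
    have : ι (permHom σ) * ι (eps d) = ι (eps d) * ι (permHom σ) := by rw [← map_mul, perm_eps, hσ, map_mul]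
    calc b⁻¹ * ι (permHom σ) * b * ι negCo = b⁻¹ * (ι (permHom σ) * ι (eps d)) * b := by rw [← h4]; group
      _ = _ := by rw [this, ← h4]; group)
  have h5 : ∀ z, v * eps z * v⁻¹ = eps (φ.symm (σ • φ z)) := fun z => h.inj (by
    have e1 := hφ (φ.symm (σ • φ z))
    rw [φ.apply_symm_apply, ← perm_conj, map_mul, map_mul, map_inv, ← hφ] at e1
    rw [map_mul, map_mul, map_inv]
    calc _ = ι v * k * ι (eps z) * (ι v * k)⁻¹ := by rw [mul_assoc (ι v) k, ← comm_of_K hk]; group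
      _ = b⁻¹ * (ι (permHom σ) * (b * ι (eps z) * b⁻¹) * (ι (permHom σ))⁻¹) * b := by rw [← e]; group
      _ = _ := by rw [← e1]; group)
  obtain ⟨w, τ, rfl⟩ := mem_MM_of_norm (g := v) fun z => ⟨φ.symm (σ⁻¹ • φ z), by
    rw [← mul_inv_eq_iff_eq_mul, h5]; simp⟩
  exact ⟨τ, fun z => by rw [eps_injective ((mono_conj w z τ).symm.trans (h5 z)), φ.apply_symm_apply]⟩

theorem normal (h : St ι) (hO : pPrimeCore 2 G = ⊥) : ι.range.Normal :=
  normalizer_eq_top_iff.1 ((eq_top_iff' _).2 fun g => h.nc (mem_centralizer_singleton_iff.2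
    (commutatorElement_eq_one_iff_mul_comm.1 (mem_bot.1 (hO.le
      (H7.zstar_commute (t_sq ι) (fun _ c => h.central c.eq.symm) g)))).symm))

end St

end Cfsg.Agent.H5.Co
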