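import Cfsg.Agent.H5.GWc4

/-! Recognition of `PSL(2, q)` and `PGL(2, q)` among groups with dihedral Sylow `2`-subgroups. -/

set_option autoImplicit false

namespace Cfsg.Agent.H5

open Subgroup GW H7 H9
open scoped MatrixGroups

variable {G : Type*} [Group G] [Finite G]

theorem mem_of_two_elt (h : DS G) (hE : layerOf (⊤ : Subgroup G) ≠ ⊥) {I : Subgroup G}
    (hI : ∀ y, orderOf y = 2 → y ∈ I) {x : G} (h2 : ∃ a, x ^ 2 ^ a = 1) : x ∈ I := by
  obtain ⟨S, hS, hle⟩ := H8.exists_isSylowIn_ge (H9.isPGroup_zpowers h2) (le_top (a := zpowers x))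
  obtain ⟨c, d, hc, hd, hle'⟩ := layer_exists_four h hE hS
  obtain ⟨ρ, hρ⟩ := (h S hS.pgroup).exists
  have key : ∀ y ∈ S, y ∉ zpowers ρ → y ∈ I := fun y hy hy' => hI y (hρ.orderOf_eq hy hy')
  have hxS := hle (mem_zpowers x)
  by_cases e : x ∈ zpowers ρ
  · obtain ⟨s, hs, hs'⟩ := hρ.not_le hc hd (hle'.trans inf_le_left)
    exact (mul_mem_cancel_left (key s hs hs')).mp (key _ (mul_mem hs hxS) (hρ.mul_not_mem hs' e))
  · exact key x hxS e

theorem mem_of_pow_two_pow_mem {I : Subgroup G} (hI : ∀ x : G, (∃ a, x ^ 2 ^ a = 1) → x ∈ I)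
    {x : G} {n : ℕ} (ho : ¬ 2 ∣ orderOf (x ^ 2 ^ n)) (h : x ^ 2 ^ n ∈ I) : x ∈ I := by
  have h1 := hI (x ^ orderOf (x ^ 2 ^ n)) ⟨n, by rw [← pow_mul, mul_comm, pow_mul, pow_orderOf_eq_one]⟩
  obtain ⟨a, b, hab⟩ := Nat.isCoprime_iff_coprime.2
    (((Nat.prime_two.coprime_iff_not_dvd).2 ho).pow_left n)
  rw [← zpow_one x, ← hab, zpow_add, mul_comm a, mul_comm b, zpow_mul, zpow_mul, zpow_natCast,
    zpow_natCast]
  exact mul_mem (zpow_mem h a) (zpow_mem h1 b)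

theorem eq_top_of_inv (h : DS G) (hE : layerOf (⊤ : Subgroup G) ≠ ⊥) {I : Subgroup G} [hn : I.Normal]
    (hI : ∀ y, orderOf y = 2 → y ∈ I) {j : G} (hj : orderOf j = 2) (hC : Cz j ≤ I) : I = ⊤ := by
  refine eq_top_iff.2 fun g _ => ?_
  by_cases hjE : j ∈ layerOf (⊤ : Subgroup G)
  · obtain ⟨e, he, h1⟩ := layer_fus h hE hj (by rw [H9.orderOf_conj, hj]) hjE
      ((le_normalizer_layerOf ⊤ (mem_top g) j).1 hjE)
    refine (mul_mem_cancel_left (inv_mem (layer_le_of_inv h hE (fun a _ => hI a) he))).1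
      (hC (mem_Cz.2 ?_))
    calc e⁻¹ * g * j = e⁻¹ * (g * j * g⁻¹) * g := by group
      _ = _ := by rw [← h1]; group
  obtain ⟨S, hS, hle⟩ := H8.exists_isSylowIn_ge (isPGroup_zpowers_of_orderOf (p := 2) (k := 1) hj)
    (le_top (a := zpowers j))
  have hjS := hle (mem_zpowers j)
  have hSI : S ≤ I := fun x hx => mem_of_two_elt h hE hI (by
    obtain ⟨k, hk⟩ := hS.pgroup ⟨x, hx⟩
    exact ⟨k, congrArg Subtype.val hk⟩)
  obtain ⟨k, hk, h1⟩ := (hS.of_le hSI le_top).frattini (g := g) (by rw [normalizer_eq_top]; trivial)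
  rw [← mul_mem_cancel_left hk]
  rcases h.four_or_char hS.pgroup (fun e => ne_one_of_orderOf_two hj (mem_bot.1 (e ▸ hjS))) with
    ⟨t, w, ht, hw, hP⟩ | ⟨z, hzS, hz, hN⟩
  · obtain ⟨c, d, hc, hd, hle'⟩ := layer_exists_four h hE hS
    have e : S = four t w := Subgroup.ext fun x => by rw [hP, mem_four ht hw]
    rw [← eq_of_le_of_card_ge (hle'.trans inf_le_left) (by rw [e, card_four ht hw, card_four hc hd])]
      at hjS
    exact absurd (hle' hjS).2 hjE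
  · obtain ⟨n, hn⟩ := exists_odd_pow (k * g)
    refine mem_of_pow_two_pow_mem (fun x => mem_of_two_elt h hE hI) hn (hC (mem_Cz.2 ?_))
    exact h.comm_of_odd hS.pgroup hn (pow_mem h1 _) hzS hz (mem_Cz.1 (hN (pow_mem h1 _))) j hjS

theorem exists_pgl_hom {F : Type*} [Field F] : ∃ θ : PGL(2, F) →* RingAut (M2 F),
    Function.Injective θ ∧ ∀ α, (∃ x, θ x = α) ↔ ∃ Y, MLin α Y := by
  have k : ∀ u : Fˣ, ((Matrix.GeneralLinearGroup.scalar (Fin 2) u : GL (Fin 2) F) : M2 F) =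
      (u : F) • 1 := fun u => by simp [Matrix.smul_one_eq_diagonal]
  refine ⟨Matrix.ProjGenLinGroup.lift mcj (MonoidHom.ext fun u => (lin_mcj _).unique
    (k u ▸ MLin.one.smul u.ne_zero)), (injective_iff_map_eq_one _).2 fun x hx => ?_, fun α => ⟨?_, ?_⟩⟩
  · obtain ⟨x, rfl⟩ := Matrix.ProjGenLinGroup.mk_surjective x
    obtain ⟨c, hc, h⟩ := (show mcj x = 1 from hx) ▸ lin_mcj x |>.of_one
    rw [← Matrix.ProjGenLinGroup.mk_scalar (n := Fin 2) (Units.mk0 c hc)]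
    exact congrArg _ (Units.ext (h.trans (k (Units.mk0 c hc)).symm))
  · rintro ⟨x, rfl⟩
    obtain ⟨x, rfl⟩ := Matrix.ProjGenLinGroup.mk_surjective x
    exact ⟨x, lin_mcj x⟩
  · rintro ⟨Y, hY⟩
    obtain ⟨u, rfl⟩ := hY.1
    exact ⟨Matrix.ProjGenLinGroup.mk u, (lin_mcj u).unique hY⟩

theorem pgl_of_ds (h : DS G) (hns : ¬ Group.IsSolvable G) (h0 : pPrimeCore 2 G = ⊥) {j : G}
    (hj : orderOf j = 2) (hC : ∀ I : Subgroup G, (∀ y, orderOf y = 2 → y ∈ I) → Cz j ≤ I)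
    (hA : AComp (⊤ : Subgroup G) → ¬ 8 ∣ Nat.card G) : ∃ (F : Type) (_ : Field F) (_ : Fintype F),
      3 < Fintype.card F ∧ (Nonempty (G ≃* PSL(2, F)) ∨ Nonempty (G ≃* PGL(2, F))) := by
  obtain ⟨hE, hs, hc⟩ := layer_of_ds h hns h0
  obtain ⟨F, i1, i2, h1, ⟨e⟩⟩ : ∃ (F : Type) (_ : Field F) (_ : Fintype F), Odd (Fintype.card F) ∧
      Nonempty (layerOf (⊤ : Subgroup G) ≃* PSL(2, F)) := by
    obtain ⟨t, s, K, hb⟩ := (gw hc (h.subgroup _)).resolve_right fun e => hA (acomp_top h hE e)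
      (Dvd.dvd.trans (by rw [e.1]; norm_num) (card_subgroup_dvd_card (layerOf ⊤)))
    obtain ⟨F, i1, i2, h1, -, h2⟩ := psl_of_bsw hb (quasisimple_iff.mp (QS.of_isSimpleGroup hc)).1
    exact ⟨F, i1, i2, h1, h2⟩
  refine ⟨F, i1, i2, three_lt_card hc h1 e, ?_⟩
  by_cases hE' : layerOf (⊤ : Subgroup G) = ⊤
  · exact Or.inl ⟨topEquiv.symm.trans ((MulEquiv.subgroupCongr hE'.symm).trans e)⟩
  have hz : center (layerOf (⊤ : Subgroup G)) = ⊥ :=
    (hs.eq_bot_or_eq_top_of_normal (center _) inferInstance).resolve_right fun e =>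
      hc ⟨⟨fun a b => (mem_center_iff.1 (e ▸ mem_top b) a)⟩⟩
  obtain ⟨P, M⟩ := exists_model h hE (two_ne_zero_of_odd_card h1)
    (((QuotientGroup.quotientMulEquivOfEq hz).trans QuotientGroup.quotientBot).trans e)
  rw [opp_top, h0] at M
  let P' : G →* RingAut (M2 F) := MonoidHom.mk' P fun a b => M.mul a trivial b trivial
  obtain ⟨θ, hθ, hθ'⟩ := exists_pgl_hom (F := F)
  haveI : (θ.range.comap P').Normal := ⟨fun x hx g => by
    obtain ⟨Y, hY⟩ := (hθ' _).1 hx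
    rw [mem_comap, map_mul, map_mul, map_inv]
    exact (hθ' _).2 ⟨_, hY.conj _⟩⟩
  have hI : ∀ y, orderOf y = 2 → y ∈ θ.range.comap P' := fun y hy => (hθ' _).2 (by
    by_cases hyE : y ∈ layerOf (⊤ : Subgroup G)
    · obtain ⟨A, hA⟩ := M.toS y hyE
      exact ⟨A, (show P' y = cs A from hA) ▸ lin_cs A⟩
    · obtain ⟨z, hz, z2, hr⟩ := exists_refl_of_outer h hE (mem_top y) hy hyE
      exact M.lin_of_refl hz z2 trivial hr)
  have ht := eq_top_of_inv h hE hI hj (hC _ hI)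
  have hl : ∀ g, ∃ x, θ x = P' g := fun g => (ht ▸ mem_top g : g ∈ θ.range.comap P')
  obtain ⟨f, hf⟩ := H1.exists_hom_of_rel (fun g x => θ x = P' g) hl
    (fun a b x y hx hy => by rw [map_mul, map_mul, hx, hy]) fun a x y hx hy => hθ (hx.trans hy.symm)
  have hP : Function.Injective P' := (injective_iff_map_eq_one _).2 fun a ha => (M.ker a trivial).1 ha
  refine Or.inr ⟨MulEquiv.ofBijective f ⟨fun a b hab => hP (((hf a _).2 rfl).symm.trans
    (hab ▸ (hf b _).2 rfl)), fun x => ?_⟩⟩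
  obtain ⟨g, hg⟩ : ∃ g, g ∉ layerOf (⊤ : Subgroup G) := by
    by_contra hg
    exact hE' (eq_top_iff.2 fun g _ => not_not.1 fun e => hg ⟨g, e⟩)
  obtain ⟨Y, hY⟩ := (hθ' _).1 (hl g)
  obtain ⟨U, hU⟩ := (hθ' _).1 ⟨x, rfl⟩
  have key : ∀ {α Y}, MLin α Y → IsSquare Y.det → ∃ e ∈ layerOf (⊤ : Subgroup G), α = P' e :=
    fun hY hs => by
      obtain ⟨B, -, -, -, hB⟩ := hY.exists_cs hs
      obtain ⟨e, he, he'⟩ := M.onS B
      exact ⟨e, he, hB.trans he'.symm⟩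
  by_cases hs : IsSquare U.det
  · obtain ⟨e, -, he⟩ := key hU hs
    exact ⟨e, (hf _ _).1 he⟩
  · obtain ⟨e, -, he⟩ := key (hU.mul hY) (by
      rw [Matrix.det_mul]
      refine H6.isSquare_mul_of_not hs fun hs' => ?_
      obtain ⟨e, he, he'⟩ := key hY hs'
      exact hg (hP he' ▸ he))
    exact ⟨e * g⁻¹, (hf _ _).1 (by rw [map_mul, map_inv, ← he, mul_inv_cancel_right])⟩

end Cfsg.Agent.H5
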