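import Cfsg.Agent.H5.GWc5
import Cfsg.Agent.BS.SEMain
import Cfsg.Agent.H6.PSLEven
import Cfsg.Agent.H7.AbelianSylow
import Mathlib.FieldTheory.Finite.GaloisField

/-! Self-centralizing generalized dihedral subgroups: the case of `2`-rank at least two. -/

set_option autoImplicit false

namespace Cfsg.Agent.H5

open Subgroup GW H7 H9 H8
open scoped MatrixGroups

variable {G : Type*} [Group G]

/-- `H` is generalized dihedral over `A` (or `H = A`) and centralizes no involution of `A` properly -/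
structure DG (H A : Subgroup G) : Prop where
  le : A ≤ H
  comm : ∀ a ∈ A, ∀ b ∈ A, a * b = b * a
  sq : ∀ x ∈ H, x ∉ A → x * x = 1
  mul : ∀ x ∈ H, ∀ y ∈ H, x ∉ A → y ∉ A → x * y ∈ A
  cent : ∀ z ∈ A, orderOf z = 2 → Cz z = H

theorem inv_of_sq {H A : Subgroup G} (hle : A ≤ H) (h : ∀ x ∈ H, x ∉ A → x * x = 1) {x a : G}
    (hx : x ∈ H) (hx' : x ∉ A) (ha : a ∈ A) : x * a * x⁻¹ = a⁻¹ := by
  have := h _ (mul_mem hx (hle ha)) (by rwa [mul_mem_cancel_right ha])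
  rw [inv_eq_of_mul_eq_one_left (h x hx hx'), eq_inv_iff_mul_eq_one, mul_assoc, this]

theorem Cz_map [Finite G] {Q : Type*} [Group Q] {f : G →* Q} (hf : Function.Surjective f)
    (hk : ¬ 2 ∣ Nat.card f.ker) {z : G} (hz : z * z = 1) : Cz (f z) = (Cz z).map f := by
  have := (copAct_inv hz hk (by rw [normalizer_eq_top]; trivial)).centralizer_map f hf
  rwa [MonoidHom.map_zpowers, H8.centralizer_zpowers, H8.centralizer_zpowers] at this

theorem orderOf_map_two [Finite G] {Q : Type*} [Group Q] {f : G →* Q} (hk : ¬ 2 ∣ Nat.card f.ker)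
    {z : G} (hz : orderOf z = 2) : orderOf (f z) = 2 :=
  orderOf_two_of (fun e => not_dvd_orderOf_of_mem hk e (hz ▸ dvd_rfl))
    (by rw [← map_mul, sq_eq_one_of_orderOf_two hz, map_one])

theorem exists_lift_two [Finite G] {Q : Type*} [Group Q] {f : G →* Q} (hk : ¬ 2 ∣ Nat.card f.ker)
    {x : G} (hx : orderOf (f x) = 2) : ∃ z ∈ zpowers x, orderOf z = 2 ∧ f z = f x := by
  have h0 := sq_eq_one_of_orderOf_two hx
  have h1 := not_dvd_orderOf_of_mem hk (x := x * x) (by rw [MonoidHom.mem_ker, map_mul, h0])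
  have h2 : f (x ^ orderOf (x * x)) = f x := by rw [map_pow, pow_odd_of_sq h0 h1]
  refine ⟨_, npow_mem_zpowers x _, orderOf_two_of (fun e => ne_one_of_orderOf_two hx ?_) ?_, h2⟩
  · rw [← h2, e, map_one]
  · rw [← (Commute.refl x).mul_pow, pow_orderOf_eq_one]

namespace DG

variable {H A : Subgroup G} (h : DG H A)
include h

theorem inv {x a : G} (hx : x ∈ H) (hx' : x ∉ A) (ha : a ∈ A) : x * a * x⁻¹ = a⁻¹ :=
  inv_of_sq h.le h.sq hx hx' ha

theorem ord {x : G} (hx : x ∈ H) (hx' : x ∉ A) : orderOf x = 2 :=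
  orderOf_two_of (fun e => hx' (e ▸ one_mem _)) (h.sq x hx hx')

variable [Finite G]

theorem norm {B : Subgroup G} (hB : B ≤ A) : H ≤ normalizer (B : Set G) := fun x hx =>
  H9.mem_normalizer_of_conj_mem fun b hb => by
    by_cases hx' : x ∈ A
    · rwa [h.comm x hx' b (hB hb), mul_inv_cancel_right]
    · rw [h.inv hx hx' (hB hb)]; exact inv_mem hb

theorem map {Q : Type*} [Group Q] {f : G →* Q} (hf : Function.Surjective f)
    (hk : ¬ 2 ∣ Nat.card f.ker) : DG (H.map f) (A.map f) where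
  le := map_mono h.le
  comm := by
    rintro _ ⟨a, ha, rfl⟩ _ ⟨b, hb, rfl⟩
    rw [← map_mul, h.comm a ha b hb, map_mul]
  sq := by
    rintro _ ⟨x, hx, rfl⟩ hx'
    rw [← map_mul, h.sq x hx fun e => hx' (mem_map_of_mem f e), map_one]
  mul := by
    rintro _ ⟨x, hx, rfl⟩ _ ⟨y, hy, rfl⟩ hx' hy'
    exact ⟨_, h.mul x hx y hy (fun e => hx' (mem_map_of_mem f e)) fun e => hy' (mem_map_of_mem f e),
      map_mul f x y⟩
  cent := by
    rintro _ ⟨a, ha, rfl⟩ h2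
    obtain ⟨z, hz, z2, e⟩ := exists_lift_two hk h2
    rw [← e, Cz_map hf hk (sq_eq_one_of_orderOf_two z2), h.cent z (zpowers_le.2 ha hz) z2]

theorem sylow (nc : ∀ x ∈ H, x ∉ A → ∀ g, g⁻¹ * x * g ∉ A) {S : Subgroup G} (hS : IsSylowIn 2 S H)
    (h0 : S ⊓ A ≠ ⊥) : IsSylowIn 2 S ⊤ := by
  refine IsSylowIn.of_normalizer le_top ⟨le_inf le_top le_normalizer, hS.pgroup, fun Q hQ h2 hle => ?_⟩
  obtain ⟨z, hz, z2, h3, -⟩ := exists_orderOf_centralized h2 (hS.pgroup.to_inf_left (K := A))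
    (fun n hn => H9.mem_normalizer_of_conj_mem fun y hy => by
      have := ((hQ hn).2 y).1 hy.1
      exact ⟨this, not_not.1 fun e => nc _ (hS.le this) e n (by simpa [mul_assoc] using hy.2)⟩) h0
  exact hS.max Q (fun g hg => h.cent z hz.2 z2 ▸ mem_Cz.2 (h3 g hg)) h2 hle

end DG

variable [Finite G]

theorem psl_of_comm_cent (h0 : pPrimeCore 2 G = ⊥) (hns : ¬ Group.IsSolvable G) {A : Subgroup G}
    (h : DG A A) {a b : G} (ha : orderOf a = 2) (hb : Refl a b) (hA : four a b ≤ A) :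
    (∀ x ∈ A, x * x = 1) ∧ ∃ (F : Type) (_ : Field F) (_ : Fintype F), 3 < Fintype.card F ∧
      Nonempty (G ≃* PSL(2, F)) := by
  obtain ⟨T, hT, hle⟩ := exists_isSylowIn_ge (isPGroup_four ha hb) hA
  have hne : T ≠ ⊥ := fun e => ne_one_of_orderOf_two ha (mem_bot.1 (e ▸ hle (left_mem_four a b)))
  have hT' := h.sylow (fun x hx hx' => absurd hx hx') hT (by rwa [inf_eq_left.2 hT.le])
  obtain ⟨X, hX, hc⟩ := BS.bender_suz (Dich.stronglyEmbedded_of (M := normalizer T) (fun e => by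
      haveI := normalizer_eq_top_iff.1 e
      haveI := hT.pgroup.isNilpotent
      haveI := FT.odd_solvable (G := G ⧸ T) (Nat.odd_iff.2 (by
        have := hT'.not_dvd_relIndex
        rw [relIndex_top_right, index_eq_card] at this
        omega))
      exact hns (Group.isSolvable_of_ker_le_range T.subtype (QuotientGroup.mk' T)
        (by rw [QuotientGroup.ker_mk', range_subtype]))) hT' hne le_rfl
    fun t ht t2 => (h.cent t (hT.le ht) t2).le.trans (h.norm hT.le))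
    (BS.Four.not_pRankLE ⟨a, trivial, b, trivial, ⟨sq_eq_one_of_orderOf_two ha, ne_one_of_orderOf_two ha⟩,
      ⟨hb.sq, ne_one_of_orderOf_two hb.1⟩, hb.2.2.symm, hb.2.1.symm⟩) h0
  have hQ : X.Q = T := hT'.max _ le_top X.struct.two fun x hx => by
    obtain ⟨k, hk⟩ := hT.pgroup ⟨x, hx⟩
    exact X.mem_Q_of_two (hX ▸ le_normalizer hx) (congrArg Subtype.val hk)
  have hZ := X.struct.ab fun x hx y hy => h.comm x (hT.le (hQ ▸ hx)) y (hT.le (hQ ▸ hy))
  have hs := h.cent _ (hT.le (hQ ▸ X.sQ)) (orderOf_two_of X.s1 X.ss)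
  have hV : X.V = ⊥ := eq_bot_iff.2 fun v hv => by
    obtain ⟨h1, h2⟩ := X.mem_V'.1 hv
    exact hc ▸ X.mem_core.2 ⟨h1, fun x hx => h.comm v (hs ▸ mem_Cz.2 h2) x (hT.le (hQ ▸ hx))⟩
  have hC : Cz X.s = X.Q := X.cent_s hV
  have h1 : ∀ x ∈ Cz X.s, x * x = 1 := fun x hx => (X.mem_Z.1 (hZ ▸ hC ▸ hx)).2
  obtain ⟨n, hn, hq⟩ := X.exists_q
  let F := GaloisField 2 n
  let _ : Fintype F := Fintype.ofFinite F
  have hF : Fintype.card F = 2 ^ n := by
    rw [← Nat.card_eq_fintype_card]; exact GaloisField.card 2 n (by omega)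
  have h2 := X.card_K
  have h3 : Nat.card X.Q = 2 ^ n := by rw [hZ, ← hq]; rfl
  refine ⟨hs ▸ h1, F, inferInstance, inferInstance, ?_, H6.psl_even X.ss (fun y hy y1 =>
    isConj_iff.2 (X.conj_s (h1 y (mem_Cz.2 hy)) y1)) hF ?_ X.s1 (by rw [← h3, ← hC])⟩
  · have := Nat.pow_le_pow_right (n := 2) (by norm_num) hn
    omega
  · rw [X.card_G, X.D_eq_K hV, h3, mul_assoc, show Nat.card X.K = 2 ^ n - 1 by omega]

theorem DG.rank_two {H A : Subgroup G} (h : DG H A) (h0 : pPrimeCore 2 G = ⊥)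
    (hns : ¬ Group.IsSolvable G) (nc : ∀ x ∈ H, x ∉ A → ∀ g, g⁻¹ * x * g ∉ A) {a : G} (ha : a ∈ A)
    (a2 : orderOf a = 2) : ∃ (C : Subgroup G) (_ : C.Normal), Nat.card C ∣ 2 ∧
      ∃ (F : Type) (_ : Field F) (_ : Fintype F), 3 < Fintype.card F ∧
        Nonempty (G ⧸ C ≃* PSL(2, F)) := by
  obtain ⟨S, hS, hle⟩ := exists_isSylowIn_ge (isPGroup_zpowers_of_orderOf (p := 2) (k := 1) a2)
    (zpowers_le.2 (h.le ha))
  have hS' := h.sylow nc hS fun e => ne_one_of_orderOf_two a2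
    (mem_bot.1 (e ▸ mem_inf.2 ⟨hle (mem_zpowers a), ha⟩))
  set L := pResidual 2 G
  have hLA : ∀ x ∈ H, x ∈ L → x ∈ A := fun x hx hxL => by
    by_contra hx'
    obtain ⟨K, hK, hxK⟩ := H6.exists_index_two_of_not_conj (H := H) (M := A) (x := x)
      (Nat.odd_iff.2 (by
        have : ¬ 2 ∣ H.index := fun e => hS'.not_dvd_relIndex (relIndex_top_right S ▸
          Dvd.dvd.trans e (index_dvd_of_le hS.le))
        omega))
      (relIndex_eq_two_of hx hx' fun s hs hs' => h.mul s hs x hx hs' hx')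
      ⟨1, by rw [pow_one, pow_two, h.sq x hx hx']⟩ (nc x hx hx') fun k g hk _ => by
        obtain ⟨k, rfl⟩ := Nat.exists_eq_succ_of_ne_zero hk.ne'
        rw [pow_succ', pow_mul, pow_two, h.sq x hx hx']
        simpa using one_mem _
    haveI := K.normal_of_index_eq_two hK
    exact hxK (L0.pResidual_le_of_index (p := 2) (k := 1) hK hxL)
  have hnsL : ¬ Group.IsSolvable L := fun _ => by
    haveI := (L0.isPGroup_quotient_pResidual (p := 2) (G := G)).isNilpotent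
    exact hns (Group.isSolvable_of_ker_le_range L.subtype (QuotientGroup.mk' L)
      (by rw [QuotientGroup.ker_mk', range_subtype]))
  have hc : ∀ z ∈ A, orderOf z = 2 → ¬ L ≤ Cz z := fun z hz z2 e => by
    haveI : IsMulCommutative L := ⟨⟨fun x y => Subtype.ext (h.comm _
      (hLA _ (h.cent z hz z2 ▸ e x.2) x.2) _ (hLA _ (h.cent z hz z2 ▸ e y.2) y.2))⟩⟩
    exact hnsL isSolvable_of_isMulCommutative
  have hO : opp 2 L = ⊥ := by
    rw [opp_eq_inf_of_sn (SN.of_normal le_top), opp_top, h0, bot_inf_eq]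
  have hT : IsSylowIn 2 (S ⊓ L) L := by
    simpa using hS'.inf_of_le_normalizer (N := L) (by rw [normalizer_eq_top])
  have hTA : S ⊓ L ≤ A := fun x hx => hLA x (hS.le hx.1) hx.2
  obtain ⟨z, hz, z2⟩ := exists_inv_of_dvd (hT.dvd_card_iff.2 (not_not.1 fun e =>
    hnsL (solvable_of_odd e)))
  obtain ⟨w, hw, w2⟩ : ∃ w ∈ S ⊓ L, Refl z w := by
    by_contra hw
    refine hc z (hTA hz) z2 fun g hg => mem_Cz.2 (commutatorElement_eq_one_iff_mul_comm.1 ?_).symm
    refine mem_bot.1 (hO ▸ zstar_sylow_in hT (sq_eq_one_of_orderOf_two z2) hz.2 (fun g _ h1 => ?_) hg)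
    by_contra h2
    exact hw ⟨_, h1, by rw [H9.orderOf_conj, z2], h.comm _ (hTA h1) _ (hTA hz), h2⟩
  obtain ⟨h1, F, i1, i2, h2, ⟨e⟩⟩ := psl_of_comm_cent (G := L)
    ((map_eq_bot_iff_of_injective _ (subtype_injective L)).1 hO) hnsL (A := A.subgroupOf L)
    ⟨le_rfl, fun a ha b hb => Subtype.ext (h.comm _ ha _ hb), fun x hx hx' => absurd hx hx',
      fun x hx _ _ hx' => absurd hx hx', fun y hy y2 => Subgroup.ext fun x => by
        have := h.cent y hy (by rw [orderOf_coe, y2])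
        rw [mem_Cz, Subtype.ext_iff, mem_subgroupOf]
        exact ⟨fun e => hLA _ (this ▸ mem_Cz.2 e) x.2, fun e => h.comm _ e _ hy⟩⟩
    (a := ⟨z, hz.2⟩) (b := ⟨w, hw.2⟩) (two_sub z2) (refl_sub w2) (four_le.2 ⟨hTA hz, hTA hw⟩)
  have h3 : ∀ x ∈ S ⊓ L, ∀ g ∈ H, g * x = x * g := fun x hx g hg => by
    by_cases x1 : x = 1
    · simp [x1]
    · exact mem_Cz.1 (h.cent x (hTA hx) (orderOf_two_of x1
        (congrArg Subtype.val (h1 ⟨x, hx.2⟩ (hTA hx)))) ▸ hg)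
  set C := centralizer (L : Set G)
  have hCH : C ≤ H := fun x hx => h.cent z (hTA hz) z2 ▸ mem_Cz.2 (hx z hz.2).symm
  have hCA : ∀ x ∈ C, x ∈ A → orderOf x ≠ 2 := fun x hx hx' x2 =>
    hc x hx' x2 fun g hg => mem_Cz.2 (hx g hg)
  have hCL : ∀ x ∈ C, x ∈ L → x = 1 := fun x hx hx' => not_not.1 fun x1 =>
    hCA x hx (hLA x (hCH hx) hx') (orderOf_two_of x1
      (congrArg Subtype.val (h1 ⟨x, hx'⟩ (hLA x (hCH hx) hx'))))
  have hCA' : ∀ x ∈ C, x ∈ A → x = 1 := fun x hx hx' => by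
    by_contra x1
    obtain ⟨k, hk⟩ := L0.isPGroup_quotient_pResidual (p := 2) (G := G) x
    obtain ⟨y, hy, y2⟩ := exists_inv_mem_zpowers x1
      ⟨k, hCL _ (pow_mem hx _) ((QuotientGroup.eq_one_iff _).1 hk)⟩
    exact hCA y (zpowers_le.2 hx hy) (zpowers_le.2 hx' hy) y2
  have hsup : L ⊔ C = ⊤ := by
    obtain ⟨P, rfl⟩ := hS'.exists_sylow_top
    rw [eq_top_iff, ← L0.pResidual_sup_sylow P]
    refine sup_le le_sup_left fun s hs => ?_
    obtain ⟨k, hk⟩ := P.isPGroup' ⟨s, hs⟩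
    obtain ⟨t, ht, h4⟩ := exists_inv_mul_mem_centralizer hO hT
      ⟨⟨fun x y => Subtype.ext (h.comm _ (hTA x.2) _ (hTA y.2))⟩⟩ (a := s)
      (fun x hx => (h3 x hx s (hS.le hs)).symm) (congrArg Subtype.val hk)
    simpa using mul_mem_sup ht.2 h4
  refine ⟨C, inferInstance, ?_, F, i1, i2, h2, ⟨(MulEquiv.ofBijective
    ((QuotientGroup.mk' C).comp L.subtype) ⟨(injective_iff_map_eq_one _).2 fun x hx =>
      Subtype.ext (hCL _ ((QuotientGroup.eq_one_iff _).1 hx) x.2), fun g => ?_⟩).symm.trans e⟩⟩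
  · by_cases hC : C = ⊥
    · simp [hC]
    obtain ⟨⟨x, hx⟩, x1⟩ := ne_bot_iff_exists_ne_one.1 hC
    have x1 : x ≠ 1 := fun e => x1 (Subtype.ext e)
    have hxA : x ∉ A := fun e => x1 (hCA' x hx e)
    rw [← h.ord (hCH hx) hxA, ← Nat.card_zpowers]
    refine card_dvd_of_le fun y hy => ?_
    by_cases hyA : y ∈ A
    · exact hCA' y hy hyA ▸ one_mem _
    · rw [eq_inv_of_mul_eq_one_left (hCA' _ (mul_mem hy hx) (h.mul y (hCH hy) x (hCH hx) hyA hxA))]
      exact inv_mem (mem_zpowers x)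
  · obtain ⟨g, rfl⟩ := QuotientGroup.mk_surjective g
    obtain ⟨l, hl, c, hc, rfl⟩ := (mem_sup_of_normal_right).1 (hsup ▸ mem_top g)
    exact ⟨⟨l, hl⟩, (QuotientGroup.mk_mul_of_mem l hc).symm⟩

end Cfsg.Agent.H5
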