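import Cfsg.Agent.H5.HS9

/-!
# The case in which `N(M)` is not `3`-closed: the two commuting subgroups `SL₂(q)`
-/

set_option autoImplicit false

namespace Cfsg.Agent.H5.HS

open Subgroup Cfsg.Agent.H8 Matrix Cfsg.Agent.H4.SL2
open scoped MatrixGroups

variable {F : Type*} [Field F] {G : Type*} [Group G] {ι : HS F →* G}

local instance : Fact (Nat.Prime 3) := ⟨Nat.prime_three⟩

theorem pe_mul' (b z b' z' : F) : ι (pe b 0 0 z) * ι (pe b' 0 0 z') = ι (pe (b + b') 0 0 (z + z')) := by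
  rw [← map_mul, pe_mul]; congr 2 <;> ring

theorem pe_inv' (b z : F) : (ι (pe b 0 0 z))⁻¹ = ι (pe (-b) 0 0 (-z)) := by
  rw [← map_inv, pe_inv]; congr 2 <;> ring

theorem t_t' : ι tt * ι tt = 1 := by rw [← map_mul, tt_sq, map_one]

theorem A_t {a : G} (h : a ∈ (ZX F).map ι) : a * ι tt = ι tt * a := by
  obtain ⟨b, z, rfl⟩ := mem_ZX.1 h
  rw [← map_mul, ← map_mul, tt_comm rfl rfl]

theorem fix_A {g a : G} (h : g ∈ (ZX F).map ι ∨ g * ι tt ∈ (ZX F).map ι) (ha : a ∈ (ZX F).map ι) : g * a * g⁻¹ = a := by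
  have le : (ZX F).map ι ≤ (MM F).map ι := map_mono fun _ h => h.1
  rw [mul_inv_eq_iff_eq_mul]
  rcases h with h | h
  · exact M_comm (le h) (le ha)
  · have c : Commute _ _ := M_comm (le h) (le ha)
    simpa using (c.mul_left (Commute.inv_left (A_t ha).symm)).eq

namespace Fu

variable {n : G} (S : Fu ι n) [Finite G] [CharP F 3]
include S

theorem mixN {g : G} {b z : F} (hb : b ≠ 0) (hz : z ≠ 0) (ht : R ι g tt tt) (h : R ι g (pe b 0 0 z) (pe b 0 0 z)) :
    g ∈ normalizer ((MM F).map ι : Set G) := by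
  suffices ∀ U ≤ (ZX F).map ι, ι (pe b 0 0 z) ∈ U →
      centralizer (U : Set G) ⊓ centralizer {ι tt} ≤ normalizer ((MM F).map ι : Set G) from
    this _ (zpowers_le_of_mem (pe_A b z)) (mem_zpowers _) ⟨by
      rintro _ ⟨k, rfl⟩
      exact ((show Commute g _ from h.comm).zpow_right k).symm, mem_centralizer_singleton_iff.2 ht.comm⟩
  clear ht h g
  intro U hU hφ
  induction U using WellFoundedGT.induction with | ind U IH => ?_
  set K := centralizer (U : Set G) ⊓ centralizer {ι tt}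
  set A := (ZX F).map ι
  have Kt : ∀ {g : G}, g ∈ K → R ι g tt tt := fun h => R.of_comm (mem_centralizer_singleton_iff.1 h.2)
  have Kφ : ∀ {g : G}, g ∈ K → R ι g (pe b 0 0 z) (pe b 0 0 z) := fun h => R.of_comm (h.1 _ hφ).symm
  have AK : A ≤ K := fun a ha => ⟨fun u hu => M_comm (A_le (hU hu)) (A_le ha), mem_centralizer_singleton_iff.2 (A_t ha)⟩
  have app : ∀ κ : F, (∀ c, ι (pe (κ * c) 0 0 c) ∈ U → c = 0) → (∀ g ∈ K, g ∈ normalizer (A : Set G) →
      (g ∈ A ∨ g * ι tt ∈ A) ∨ ∀ c, R ι g (pe (κ * c) 0 0 c) (pe (κ * -c) 0 0 (-c))) →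
      K ≤ normalizer ((MM F).map ι : Set G) := fun κ hV hact => by
    let v : Multiplicative F →* G := MonoidHom.mk' (fun c => ι (pe (κ * c.toAdd) 0 0 c.toAdd)) fun a c => by
      rw [pe_mul', toAdd_mul, mul_add]
    let w : F → G := fun c => ι (pe (κ * c) 0 0 c)
    have wm : ∀ a c, w a * w c = w (a + c) := fun a c => by simp only [w, pe_mul', mul_add]
    have wi : ∀ a, (w a)⁻¹ = w (-a) := fun a => by simp only [w, pe_inv', mul_neg]
    have nU : ∀ {c}, c ≠ 0 → w c ∉ U := fun h h' => h (hV _ h')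
    have act : ∀ g ∈ K, g ∈ normalizer (A : Set G) → ∃ ε : F, (ε = 1 ∨ ε = -1) ∧ ∀ c, g * w c * g⁻¹ = w (ε * c) :=
      fun g h1 h2 => (hact g h1 h2).elim (fun h => ⟨1, Or.inl rfl, fun c => by rw [fix_A h (pe_A ..), one_mul]⟩)
        fun h => ⟨-1, Or.inr rfl, fun c => by rw [neg_one_mul]; exact h c⟩
    obtain ⟨s, hs⟩ := exists_ne9 S.big [0, 1, -1] (by simp)
    obtain ⟨r, hr⟩ := exists_ne9 S.big [0, 1, -1, s, -s, 1 + s, 1 - s, -1 + s, -1 - s] (by simp)
    simp only [List.mem_cons, List.not_mem_nil, or_false, not_or] at hs hr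
    have t3 := h3 (F := F)
    refine fun g hg => S.NA (gl333T (K := K) (A0 := v.range) t_t' ⟨fun u hu => A_t (hU hu), mem_centralizer_singleton_iff.2 rfl⟩
      (fun k hk => (Kt hk).comm) AK hU (by rintro _ ⟨c, rfl⟩; exact pe_A ..) (fun k hk u hu => (hk.1 u hu).symm)
      (fun g hg a ha a1 h => ?_) (fun a ha b hb => M_comm (A_le ha) (A_le hb)) (fun a ha => M_pow 3 (A_le ha))
      (fun g hg hn h => S.three_A (S.NA hn) (Kt hg) (k := 2) (by rw [sq, pow_mul, M_pow 3 (A_le (hU h))]))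
      (fun n h1 h2 a ha => ?_) (fun n h1 h2 a ha a1 h => ?_) (x := w 1) (y := w s) (b := w (r - (1 + s)))
      (pe_A ..) (pe_A ..) ⟨.ofAdd _, rfl⟩ (nU one_ne_zero) (nU hs.1) (wm .. ▸ nU (by grind))
      (by rw [wm, wm]; exact nU (by grind)) (fun n h1 h2 => ?_) (fun n h1 h2 k h3 h4 => ?_) hg)
    · have a2 : g * a * g⁻¹ ∉ U := fun h => a1 (by
        have := (inv_mem hg).1 _ h
        rwa [show a = g * a * g⁻¹ by
          calc a = g⁻¹ * (g * a * g⁻¹) * g := by group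
            _ = _ := by rw [← this]; group])
      have h1 := IH (U ⊔ zpowers (g * a * g⁻¹)) (lt_of_le_of_ne le_sup_left fun e =>
        a2 (e ▸ mem_sup_right (mem_zpowers _))) (sup_le hU (zpowers_le_of_mem h)) (mem_sup_left hφ)
      refine mem_normalizer_fintype fun m hm => ?_
      have m1 : g * m * g⁻¹ ∈ K := mul_mem (mul_mem hg (AK hm)) (inv_mem hg)
      refine S.three_A (h1 ⟨le_centralizer_iff.1 (sup_le (le_centralizer_iff.1 (zpowers_le_of_mem m1.1))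
        (zpowers_le_of_mem ?_)) (mem_zpowers _), m1.2⟩) (Kt m1) (k := 1) (by
          rw [conj_pow, pow_one, M_pow 3 (A_le hm)]; simp)
      rintro _ ⟨i, rfl⟩
      exact (show Commute _ _ from cj_comm (M_comm (A_le hm) (A_le ha))).zpow_left i
    · obtain ⟨c, rfl⟩ := ha
      obtain ⟨ε, -, h⟩ := act n h1 h2
      exact ⟨.ofAdd _, (h _).symm⟩
    · obtain ⟨c, rfl⟩ := ha
      refine (hact n h1 h2).resolve_right fun e => a1 ?_
      change n * w _ * n⁻¹ * (w _)⁻¹ ∈ U at h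
      rw [e, wi] at h
      have := hV _ (wm .. ▸ h)
      change w _ ∈ U
      rw [show c.toAdd = 0 by grind]
      simpa [w, pe_zero] using one_mem U
    · obtain ⟨ε, hε, h⟩ := act n h1 h2
      simp only [h, wm, wi]
      refine ⟨nU ?_, nU ?_, nU ?_, nU ?_, nU ?_⟩ <;> grind
    · obtain ⟨ε, hε, h⟩ := act n h1 h2
      obtain ⟨ε', hε', h'⟩ := act k h3 h4
      simp only [h, h', wm, wi]
      exact nU (by grind)
  have act : ∀ g ∈ K, g ∈ normalizer (A : Set G) → (g ∈ A ∨ g * ι tt ∈ A) ∨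
      ∀ b' z', R ι g (pe b' 0 0 z') (pe (b / z * z') 0 0 (z / b * b')) := fun g h1 h2 => by
    rcases S.mono (S.NA h2) (Kt h1) with h | h
    · obtain ⟨α, σ, e⟩ := S.diag (S.NA h2) (Kt h1) h
      have := pe_inj.1 ((S.eq_iff (e b z) (Kφ h1)).1 rfl)
      exact Or.inl (S.cA (Kt h1) fun b' z' => (e b' z').cast rfl (by
        rw [(mul_eq_right₀ hb).1 this.1, (mul_eq_right₀ hz).1 this.2.2.2, one_mul, one_mul]))
    · obtain ⟨α, σ, e⟩ := S.diag (mul_mem S.toSw.nM (S.NA h2)) ((Kt h1).comp S.nt) h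
      have := pe_inj.1 ((S.eq_iff (e b z) ((Kφ h1).comp (S.sw ..))).1 rfl)
      refine Or.inr fun b' z' => ?_
      have h3 := (e b' z').comp (S.sw ..)
      rw [← mul_assoc, S.n2, one_mul] at h3
      rwa [div_eq_of_eq_mul hz this.2.2.2.symm, div_eq_of_eq_mul hb this.1.symm]
  by_cases c1 : ∀ g ∈ K, g ∈ normalizer (A : Set G) → g ∈ A ∨ g * ι tt ∈ A
  · by_cases c2 : ∀ c, ι (pe (0 * c) 0 0 c) ∈ U → c = 0
    · exact app 0 c2 fun g h1 h2 => Or.inl (c1 g h1 h2)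
    push Not at c2
    obtain ⟨c, h1, h2⟩ := c2
    rw [zero_mul] at h1
    exact fun g hg => S.cZ h2 hb (R.of_comm (hg.1 _ h1).symm) (Kφ hg)
  push Not at c1
  obtain ⟨g, h1, h2, h3⟩ := c1
  have key : ∀ {g : G}, (∀ b' z', R ι g (pe b' 0 0 z') (pe (b / z * z') 0 0 (z / b * b'))) → ∀ c,
      R ι g (pe (-(b / z) * c) 0 0 c) (pe (-(b / z) * -c) 0 0 (-c)) := fun h c =>
    (h ..).cast rfl (by rw [pe_inj]; refine ⟨by ring, rfl, rfl, by field_simp⟩)
  refine app (-(b / z)) (fun c h => ?_) fun g h1 h2 => (act g h1 h2).imp id key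
  exact S.neg_eq (congrArg HS.z ((S.eq_iff (key ((act g h1 h2).resolve_left (not_or.2 h3)) c)
    (R.of_comm (h1.1 _ h).symm)).1 rfl))

theorem mixA {g : G} {b z b' z' : F} (hb : b' ≠ 0) (hz : z' ≠ 0) (ht : R ι g tt tt)
    (h : R ι g (pe b 0 0 z) (pe b' 0 0 z')) : g ∈ normalizer ((MM F).map ι : Set G) :=
  S.NA (mem_normalizer_fintype fun m hm => by
    have m1 : R ι (g * m * g⁻¹) tt tt := mul_assoc g m _ ▸ (ht.symm.comp (R.of_comm (A_t hm))).comp ht
    exact S.three_A (S.mixN hb hz m1 (R.of_comm (h ▸ cj_comm (M_comm (A_le hm) (pe_mem_M ..))))) m1 (k := 1) (by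
      rw [conj_pow, pow_one, M_pow 3 (A_le hm)]; simp))

theorem cij (hw : ¬ (n * ι ii * n⁻¹ * ι ii = ι ii * (n * ι ii * n⁻¹) ∧ n * ι ii * n⁻¹ * ι jj = ι jj * (n * ι ii * n⁻¹)))
    {g : G} (h1 : g * ι ii = ι ii * g) (h2 : g * ι jj = ι jj * g) : g ∈ normalizer ((ZZ F).map ι : Set G) := by
  set D := centralizer ({ι ii, ι jj} : Set G)
  have mD : ∀ {g : G}, g ∈ D ↔ g * ι ii = ι ii * g ∧ g * ι jj = ι jj * g := by
    intro g
    simp [D, mem_centralizer_iff, eq_comm]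
  rw [← mD] at hw
  set w := ι (pe 1 0 0 0) with hw0
  have wD : zpowers w ≤ normalizer (D : Set G) := zpowers_le_of_mem (mem_normalizer_fintype fun d hd => by
    have c1 : Commute d (ι ii) := (mD.1 hd).1
    have c2 : Commute d (ι jj) := (mD.1 hd).2
    have e1 : ι ii = w * (ι ii * ι jj) * w⁻¹ := by rw [hw0, ← map_mul, ← map_inv, ← map_mul, ← map_mul, w_ij]
    have e2 : ι jj = w * ι ii * w⁻¹ := by rw [hw0, ← map_inv, ← map_mul, ← map_mul, w_i]
    refine mD.2 ⟨?_, ?_⟩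
    · rw [e1]; exact ((c1.mul_right c2).map (MulAut.conj w)).eq
    · rw [e2]; exact (c1.map (MulAut.conj w)).eq)
  set K := D ⊔ zpowers w
  have KD : K ≤ normalizer (D : Set G) := sup_le le_normalizer wD
  have wK : w ∈ K := mem_sup_right (mem_zpowers w)
  have mK : ∀ {g : G}, g ∈ K → ∃ d ∈ D, ∃ n : ℕ, g = d * ι (pe n 0 0 0) := fun hg => by
    obtain ⟨d, hd, a, ha, rfl⟩ := (mem_sup_of_le_normalizer wD).1 hg
    obtain ⟨n, rfl⟩ := mem_powers_iff_mem_zpowers.2 ha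
    exact ⟨d, hd, n, by simp only [hw0, ← map_pow, pe_pow, mul_one, mul_zero]⟩
  have Dt : ∀ {g : G}, g ∈ D → R ι g tt tt := fun hd => R.of_comm (by
    have c1 : Commute _ (ι ii) := (mD.1 hd).1
    rw [← ii_sq, map_mul]; exact c1.mul_right c1)
  have Kt : ∀ {g : G}, g ∈ K → R ι g tt tt := fun hg => by
    obtain ⟨d, hd, n, rfl⟩ := mK hg
    exact (R.of_comm (A_t (pe_A ..))).comp (Dt hd)
  have ZD : ∀ z, ι (pe 0 0 0 z) ∈ D := fun z => mD.2 ⟨by rw [← map_mul, ← map_mul, pe_comm],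
    by rw [← map_mul, ← map_mul, pe_comm]⟩
  have tD : ι tt ∈ D := mD.2 ⟨by rw [← map_mul, ← map_mul, tt_comm rfl rfl],
    by rw [← map_mul, ← map_mul, tt_comm rfl rfl]⟩
  have τD : ∀ l h, tau ι n l h ∈ D := fun l h => mD.2 ⟨(S.tau_L h wSL).comm, (S.tau_L h jSL).comm⟩
  have XD : ∀ {b z}, ι (pe b 0 0 z) ∈ D → b = 0 := fun h => by
    simpa using congrArg HS.a (S.inj ((map_mul ι _ _).trans ((mD.1 h).1.trans (map_mul ι _ _).symm)))
  -- elements of `D` centralizing an element of `X`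
  have cX : ∀ {d b}, d ∈ D → b ≠ 0 → R ι d (pe b 0 0 0) (pe b 0 0 0) → d ∈ normalizer ((ZZ F).map ι : Set G) :=
    fun {d b} hd hb h => by
      obtain ⟨x, hx⟩ := S.mem_C hb (((S.sw ..).comp h).comp (S.sw ..).symm)
      have e : d = n * ι x * n⁻¹ := by rw [hx]; group
      have ht := (S.nt.comp (Dt hd)).comp S.nt.symm
      obtain ⟨hu, hv⟩ := uv_of_tt S.two (mul_inv_eq_iff_eq_mul.1 (S.eq_of (hx ▸ ht)))
      have nx : ∀ b z, n * ι (pe b 0 0 z) * n⁻¹ = ι (pe z 0 0 b) := fun b z => S.sw ..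
      have hd' := x.det
      by_cases c : x.c = 0
      · have a0 : x.a ≠ 0 := fun e => by simp [e, c] at hd'
        have e1 : x = pe (x.b * x.a) 0 0 x.z * hh x.a a0 := by ext <;> simp [c, hu, hv] <;> grind
        rw [e, e1, map_mul, ← conj_mul, nx]
        exact mul_mem (S.C_le_NZ _) (S.tau_Z a0)
      exfalso
      have e1 : x = pe (x.a / x.c) 0 0 0 * hh x.c⁻¹ (inv_ne_zero c) * (pe 0 0 0 x.z * ii) * pe (x.d / x.c) 0 0 0 := by
        ext <;> simp [hu, hv] <;> grind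
      rw [e, e1, map_mul, map_mul, map_mul, ← conj_mul, ← conj_mul, ← conj_mul, nx, nx,
        mul_mem_cancel_right (ZD _)] at hd
      replace hd := (mul_mem_cancel_left (mul_mem (ZD _) (τD _ _))).1 hd
      have h3 := pow_mem hd (3 * 3)
      rw [conj_pow, ← map_pow, Commute.mul_pow (pe_comm ..).symm, pow_mul, pe_pow, Nat.cast_ofNat, HS.h3 (F := F), zero_mul,
        zero_mul, pe_zero, one_pow, one_mul, show (ii : HS F) ^ (3 * 3) = ii by
          simp only [pow_succ, pow_zero, one_mul, ← mul_assoc]; ext <;> simp] at h3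
      exact hw h3
  set A := (ZZ F).map ι ⊔ zpowers w
  have AX : A ≤ (ZX F).map ι := sup_le (fun a ha => by obtain ⟨z, rfl⟩ := mem_Z.1 ha; exact pe_A ..)
    (zpowers_le_of_mem (pe_A ..))
  have AK : A ≤ K := sup_le_sup_right (fun a ha => by obtain ⟨z, rfl⟩ := mem_Z.1 ha; exact ZD z) _
  have ZA : ∀ z, ι (pe 0 0 0 z) ∈ A := fun z => mem_sup_left (pe_mem_Z z)
  have wA : w ∈ A := mem_sup_right (mem_zpowers w)
  have nA : ∀ (m : ℕ) z, ι (pe m 0 0 z) ∈ A := fun m z => by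
    simpa only [hw0, ← map_pow, pe_pow, pe_mul', mul_one, mul_zero, zero_add, add_zero] using mul_mem (ZA z) (pow_mem wA m)
  have KC : ∀ {g : G}, g ∈ K → g ∈ ι.range → g ∈ A ∨ g * ι tt ∈ A := fun hg hr => by
    obtain ⟨d, hd, m, rfl⟩ := mK hg
    obtain ⟨x, rfl⟩ := (mul_mem_cancel_right (show ι (pe m 0 0 0) ∈ ι.range from ⟨_, rfl⟩)).1 hr
    rcases of_comm_ij (x := x) (S.inj (by rw [map_mul, map_mul, (mD.1 hd).1]))
      (S.inj (by rw [map_mul, map_mul, (mD.1 hd).2])) with e | e <;> rw [e]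
    · left; rw [pe_mul', zero_add]; exact nA _ _
    · right; rw [map_mul, mul_assoc, mul_assoc, ← mul_assoc _ _ (ι tt), pe_mul', A_t (pe_A ..), ← mul_assoc, t_t', one_mul,
        zero_add]; exact nA _ _
  have KZ : ∀ {g : G}, g ∈ K → g ∈ normalizer ((ZZ F).map ι : Set G) →
      ∃ s, s ≠ 0 ∧ ∀ b z, R ι g (pe b 0 0 z) (pe b 0 0 (s ^ 2 * z)) := fun hg hn => by
    obtain ⟨s, hs, x, rfl⟩ := S.NZ hn
    have := KC ((mul_mem_cancel_left (mem_sup_left (τD s hs))).1 hg) ⟨x, rfl⟩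
    exact ⟨s, hs, fun b z => R.comp (fix_A (this.imp (@AX _) (@AX _)) (pe_A b z))
      ((S.tau_M hs ..).cast rfl (by rw [mul_zero]))⟩
  have NA : ∀ {g : G}, g ∈ K → g ∈ normalizer ((ZZ F).map ι : Set G) → g ∈ normalizer (A : Set G) := fun hg hn => by
    obtain ⟨s, -, h⟩ := KZ hg hn
    refine mem_normalizer_of_cj_le ?_
    rw [cj_sup]
    refine sup_le ((cj_eq_self hn).le.trans le_sup_left) ?_
    rw [H8.cj, MonoidHom.map_zpowers]
    exact zpowers_le_of_mem (by rw [MulEquiv.coe_toMonoidHom, MulAut.conj_apply, hw0, h 1 0]; simpa using nA 1 _)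
  have zD : ∀ {g z}, g ∈ K → z ≠ 0 → g * ι (pe 0 0 0 z) * g⁻¹ ∈ (ZX F).map ι → g ∈ normalizer ((ZZ F).map ι : Set G) :=
    fun {g z} hg hz h => by
      obtain ⟨b, z', e⟩ := mem_ZX.1 h
      obtain rfl := XD (e ▸ (mem_normalizer_iff.1 (KD hg) _).1 (ZD z))
      exact S.normZ hz e.symm
  have NZ : ∀ {g : G}, g ∈ K → g ∈ normalizer (A : Set G) → g ∈ normalizer ((ZZ F).map ι : Set G) := fun hg hn =>
    zD hg one_ne_zero (AX ((mem_normalizer_iff.1 hn _).1 (ZA 1)))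
  have MZ : ∀ {g : G}, g ∈ K → g ∈ normalizer ((MM F).map ι : Set G) → g ∈ normalizer ((ZZ F).map ι : Set G) :=
    fun hg hn => zD hg one_ne_zero ((mem_normalizer_iff.1 (S.MA hn (Kt hg)) _).1 (pe_A ..))
  have nU : ∀ {b z : F}, b ≠ 0 ∨ z ≠ 0 → ι (pe b 0 0 z) ∉ (⊥ : Subgroup G) := fun h e => by
    rw [mem_bot, ← map_one ι, S.inj.eq_iff, ← pe_zero, pe_inj] at e
    tauto
  have gK : g ∈ K := mem_sup_left (mD.2 ⟨h1, h2⟩)
  refine NZ gK (gl333T (K := K) (A0 := (ZZ F).map ι) (U := ⊥) t_t' (mem_sup_left tD) (fun k hk => (Kt hk).comm) AK bot_le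
    le_sup_left (fun k _ u hu => by simp [mem_bot.1 hu]) (fun g hg a ha a1 h => NA hg ?_)
    (fun a ha b hb => M_comm (A_le (AX ha)) (A_le (AX hb))) (fun a ha => M_pow 3 (A_le (AX ha))) (fun g hg hn h => ?_)
    (fun n h1 hn a ha => (mem_normalizer_iff.1 (NZ h1 hn) a).1 ha) (fun n hn hn' a ha a1 h => ?_)
    (x := w) (y := ι (pe 1 0 0 1)) (b := ι (pe 0 0 0 (-1))) wA (by simpa using nA 1 1) (pe_mem_Z _)
    (nU (Or.inl one_ne_zero)) (nU (Or.inl one_ne_zero)) ?_ ?_ (fun n hn hn' => ?_) (fun n hn hn' k hk hk' => ?_) gK)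
  · obtain ⟨b, z, rfl⟩ := mem_ZX.1 (AX ha)
    by_cases hb : b = 0
    · subst hb
      exact zD hg (fun e => a1 (by rw [e, pe_zero, map_one]; exact one_mem _)) (AX h)
    obtain ⟨b', z', e⟩ := mem_ZX.1 (AX h)
    replace e : R ι g (pe b 0 0 z) (pe b' 0 0 z') := e.symm
    by_cases hz : z = 0
    swap
    · exact MZ hg (inv_mem_iff.1 (S.mixA hb hz (Kt hg).symm e.symm))
    subst hz
    obtain ⟨d, hd, m, rfl⟩ := mK hg
    have e1 := (R.of_comm (g := ι (pe m 0 0 0)) (M_comm (pe_mem_M ..) (pe_mem_M b 0 0))).symm.comp e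
    rw [mul_inv_cancel_right] at e1
    obtain rfl : b' = b := by
      have := mul_mem hd ((mem_normalizer_iff.1 (KD (AK ha)) _).1 (inv_mem hd))
      rw [← mul_assoc, ← mul_assoc, e1, pe_inv', pe_mul'] at this
      linear_combination XD this
    by_cases hz : z' = 0
    · exact mul_mem (cX hd hb (hz ▸ e1)) (S.C_le_NZ _)
    · exact MZ hg (S.mixA hb hz (Kt hg) e)
  · refine (KC hg (S.pelt_mem 3 (NZ hg hn) (k := 1) h)).elim id fun e => ?_
    have := M_pow 3 (A_le (AX e))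
    rw [Commute.mul_pow (Kt hg).comm, mem_bot.1 h, one_mul, pow_succ, sq, t_t', one_mul] at this
    rwa [this, mul_one] at e
  · obtain ⟨z, rfl⟩ := mem_Z.1 ha
    exact KC hn (S.mem_C (fun e => a1 (by rw [e, pe_zero, map_one]; exact one_mem _)) (mul_inv_eq_one.1 h))
  · rw [hw0, pe_mul']; exact nU (Or.inr (by simp))
  · rw [hw0, pe_mul', pe_mul']; exact nU (Or.inl (by simpa [one_add_one_eq_two] using S.two))
  · obtain ⟨s, -, e⟩ := KZ hn (NZ hn hn')
    rw [hw0, e, e]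
    simp only [pe_inv', pe_mul']
    exact ⟨nU (Or.inr (by simp)), nU (Or.inl (by simp)), nU (Or.inl (by simp)), nU (Or.inl (by simp)),
      nU (Or.inl (by simp))⟩
  · obtain ⟨s, -, e⟩ := KZ hn (NZ hn hn')
    obtain ⟨s', s0, e'⟩ := KZ hk (NZ hk hk')
    rw [hw0, e, e']
    simp only [pe_inv', pe_mul']
    exact nU (Or.inr (by simpa using s0))

theorem w2 : n * ι ii * n⁻¹ * ι ii = ι ii * (n * ι ii * n⁻¹) ∧ n * ι ii * n⁻¹ * ι jj = ι jj * (n * ι ii * n⁻¹) := by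
  by_contra hw
  have : Fact (Nat.Prime 2) := ⟨Nat.prime_two⟩
  have cij' : ∀ {g : G}, g⁻¹ * ι ii * g ∈ ι.range → g⁻¹ * ι jj * g ∈ ι.range →
      g ∈ normalizer ((ZZ F).map ι : Set G) := fun {g} h1 h2 => by
    have key : ∀ {y : G}, g⁻¹ * y * g ∈ ι.range → g * ι (pe 0 0 0 1) * g⁻¹ * y = y * (g * ι (pe 0 0 0 1) * g⁻¹) := by
      rintro y ⟨x, hx⟩
      calc _ = g * (ι (pe 0 0 0 1) * ι x) * g⁻¹ := by rw [hx]; group
        _ = _ := by rw [← map_mul, ← pe_comm, map_mul, hx]; group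
    have c3 : (g * ι (pe 0 0 0 1) * g⁻¹) ^ 3 ^ 1 = 1 := by
      rw [pow_one, conj_pow, M_pow 3 (pe_mem_M ..), mul_one, mul_inv_cancel]
    obtain ⟨x, hx⟩ := S.pelt_mem 3 (S.cij hw (key h1) (key h2)) c3
    rw [← hx] at key c3
    rcases of_comm_ij (x := x) (S.inj (by rw [map_mul, map_mul, key h1])) (S.inj (by rw [map_mul, map_mul, key h2]))
      with e | e
    · exact S.normZ one_ne_zero (show R ι g _ _ by rw [R, ← hx, e])
    · have := a_eq_one (p := 3) (x := x) (k := 1) (by rw [e]; simp) (S.inj (by rw [map_pow, c3, map_one]))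
      rw [e] at this
      exact absurd (by simp at this; linear_combination -this) S.two
  have t2 : ∀ {x : HS F}, x * x = tt → ι x ^ 2 ^ 2 = 1 := fun {x} h => by
    rw [← map_pow, show x ^ 2 ^ 2 = x * x * (x * x) by simp [pow_succ, mul_assoc], h, tt_sq, map_one]
  have cW : ∀ {x : HS F}, x * x = tt → ι x ∈ centralizer {ι tt} := fun {x} h =>
    mem_centralizer_singleton_iff.2 (by rw [← h, map_mul, mul_assoc])
  obtain ⟨T, hT, hle⟩ := exists_isSylowIn_ge (K := centralizer {ι tt}) ((pgroup_zp (t2 ii_sq)).to_sup_of_normal_left'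
    (pgroup_zp (t2 jj_sq)) (zpowers_le_of_mem (mem_normalizer_fintype (by
      rintro _ ⟨n, rfl⟩
      refine ⟨-n, ?_⟩
      simp only
      rw [← conj_zpow, ← map_inv, ← map_mul, ← map_mul, j_i, map_inv, _root_.inv_zpow']))))
    (sup_le (zpowers_le_of_mem (cW ii_sq)) (zpowers_le_of_mem (cW jj_sq)))
  have hN : T ≤ normalizer ((ZZ F).map ι : Set G) := by
    by_contra hn
    obtain ⟨g, hg, hg'⟩ := SetLike.exists_of_lt (lt_inf_normalizer_of_pgroup hT.pgroup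
      (lt_of_le_of_ne inf_le_left fun e => hn (e.ge.trans inf_le_right) :
        T ⊓ normalizer ((ZZ F).map ι : Set G) < T))
    have key : ∀ {x : HS F}, x * x = tt → ι x ∈ T → g⁻¹ * ι x * g ∈ ι.range := fun {x} h hx =>
      S.mem_C_of_sq 3 S.ns ((mem_normalizer_iff''.1 hg.2 _).1 (mem_inf.2 ⟨hx, S.C_le_NZ x⟩)).2 (by
        have := mem_centralizer_singleton_iff.1 (hT.le hg.1)
        calc _ = g⁻¹ * (ι x * ι x * g) := by group
          _ = _ := by rw [← map_mul, h, ← this]; group)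
    exact hg' ⟨hg.1, cij' (key ii_sq (hle (mem_sup_left (mem_zpowers _))))
      (key jj_sq (hle (mem_sup_right (mem_zpowers _))))⟩
  obtain ⟨T', hT', hle⟩ := exists_isSylowIn_ge (K := centralizer {ι tt})
    (pgroup_zp (p := 2) (k := 1) (by rw [pow_one, sq, S.n2]))
    (zpowers_le_of_mem (mem_centralizer_singleton_iff.2 S.nt.comm))
  obtain ⟨c, hc, rfl⟩ := hT.exists_cj_eq hT'
  have h1 := mem_cj.1 (hle (mem_zpowers _))
  have hc' := mem_centralizer_singleton_iff.1 hc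
  have s2 : c⁻¹ * n * c * (c⁻¹ * n * c) = 1 := by simpa using conj_sq (k := c⁻¹) S.n2
  by_cases hC : c⁻¹ * n * c ∈ ι.range
  · obtain ⟨x, hx⟩ := hC
    have e : n = c * ι x * c⁻¹ := by rw [hx]; group
    refine S.toSw.nZ ?_
    rcases S.eq_of_sq (x := x) (S.inj (by rw [map_mul, map_mul, hx, mem_centralizer_singleton_iff.1 (hT.le h1)]))
      (S.inj (by rw [map_mul, hx, s2, map_one])) with rfl | rfl <;> rw [e]
    · simp
    · rw [hc', mul_inv_cancel_right]; exact S.C_le_NZ _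
  · obtain ⟨s, -, h⟩ := S.toSw.is_sq 3 (S.inv_Z (hN h1) hC (s2 ▸ one_mem _) 1)
    exact S.ns s (by rw [h, sq])

theorem w2L (a : SL(2, F)) : n * ι ii * n⁻¹ * ι (sl a) = ι (sl a) * (n * ι ii * n⁻¹) := by
  have hu : ∀ c, Commute (n * ι ii * n⁻¹) (ι (sl (up c))) := fun c => by
    rw [sl_up, ← S.sw 0 0 c]; exact cj_comm (by rw [← map_mul, ← map_mul, pe_comm])
  have hw : Commute _ _ := S.w2.1
  refine (mem_centralizer_singleton_iff.1 ((eq_top_of_up_lo (L := (centralizer {n * ι ii * n⁻¹}).comap (ι.comp sl))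
    (fun c => mem_centralizer_singleton_iff.2 (hu c).symm) fun c => mem_centralizer_singleton_iff.2 ?_).ge
    (mem_top a))).symm
  rw [show lo c = wSL * up (-c) * wSL⁻¹ by apply ext4 <;> simp only [wSL] <;> sl2_simp <;> ring]
  simpa [sl_w] using ((hw.mul_right (hu (-c))).mul_right hw.inv_right).symm.eq

theorem comm (a c : SL(2, F)) : ι (sl a) * (n * ι (sl c) * n⁻¹) = n * ι (sl c) * n⁻¹ * ι (sl a) := by
  have hu : ∀ c, Commute (ι (sl a)) (n * ι (sl (up c)) * n⁻¹) := fun c => by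
    rw [sl_up, S.sw, Commute, SemiconjBy, ← map_mul, ← map_mul, pe_comm]
  have hw : Commute _ _ := (S.w2L a).symm
  refine (mem_centralizer_singleton_iff.1 ((eq_top_of_up_lo
    (L := (centralizer {ι (sl a)}).comap ((MulAut.conj n).toMonoidHom.comp (ι.comp sl)))
    (fun c => mem_centralizer_singleton_iff.2 (hu c).symm) fun c => mem_centralizer_singleton_iff.2 ?_).ge
    (mem_top c))).symm
  rw [show lo c = wSL * up (-c) * wSL⁻¹ by apply ext4 <;> simp only [wSL] <;> sl2_simp <;> ring]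
  simpa [sl_w, mul_assoc] using ((hw.mul_right (hu (-c))).mul_right hw.inv_right).symm.eq

theorem tw : Tw (ι.comp sl) ((MulAut.conj n).toMonoidHom.comp (ι.comp sl)) n := by
  have nz : ∀ z, ι (pe 0 0 0 z) = n * ι (sl (up z)) * n⁻¹ := fun z => Eq.symm (S.sw z 0 0)
  have hh' : ∀ (s : F) (hs : s ≠ 0), ι (hh s hs) = ι (sl (sp (hh s hs))) := fun s hs => rfl
  have HZ : ∀ {g : G}, g ∈ normalizer ((ZZ F).map ι : Set G) → R ι g tt tt →
      ∃ a c : SL(2, F), c 1 0 = 0 ∧ g = ι (sl a) * (n * ι (sl c) * n⁻¹) := fun hg ht => by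
    obtain ⟨s, hs, a, z, rfl⟩ := S.HZ hg ht
    refine ⟨a, sp (hh s hs) * up z, by simp only [sp]; sl2_simp; simp, ?_⟩
    rw [S.comm, map_mul, map_mul, map_mul, ← conj_mul, ← nz, ← hh', tau, ← mul_assoc]
  refine ⟨S.inj.comp sl_inj, S.n2, fun a => rfl, by simpa [sl_neg, R] using S.nt, S.comm, S.ns, S.big,
    fun k b b' hb h1 h2 => ?_, fun k b c hb hc h1 h2 => ?_, fun k h => ?_⟩
  · have ht : R ι k tt tt := R.of_comm (by simpa [sl_neg] using h1)
    obtain ⟨a, c, h, e⟩ := HZ (S.normZ hb (((S.sw ..).comp h2).comp (S.sw ..).symm)) ((S.nt.comp ht).comp S.nt.symm)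
    refine ⟨c, a, h, ?_⟩
    rw [inv_mul_eq_iff_eq_mul, ← eq_mul_inv_iff_mul_eq, S.comm] at e
    rw [e]
    simp [S.ninv, ← mul_assoc, S.n2]
  · have ht : R ι k tt tt := R.of_comm (by simpa [sl_neg] using h1)
    have e : (ι.comp sl) (up b) * ((MulAut.conj n).toMonoidHom.comp (ι.comp sl)) (up c) = ι (pe b 0 0 c) := by
      rw [show ι (pe b 0 0 c) = ι (pe b 0 0 0) * ι (pe 0 0 0 c) by simp [pe_mul'], nz]; rfl
    rw [e] at h2
    rcases S.mono (S.mixN hb hc ht (R.of_comm h2)) ht with h | h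
    · obtain ⟨a, c, -, e⟩ := HZ h ht
      exact ⟨a, c, Or.inl e⟩
    · obtain ⟨a, c, -, e⟩ := HZ h (ht.comp S.nt)
      refine ⟨c, a, Or.inr ?_⟩
      rw [← eq_inv_mul_iff_mul_eq, S.comm] at e
      rw [e]
      simp [S.ninv, ← mul_assoc, S.n2]
      simp [mul_assoc, S.n2]
  · obtain ⟨s, -, h⟩ := S.toSw.is_sq 3 (c := -1) (((S.sw ..).comp h).comp (S.sw ..))
    exact S.ns s (by rw [h, sq])

end Fu

end Cfsg.Agent.H5.HS
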