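import Cfsg.Agent.H5.HS10

/-!
# The case in which `N(M)` is not `3`-closed: identification of the group
-/

set_option autoImplicit false

namespace Cfsg.Agent.H5.HS

open Subgroup Cfsg.Agent.H8 Matrix Cfsg.Agent.H4.SL2
open scoped MatrixGroups

variable {F : Type*} [Field F] {G : Type*} [Group G] {ι : HS F →* G}

local instance : Fact (Nat.Prime 3) := ⟨Nat.prime_three⟩

structure Rel (ι : HS F →* G) (n : G) : Prop where
  n2 : n * n = 1
  nt : R ι n tt tt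
  sw : ∀ b u z, R ι n (pe b u 0 z) (pe z u 0 b)
  sc : ∀ l h x, R ι (tau ι n l h) x (scale l x)
  w2 : ∀ a, n * ι ii * n⁻¹ * ι (sl a) = ι (sl a) * (n * ι ii * n⁻¹)
  r5 : ∀ v (h : v ≠ 0), n * ι (pe 0 0 v 0) * n⁻¹ = ι (pe 0 0 v⁻¹ 0) * tau ι n v⁻¹ (inv_ne_zero h) *
    ι (hh (-v) (neg_ne_zero.2 h)) * n * ι (pe 0 0 v⁻¹ 0)

theorem dec {x : HS F} (h : x.c = 0) : ∃ b u z a ha v, x = pe b u 0 z * hh a ha * pe 0 0 v 0 := by
  have hd := x.det
  have ha : x.a ≠ 0 := fun e => by simp [e, h] at hd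
  refine ⟨x.b * x.a, x.u - x.b * x.a * x.v, x.z - (x.u - x.b * x.a * x.v) * x.v, x.a, ha, x.a * x.v, ?_⟩
  ext <;> simp [h] <;> grind

theorem tau_neg {n : G} (h : R ι n tt tt) : tau ι n (-1) (neg_ne_zero.2 one_ne_zero) = ι tt := by rw [tau, hh_neg, h]

namespace Rel

variable {n : G} (S : Rel ι n)

theorem prod {G' : Type*} [Group G'] {ι' : HS F →* G'} {n' : G'} (S : Rel ι n) (S' : Rel ι' n') :
    Rel (ι.prod ι') (n, n') :=
  ⟨Prod.ext S.n2 S'.n2, Prod.ext S.nt S'.nt, fun _ _ _ => Prod.ext (S.sw ..) (S'.sw ..),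
    fun _ _ _ => Prod.ext (S.sc ..) (S'.sc ..), fun a => Prod.ext (S.w2 a) (S'.w2 a),
    fun v h => Prod.ext (S.r5 v h) (S'.r5 v h)⟩

def PT : Subgroup G where
  carrier := {g | ∃ x l h, g = ι x * tau ι n l h}
  mul_mem' := by
    rintro _ _ ⟨x, l, h, rfl⟩ ⟨y, m, h', rfl⟩
    exact ⟨x * scale l y, l * m, mul_ne_zero h h', by rw [map_mul, ← S.sc l h, ← tau_mul h h']; group⟩
  one_mem' := ⟨1, 1, one_ne_zero, by simp [tau_one]⟩
  inv_mem' := by
    rintro _ ⟨x, l, h, rfl⟩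
    refine ⟨scale l⁻¹ x⁻¹, l⁻¹, inv_ne_zero h, ?_⟩
    rw [← S.sc _ (inv_ne_zero h), inv_mul_cancel_right, map_inv, _root_.mul_inv_rev, mul_left_inj, inv_eq_iff_mul_eq_one,
      tau_mul, tau_congr _ one_ne_zero (mul_inv_cancel₀ h), tau_one]

theorem i_P (x : HS F) : ι x ∈ S.PT := ⟨x, 1, one_ne_zero, by simp [tau_one]⟩
theorem t_P (l : F) (h : l ≠ 0) : tau ι n l h ∈ S.PT := ⟨1, l, h, by simp⟩

def Om (g : G) : Prop := g ∈ S.PT ∨ ∃ p ∈ S.PT, ∃ q ∈ S.PT, g = p * n * q ∨ g = p * (n * ι ii * n⁻¹) * q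

variable {S} in
theorem Om.mul {g p q : G} (h : S.Om g) (hp : p ∈ S.PT) (hq : q ∈ S.PT) : S.Om (p * g * q) := by
  rcases h with h | ⟨a, ha, b, hb, h⟩
  · exact Or.inl (mul_mem (mul_mem hp h) hq)
  · exact Or.inr ⟨p * a, mul_mem hp ha, b * q, mul_mem hb hq, h.imp (fun h => by rw [h]; group) fun h => by rw [h]; group⟩

theorem om_n : S.Om n := Or.inr ⟨1, one_mem _, 1, one_mem _, Or.inl (by simp)⟩
theorem om_w : S.Om (n * ι ii * n⁻¹) := Or.inr ⟨1, one_mem _, 1, one_mem _, Or.inr (by simp)⟩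

include S in
theorem ninv : n⁻¹ = n := inv_eq_of_mul_eq_one_right S.n2

theorem nxn (x : HS F) : S.Om (n * ι x * n⁻¹) := by
  have nM : ∀ b u z, n * ι (pe b u 0 z) * n⁻¹ ∈ S.PT := fun b u z => S.sw b u z ▸ S.i_P _
  by_cases h : x.c = 0
  · obtain ⟨b, u, z, a, ha, v, rfl⟩ := dec h
    rw [map_mul, map_mul, ← conj_mul, ← conj_mul, ← mul_one (_ * _)]
    refine Om.mul ?_ (mul_mem (nM ..) (S.t_P a ha)) (one_mem _)
    by_cases hv : v = 0
    · exact Or.inl (hv ▸ nM 0 0 0)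
    · rw [S.r5 v hv]
      exact S.om_n.mul (mul_mem (mul_mem (S.i_P _) (S.t_P ..)) (S.i_P _)) (S.i_P _)
  · obtain ⟨b, u, z, a, ha, v, e⟩ := dec (x := x * pe (-(x.d / x.c)) 0 0 0 * ii⁻¹) (by simp; field_simp; ring)
    rw [show x = pe b u 0 z * hh a ha * ii * (pe 0 v 0 0 * pe (x.d / x.c) 0 0 0) by
      rw [← mul_assoc, mul_assoc _ ii, show ii * pe 0 v 0 0 = pe 0 0 v 0 * ii by ext <;> simp, ← mul_assoc, ← e,
        inv_mul_cancel_right, mul_assoc, pe_mul]; simp [pe_zero],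
      map_mul, map_mul, map_mul, map_mul, ← conj_mul, ← conj_mul, ← conj_mul, ← conj_mul]
    exact S.om_w.mul (mul_mem (nM ..) (S.t_P a ha)) (mul_mem (nM ..) (nM ..))

theorem npn {p : G} (hp : p ∈ S.PT) : S.Om (n * p * n) := by
  obtain ⟨x, l, h, rfl⟩ := hp
  have := (S.nxn x).mul (one_mem _) (S.i_P (hh l h))
  rwa [one_mul, show n * ι x * n⁻¹ * ι (hh l h) = n * (ι x * tau ι n l h) * n by
    rw [tau, S.ninv]; simp [mul_assoc, S.n2]] at this

theorem npw {p : G} (hp : p ∈ S.PT) : S.Om (n * p * (n * ι ii * n⁻¹)) := by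
  obtain ⟨x, l, h, rfl⟩ := hp
  have nw : ∀ y, n * ι y * (n * ι ii * n⁻¹) = n * ι y * n⁻¹ * ι ii * n := fun y => by rw [S.ninv]; group
  suffices ∀ u v z, S.Om (n * ι (pe 0 u v z) * (n * ι ii * n⁻¹)) by
    have := (this x.u x.v x.z).mul (one_mem _) (mul_mem (S.i_P (sl (sp x))) (S.t_P _ (inv_ne_zero h)))
    rwa [one_mul, mul_assoc, ← mul_assoc (_ * _⁻¹), S.w2, mul_assoc, mul_assoc (ι _), tau, conj_mul, ← map_mul,
      show ii * hh l⁻¹ (inv_ne_zero h) = hh l h * ii by ext <;> simp, map_mul, ← conj_mul, ← mul_assoc (ι _), ← map_mul,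
      pe_sl, ← mul_assoc (ι _), ← mul_assoc n] at this
  intro u v z
  by_cases hv : v = 0
  · rw [hv, nw, S.sw, ← mul_one (_ * _)]
    exact S.om_n.mul (mul_mem (S.i_P _) (S.i_P _)) (one_mem _)
  have h1 := (S.npn (S.i_P (pe 0 0 v⁻¹ 0 * pe z 0 0 0 * ii))).mul (mul_mem (S.i_P (pe 0 0 0 (u / v)))
    (mul_mem (mul_mem (S.i_P (pe 0 0 v⁻¹ 0)) (S.t_P _ (inv_ne_zero hv))) (S.i_P (hh _ (neg_ne_zero.2 hv)))))
    (inv_mem (S.i_P (sl (up (u / v)))))
  convert h1 using 1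
  rw [eq_mul_inv_iff_mul_eq, mul_assoc, S.w2, ← mul_assoc, mul_assoc n, ← map_mul,
    show pe 0 u v z * sl (up (u / v)) = pe (u / v) 0 0 0 * pe 0 0 v 0 * pe 0 0 0 z by
      rw [sl_up]; simp only [pe_mul, pe_inj]; refine ⟨by ring, by field_simp; ring, by ring, by ring⟩,
    nw, map_mul, map_mul, ← conj_mul, ← conj_mul, S.sw, S.sw, S.r5 v hv, map_mul, map_mul]
  group

theorem om {g : G} (hg : g ∈ ι.range ⊔ zpowers n) : S.Om g := by
  let K : Subgroup G :=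
    { carrier := {g | ∀ h, S.Om h ↔ S.Om (g * h)}
      mul_mem' := fun ha hb h => by rw [hb h, ha, mul_assoc]
      one_mem' := fun h => by rw [one_mul]
      inv_mem' := fun {a} ha h => by rw [ha (a⁻¹ * h), mul_inv_cancel_left] }
  have k1 : ∀ {h}, S.Om h → S.Om (n * h) := by
    rintro h (hp | ⟨p, hp, q, hq, rfl | rfl⟩)
    · simpa using S.om_n.mul (one_mem _) hp
    · simpa [mul_assoc] using (S.npn hp).mul (one_mem _) hq
    · simpa [mul_assoc] using (S.npw hp).mul (one_mem _) hq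
  have : ι.range ⊔ zpowers n ≤ K := sup_le (by
    rintro _ ⟨x, rfl⟩ h
    exact ⟨fun e => by simpa using e.mul (S.i_P x) (one_mem _), fun e => by
      simpa using e.mul (inv_mem (S.i_P x)) (one_mem _)⟩)
    (zpowers_le_of_mem fun h => ⟨k1, fun e => by simpa [← mul_assoc, S.n2] using k1 e⟩)
  simpa using (this hg 1).1 (Or.inl (one_mem _))

end Rel

namespace Fu

variable {n : G} (S : Fu ι n) [Finite G] [CharP F 3]
include S

theorem exists_zeta : ∃ ζ : G, Commute ζ n ∧ (∀ v, Commute ζ (ι (pe 0 0 v 0))) ∧ (∀ l h, Commute ζ (ι (hh l h))) ∧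
    ∀ {g g' : G} {m : Matrix (Fin 2) (Fin 2) F}, Ac ι 0 g m → Ac ι 0 g' m → m.det ≠ 0 → Commute ζ g → Commute ζ g' →
      g = g' := by
  obtain ⟨l, l0, l1⟩ := H1.SLn.exists_sq_ne_one (F := F) (by have := S.big; omega)
  have c0 : ∀ m h, Commute (tau ι n l l0) (ι (hh m h)) := fun m h => (S.tau_L l0 (sp (hh m h))).comm
  refine ⟨tau ι n l l0 * ι (hh l l0), ?_, fun v => R.comm (((R.self _ _).cast rfl ?_).comp ((S.tau_Q l0 0 (v / l) 0).cast
    rfl (by simp [mul_div_cancel₀ _ l0]))), fun m h => (c0 m h).mul_left ?_, fun {g g' m} h h' h0 c c' => ?_⟩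
  · rw [Commute, SemiconjBy]
    nth_rewrite 2 [(c0 l l0).eq]
    simp only [tau, S.ninv, mul_assoc]
  · rw [conj_Q]; simp [div_eq_inv_mul]
  · rw [Commute, SemiconjBy, ← map_mul, ← map_mul, hh_mul, hh_mul]; simp only [mul_comm]
  · have := Matrix.invertibleOfIsUnitDet m (Ne.isUnit h0)
    obtain ⟨b, u, z, e⟩ := mem_M.1 (S.mem_M_of_ac (((h.inv (mul_invOf_self m)).mul h').cast (invOf_mul_self m)))
    have h1 := (R.h (ι := ι) l0 b u z).comp (S.tau_M l0 ..)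
    have h2 := pe_inj.1 ((S.eq_iff h1 (R.of_comm (e ▸ c.inv_right.mul_right c'))).1 rfl)
    have l2 := sub_ne_zero.2 l1
    rw [show b = 0 from mul_left_cancel₀ l2 (by grind), show u = 0 from mul_left_cancel₀ l2 (by grind),
      show z = 0 from mul_left_cancel₀ l2 (by grind), pe_zero, map_one, eq_comm, inv_mul_eq_one] at e
    exact e

theorem rel : Rel ι n := by
  refine ⟨S.n2, S.nt, S.sw, fun _ h => S.sc h, S.w2L, fun v h => ?_⟩
  obtain ⟨ζ, c1, c2, c3, k⟩ := S.exists_zeta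
  refine k (m := !![1, 0; -v, 1]) (S.ninv.symm ▸ ((S.ac.mul (Ac.y v)).mul S.ac).cast ?_)
    ((((((Ac.y _).mul (S.toSw.ac_d 3 _)).mul (S.toSw.ac_h _)).mul S.ac).mul (Ac.y _)).cast ?_) (by simp)
    ((c1.mul_right (c2 _)).mul_right c1.inv_right) (((((c2 _).mul_right ((c1.mul_right (c3 ..)).mul_right
      c1.inv_right)).mul_right (c3 ..)).mul_right c1).mul_right (c2 _)) <;>
    simp [← Matrix.ext_iff, Fin.forall_fin_two, h]

theorem gen : ι.range ⊔ zpowers n = ⊤ := by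
  obtain ⟨ζ, c1, c2, c3, k⟩ := S.exists_zeta
  have hn : n ∈ ι.range ⊔ zpowers n := mem_sup_right (mem_zpowers n)
  have hi : ∀ x, ι x ∈ ι.range ⊔ zpowers n := fun x => mem_sup_left ⟨x, rfl⟩
  have t3 := h3 (F := F)
  have a1 := ((S.ac.mul (Ac.y (-1))).mul S.ac).mul (Ac.y (-1))
  have c4 := ((c1.mul_right (c2 (-1))).mul_right c1).mul_right (c2 (-1))
  refine S.tw.eq_top (sup_le (sup_le (by rintro _ ⟨a, rfl⟩; exact hi _) (by
    rintro _ ⟨a, rfl⟩; exact mul_mem (mul_mem hn (hi _)) (inv_mem hn))) le_sup_right)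
    (mul_mem (mul_mem (mul_mem hn (hi (pe 0 0 (-1) 0))) hn) (hi (pe 0 0 (-1) 0))) ?_
  rw [MonoidHom.comp_apply, sl_neg, ← hh_neg]
  refine k (((a1.mul (S.toSw.ac_h _)).mul (a1.inv (m' := !![-1, -1; -1, 1]) ?_)).cast ?_) S.ac (by simp)
    ((c4.mul_right (c3 ..)).mul_right c4.inv_right) c1 <;> simp [← Matrix.ext_iff, Fin.forall_fin_two] <;> grind

end Fu

theorem Rel.equiv [Finite G] [CharP F 3] {Γ : Type*} [Group Γ] {κ : HS F →* Γ} {m : Γ} (S : Rel κ m) (π : Γ →* G)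
    (T : Fu (π.comp κ) (π m)) : Nonempty (↥(κ.range ⊔ zpowers m) ≃* G) := by
  have tm : ∀ l h, π (tau κ m l h) = tau (π.comp κ) (π m) l h := fun l h => by simp [tau]
  have PZ : ∀ {p}, p ∈ S.PT → π p ∈ normalizer ((ZZ F).map (π.comp κ) : Set G) := by
    rintro _ ⟨x, l, h, rfl⟩
    rw [map_mul, tm]; exact mul_mem (T.C_le_NZ x) (T.tau_Z h)
  refine ⟨MulEquiv.ofBijective (π.comp (Subgroup.subtype _)) ⟨(injective_iff_map_eq_one _).2 fun g hg => Subtype.ext ?_, ?_⟩⟩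
  swap
  · rw [← MonoidHom.range_eq_top, MonoidHom.range_comp, range_subtype, Subgroup.map_sup, ← MonoidHom.range_comp,
      MonoidHom.map_zpowers, T.gen]
  replace hg : π g = 1 := hg
  rcases S.om g.2 with ⟨x, l, h, e⟩ | ⟨p, hp, q, hq, e⟩
  · rw [e, map_mul, tm] at hg
    have h1 := (T.tau_M h 0 0 1).comp (R.self x _)
    rw [show (π.comp κ) x * _ = 1 from hg] at h1
    have h2 := congrArg HS.z ((T.eq_iff h1 (R.of_comm (by simp))).1 rfl)
    rw [mul_zero, pe_comm, mul_inv_cancel_right] at h2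
    rcases sq_eq_one_iff.1 (by simpa using h2 : l ^ 2 = 1) with rfl | rfl
    · rw [tau_one, mul_one] at hg e
      rw [e, T.inj (hg.trans (map_one _).symm), map_one]; rfl
    · rw [tau_neg T.nt] at hg
      rw [e, tau_neg S.nt, ← map_mul, T.inj ((map_mul _ x tt).trans (hg.trans (map_one _).symm)), map_one]; rfl
  exfalso
  have key : ∀ {y}, g = p * y * q → π y ∈ normalizer ((ZZ F).map (π.comp κ) : Set G) := fun e => by
    have := one_mem (normalizer ((ZZ F).map (π.comp κ) : Set G))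
    rwa [← hg, e, map_mul, map_mul, mul_mem_cancel_right (PZ hq), mul_mem_cancel_left (PZ hp)] at this
  rcases e with e | e
  · exact T.toSw.nZ (key e)
  · obtain ⟨z, h⟩ := Setup.exZ (key e) 1
    have h1 := ((T.sw 1 0 0).comp h).comp (T.sw ..).symm
    rw [show (π m)⁻¹ * (π (m * κ ii * m⁻¹) * π m) = (π.comp κ) ii by simp [mul_assoc]] at h1
    simpa using congrArg HS.c (T.eq_of h1)

theorem Fu.equiv [Finite G] [CharP F 3] {G' : Type*} [Group G'] [Finite G'] {ι' : HS F →* G'} {n : G} {n' : G'}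
    (S : Fu ι n) (S' : Fu ι' n') : Nonempty (G ≃* G') := by
  obtain ⟨e⟩ := (S.rel.prod S'.rel).equiv (MonoidHom.fst G G') S
  obtain ⟨e'⟩ := (S.rel.prod S'.rel).equiv (MonoidHom.snd G G') S'
  exact ⟨e.symm.trans e'⟩

def swp (F : Type*) [Field F] : symplecticGroup (Fin 2) F :=
  ⟨fromBlocks !![0, 1; 1, 0] 0 0 !![0, 1; 1, 0], by
    rw [SymplecticGroup.mem_iff]
    ext (i | i) (j | j) <;> fin_cases i <;> fin_cases j <;>
      simp [J, Matrix.mul_apply, Fintype.sum_sum_type, Fin.sum_univ_two, fromBlocks_transpose]⟩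

theorem fu_psp [Finite F] [CharP F 3] (ns : ∀ x : F, x * x ≠ -1) (big : 9 < Nat.card F) :
    ∃ n, Fu ((QuotientGroup.mk' (center (symplecticGroup (Fin 2) F))).comp emb) n := by
  have h2 : (2 : F) ≠ 0 := two3
  have S := setup_psp h2
  have sw : ∀ b u z : F, R ((QuotientGroup.mk' (center (symplecticGroup (Fin 2) F))).comp emb)
      (QuotientGroup.mk (swp F)) (pe b u 0 z) (pe z u 0 b) := fun b u z => by
    rw [R, mul_inv_eq_iff_eq_mul]
    refine congrArg QuotientGroup.mk (Subtype.ext (?_ : (swp F).1 * (pe b u 0 z).mat = (pe z u 0 b).mat * (swp F).1))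
    ext (i | i) (j | j) <;> fin_cases i <;> fin_cases j <;>
      simp [swp, mat, Matrix.mul_apply, Fintype.sum_sum_type, Fin.sum_univ_two]
  refine Op.exists_fu ⟨S, ns, -1, neg_ne_zero.2 one_ne_zero, fun g hg => ?_⟩ big (mem_NM fun b u z => ⟨_, _, _, sw b u z⟩)
    fun h => ?_
  swap
  · obtain ⟨z, h⟩ := Setup.exZ h 1
    exact one_ne_zero (congrArg HS.b ((S.eq_iff (sw 0 0 1) h).1 rfl))
  obtain ⟨A, rfl⟩ := QuotientGroup.mk_surjective g
  rw [R, mul_inv_eq_iff_eq_mul] at hg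
  have : (pe 0 0 0 (-1)).mat * A.1 = A.1 * (pe 0 0 0 1).mat ∨
      (pe 0 0 0 (-1)).mat * A.1 = -(A.1 * (pe 0 0 0 1).mat) := (mk_eq_iff h2).1 hg
  have s := congrFun (congrFun (SymplecticGroup.mem_iff'.1 A.2) (.inl 0)) (.inr 0)
  rcases this with h | h
  · have e := fun i j => congrFun (congrFun h i) j
    have e1 := e (.inl 1) (.inr 0)
    have e2 := e (.inl 0) (.inl 0)
    have e3 := e (.inr 1) (.inr 0)
    have e4 := e (.inl 0) (.inr 0)
    simp [mat, J, Matrix.mul_apply, Fintype.sum_sum_type] at e1 e2 e3 e4 s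
    exact ns (A.1 (.inl 0) (.inl 0)) (by grind)
  · have e := fun i j => congrFun (congrFun h i) j
    have e1 := e (.inl 1) (.inl 0)
    have e2 := e (.inr 0) (.inl 0)
    have e3 := e (.inr 1) (.inl 0)
    have e4 := e (.inl 0) (.inl 0)
    simp [mat, J, Matrix.mul_apply, Fintype.sum_sum_type] at e1 e2 e3 e4 s
    grind

end Cfsg.Agent.H5.HS
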