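import Cfsg.Agent.H5.HT4

/-!
# Two commuting copies of `SL₂(3^m)` interchanged by an involution: generation
-/

set_option autoImplicit false

namespace Cfsg.Agent.H5

open Subgroup Cfsg.Agent.H8 Cfsg.Agent.H4.SL2
open Cfsg.Agent.H7 (opp)
open scoped MatrixGroups

variable {G : Type*} [Group G] {F : Type*} [Field F] {f g : SL(2, F) →* G} {n : G}

theorem exists_ne9 (big : 9 < Nat.card F) (s : List F) (hs : s.length ≤ 9) : ∃ x, x ∉ s := by
  classical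
  have := Nat.finite_of_card_ne_zero (α := F) (by omega)
  have := Fintype.ofFinite F
  by_contra! h
  have h1 := (Finset.card_le_card (s := Finset.univ) (t := s.toFinset) fun x _ => List.mem_toFinset.2 (h x)).trans
    (List.toFinset_card_le s)
  rw [Finset.card_univ, ← Nat.card_eq_fintype_card] at h1
  omega

theorem conj_sq {k u : G} (h : u * u = 1) : k * u * k⁻¹ * (k * u * k⁻¹) = 1 := by rw [conj_mul, h]; simp

namespace Tw

variable (S : Tw f g n) [Finite G] [CharP F 3]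
include S

omit [Finite G] in
theorem t1 : f (-1) ≠ 1 := fun e => neg_one_ne_one two3 (S.inj (e.trans (map_one f).symm))

theorem y_t (k : G) : k * f (-1) * k⁻¹ ≠ f wSL * g wSL := fun hk => by
  set y := f wSL * g wSL with hy
  have c1 : k⁻¹ * f (-1) * k * f (-1) = f (-1) * (k⁻¹ * f (-1) * k) := by
    have := cj_comm (k := k⁻¹) S.yt
    rw [← hy, ← hk] at this
    simpa [mul_assoc] using this.symm
  have s2 : k⁻¹ * f (-1) * k * (k⁻¹ * f (-1) * k) = 1 := by simpa using conj_sq (k := k⁻¹) (t_t (f := f))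
  obtain ⟨a, c, e | e⟩ := S.mem_H.1 (S.cH c1)
  swap
  · obtain ⟨x, x1, x3, xt, xs⟩ := S.n3 (e ▸ s2)
    exact x1 (conj_eq_one_iff.1 (S.y3 (x := k * x * k⁻¹) (by
      simpa [← e, mul_assoc] using cj_comm (k := k) xs) (hy ▸ hk ▸ cj_comm xt) (by rw [conj_pow, x3]; simp)))
  rcases S.sq_Y (e ▸ fg_Y a c) s2 with e | e | ⟨h, hh, e⟩
  · exact S.t1 (conj_eq_one_iff.1 (by simpa using e : k⁻¹ * f (-1) * k⁻¹⁻¹ = 1))
  · rw [show k * f (-1) * k⁻¹ = f (-1) by nth_rewrite 1 [← e]; group] at hk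
    exact w_ne wSL_mul_self ((S.eq_f hk.symm).imp And.right And.right)
  have e1 : k * h * f (-1) * (k * h)⁻¹ = y := by
    rw [← hk, mul_assoc k, mem_centralizer_singleton_iff.1 (S.H_le (Y_H hh))]; group
  have e2 : k * h * y * (k * h)⁻¹ = f (-1) := by
    calc _ = k * (h * y * h⁻¹) * k⁻¹ := by group
      _ = _ := by rw [e]; group
  generalize k * h = r at e1 e2
  have wy : f wSL * y = y * f wSL := by rw [hy, mul_assoc, S.comm]
  obtain ⟨s, hs⟩ := exists_ne9 S.big [0, 1, -1] (by simp)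
  simp only [List.mem_cons, List.not_mem_nil, or_false, not_or] at hs
  have s0 : 1 + s ^ 2 ≠ 0 := fun e => S.ns s (by linear_combination e)
  let d : SL(2, F) := H4.SL2.mk ((1 - s ^ 2) / (1 + s ^ 2)) (-(2 * s) / (1 + s ^ 2)) (2 * s / (1 + s ^ 2))
    ((1 - s ^ 2) / (1 + s ^ 2)) (by field_simp; ring)
  have dw : d * wSL = wSL * d := by apply ext4 <;> simp only [wSL, d] <;> sl2_simp <;> ring
  have dd : ¬ (d * d = 1 ∨ d * d = -1) := fun h => by
    have : (d * d) 1 0 = 0 := by rcases h with h | h <;> simp [h]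
    simp only [d] at this
    sl2_simp at this
    have t := two3 (F := F)
    field_simp at this
    grind
  have dy : f d * y = y * f d := by rw [hy, mul_assoc, ← S.comm, ← mul_assoc, ← map_mul, dw, map_mul, mul_assoc]
  have m1 : r⁻¹ * f d * r * f (-1) = f (-1) * (r⁻¹ * f d * r) := by
    simpa [← e1, mul_assoc] using cj_comm (k := r⁻¹) dy
  have m2 : r⁻¹ * f d * r * y = y * (r⁻¹ * f d * r) := by
    have := cj_comm (k := r⁻¹) (t_f (f := f) d)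
    rw [← e2] at this
    simpa [mul_assoc] using this
  have m3 : f (d * d) * (r * f wSL * r⁻¹) = r * f wSL * r⁻¹ * f (d * d) := by
    suffices r⁻¹ * f d * r * (r⁻¹ * f d * r) * f wSL = f wSL * (r⁻¹ * f d * r * (r⁻¹ * f d * r)) by
      simpa [mul_assoc] using cj_comm (k := r) this
    generalize r⁻¹ * f d * r = m at m1 m2
    have mH := S.cH m1
    obtain ⟨u, hu, c, u2⟩ : ∃ u, m * f wSL * m⁻¹ = f wSL * u ∧ m * u = u * m ∧ u * u = 1 := by
      have c1 : Commute m _ := m1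
      have c2 : Commute m y := m2
      refine ⟨_, (mul_inv_cancel_left _ _).symm, ?_⟩
      rcases S.ya (mul_mem (mul_mem mH (Y_H (f_Y wSL))) (inv_mem mH)) (by
        rw [conj_mul, S.ww, m1, mul_inv_cancel_right]) ((c2.mul_left wy).mul_left c2.inv_left) with e | e | e | e <;> rw [e]
      · simp
      · exact ⟨m1, t_t⟩
      · exact ⟨m2, S.yy⟩
      · exact ⟨c1.mul_right c2, by rw [← sq, Commute.mul_pow S.yt.symm, sq, sq, t_t, S.yy, one_mul]⟩
    rw [mul_inv_eq_iff_eq_mul] at hu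
    rw [mul_assoc, hu, ← mul_assoc, ← mul_assoc, hu, mul_assoc _ m, c, mul_assoc, mul_assoc, mul_assoc, ← mul_assoc u,
      u2, one_mul]
  have r2 : r * f wSL * r⁻¹ * (r * f wSL * r⁻¹) = y := by rw [conj_mul, S.ww, e1]
  obtain ⟨a, c, e | e⟩ := S.mem_H.1 (S.cH (k := r * f wSL * r⁻¹) (e2 ▸ cj_comm wy)) <;> rw [e] at r2 m3
  · rw [S.fg_mul] at r2
    have a2 : a * a * (a * a) = -1 := by rcases S.eq_iff.1 r2 with ⟨h, -⟩ | ⟨h, -⟩ <;> simp [h, wSL_mul_self]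
    exact w_ne a2 (two_elt S.ns (k := 2 + 1) (by rw [pow_succ', pow_mul, sq a, four a2]))
  · exact dd (S.nc m3.symm)

theorem tcl {k : G} (h : k * f (-1) * k⁻¹ * f (-1) = f (-1) * (k * f (-1) * k⁻¹)) :
    k * f (-1) * k⁻¹ = f (-1) ∨ ∃ a c, k * f (-1) * k⁻¹ = f a * g c * n := by
  obtain ⟨a, c, e | e⟩ := S.mem_H.1 (S.cH h)
  · rcases S.sq_Y (e ▸ fg_Y a c) (conj_sq t_t) with e | e | ⟨h, -, e⟩
    · exact (S.t1 (conj_eq_one_iff.1 e)).elim
    · exact Or.inl e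
    · exact (S.y_t (h⁻¹ * k) (by
        calc _ = h⁻¹ * (k * f (-1) * k⁻¹) * h := by group
          _ = _ := by rw [← e]; group)).elim
  · exact Or.inr ⟨a, c, e⟩

theorem tcomm {R : Subgroup G} (hR : IsPGroup 2 R) {k l : G} (hk : k * f (-1) * k⁻¹ ∈ R) (hl : l * f (-1) * l⁻¹ ∈ R) :
    k * f (-1) * k⁻¹ * (l * f (-1) * l⁻¹) = l * f (-1) * l⁻¹ * (k * f (-1) * k⁻¹) := by
  have : Fact (Nat.Prime 2) := ⟨Nat.prime_two⟩
  obtain ⟨T, hT, hle⟩ := S.syl
  obtain ⟨R', h1, h2⟩ := exists_isSylowIn_ge hR le_top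
  obtain ⟨r, -, rfl⟩ := hT.exists_cj_eq h1
  have e : ∀ k, r⁻¹ * (k * f (-1) * k⁻¹) * r⁻¹⁻¹ = r⁻¹ * k * f (-1) * (r⁻¹ * k)⁻¹ := fun k => by group
  refine cj_comm' (k := r⁻¹) ?_
  have m1 := mem_cj.1 (h2 hk)
  have m2 := mem_cj.1 (h2 hl)
  rw [← inv_inv r, inv_inv r⁻¹, e] at m1 m2
  rw [e, e]
  generalize r⁻¹ * k = k at m1
  generalize r⁻¹ * l = l at m2
  have c1 := mem_centralizer_singleton_iff.1 (S.H_le (hle m1))
  have c2 := mem_centralizer_singleton_iff.1 (S.H_le (hle m2))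
  rcases S.tcl c1 with e1 | ⟨a, c, e1⟩
  · rw [e1, c2]
  rcases S.tcl c2 with e2 | ⟨b, d, e2⟩
  · rw [e2, c1]
  have s1 := conj_sq (k := k) (t_t (f := f))
  have s2 := conj_sq (k := l) (t_t (f := f))
  obtain ⟨i, hi⟩ := hT.pgroup ⟨_, mul_mem m1 m2⟩
  replace hi : (k * f (-1) * k⁻¹ * (l * f (-1) * l⁻¹)) ^ 2 ^ i = 1 := congrArg Subtype.val hi
  rw [e1, e2] at hi ⊢
  rw [e1] at s1
  rw [e2] at s2
  have iv : f a * g c * n * (f a * g c * n * (f b * g d * n)) * (f a * g c * n)⁻¹ = (f a * g c * n * (f b * g d * n))⁻¹ := by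
    rw [← mul_assoc, s1, one_mul, mul_inv_rev (_ * n), inv_eq_of_mul_eq_one_right s2]
  suffices f a * g c * n * (f b * g d * n) * (f a * g c * n * (f b * g d * n)) = 1 by
    rw [← inv_eq_of_mul_eq_one_right this, mul_inv_rev, inv_eq_of_mul_eq_one_right s1, inv_eq_of_mul_eq_one_right s2]
  rw [S.fgn_sq] at hi iv ⊢
  have h2 := S.eq_one (S.fg_pow .. ▸ hi)
  have h3 : ∀ {x : SL(2, F)}, x ^ 2 ^ i = 1 ∨ x ^ 2 ^ i = -1 → x * x = 1 ∨ x * x = -1 := fun h =>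
    two_elt S.ns (k := i + 1) (by rw [pow_succ, pow_mul, sq, pm_sq h])
  rcases S.pm (h3 (h2.imp And.left And.left)) (h3 (h2.imp And.right And.right)) with e | e <;> rw [← S.fg_mul] at e
  · exact e
  obtain ⟨x, hx, e | e⟩ := S.sq_t (Y_H (fg_Y _ _)) e <;> rw [e, ← map_inv] at iv
  · exact (w_ne hx (by simpa [inv_eq_iff_eq_inv] using (S.f_eq_g (iv.symm.trans (S.cf' ..))).1)).elim
  · exact (w_ne hx (by simpa [inv_eq_iff_eq_inv] using (S.f_eq_g ((S.cg' ..).symm.trans iv)).2)).elim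

variable {G0 : Subgroup G} (hH : H0 f g n ≤ G0) {r : G} (hr : r ∈ G0) (rt : r * f (-1) * r⁻¹ = n)
include hH hr rt

theorem tn_y : ∃ h ∈ G0, h * (f wSL * g wSL) * h⁻¹ = f (-1) * n := by
  have e0 : f wSL * n * (f wSL)⁻¹ = f wSL * g (-wSL) * n := by
    rw [← map_inv, inv_eq_of_mul_eq_one_right (b := -wSL) (by simp [wSL_mul_self]), mul_assoc, S.n_f, mul_assoc]
  have c0 : f wSL * n * (f wSL)⁻¹ * n = n * (f wSL * n * (f wSL)⁻¹) := by
    rw [e0, ← mul_assoc n, S.n_fg, S.eq_iff.2 (Or.inr ⟨rfl, (neg_neg _).symm⟩)]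
  have key : ∀ k, k * f (-1) * k⁻¹ * n = n * (k * f (-1) * k⁻¹) → k * f (-1) * k⁻¹ ≠ n →
      ∃ a c, r⁻¹ * k * f (-1) * (r⁻¹ * k)⁻¹ = f a * g c * n := fun k h h' =>
    (S.tcl (by simpa [← rt, mul_assoc] using cj_comm (k := r⁻¹) h)).resolve_left fun e => h' (by
      rw [← rt]; nth_rewrite 2 [← e]; group)
  have ne : ∀ {a c : SL(2, F)}, c * c = -1 → f a * g c * n ≠ n := fun h e =>
    w_ne h ((S.eq_one (mul_eq_right.1 e)).imp And.right And.right)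
  have e1 : f wSL * r * f (-1) * (f wSL * r)⁻¹ = f wSL * n * (f wSL)⁻¹ := by rw [← rt]; group
  obtain ⟨a, c, h1⟩ := key 1 (by simpa using S.nt.symm) (by simpa using S.ne_n (-1) 1 1 1)
  obtain ⟨b, d, h2⟩ := key (f wSL * r) (e1 ▸ c0) (by rw [e1, e0]; exact ne (by simp [wSL_mul_self]))
  have e2 : f (a * d) * g (c * b) = r⁻¹ * f wSL * (f (-1) * n) * (r⁻¹ * f wSL)⁻¹ := by
    rw [← S.fgn_sq, ← h1, ← h2, mul_assoc r⁻¹ (f wSL), ← mul_assoc (f wSL), t_f, ← rt]; group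
  rcases S.sq_Y (fg_Y (a * d) (c * b)) (e2 ▸ conj_sq (by
    rw [← sq, Commute.mul_pow S.nt.symm, sq, sq, t_t, S.n2, one_mul])) with e | e | ⟨h, hh, e⟩ <;> rw [e2] at e
  · exact (S.ne_n 1 1 (-1) 1 (by simpa using (conj_eq_one_iff.1 e).symm)).elim
  · refine (ne (a := wSL * -1) (c := -wSL) (by simp [wSL_mul_self]) ?_).elim
    rw [map_mul, t_f, mul_assoc, mul_assoc, ← mul_assoc (f wSL), ← e0]
    nth_rewrite 2 [← rt, ← e]
    rw [mul_assoc r⁻¹ (f wSL), ← mul_assoc (f wSL), t_f]; group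
  · exact ⟨(r⁻¹ * f wSL)⁻¹ * h, mul_mem (inv_mem (mul_mem (inv_mem hr) (hH (Y_H (f_Y _))))) (hH (Y_H hh)), by
      calc _ = (r⁻¹ * f wSL)⁻¹ * (h * (f wSL * g wSL) * h⁻¹) * (r⁻¹ * f wSL) := by group
        _ = _ := by rw [e]; group⟩

omit hr rt in
theorem ct {h k : G} (hh : h ∈ G0) (hk : k * (h * f (-1) * h⁻¹) = h * f (-1) * h⁻¹ * k) : k ∈ G0 :=
  (mul_mem_cancel_left (inv_mem hh)).1 ((mul_mem_cancel_right hh).1 (hH (S.cH (by
    simpa [mul_assoc] using cj_comm (k := h⁻¹) hk))))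

theorem ctn {k : G} (hk : k * (f (-1) * n) = f (-1) * n * k) : k ∈ G0 := by
  have : Fact (Nat.Prime 2) := ⟨Nat.prime_two⟩
  set K := centralizer {f (-1) * n}
  have mK : ∀ {k : G}, k ∈ K ↔ k * (f (-1) * n) = f (-1) * n * k := mem_centralizer_singleton_iff
  have u2 : f (-1) * n * (f (-1) * n) = 1 := by rw [← sq, Commute.mul_pow S.nt.symm, sq, sq, t_t, S.n2, one_mul]
  have tK : f (-1) ∈ K := mK.2 (by rw [mul_assoc, S.nt])
  obtain ⟨P, hP, hle⟩ := exists_isSylowIn_ge (K := K) (pg_zp (p := 2) (k := 1) (by rw [pow_one, sq, t_t]))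
    (zpowers_le_of_mem tK)
  have tn : (f (-1))⁻¹ * n = f (-1) * n := by rw [inv_eq_of_mul_eq_one_right t_t]
  obtain ⟨o, ho, c, hc, rfl, e⟩ := zs_mod (U := zpowers (f (-1) * n)) (pg_zp (k := 1) (by rw [pow_one, sq, u2]))
    (zpowers_le_of_mem (mK.2 rfl)) (fun k hk _ ⟨i, e⟩ => e ▸ (show Commute _ _ from mK.1 hk).zpow_right i) hP tK
    (t_t (f := f) ▸ one_mem _) (fun c hc h => by
      have c1 := S.tcomm hP.pgroup h (l := 1) (by simpa using hle (mem_zpowers _))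
      rw [one_mul, inv_one, mul_one] at c1
      rcases S.tcl c1 with e | ⟨a, d, e⟩
      · rw [e, inv_mul_cancel]; exact one_mem _
      have e1 : c * n * c⁻¹ = f a * g d * f (-1) := by
        rw [show n = f (-1) * (f (-1) * n) by rw [← mul_assoc, t_t, one_mul], ← conj_mul, mK.1 hc, mul_inv_cancel_right,
          e, mul_assoc, ← mul_assoc n, S.nt, mul_assoc (f (-1)), S.n2, mul_one]
      rcases S.sq_Y (k := c * n * c⁻¹) (e1 ▸ mul_mem (fg_Y _ _) (f_Y _)) (conj_sq S.n2) with e2 | e2 | ⟨h, -, e2⟩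
      · exact (S.ne_n 1 1 1 1 (by simpa using (conj_eq_one_iff.1 e2).symm)).elim
      · rw [e, mul_eq_right.1 (e1.symm.trans e2), one_mul, tn]; exact mem_zpowers _
      · exact (S.y_t (h⁻¹ * c * r) (by
          calc _ = h⁻¹ * (c * (r * f (-1) * r⁻¹) * c⁻¹) * h := by group
            _ = _ := by rw [rt, ← e2]; group)).elim) (mK.2 hk)
  have cn : ∀ {a : SL(2, F)} {k : G}, k * (f a * n * (f a)⁻¹) = f a * n * (f a)⁻¹ * k → k ∈ G0 := fun {a k} h =>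
    S.ct hH (mul_mem (hH (Y_H (f_Y a))) hr) (by
      rwa [show f a * r * f (-1) * (f a * r)⁻¹ = f a * n * (f a)⁻¹ by rw [← rt]; group])
  have e0 : ∀ {a : SL(2, F)}, a * a = -1 → f a * n * (f a)⁻¹ = f a * g (-a) * n := fun {a} h => by
    rw [← map_inv, inv_eq_of_mul_eq_one_right (b := -a) (by simp [h]), mul_assoc, S.n_f, mul_assoc]
  have aK : ∀ {a : SL(2, F)}, a * a = -1 → f a * n * (f a)⁻¹ ∈ K := fun {a} h => mK.2 (Commute.mul_right
    (mem_centralizer_singleton_iff.1 (S.H_le (e0 h ▸ mul_mem (Y_H (fg_Y _ _)) n_H))) (by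
      rw [Commute, SemiconjBy, e0 h, ← mul_assoc n, S.n_fg, S.eq_iff.2 (Or.inr ⟨rfl, (neg_neg _).symm⟩)]))
  have p2 : ∀ a, (f a * n * (f a)⁻¹) ^ 2 ^ 2 = 1 := fun a => by rw [sq 2, pow_mul, sq (_ * _), conj_sq S.n2, one_pow]
  have ab : f wSL * n * (f wSL)⁻¹ * (f jSL * n * (f jSL)⁻¹) = f (wSL * jSL) * g (wSL * jSL) := by
    rw [e0 wSL_mul_self, e0 jSL_sq, S.fgn_sq]; exact S.eq_iff.2 (Or.inr ⟨by simp, by simp⟩)
  refine mul_mem (gen2 (H7.not_dvd_card_opp K) ?_ (p2 wSL) (p2 jSL) (H7.le_normalizer_opp K (aK wSL_mul_self))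
    (H7.le_normalizer_opp K (aK jSL_sq)) (conj_sq S.n2 ▸ one_mem _) (conj_sq S.n2 ▸ one_mem _) (fun o ho h => ?_) ho) ?_
  · rw [ab, e0 wSL_mul_self, e0 jSL_sq, S.fgn_sq]; simp [j_w, -map_mul]
  · rcases h with h | h | h
    · exact cn h
    · exact cn h
    · have c1 : Commute o _ := h
      have c2 : Commute o _ := mK.1 (H7.opp_le K ho)
      refine cn (a := wSL * jSL) ?_
      rw [e0 wj_sq, f_neg (f := g), S.tt, ← mul_assoc (f _), ← ab, mul_assoc _ (f _) n]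
      exact c1.mul_right c2
  · rcases mem_zp_two u2 e with e | e <;> rw [inv_mul_eq_iff_eq_mul] at e
    · exact hH (S.cH (mul_inv_eq_iff_eq_mul.1 (by simpa using e)))
    · rw [← mul_assoc, t_t, one_mul, ← rt] at e
      exact (mul_mem_cancel_left (inv_mem hr)).1 (hH (S.cH (mul_inv_eq_iff_eq_mul.1 (by
        calc _ = r⁻¹ * (c * f (-1) * c⁻¹) * r := by group
          _ = _ := by rw [e]; group))))

theorem eq_top : G0 = ⊤ := by
  have : Fact (Nat.Prime 2) := ⟨Nat.prime_two⟩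
  obtain ⟨h0, hh0, e0⟩ := S.tn_y hH hr rt
  have cy : ∀ {h k : G}, h ∈ G0 → k * (h * (f wSL * g wSL) * h⁻¹) = h * (f wSL * g wSL) * h⁻¹ * k → k ∈ G0 :=
    fun {h k} hh hk => by
      have m := mul_mem hh0 (inv_mem hh)
      exact (mul_mem_cancel_left m).1 ((mul_mem_cancel_right (inv_mem m)).1 (S.ctn hH hr rt (by
        simpa [← e0, mul_assoc] using cj_comm (k := h0 * h⁻¹) hk)))
  have cl : ∀ {s : G}, s ∈ G0 → s * s = 1 → s ≠ 1 →
      ∃ h ∈ G0, h * f (-1) * h⁻¹ = s ∨ h * (f wSL * g wSL) * h⁻¹ = s := fun {s} hs s2 s1 => by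
    obtain ⟨T, hT, hle⟩ := S.syl
    obtain ⟨R', h1, h2⟩ := exists_isSylowIn_ge (pg_zp (p := 2) (k := 1) (by rw [pow_one, sq, s2])) (zpowers_le_of_mem hs)
    obtain ⟨c, hc, rfl⟩ := (hT.of_le (hle.trans hH) le_top).exists_cj_eq h1
    suffices ∃ h ∈ G0, h * f (-1) * h⁻¹ = c⁻¹ * s * c ∨ h * (f wSL * g wSL) * h⁻¹ = c⁻¹ * s * c by
      obtain ⟨h, hh, e⟩ := this
      have key : ∀ {u}, h * u * h⁻¹ = c⁻¹ * s * c → c * h * u * (c * h)⁻¹ = s := fun {u} e => by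
        calc _ = c * (h * u * h⁻¹) * c⁻¹ := by group
          _ = _ := by rw [e]; group
      exact ⟨c * h, mul_mem hc hh, e.imp key key⟩
    have s3 : c⁻¹ * s * c * (c⁻¹ * s * c) = 1 := by simpa using conj_sq (k := c⁻¹) s2
    obtain ⟨a, d, e | e⟩ := S.mem_H.1 (hle (mem_cj.1 (h2 (mem_zpowers _))))
    · rcases S.sq_Y (e ▸ fg_Y a d) s3 with e | e | ⟨h, hh, e⟩
      · exact (s1 (conj_eq_one_iff.1 (by simpa using e : c⁻¹ * s * c⁻¹⁻¹ = 1))).elim
      · exact ⟨1, one_mem _, Or.inl (by simp [e])⟩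
      · exact ⟨h, hH (Y_H hh), Or.inr e⟩
    · rw [e] at s3 ⊢
      rcases S.sq_n s3 with e | e
      · exact ⟨f a * r, mul_mem (hH (Y_H (f_Y _))) hr, Or.inl (by rw [← e, ← rt]; group)⟩
      · exact ⟨f a * h0, mul_mem (hH (Y_H (f_Y _))) hh0, Or.inr (by rw [← e, ← e0]; group)⟩
  refine eq_top_iff.2 fun k _ => ?_
  rcases dih_mod (K := ⊤) (U := ⊥) (fun _ _ u hu => by simp [mem_bot.1 hu]) (mem_top (k * f (-1) * k⁻¹))
    (mem_top (f wSL * g wSL)) (conj_sq t_t) S.yy with ⟨c, -, e⟩ | ⟨s, -, s1, s2, e1, e2⟩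
  · exact (S.y_t (c * k) (by rw [← inv_mul_eq_one.1 e]; group)).elim
  rw [mem_bot, inv_mul_eq_one, eq_comm, mul_inv_eq_iff_eq_mul] at e1 e2
  obtain ⟨h, hh, e⟩ := cl (cy (one_mem _) (by simpa using e2.symm)) s2 s1
  obtain ⟨h, hh, e | e⟩ := cl (e.elim (fun e => S.ct hH hh (e ▸ e1.symm)) fun e => cy hh (e ▸ e1.symm)) (conj_sq t_t)
    fun e => S.t1 (conj_eq_one_iff.1 e)
  · exact (mul_mem_cancel_left (inv_mem hh)).1 (hH (S.cH (mul_inv_eq_iff_eq_mul.1 (by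
      calc _ = h⁻¹ * (k * f (-1) * k⁻¹) * h := by group
        _ = _ := by rw [← e]; group))))
  · exact (S.y_t (h⁻¹ * k) (by
      calc _ = h⁻¹ * (k * f (-1) * k⁻¹) * h := by group
        _ = _ := by rw [← e]; group)).elim

end Tw

end Cfsg.Agent.H5
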