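import Cfsg.Agent.H5.HS8
import Cfsg.Agent.H5.HT5

/-!
# The case in which `N(M)` is not `3`-closed: the normalizer of `Z`, centralizers of elements of order three
-/

set_option autoImplicit false

namespace Cfsg.Agent.H5.HS

open Subgroup Cfsg.Agent.H8 Matrix Cfsg.Agent.H4.SL2
open scoped MatrixGroups

variable {F : Type*} [Field F] {G : Type*} [Group G] {ι : HS F →* G}

theorem mu0 (b u z : F) : mu 0 b u z = pe b u 0 z := by simp [mu]

theorem hh_mul {l m : F} (hl : l ≠ 0) (hm : m ≠ 0) : hh l hl * hh m hm = hh (l * m) (mul_ne_zero hl hm) := by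
  ext <;> simp [mul_comm]

theorem hh_one : hh (1 : F) one_ne_zero = 1 := by ext <;> simp
theorem hh_neg : hh (-1 : F) (neg_ne_zero.2 one_ne_zero) = tt := by ext <;> simp

def sl : SL(2, F) →* HS F where
  toFun a := ⟨a 0 0, a 0 1, a 1 0, a 1 1, 0, 0, 0, det_eq a⟩
  map_one' := by ext <;> simp
  map_mul' a b := by ext <;> simp [H4.SL2.mul_apply, -SpecialLinearGroup.coe_mul]

theorem sl_up (b : F) : sl (up b) = pe b 0 0 0 := rfl
theorem sl_w : sl (wSL : SL(2, F)) = ii := rfl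
theorem sl_neg : sl (-1 : SL(2, F)) = tt := by ext <;> simp [sl]
theorem sl_inj : Function.Injective (sl : SL(2, F) → HS F) := fun _ _ h =>
  ext4 (congrArg HS.a h) (congrArg HS.b h) (congrArg HS.c h) (congrArg HS.d h)
theorem sl_t (a : SL(2, F)) : sl a * tt = tt * sl a := tt_comm rfl rfl

/-- the matrix part -/
def sp (x : HS F) : SL(2, F) := H4.SL2.mk x.a x.b x.c x.d x.det

theorem pe_sl (x : HS F) : pe 0 x.u x.v x.z * sl (sp x) = x := by
  ext <;> simp [sl, sp, mk00, mk01, mk10, mk11]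

@[simps] def scale (l : F) (x : HS F) : HS F := ⟨x.a, x.b, x.c, x.d, l * x.u, l * x.v, l ^ 2 * x.z, x.det⟩

def tau (ι : HS F →* G) (n : G) (l : F) (h : l ≠ 0) : G := n * ι (hh l h) * n⁻¹

theorem tau_mul {n : G} {l m : F} (hl : l ≠ 0) (hm : m ≠ 0) :
    tau ι n l hl * tau ι n m hm = tau ι n (l * m) (mul_ne_zero hl hm) := by
  rw [tau, tau, conj_mul, ← map_mul, hh_mul, tau]

theorem tau_one {n : G} : tau ι n 1 one_ne_zero = 1 := by simp [tau, hh_one]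

theorem tau_congr {n : G} {l m : F} (hl : l ≠ 0) (hm : m ≠ 0) (e : l = m) : tau ι n l hl = tau ι n m hm := by subst e; rfl

structure Fu (ι : HS F →* G) (n : G) : Prop extends Op ι where
  big : 9 < Nat.card F
  n2 : n * n = 1
  nt : R ι n tt tt
  sw : ∀ b u z, R ι n (pe b u 0 z) (pe z u 0 b)

local instance : Fact (Nat.Prime 3) := ⟨Nat.prime_three⟩

theorem Op.exists_fu (S : Op ι) [Finite G] [CharP F 3] (big : 9 < Nat.card F) {g : G}
    (hg : g ∈ normalizer ((MM F).map ι : Set G)) (hg' : g ∉ normalizer ((ZZ F).map ι : Set G)) : ∃ n, Fu ι n := by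
  obtain ⟨k, n, W⟩ := S.exists_sw 3 hg hg'
  obtain ⟨l, l0, l1⟩ := H1.SLn.exists_sq_ne_one (F := F) (by omega)
  obtain rfl : k = 0 := by
    have := W.hk l l0
    exact (mul_eq_zero.1 (by linear_combination this : k * (l ^ 2 - 1) = 0)).resolve_right (sub_ne_zero.2 l1)
  obtain ⟨s, w, s0, w0, h⟩ := W.ac_n 3
  have h1 := (((W.ac_d 3 (inv_ne_zero (mul_ne_zero s0 w0))).mul (W.ac_h (inv_ne_zero s0))).mul h).cast
    (m' := !![0, 1; 1, 0]) (by simp [← Matrix.ext_iff, Fin.forall_fin_two]; field_simp; simp)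
  have ht : ∀ {l : F} (h : l ≠ 0), R ι (ι (hh l h)) tt tt := fun h =>
    R.of_comm (by rw [← map_mul, ← map_mul, tt_comm rfl rfl])
  have h2 := (W.nt.comp (ht (inv_ne_zero s0))).comp ((W.nt.symm.comp (ht (inv_ne_zero (mul_ne_zero s0 w0)))).comp W.nt)
  rw [← mul_assoc, ← mul_assoc n] at h2
  generalize n * ι (hh (s * w)⁻¹ _) * n⁻¹ * ι (hh s⁻¹ _) * n = m at h1 h2
  have e : (!![0, 1; 1, 0] * !![0, 1; 1, 0] : Matrix (Fin 2) (Fin 2) F) = 1 := by simp [← Matrix.ext_iff, Fin.forall_fin_two]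
  have h3 := M_pow 3 (S.mem_M_of_ac ((h1.mul h1).cast e))
  refine ⟨m * m * m, S, big, by rw [← h3]; simp [pow_succ, mul_assoc], mul_assoc m m m ▸ (h2.comp h2).comp h2,
    fun b u z => ((((h1.mul h1).cast e).mul h1) b u z).cast (mu0 ..) (by simp [mu0])⟩

namespace Fu

variable {n : G} (S : Fu ι n) [Finite G] [CharP F 3]
include S

omit [Finite G] [CharP F 3] in
theorem ninv : n⁻¹ = n := inv_eq_of_mul_eq_one_right S.n2

omit [Finite G] [CharP F 3] in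
theorem ac : Ac ι 0 n !![0, 1; 1, 0] := fun b u z => (S.sw b u z).cast (mu0 ..).symm (by simp [mu0])

omit [CharP F 3] in
theorem toSw : Sw ι 0 n := ⟨S.toOp, S.ac.mem, S.nt, fun h => by
  obtain ⟨z, h⟩ := Setup.exZ h 1
  exact one_ne_zero (congrArg HS.b ((S.eq_iff (S.sw 0 0 1) h).1 rfl)), by simp, fun z => ⟨z, mu0 z 0 0 ▸ S.sw ..⟩⟩

omit [Finite G] [CharP F 3] in
theorem tau_M {l : F} (h : l ≠ 0) (b u z : F) : R ι (tau ι n l h) (pe b u 0 z) (pe b (l * u) 0 (l ^ 2 * z)) := by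
  have := ((S.sw z u b).symm.comp (R.h h ..)).comp (S.sw ..)
  rwa [← mul_assoc] at this

omit [CharP F 3] in
theorem tau_Z {l : F} (h : l ≠ 0) : tau ι n l h ∈ normalizer ((ZZ F).map ι : Set G) :=
  S.normZ one_ne_zero ((S.tau_M h 0 0 1).cast rfl (by rw [mul_zero]))

omit [Finite G] [CharP F 3] in
theorem tau_t {l : F} (h : l ≠ 0) : R ι (tau ι n l h) tt tt := by
  have := (S.nt.symm.comp (R.of_comm (g := ι (hh l h)) (by rw [← map_mul, ← map_mul, tt_comm rfl rfl]))).comp S.nt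
  rwa [← mul_assoc] at this

theorem tau_Q {l : F} (h : l ≠ 0) (u v z : F) : R ι (tau ι n l h) (pe 0 u v z) (pe 0 (l * u) (l * v) (l ^ 2 * z)) := by
  have := S.finite
  obtain ⟨m, rfl⟩ := Finite.surjective_of_injective (frobenius_inj F 3) l
  have m0 : m ≠ 0 := fun e => h (by simp [e])
  have two := S.two
  have t3 := h3 (F := F)
  have key : ∀ v, ∃ u, R ι (tau ι n m m0) (pe 0 0 v 0) (pe 0 u (m * v) 0) := fun v => by
    obtain ⟨u', v', h1⟩ := S.exV 3 (S.tau_Z m0) (S.tau_t m0) 0 v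
    have h2 := S.tau_M m0 0 1 0
    have h3 := ((h2.mul h1).mul h2.inv).mul h1.inv
    rw [q_comm, q_comm] at h3
    have := congrArg HS.z ((S.eq_iff h3 (S.tau_M m0 ..)).1 rfl)
    simp only [pe_z] at this
    exact ⟨u', by rwa [show m * v = v' by grind]⟩
  obtain ⟨κ, h1⟩ := key 1
  have k2 : ∀ u v z, R ι (tau ι n m m0) (pe 0 u v z) (pe 0 (m * u + κ * v) (m * v) (m ^ 2 * z)) := fun u v z => by
    obtain ⟨u', h2⟩ := key v
    have h3 := ((h2.mul h1).mul h2.inv).mul h1.inv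
    rw [q_comm, q_comm] at h3
    have := congrArg HS.z ((S.eq_iff h3 (R.one _)).1 (by simp [pe_zero]))
    simp only [pe_z, one_z] at this
    refine ((S.tau_M m0 0 u (z - u * v)).mul h2).cast ?_ ?_ <;> rw [pe_mul, pe_inj] <;> refine ⟨?_, ?_, ?_, ?_⟩ <;> grind
  have := ((k2 u v z).comp (k2 ..)).comp (k2 ..)
  rw [tau_mul, tau_mul, tau_congr _ h (by rw [frobenius_def]; ring)] at this
  refine this.cast rfl ?_
  rw [pe_inj, frobenius_def]
  refine ⟨?_, ?_, ?_, ?_⟩ <;> grind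

theorem tau_L {l : F} (h : l ≠ 0) (a : SL(2, F)) : R ι (tau ι n l h) (sl a) (sl a) := by
  have hw : R ι (tau ι n l h) ii ii := by
    obtain ⟨y, hy⟩ := S.exN (S.tau_Z h) ii
    obtain ⟨hu, hv⟩ := uv_of_tt S.two ((S.eq_iff (hy.mul (S.tau_t h)) ((S.tau_t h).mul hy)).1 (tt_comm rfl rfl))
    have e : ∀ u v, _ := fun u v => (S.eq_iff (((hy.mul (S.tau_Q h u v 0)).mul hy.inv).cast (conj_Q ..) (conj_Q ..))
      (S.tau_Q h ..)).1 rfl
    have e1 := e 1 0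
    have e2 := e 0 1
    have e3 := congrArg HS.z ((S.eq_iff (hy.mul hy) (S.tau_t h)).1 ii_sq)
    have two := S.two
    simp [pe_inj, hu, hv] at e1 e2 e3
    refine hy.cast rfl ?_
    ext <;> simp <;> grind
  have hu : ∀ c, R ι (tau ι n l h) (sl (up c)) (sl (up c)) := fun c => (S.tau_M h c 0 0).cast rfl (by simp [sl_up])
  refine R.of_comm (mem_centralizer_singleton_iff.1 ((eq_top_of_up_lo (L := (centralizer {tau ι n l h}).comap (ι.comp sl))
    (fun c => mem_centralizer_singleton_iff.2 (hu c).comm.symm) fun c => mem_centralizer_singleton_iff.2 ?_).ge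
    (mem_top a))).symm
  rw [show lo c = wSL * up (-c) * wSL⁻¹ by apply ext4 <;> simp only [wSL] <;> sl2_simp <;> ring]
  simpa [sl_w] using ((hw.mul (hu (-c))).mul hw.inv).comm.symm

theorem sc {l : F} (h : l ≠ 0) (x : HS F) : R ι (tau ι n l h) x (scale l x) :=
  ((S.tau_Q h ..).mul (S.tau_L h _)).cast (pe_sl x) (pe_sl (scale l x))

theorem NZ {g : G} (hg : g ∈ normalizer ((ZZ F).map ι : Set G)) : ∃ s hs x, g = tau ι n s hs * ι x := by
  obtain ⟨s, s0, h⟩ := S.toSw.lin_Z 3 hg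
  obtain ⟨x, hx⟩ := S.mem_C one_ne_zero ((h 1).comp ((S.tau_M s0 0 0 1).cast rfl (by rw [mul_zero])).symm)
  exact ⟨s, s0, x, by rw [hx, mul_inv_cancel_left]⟩

theorem HZ {g : G} (hg : g ∈ normalizer ((ZZ F).map ι : Set G)) (ht : R ι g tt tt) :
    ∃ s hs a z, g = tau ι n s hs * ι (pe 0 0 0 z * sl a) := by
  obtain ⟨s, hs, x, rfl⟩ := S.NZ hg
  have := ht.comp (S.tau_t hs).symm
  rw [inv_mul_cancel_left] at this
  obtain ⟨hu, hv⟩ := uv_of_tt S.two (mul_inv_eq_iff_eq_mul.1 (S.eq_of this))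
  exact ⟨s, hs, sp x, x.z, by have := pe_sl x; rw [hu, hv] at this; rw [this]⟩

theorem mono {g : G} (hg : g ∈ normalizer ((MM F).map ι : Set G)) (ht : R ι g tt tt) :
    g ∈ normalizer ((ZZ F).map ι : Set G) ∨ n * g ∈ normalizer ((ZZ F).map ι : Set G) :=
  or_iff_not_imp_left.2 fun h => S.ninv ▸ S.uniq 3 hg ht h S.toSw.nM S.nt S.toSw.nZ

theorem diag {g : G} (hg : g ∈ normalizer ((MM F).map ι : Set G)) (ht : R ι g tt tt)
    (hZ : g ∈ normalizer ((ZZ F).map ι : Set G)) : ∃ α σ, ∀ b z, R ι g (pe b 0 0 z) (pe (α * b) 0 0 (σ * z)) := by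
  obtain ⟨s, hs, a, z, rfl⟩ := S.HZ hZ ht
  have c := S.c_zero ((mul_mem_cancel_left (S.toSw.ac_d 3 hs).mem).1 hg)
  refine ⟨(a 0 0) ^ 2, s ^ 2, fun b z => ((R.self _ _).cast rfl ?_).comp ((S.tau_M hs ..).cast rfl (by rw [mul_zero]))⟩
  have := det_eq a
  simp [sl] at c
  ext <;> simp [sl, c] <;> grind

theorem three_A {g : G} (hg : g ∈ normalizer ((MM F).map ι : Set G)) (ht : R ι g tt tt) {k : ℕ} (hk : g ^ 3 ^ k = 1) :
    g ∈ (ZX F).map ι := by
  have hZ : g ∈ normalizer ((ZZ F).map ι : Set G) := by_contra fun h => by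
    have := S.uniq 3 hg ht h (inv_mem hg) ht.symm (fun e => h (inv_mem_iff.1 e))
    obtain ⟨j, hj⟩ : Odd (3 ^ k) := Odd.pow (by decide)
    rw [hj, pow_succ, pow_mul, mul_eq_one_iff_inv_eq] at hk
    exact h (hk ▸ inv_mem (pow_mem (by simpa [sq] using this) j))
  obtain ⟨x, rfl⟩ := S.pelt_mem 3 hZ hk
  have c := S.c_zero hg
  obtain ⟨hu, hv⟩ := uv_of_tt S.two (mul_inv_eq_iff_eq_mul.1 (S.eq_of ht))
  exact mem_map_of_mem ι ⟨⟨⟨a_eq_one c (S.inj (by rw [map_pow, hk, map_one])), c⟩, hv⟩, hu⟩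

omit [CharP F 3] S in
theorem A_le : (ZX F).map ι ≤ (MM F).map ι := map_mono fun _ h => h.1

omit [CharP F 3] S in
theorem pe_A (b z : F) : ι (pe b 0 0 z) ∈ (ZX F).map ι := mem_ZX.2 ⟨_, _, rfl⟩

theorem NA {g : G} (hg : g ∈ normalizer ((ZX F).map ι : Set G)) : g ∈ normalizer ((MM F).map ι : Set G) := by
  refine S.wc ?_
  rintro _ ⟨m, hm, rfl⟩
  have c : ∀ b z, R ι (g * m * g⁻¹) (pe b 0 0 z) (pe b 0 0 z) := fun b z => R.of_comm (by
    simpa [mul_assoc] using cj_comm (k := g) (M_comm hm (A_le ((mem_normalizer_iff''.1 hg _).1 (pe_A b z)))))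
  obtain ⟨x, hx⟩ := S.mem_C one_ne_zero (c 0 1)
  have c0 := c_eq_zero one_ne_zero rfl (S.eq_of (hx ▸ c 1 0))
  exact ⟨x, ⟨a_eq_one (p := 3) (k := 1) c0 (S.inj (by rw [map_pow, hx, conj_pow, pow_one, M_pow 3 hm]; simp)), c0⟩, hx⟩

omit [CharP F 3] in
theorem MA {g : G} (hg : g ∈ normalizer ((MM F).map ι : Set G)) (ht : R ι g tt tt) :
    g ∈ normalizer ((ZX F).map ι : Set G) := mem_normalizer_fintype fun a ha => by
  obtain ⟨b, z, rfl⟩ := mem_ZX.1 ha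
  obtain ⟨_, _, h⟩ := S.exX hg ht b z
  exact mem_ZX.2 ⟨_, _, Eq.symm h⟩

omit [CharP F 3] in
theorem cZ {g : G} {κ b u z : F} (hκ : κ ≠ 0) (hb : b ≠ 0) (h1 : R ι g (pe 0 0 0 κ) (pe 0 0 0 κ))
    (h2 : R ι g (pe b u 0 z) (pe b u 0 z)) : g ∈ normalizer ((MM F).map ι : Set G) := by
  obtain ⟨x, rfl⟩ := S.mem_C hκ h1
  exact (S.toSw.ac_C (c_eq_zero hb rfl (S.eq_of h2))).mem

omit [Finite G] [CharP F 3] in
theorem cA {g : G} (ht : R ι g tt tt) (h : ∀ b z, R ι g (pe b 0 0 z) (pe b 0 0 z)) :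
    g ∈ (ZX F).map ι ∨ g * ι tt ∈ (ZX F).map ι := by
  obtain ⟨x, rfl⟩ := S.mem_C one_ne_zero (h 0 1)
  have e := S.eq_of (h 1 0)
  have c := c_eq_zero one_ne_zero rfl e
  obtain ⟨hu, hv⟩ := uv_of_tt S.two (mul_inv_eq_iff_eq_mul.1 (S.eq_of ht))
  have e1 := congrArg HS.b e
  have := x.det
  simp [c] at e1 this
  rcases mul_self_eq_one_iff.1 (show x.a * x.a = 1 by grind) with h | h
  · exact Or.inl (mem_map_of_mem ι ⟨⟨⟨h, c⟩, hv⟩, hu⟩)
  · exact Or.inr (map_mul ι .. ▸ mem_map_of_mem ι ⟨⟨⟨by simp [h], by simp [c]⟩, by simp [hv]⟩, by simp [hu]⟩)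

end Fu

end Cfsg.Agent.H5.HS
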