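import Cfsg.Agent.H5.T333
import Cfsg.Agent.H5.GWc4
import Cfsg.Agent.H8.Clos7
import Cfsg.Agent.H8.Generation
import Cfsg.Agent.H7.TwoTools
import Cfsg.Agent.H4.Dihedral
import Cfsg.Agent.H1.SLn

/-!
# General lemmas: arguments modulo a central subgroup; a group with the Sylow subgroups of `L₂(3^m)`
-/

set_option autoImplicit false

namespace Cfsg.Agent.H5

open Subgroup Cfsg.Agent.H8 Cfsg.Agent.H4.SL2
open Cfsg.Agent.H7 (opp)
open scoped MatrixGroups

variable {G : Type*} [Group G]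

theorem mem_zp_two {t u : G} (h : t * t = 1) (hu : u ∈ zpowers t) : u = 1 ∨ u = t := by
  obtain ⟨n, rfl⟩ := hu
  rcases Int.even_or_odd' n with ⟨k, rfl | rfl⟩
  · left; simp only [zpow_mul, zpow_two, h, one_zpow]
  · right; simp only [zpow_add, zpow_mul, zpow_two, h, one_zpow, one_mul, zpow_one]

/-- The `(3,3,3)` theorem modulo a central involution. -/
theorem gl333T [Finite G] {K A A0 U : Subgroup G} {t : G} (t2 : t * t = 1) (htK : t ∈ K) (hKt : ∀ k ∈ K, k * t = t * k)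
    (hAK : A ≤ K) (hUA : U ≤ A) (hA0 : A0 ≤ A) (hU : ∀ k ∈ K, ∀ u ∈ U, k * u = u * k)
    (hT : ∀ g ∈ K, ∀ a ∈ A, a ∉ U → g * a * g⁻¹ ∈ A → g ∈ normalizer (A : Set G))
    (hc : ∀ a ∈ A, ∀ b ∈ A, a * b = b * a) (h3 : ∀ a ∈ A, a ^ 3 = 1)
    (hS : ∀ g ∈ K, g ∈ normalizer (A : Set G) → g ^ 3 ∈ U → g ∈ A)
    (hA0n : ∀ n ∈ K, n ∈ normalizer (A : Set G) → ∀ a ∈ A0, n * a * n⁻¹ ∈ A0)
    (hreg : ∀ n ∈ K, n ∈ normalizer (A : Set G) → ∀ a ∈ A0, a ∉ U → n * a * n⁻¹ * a⁻¹ ∈ U → n ∈ A ∨ n * t ∈ A)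
    {x y b : G} (hx : x ∈ A) (hy : y ∈ A) (hb : b ∈ A0) (x1 : x ∉ U) (y1 : y ∉ U)
    (xy1 : x * y ∉ U) (xyb1 : x * y * b ∉ U)
    (d : ∀ n ∈ K, n ∈ normalizer (A : Set G) → n * x * n⁻¹ * y⁻¹ ∉ U ∧
      n * x * n⁻¹ * (x * y)⁻¹ ∉ U ∧ n * x * n⁻¹ * (x * y * b)⁻¹ ∉ U ∧
      n * y * n⁻¹ * (x * y)⁻¹ ∉ U ∧ n * y * n⁻¹ * (x * y * b)⁻¹ ∉ U)
    (d3 : ∀ n ∈ K, n ∈ normalizer (A : Set G) → ∀ k ∈ K, k ∈ normalizer (A : Set G) →
      n * x * n⁻¹ * (k * y * k⁻¹) * (x * y * b)⁻¹ ∉ U) : K ≤ normalizer (A : Set G) := by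
  have mem : ∀ {B : Subgroup G}, B ≤ K → ∀ {g : G}, g ∈ B ⊔ zpowers t ↔ g ∈ B ∨ g * t ∈ B := fun {B} hB {g} => by
    refine ⟨fun h => ?_, fun h => h.elim mem_sup_left fun h => ?_⟩
    · obtain ⟨a, ha, u, hu, rfl⟩ := (mem_sup_of_le_normalizer (zpowers_le_of_mem (mem_normalizer_fintype fun a ha => by
        rwa [← hKt a (hB ha), mul_inv_cancel_right]))).1 h
      rcases mem_zp_two t2 hu with rfl | rfl
      · left; rwa [mul_one]
      · right; rwa [mul_assoc, t2, mul_one]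
    · simpa using mul_mem (mem_sup_left h : g * t ∈ B ⊔ zpowers t) (mem_sup_right (inv_mem (mem_zpowers t)))
  have cube : ∀ {g : G}, g ∈ K → (g * t) ^ 3 = g ^ 3 * t := fun {g} hg => by
    rw [(show Commute g t from hKt g hg).mul_pow, pow_succ t, sq, t2, one_mul]
  have pure : ∀ {B : Subgroup G}, B ≤ A → ∀ {g : G}, g ∈ B ⊔ zpowers t → g ^ 3 = 1 → g ∈ B := fun {B} hB {g} hg h => by
    refine ((mem (hB.trans hAK)).1 hg).elim id fun h' => ?_
    have := h3 _ (hB h')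
    rw [cube ((mul_mem_cancel_right htK).1 (hAK (hB h'))), h, one_mul] at this
    rwa [this, mul_one] at h'
  have c3 : ∀ {g a : G}, a ∈ A → (g * a * g⁻¹) ^ 3 = 1 := fun ha => by rw [conj_pow, h3 _ ha]; group
  have tK : zpowers t ≤ K := zpowers_le_of_mem htK
  have nA : ∀ {g : G}, g ∈ normalizer ((A ⊔ zpowers t : Subgroup G) : Set G) → g ∈ normalizer (A : Set G) := fun hg =>
    mem_normalizer_fintype fun a ha => pure le_rfl ((mem_normalizer_iff.1 hg a).1 (mem_sup_left ha)) (c3 ha)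
  have ct : ∀ {g a : G}, g ∈ K → g * a * g⁻¹ * t = g * (a * t) * g⁻¹ := fun {g a} hg => by
    rw [mul_assoc, hKt _ (inv_mem hg)]; group
  have nA' : ∀ {g : G}, g ∈ K → g ∈ normalizer (A : Set G) → g ∈ normalizer ((A ⊔ zpowers t : Subgroup G) : Set G) :=
    fun hg hn => mem_normalizer_fintype fun a ha => by
      rw [SetLike.mem_coe, mem hAK] at ha ⊢
      rw [ct hg]
      exact ha.imp (mem_normalizer_iff.1 hn _).1 (mem_normalizer_iff.1 hn _).1
  have nU : ∀ {a : G}, a ∈ A → a ∉ U → a ∉ U ⊔ zpowers t := fun ha h h' => h (pure hUA h' (h3 _ ha))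
  have cA : ∀ {n a : G}, n ∈ normalizer (A : Set G) → a ∈ A → n * a * n⁻¹ ∈ A := fun hn ha =>
    (mem_normalizer_iff.1 hn _).1 ha
  have hxy := mul_mem hx hy
  have hxyb := mul_mem hxy (hA0 hb)
  refine fun g hg => nA (gl333K (K := K) (A := A ⊔ zpowers t) (A0 := A0) (U := U ⊔ zpowers t) (sup_le hAK tK)
    (sup_le_sup_right hUA _) (hA0.trans le_sup_left) (fun k hk u hu => ?_) (fun g hg a ha a1 h => ?_)
    (fun a ha b hb => ?_) (fun a ha => ?_) (fun g hg hn h => ?_) (fun n h1 h2 => hA0n n h1 (nA h2))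
    (fun n h1 h2 a ha a1 h => (mem hAK).2 (hreg n h1 (nA h2) a ha (fun e => a1 (mem_sup_left e))
      (by_contra fun e => nU (mul_mem (cA (nA h2) (hA0 ha)) (inv_mem (hA0 ha))) e h)))
    (mem_sup_left hx) (mem_sup_left hy) hb (nU hx x1) (nU hy y1) (nU hxy xy1) (nU hxyb xyb1)
    (fun n h1 h2 => ?_) (fun n h1 h2 k h3 h4 => nU (mul_mem (mul_mem (cA (nA h2) hx) (cA (nA h4) hy)) (inv_mem hxyb))
      (d3 n h1 (nA h2) k h3 (nA h4))) hg)
  · rw [mem (hUA.trans hAK)] at hu ⊢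
    rw [ct hk]
    exact hu.imp (fun h => by rwa [hU k hk _ h, mul_inv_cancel_right]) fun h => by rwa [hU k hk _ h, mul_inv_cancel_right]
  · refine nA' hg ?_
    rcases (mem hAK).1 ha with ha' | ha'
    · exact hT g hg a ha' (fun e => a1 (mem_sup_left e)) (pure le_rfl h (c3 ha'))
    · exact hT g hg _ ha' (fun e => a1 ((mem (hUA.trans hAK)).2 (Or.inr e)))
        (pure le_rfl (ct hg ▸ mul_mem h (mem_sup_right (mem_zpowers t))) (c3 ha'))
  · have key : ∀ {a b : G}, a ∈ K → b ∈ A ⊔ zpowers t → (∀ c ∈ A, a * c = c * a) → a * b = b * a := fun {a b} hK hb h => by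
      rcases (mem hAK).1 hb with h' | h'
      · exact h _ h'
      · exact mul_right_cancel (b := t) (by rw [mul_assoc, h _ h', mul_assoc, ← hKt a hK, mul_assoc])
    exact key (sup_le hAK tK ha) hb fun c hc' => (key (hAK hc') ha (hc c hc')).symm
  · rcases (mem hAK).1 ha with h | h
    · rw [h3 a h]; exact one_mem _
    · exact (mem (hUA.trans hAK)).2 (Or.inr (by rw [← cube (sup_le hAK tK ha), h3 _ h]; exact one_mem _))
  · rcases (mem (hUA.trans hAK)).1 h with h | h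
    · exact mem_sup_left (hS g hg (nA hn) h)
    · exact (mem hAK).2 (Or.inr (hS _ (mul_mem hg htK) (nA (mul_mem hn (le_normalizer (mem_sup_right (mem_zpowers t)))))
        (cube hg ▸ h)))
  · obtain ⟨d1, d2, d3, d4, d5⟩ := d n h1 (nA h2)
    have a1 := cA (nA h2) hx
    have a2 := cA (nA h2) hy
    exact ⟨nU (mul_mem a1 (inv_mem hy)) d1, nU (mul_mem a1 (inv_mem hxy)) d2, nU (mul_mem a1 (inv_mem hxyb)) d3,
      nU (mul_mem a2 (inv_mem hxy)) d4, nU (mul_mem a2 (inv_mem hxyb)) d5⟩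

/-- `Z*` modulo a central `2`-subgroup -/
theorem zs_mod [Finite G] {K U P : Subgroup G} (hU : IsPGroup 2 U) (hUK : U ≤ K) (hc : ∀ k ∈ K, ∀ u ∈ U, k * u = u * k)
    (hP : IsSylowIn 2 P K) {a : G} (ha : a ∈ K) (h2 : a * a ∈ U)
    (h : ∀ g ∈ K, g * a * g⁻¹ ∈ P → a⁻¹ * (g * a * g⁻¹) ∈ U) {g : G} (hg : g ∈ K) :
    ∃ o ∈ opp 2 K, ∃ c ∈ K, g = o * c ∧ a⁻¹ * (c * a * c⁻¹) ∈ U := by
  have : Fact (Nat.Prime 2) := ⟨Nat.prime_two⟩
  have hn : K ≤ normalizer (U : Set G) := fun k hk => mem_normalizer_fintype fun u hu => by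
    rwa [hc k hk u hu, mul_inv_cancel_right]
  have hUP : U ≤ P := hP.le_of_le_normalizer hU hUK (hP.le.trans hn)
  have : (U.subgroupOf K).Normal := ⟨fun u hu k => (mem_normalizer_iff.1 (hn k.2) _).1 hu⟩
  let f := QuotientGroup.mk' (U.subgroupOf K)
  have sj : ∀ g, ∃ k, f k = g := QuotientGroup.mk'_surjective _
  have e1 : ∀ k : K, f k = 1 ↔ (k : G) ∈ U := fun k => QuotientGroup.eq_one_iff k
  have e2 : ∀ k l : K, f k = f l ↔ (k : G)⁻¹ * l ∈ U := fun k l => QuotientGroup.eq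
  lift a to K using ha
  lift g to K using hg
  have I := H7.Isolated.of_sylow (t := f a) (hP.toSylow.mapSurjective sj) (by rw [← map_mul, e1]; exact h2) fun g hg => by
    obtain ⟨g, rfl⟩ := sj g
    obtain ⟨p, hp, e⟩ := hg
    rw [← map_inv, ← map_mul, ← map_mul] at e ⊢
    rw [eq_comm, e2]
    exact h g g.2 (by simpa using mul_mem (show (p : G) ∈ P from hp) (hUP ((e2 _ _).1 e)))
  obtain ⟨c, hc1, o, ho, e⟩ := mem_sup_of_normal_right.1 (I.centralizer_sup.ge (mem_top (f g)⁻¹))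
  obtain ⟨c, rfl⟩ := sj c
  obtain ⟨o, rfl⟩ := sj o
  obtain ⟨o1, ho1, o2, ho2, rfl, ⟨k, hk⟩, odd⟩ := H7.exists_two_odd_decomp o
  have m : ∀ {x}, x ∈ zpowers (o1 * o2) → f x ∈ pPrimeCore 2 _ := by
    rintro _ ⟨i, rfl⟩
    rw [map_zpow]; exact zpow_mem ho i
  have z : f o1 = 1 := H7.eq_one_of_odd_of_two (Nat.odd_iff.2 (Nat.two_dvd_ne_zero.1 fun h =>
    L0.not_dvd_card_pPrimeCore (h.trans (orderOf_dvd_natCard _ (m ho1))))) ⟨k, by rw [← map_pow, hk, map_one]⟩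
  have m2 := H7.mem_pPrimeCore_of_central_quotient (pgroup_subgroupOf hU K)
    (fun u hu => mem_center_iff.2 fun k => Subtype.ext (hc k k.2 u hu)) (Nat.coprime_two_right.2 odd) (m ho2)
  refine ⟨o2⁻¹, ⟨o2⁻¹, inv_mem m2, rfl⟩, o2 * g, mul_mem o2.2 g.2, by group, (e2 a (o2 * g * a * (o2 * g)⁻¹)).1 ?_⟩
  have e3 : f (o2 * g) = (f c)⁻¹ := by rw [map_mul, eq_inv_iff_mul_eq_one, ← inv_inv (f g), ← e, map_mul, z]; group
  rw [map_mul, map_mul, map_inv, e3, inv_inv, mul_assoc, ← mem_centralizer_singleton_iff.1 hc1, inv_mul_cancel_left]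

/-- two involutions modulo a normal subgroup -/
theorem dih_mod [Finite G] {K U : Subgroup G} (hn : ∀ k ∈ K, ∀ u ∈ U, k * u * k⁻¹ ∈ U) {a b : G} (ha : a ∈ K) (hb : b ∈ K)
    (a2 : a * a ∈ U) (b2 : b * b ∈ U) : (∃ g ∈ K, (g * a * g⁻¹)⁻¹ * b ∈ U) ∨
      ∃ s ∈ K, s ∉ U ∧ s * s ∈ U ∧ a⁻¹ * (s * a * s⁻¹) ∈ U ∧ s⁻¹ * (b * s * b⁻¹) ∈ U := by
  have : (U.subgroupOf K).Normal := ⟨fun u hu k => hn k k.2 u hu⟩
  let f := QuotientGroup.mk' (U.subgroupOf K)
  have sj : ∀ g, ∃ k, f k = g := QuotientGroup.mk'_surjective _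
  have e1 : ∀ k : K, f k = 1 ↔ (k : G) ∈ U := fun k => QuotientGroup.eq_one_iff k
  have e2 : ∀ k l : K, f k = f l ↔ (k : G)⁻¹ * l ∈ U := fun k l => QuotientGroup.eq
  lift a to K using ha
  lift b to K using hb
  have a2' : f a * f a = 1 := by rw [← map_mul, e1]; exact a2
  have b2' : f b * f b = 1 := by rw [← map_mul, e1]; exact b2
  rcases Nat.even_or_odd (orderOf (f a * f b)) with h | h
  · obtain ⟨z, -, z2, c1, c2⟩ := H4.exists_central_involution_of_even_orderOf_mul a2' b2' (isOfFinOrder_of_finite _) h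
    obtain ⟨s, rfl⟩ := sj z
    refine Or.inr ⟨s, s.2, fun e => H4.ne_one_of_orderOf_two z2 ((e1 s).2 e),
      (e1 (s * s)).1 (by rw [map_mul, H4.mul_self_of_orderOf_two z2]), (e2 a (s * a * s⁻¹)).1 ?_, (e2 s (b * s * b⁻¹)).1 ?_⟩
    · rw [map_mul, map_mul, map_inv, c1.eq, mul_inv_cancel_right]
    · rw [map_mul, map_mul, map_inv, ← c2.eq, mul_inv_cancel_right]
  · obtain ⟨d, -, e⟩ := H4.exists_conj_of_odd_orderOf_mul a2' b2' h
    obtain ⟨g, rfl⟩ := sj d
    exact Or.inl ⟨g, g.2, (e2 (g * a * g⁻¹) b).1 (by rw [map_mul, map_mul, map_inv, e])⟩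

/-- generation under a four-group action -/
theorem gen2 [Finite G] {O H : Subgroup G} (hO : ¬ 2 ∣ Nat.card O) {a b : G} (hc : a * b = b * a) (a4 : a ^ 2 ^ 2 = 1)
    (b4 : b ^ 2 ^ 2 = 1) (ha : a ∈ normalizer (O : Set G)) (hb : b ∈ normalizer (O : Set G))
    (a2 : a * a ∈ centralizer (O : Set G)) (b2 : b * b ∈ centralizer (O : Set G))
    (h : ∀ o ∈ O, o * a = a * o ∨ o * b = b * o ∨ o * (a * b) = a * b * o → o ∈ H) : O ≤ H := by
  have : Fact (Nat.Prime 2) := ⟨Nat.prime_two⟩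
  have c : Commute a b := hc
  have n : zpowers b ≤ normalizer (zpowers a : Set G) := zpowers_le_of_mem (mem_normalizer_fintype (by
    rintro _ ⟨i, rfl⟩
    exact ⟨i, by simp only; rw [(c.symm.zpow_right i).eq, mul_inv_cancel_right]⟩))
  have m : ∀ {x : G}, x ∈ zpowers a ⊔ zpowers b → ∃ i j : ℤ, x = a ^ i * b ^ j := fun hx => by
    obtain ⟨_, ⟨i, rfl⟩, _, ⟨j, rfl⟩, rfl⟩ := (mem_sup_of_le_normalizer n).1 hx
    exact ⟨i, j, rfl⟩
  have pz : ∀ {a : G}, a ^ 2 ^ 2 = 1 → IsPGroup 2 (zpowers a) := fun {a} h => by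
    rintro ⟨_, i, rfl⟩
    exact ⟨2, Subtype.ext (by simp only [SubmonoidClass.coe_pow]; rw [← zpow_natCast, ← zpow_mul, mul_comm, zpow_mul,
      zpow_natCast, h, one_zpow]; rfl)⟩
  have cm : IsMulCommutative (zpowers a ⊔ zpowers b : Subgroup G) := ⟨⟨fun x y => Subtype.ext (by
    obtain ⟨i, j, e⟩ := m x.2
    obtain ⟨k, l, e'⟩ := m y.2
    simp only [coe_mul, e, e']
    exact (((Commute.refl a).zpow_zpow i k).mul_right (c.zpow_zpow i l)).mul_left
      ((c.symm.zpow_zpow j k).mul_right ((Commute.refl b).zpow_zpow j l)))⟩⟩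
  refine (CopAct.of_pgroup ((pz a4).to_sup_of_normal_left' (pz b4) n) hO
    (sup_le (zpowers_le_of_mem ha) (zpowers_le_of_mem hb))).le_of_cocyclic cm fun B ⟨hB, d, hd, e⟩ o ho => h o ho.1 ?_
  have hBC : B ≤ centralizer {o} := fun x hx => mem_centralizer_singleton_iff.2 (ho.2 x hx)
  have d2 : d * d ∈ centralizer {o} := by
    obtain ⟨i, j, rfl⟩ := m hd
    rw [show a ^ i * b ^ j * (a ^ i * b ^ j) = (a * a) ^ i * (b * b) ^ j by
      rw [(Commute.refl a).mul_zpow, (Commute.refl b).mul_zpow, mul_assoc, ← mul_assoc (b ^ j), ← (c.zpow_zpow i j).eq]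
      group]
    exact mul_mem (zpow_mem (mem_centralizer_singleton_iff.2 (a2 o ho.1).symm) i)
      (zpow_mem (mem_centralizer_singleton_iff.2 (b2 o ho.1).symm) j)
  have key : ∀ x ∈ zpowers a ⊔ zpowers b, x ∈ centralizer {o} ∨ x * d ∈ centralizer {o} := fun x hx => by
    obtain ⟨y, hy, _, ⟨i, rfl⟩, rfl⟩ := (mem_sup_of_le_normalizer ((zpowers_le_of_mem hd).trans
      (le_normalizer_of_comm cm hB))).1 (e.ge hx)
    rcases Int.even_or_odd' i with ⟨k, rfl | rfl⟩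
    · left; simp only [zpow_mul, zpow_two]; exact mul_mem (hBC hy) (zpow_mem d2 k)
    · right; simp only [zpow_add, zpow_mul, zpow_two, zpow_one, mul_assoc]
      exact mul_mem (hBC hy) (mul_mem (zpow_mem d2 k) d2)
  have ma : a ∈ zpowers a ⊔ zpowers b := mem_sup_left (mem_zpowers a)
  have mb : b ∈ zpowers a ⊔ zpowers b := mem_sup_right (mem_zpowers b)
  rcases key a ma with h1 | h1
  · exact Or.inl (mem_centralizer_singleton_iff.1 h1).symm
  rcases key b mb with h2 | h2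
  · exact Or.inr (Or.inl (mem_centralizer_singleton_iff.1 h2).symm)
  refine Or.inr (Or.inr (mem_centralizer_singleton_iff.1 ?_).symm)
  have := mul_mem (mul_mem h1 h2) (inv_mem d2)
  rwa [show a * d * (b * d) * (d * d)⁻¹ = a * (d * b) * d⁻¹ by group, comm_of_mem cm hd mb, ← mul_assoc,
    mul_inv_cancel_right] at this

theorem sl2_three {K : Type*} [Field K] (h3 : (3 : K) ≠ 0) {a : SL(2, K)} (h : a ^ 3 = 1) (h1 : a ≠ 1) :
    a 0 0 + a 1 1 = -1 := by
  by_contra hn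
  have e := fun i j => congrArg (fun g : SL(2, K) => g i j) (show a * a = a⁻¹ by
    rw [eq_inv_iff_mul_eq_one, ← h]; simp [pow_succ])
  have e1 := e 0 0
  have e2 := e 0 1
  have e3 := e 1 0
  have e4 := e 1 1
  have d := det_eq a
  sl2_simp at e1 e2 e3 e4
  have t : a 0 0 + a 1 1 + 1 ≠ 0 := fun e => hn (by linear_combination e)
  have b : a 0 1 = 0 := mul_right_cancel₀ t (by linear_combination e2)
  have c : a 1 0 = 0 := mul_right_cancel₀ t (by linear_combination e3)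
  have g : a 0 0 = 1 := by grind
  exact h1 (ext4 g b c (show a 1 1 = 1 by grind))

theorem psl2_three {K : Type*} [Field K] (h2 : (2 : K) ≠ 0) (h3 : (3 : K) ≠ 0) {x y : PSL(2, K)} (hx : x ^ 3 = 1)
    (hy : y ^ 3 = 1) (hc : x * y = y * x) (x1 : x ≠ 1) : y = 1 ∨ y = x ∨ y * x = 1 := by
  have D := dc_SL h2
  have lift : ∀ {x : PSL(2, K)}, x ^ 3 = 1 → ∃ a : SL(2, K), a ^ 3 = 1 ∧ QuotientGroup.mk' _ a = x := fun {x} hx => by
    obtain ⟨a, rfl⟩ := D.surj x
    refine ⟨a ^ 4, ?_, by rw [map_pow, pow_succ, hx, one_mul]⟩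
    rw [← pow_mul, mul_comm, pow_mul]
    rcases (D.ker _).1 ((map_pow _ a 3).trans hx) with e | e <;> rw [e] <;> norm_num
  obtain ⟨a, ha, rfl⟩ := lift hx
  obtain ⟨b, hb, rfl⟩ := lift hy
  by_cases b1 : b = 1
  · left; rw [b1, map_one]
  have t1 := sl2_three h3 ha fun e => x1 (by rw [e, map_one])
  have t2 := sl2_three h3 hb b1
  have c : a * b = b * a := by
    refine (D.eq_or (by rw [map_mul, map_mul, hc])).elim Eq.symm fun e => ?_
    exfalso
    have e3 : (b * a * b⁻¹) ^ 3 = (a * -1) ^ 3 := by rw [e]; congr 1; simp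
    rw [conj_pow, ha, mul_neg, mul_one, mul_one, mul_inv_cancel, Odd.neg_pow (by decide), ha] at e3
    exact neg_one_ne_one h2 e3.symm
  have e := fun i j => congrArg (fun g : SL(2, K) => g i j) c
  have e1 := e 0 0
  have e2 := e 0 1
  have e3 := e 1 0
  have d1 := det_eq a
  have d2 := det_eq b
  sl2_simp at e1 e2 e3
  rw [← map_mul]
  right
  by_cases h : (2 * a 0 0 + 1) * (2 * b 0 0 + 1) + 2 * (a 0 1 * b 1 0 + a 1 0 * b 0 1) + 3 = 0
  · left; congr 1
    apply ext4 <;> apply mul_left_cancel₀ (mul_ne_zero h2 h3) <;> grind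
  · right
    rw [show b * a = 1 from ?_, map_one]
    have h' : (2 * a 0 0 + 1) * (2 * b 0 0 + 1) + 2 * (a 0 1 * b 1 0 + a 1 0 * b 0 1) - 3 = 0 :=
      mul_right_cancel₀ h (by grind)
    rw [mul_eq_one_iff_eq_inv]
    apply ext4 <;> sl2_simp <;> apply mul_left_cancel₀ (mul_ne_zero h2 h3) <;> grind

/-- a group with the Sylow `2`- and `3`-subgroups of `L₂(3^m)` -/
theorem gw3 {Y F : Type*} [Group Y] [Finite Y] [Field F] [Fintype F] [CharP F 3] (big : 9 < Nat.card F)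
    (φ : SL(2, F) →* Y) (h1 : φ (-1) = 1) (hw : φ wSL ≠ 1) (h0 : pPrimeCore 2 Y = ⊥) {S : Subgroup Y}
    (hS : IsSylowIn 2 S ⊤) (hle : S ≤ φ.range) (h3 : ¬ 3 * Nat.card F ∣ Nat.card Y) : φ.range.Normal := by
  classical
  have : Fact (Nat.Prime 2) := ⟨Nat.prime_two⟩
  have : Fact (Nat.Prime 3) := ⟨Nat.prime_three⟩
  have h2 : (2 : F) ≠ 0 := two_ne_zero_of_char (p := 3) (by norm_num)
  obtain ⟨m, -, hm⟩ := FiniteField.card F 3
  have hodd : Odd (Fintype.card F) := hm ▸ Odd.pow (by decide)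
  have gd : H1.SLn.Good (Fin 2) F := Or.inr ⟨by simp, H1.SLn.exists_sq_ne_one (by omega)⟩
  have := H1.SLn.isSimpleGroup_PSL gd
  let ψ : PSL(2, F) →* Y := QuotientGroup.lift _ φ fun a ha => by
    rcases H7.SL2_mem_center_iff.1 ha with rfl | rfl
    exacts [map_one φ, h1]
  have e : ∀ a, ψ (QuotientGroup.mk a) = φ a := fun a => rfl
  have inj : Function.Injective ψ := (MonoidHom.ker_eq_bot_iff ψ).1 ((ψ.normal_ker.eq_bot_or_eq_top).resolve_right
    fun h => hw (h.ge (mem_top (QuotientGroup.mk wSL))))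
  have hr : φ.range = ψ.range := by
    ext y
    exact ⟨fun ⟨a, h⟩ => ⟨_, (e a).trans h⟩, fun ⟨a, h⟩ => by
      obtain ⟨a, rfl⟩ := QuotientGroup.mk_surjective a; exact ⟨a, h⟩⟩
  rw [hr] at hle ⊢
  have ds : GW.DS Y := ds_of_sylow hS.toSylowTop (((dc_SL h2).ds.of_injective (MonoidHom.ofInjective inj).symm.toMonoidHom
    (MonoidHom.ofInjective inj).symm.injective).of_injective (inclusion hle) (inclusion_injective hle))
  have nc : ¬ IsMulCommutative PSL(2, F) := fun h => by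
    rcases (dc_SL h2).eq_or (x := up 1 * wSL) (y := wSL * up 1) (by
      rw [map_mul, map_mul]; exact h.is_comm.comm _ _) with e | e
    · have := congrArg (fun g : SL(2, F) => g 0 0) e
      simp only [wSL] at this
      sl2_simp at this
      grind
    · have := congrArg (fun g : SL(2, F) => g 0 1) e
      simp only [wSL] at this
      sl2_simp at this
      grind
  obtain ⟨-, hs, hc⟩ := layer_of_ds ds (fun h => nc ⟨⟨IsSimpleGroup.comm_iff_isSolvable.2
    (Group.isSolvable_of_isSolvable_injective inj)⟩⟩) h0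
  rw [H7.layerOf_top] at hs hc
  set E := layer Y
  have hE : ψ.range ≤ E := by
    have h := (hS.inf_of_le_normalizer (N := E) le_normalizer_of_normal).ne_bot (by
      rw [top_inf_eq]; exact two_dvd_card_of_simple hc)
    obtain ⟨⟨s, hs1, hs2⟩, s1⟩ := ne_bot_iff_exists_ne_one.1 h
    obtain ⟨a, rfl⟩ := hle hs1
    rintro _ ⟨b, rfl⟩
    exact (((inferInstance : E.Normal).comap ψ).eq_bot_or_eq_top.resolve_left fun h =>
      s1 (Subtype.ext (show ψ a = 1 by rw [mem_bot.1 (h.le hs2), map_one]))).ge (mem_top b)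
  have c1 := card_of_psl hodd (MonoidHom.ofInjective inj).symm
  have d1 := card_dvd_of_le hE
  have d2 : Nat.card E ∣ Nat.card Y := card_subgroup_dvd_card E
  rw [Nat.card_eq_fintype_card] at big h3
  have pw : ∀ {k r : ℕ} {x : ℕ}, r = 3 ^ (k + 1) → 2 * x = r * (r ^ 2 - 1) → r ∣ x ∧ ¬ 3 * r ∣ x := fun {k r x} hr h => by
    refine ⟨Nat.Coprime.dvd_of_dvd_mul_left (hr ▸ Nat.Coprime.pow_left _ (show Nat.Coprime 3 2 by decide)) (h ▸ Dvd.intro _ rfl), fun h' => ?_⟩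
    have h4 : r * 3 ∣ r * (r ^ 2 - 1) := h ▸ (mul_comm 3 r ▸ h').mul_left 2
    have h5 := Nat.dvd_of_mul_dvd_mul_left (hr ▸ by positivity) h4
    have h6 : 3 ∣ r ^ 2 := Dvd.dvd.pow (hr ▸ dvd_pow_self 3 (by omega)) (by omega)
    have : 0 < r ^ 2 := hr ▸ by positivity
    omega
  obtain ⟨k, hk⟩ : ∃ k, Fintype.card F = 3 ^ (k + 1) := ⟨(m : ℕ) - 1, by rw [hm, Nat.sub_add_cancel m.pos]⟩
  have q1 := (pw hk c1).1.trans d1
  rcases GW.gw_psl hc (ds.of_injective E.subtype Subtype.val_injective) with ⟨F', _, _, ho, ⟨ε⟩⟩ | h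
  swap
  · exfalso
    have : 3 ^ 3 ∣ 3 ^ (k + 1) := pow_dvd_pow 3 (by
      by_contra hn
      have := Nat.pow_le_pow_right (n := 3) (by norm_num) (show k + 1 ≤ 2 by omega)
      omega)
    have := (hk ▸ this).trans q1
    rw [h] at this
    norm_num at this
  have c2 := card_of_psl ho ε
  by_cases t3 : (3 : F') = 0
  · have : CharP F' 3 := (CharP.charP_iff_prime_eq_zero Nat.prime_three).2 (by exact_mod_cast t3)
    obtain ⟨m', -, hm'⟩ := FiniteField.card F' 3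
    obtain ⟨k', hk'⟩ : ∃ k, Fintype.card F' = 3 ^ (k + 1) := ⟨(m' : ℕ) - 1, by rw [hm', Nat.sub_add_cancel m'.pos]⟩
    obtain ⟨q2, q3⟩ := pw hk' c2
    have : k = k' := by
      rcases lt_trichotomy k k' with h | h | h
      · exact absurd (((by rw [hk, hk', ← pow_succ']; exact pow_dvd_pow 3 (by omega) : _ ∣ _).trans q2).trans d2) h3
      · exact h
      · exact absurd ((by rw [hk, hk', ← pow_succ']; exact pow_dvd_pow 3 (by omega) : _ ∣ _).trans q1) q3
    rw [eq_of_le_of_card_ge hE (by rw [hk', ← this, ← hk, ← c1] at c2; omega)]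
    infer_instance
  · exfalso
    let θ : SL(2, F) →* PSL(2, F') := ε.toMonoidHom.comp ((ψ.comp (QuotientGroup.mk' _)).codRestrict E fun a => hE ⟨QuotientGroup.mk a, rfl⟩)
    have hθ : ∀ b : F, θ (up b) = 1 → b = 0 := fun b h => by
      have h' : ψ (QuotientGroup.mk (up b)) = 1 := congrArg Subtype.val (ε.injective (h.trans (map_one ε).symm))
      rcases H7.SL2_mem_center_iff.1 ((QuotientGroup.eq_one_iff _).1 (inj (h'.trans (map_one ψ).symm))) with h | h <;>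
        simpa [up01] using congrArg (fun g : SL(2, F) => g 0 1) h
    obtain ⟨b, hb⟩ : ∃ b : F, b ∉ ({0, 1, -1} : Finset F) := by
      by_contra! h
      have := (Finset.card_le_card (s := Finset.univ) fun x _ => h x).trans Finset.card_le_three
      rw [Finset.card_univ] at this
      omega
    simp only [Finset.mem_insert, Finset.mem_singleton, not_or] at hb
    have p3 : ∀ b : F, θ (up b) ^ 3 = 1 := fun b => by rw [← map_pow, up_pow_char, map_one]
    rcases psl2_three (two_ne_zero_of_odd_card ho) t3 (p3 1) (p3 b) (by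
      rw [← map_mul, ← map_mul, up_mul_up, up_mul_up, add_comm]) (fun h => one_ne_zero (hθ 1 h)) with h | h | h
    · exact hb.1 (hθ b h)
    · exact hb.2.1 (by
        have := hθ (b + -1) (by rw [← up_mul_up, ← up_inv, map_mul, map_inv, h, mul_inv_cancel])
        linear_combination this)
    · exact hb.2.2 (by
        have := hθ (b + 1) (by rw [← up_mul_up, map_mul, h])
        linear_combination this)

end Cfsg.Agent.H5
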