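import Cfsg.Agent.H5.HT0

/-!
# Two commuting copies of `SL₂(3^m)` interchanged by an involution: basic facts
-/

set_option autoImplicit false

namespace Cfsg.Agent.H5

open Subgroup Cfsg.Agent.H8 Cfsg.Agent.H4.SL2
open scoped MatrixGroups

variable {G : Type*} [Group G] {F : Type*} [Field F]

theorem pm_sq {a : SL(2, F)} (h : a = 1 ∨ a = -1) : a * a = 1 := by rcases h with rfl | rfl <;> simp

theorem up_pm {b : F} (h : up b = 1 ∨ up b = -1) : b = 0 := by
  rcases h with h | h <;> simpa [up01] using congrArg (fun g : SL(2, F) => g 0 1) h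

theorem w_comm {a : SL(2, F)} (h : a * wSL = wSL * a) : a 1 0 = -a 0 1 ∧ a 1 1 = a 0 0 := by
  have c0 := congrArg (fun g : SL(2, F) => g 0 0) h
  have c1 := congrArg (fun g : SL(2, F) => g 0 1) h
  simp only [wSL] at c0 c1
  sl2_simp at c0 c1
  exact ⟨by linear_combination c0, by linear_combination c1⟩

theorem w_comm_sq (two : (2 : F) ≠ 0) {a : SL(2, F)} (h : a * wSL = wSL * a) (h2 : a * a = -1) : a = wSL ∨ a = -wSL := by
  obtain ⟨e1, e2⟩ := w_comm h
  have t := trace_eq_zero_of_mul_self h2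
  have d := det_eq a
  have e3 := congrArg (fun g : SL(2, F) => g 0 0) h2
  sl2_simp at e3
  have : a 0 0 = 0 := by grind
  rcases mul_self_eq_one_iff.1 (show a 0 1 * a 0 1 = 1 by grind) with e | e
  · right; apply ext4 <;> simp only [wSL] <;> sl2_simp <;> grind
  · left; apply ext4 <;> simp only [wSL] <;> sl2_simp <;> grind

section three

variable [CharP F 3]

theorem th : (3 : F) = 0 := CharP.cast_eq_zero F 3

theorem two3 : (2 : F) ≠ 0 := fun h => one_ne_zero (by linear_combination th (F := F) - h : (1 : F) = 0)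

def jSL : SL(2, F) := mk 1 1 1 (-1) (by linear_combination -th (F := F))

theorem jSL_sq : (jSL * jSL : SL(2, F)) = -1 := by
  have := th (F := F)
  apply ext4 <;> simp only [jSL] <;> sl2_simp <;> grind

theorem j_w : (jSL * wSL : SL(2, F)) = -(wSL * jSL) := by
  apply ext4 <;> simp only [jSL, wSL] <;> sl2_simp <;> grind

theorem wj_sq : (wSL * jSL * (wSL * jSL) : SL(2, F)) = -1 := by
  have := th (F := F)
  apply ext4 <;> simp only [jSL, wSL] <;> sl2_simp <;> grind

theorem up_w : (up 1 * wSL * (up 1)⁻¹ : SL(2, F)) = jSL := by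
  have := th (F := F)
  apply ext4 <;> simp only [jSL, wSL] <;> sl2_simp <;> grind

theorem up_j : (up 1 * jSL * (up 1)⁻¹ : SL(2, F)) = wSL * jSL := by
  have := th (F := F)
  apply ext4 <;> simp only [jSL, wSL] <;> sl2_simp <;> grind

theorem wj_pm {a : SL(2, F)} (h : a * wSL = wSL * a) (h' : a * jSL = jSL * a) : a = 1 ∨ a = -1 := by
  obtain ⟨e1, e2⟩ := w_comm h
  have c0 := congrArg (fun g : SL(2, F) => g 0 0) h'
  simp only [jSL] at c0
  sl2_simp at c0
  have := two3 (F := F)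
  exact eq_one_or_neg_one_of_entries (by grind) (by grind) e2.symm

theorem two_elt (ns : ∀ x : F, x * x ≠ -1) {a : SL(2, F)} {k : ℕ} (h : a ^ 2 ^ k = 1) : a * a = 1 ∨ a * a = -1 := by
  induction k generalizing a with
  | zero => left; rw [pow_zero, pow_one] at h; simp [h]
  | succ k ih =>
    rcases ih (a := a * a) (by rw [← sq, ← pow_mul, ← pow_succ', h]) with e | e
    · exact eq_one_or_neg_one_of_mul_self two3 e
    · have t := trace_eq_zero_of_mul_self e
      have d := det_eq a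
      have := th (F := F)
      sl2_simp at t
      exact absurd (by grind) (ns (a 0 0 + a 1 1))

theorem three_tr {a : SL(2, F)} {k : ℕ} (h : a ^ 3 ^ k = 1 ∨ a ^ 3 ^ k = -1) :
    a 0 0 + a 1 1 = 2 ∨ a 0 0 + a 1 1 = -2 := by
  have : Fact (Nat.Prime 3) := ⟨Nat.prime_three⟩
  refine h.imp trace_eq_two_of_pow fun h => ?_
  have := trace_eq_two_of_pow (p := 3) (g := -a) (k := k) (by rw [Odd.neg_pow (Odd.pow (by decide)), h, neg_neg])
  sl2_simp at this
  linear_combination -this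

theorem w_three {a : SL(2, F)} {k : ℕ} (h : a ^ 3 ^ k = 1 ∨ a ^ 3 ^ k = -1) (hw : a * wSL = wSL * a) :
    a = 1 ∨ a = -1 := by
  obtain ⟨e1, e2⟩ := w_comm hw
  have d := det_eq a
  have := two3 (F := F)
  have : a 0 1 = 0 := by rcases three_tr h with t | t <;> grind
  exact eq_one_or_neg_one_of_entries this (by grind) e2.symm

theorem up_three {a : SL(2, F)} {k : ℕ} (h : a ^ 3 ^ k = 1 ∨ a ^ 3 ^ k = -1) (h0 : a 1 0 = 0) :
    ∃ b, a = up b ∨ a = -up b := by
  have d := det_eq a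
  rcases three_tr h with t | t
  · have : a 0 0 = 1 := by grind
    exact ⟨a 0 1, Or.inl (ext4 this rfl h0 (show a 1 1 = 1 by grind))⟩
  · have : a 0 0 = -1 := by grind
    refine ⟨-a 0 1, Or.inr ?_⟩
    apply ext4 <;> sl2_simp <;> grind

/-- the elements of order four of the standard quaternion subgroup -/
def Q6 (a : SL(2, F)) : Prop :=
  a = wSL ∨ a = -wSL ∨ a = jSL ∨ a = -jSL ∨ a = wSL * jSL ∨ a = -(wSL * jSL)

theorem q6_of {a : SL(2, F)} (h : a * a = -1) (h1 : a * wSL * (a * wSL) = 1 ∨ a * wSL * (a * wSL) = -1)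
    (h2 : a * jSL * (a * jSL) = 1 ∨ a * jSL * (a * jSL) = -1)
    (h3 : a * (wSL * jSL) * (a * (wSL * jSL)) = 1 ∨ a * (wSL * jSL) * (a * (wSL * jSL)) = -1) : Q6 a := by
  have key : ∀ {c : SL(2, F)}, c * c = -1 → a * c * (a * c) = 1 → a = c ∨ a = -c := fun {c} hc h => by
    have e : a = -(a * c * c) := by rw [mul_assoc, hc]; simp
    rcases eq_one_or_neg_one_of_mul_self two3 h with e' | e' <;> rw [e'] at e
    · right; simpa using e
    · left; simpa using e
  unfold Q6
  rcases h1 with h1 | h1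
  · have := key wSL_mul_self h1; tauto
  rcases h2 with h2 | h2
  · have := key jSL_sq h2; tauto
  rcases h3 with h3 | h3
  · have := key wj_sq h3; tauto
  have t0 := trace_eq_zero_of_mul_self h
  have t1 := trace_eq_zero_of_mul_self h1
  have t2 := trace_eq_zero_of_mul_self h2
  have t3 := trace_eq_zero_of_mul_self h3
  have d := det_eq a
  have := th (F := F)
  simp only [jSL, wSL] at t1 t2 t3
  sl2_simp at t1 t2 t3
  grind

/-- a pair of anticommuting elements of `Q6` is conjugate to `(w, j)` or `(w, w j)` -/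
theorem q6_pair {a b : SL(2, F)} (ha : Q6 a) (hb : Q6 b) (h : a * b ≠ b * a) :
    ∃ c : SL(2, F), c * a * c⁻¹ = wSL ∧ (c * b * c⁻¹ = jSL ∨ c * b * c⁻¹ = wSL * jSL) := by
  have t := th (F := F)
  have r3 : (up 1 * (wSL * jSL) * (up 1)⁻¹ : SL(2, F)) = wSL := by
    apply ext4 <;> simp only [jSL, wSL] <;> sl2_simp <;> grind
  have j1 : (jSL * wSL * jSL⁻¹ : SL(2, F)) = -wSL := by rw [j_w]; simp
  have j3 : (jSL * (wSL * jSL) * jSL⁻¹ : SL(2, F)) = -(wSL * jSL) := by rw [← mul_assoc, mul_inv_cancel_right, j_w]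
  have w2 : (wSL * jSL * wSL⁻¹ : SL(2, F)) = -jSL := by rw [mul_inv_eq_iff_eq_mul, neg_mul, j_w, neg_neg]
  have w3 : (wSL * (wSL * jSL) * wSL⁻¹ : SL(2, F)) = -(wSL * jSL) := by rw [mul_assoc, w2, mul_neg]
  have cr : ∀ {b : SL(2, F)}, Q6 b → Q6 (up 1 * b * (up 1)⁻¹) := fun hb => by
    rcases hb with rfl | rfl | rfl | rfl | rfl | rfl <;> simp only [Q6, mul_neg, neg_mul, up_w, up_j, r3] <;> tauto
  have cj : ∀ {b : SL(2, F)}, Q6 b → Q6 (jSL * b * jSL⁻¹) := fun hb => by
    rcases hb with rfl | rfl | rfl | rfl | rfl | rfl <;>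
      simp only [Q6, mul_neg, neg_mul, j1, j3, mul_inv_cancel_right, neg_neg] <;> tauto
  let P := fun a : SL(2, F) => ∀ b : SL(2, F), Q6 b → a * b ≠ b * a →
    ∃ c : SL(2, F), c * a * c⁻¹ = wSL ∧ (c * b * c⁻¹ = jSL ∨ c * b * c⁻¹ = wSL * jSL)
  have step : ∀ {a c : SL(2, F)}, (∀ {b}, Q6 b → Q6 (c * b * c⁻¹)) → P (c * a * c⁻¹) → P a := fun {a c} h1 h2 b hb h => by
    obtain ⟨d, hd⟩ := h2 _ (h1 hb) fun e => h ((MulAut.conj c).injective (by simpa [mul_assoc] using e))
    exact ⟨d * c, by simpa [mul_assoc] using hd⟩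
  have p1 : P wSL := fun b hb h => by
    rcases hb with rfl | rfl | rfl | rfl | rfl | rfl
    · exact (h rfl).elim
    · exact (h (by simp)).elim
    · exact ⟨1, by simp⟩
    · exact ⟨wSL, by simp [w2]⟩
    · exact ⟨1, by simp⟩
    · exact ⟨wSL, by simp [w3]⟩
  have p2 : P (-wSL) := step cj (by rwa [mul_neg, neg_mul, j1, neg_neg])
  have p5 : P (wSL * jSL) := step cr (by rwa [r3])
  have p6 : P (-(wSL * jSL)) := step cr (by rwa [mul_neg, neg_mul, r3])
  rcases ha with rfl | rfl | rfl | rfl | rfl | rfl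
  exacts [p1 b hb h, p2 b hb h, step cr (by rwa [up_j]) b hb h, step cr (by rwa [mul_neg, neg_mul, up_j]) b hb h,
    p5 b hb h, p6 b hb h]

end three

end Cfsg.Agent.H5
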