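import Cfsg.Agent.H5.HT1

/-!
# Two commuting copies of `SL₂(3^m)` interchanged by an involution: the Sylow `2`-subgroup
-/

set_option autoImplicit false

namespace Cfsg.Agent.H5

open Subgroup Cfsg.Agent.H8 Cfsg.Agent.H4.SL2
open scoped MatrixGroups

variable {G : Type*} [Group G] {F : Type*} [Field F]

structure Tw (f g : SL(2, F) →* G) (n : G) : Prop where
  inj : Function.Injective f
  n2 : n * n = 1
  sw : ∀ a, n * f a * n⁻¹ = g a
  tt : g (-1) = f (-1)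
  comm : ∀ a c, f a * g c = g c * f a
  ns : ∀ x : F, x * x ≠ -1
  big : 9 < Nat.card F
  nx : ∀ k b b', b ≠ 0 → k * f (-1) = f (-1) * k → k * f (up b) * k⁻¹ = f (up b') → ∃ a c, a 1 0 = 0 ∧ k = f a * g c
  mix : ∀ k b c, b ≠ 0 → c ≠ 0 → k * f (-1) = f (-1) * k →
    k * (f (up b) * g (up c)) = f (up b) * g (up c) * k → ∃ a c, k = f a * g c ∨ k = f a * g c * n
  nf : ∀ k, k * f (up 1) * k⁻¹ ≠ f (up (-1))

def Y0 (f g : SL(2, F) →* G) : Subgroup G := f.range ⊔ g.range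
def H0 (f g : SL(2, F) →* G) (n : G) : Subgroup G := Y0 f g ⊔ zpowers n

variable {f g : SL(2, F) →* G} {n : G}

theorem Y0_comm : Y0 g f = Y0 f g := sup_comm _ _
theorem H0_comm : H0 g f n = H0 f g n := by rw [H0, Y0_comm, H0]
theorem f_Y (a : SL(2, F)) : f a ∈ Y0 f g := mem_sup_left ⟨a, rfl⟩
theorem g_Y (a : SL(2, F)) : g a ∈ Y0 f g := mem_sup_right ⟨a, rfl⟩
theorem Y_H : Y0 f g ≤ H0 f g n := le_sup_left
theorem n_H : n ∈ H0 f g n := mem_sup_right (mem_zpowers n)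
theorem fg_Y (a c : SL(2, F)) : f a * g c ∈ Y0 f g := mul_mem (f_Y a) (g_Y c)
theorem t_t : f (-1) * f (-1) = 1 := by rw [← map_mul]; simp
theorem f_neg (a : SL(2, F)) : f (-a) = f a * f (-1) := by rw [← map_mul]; simp
theorem t_f (a : SL(2, F)) : f a * f (-1) = f (-1) * f a := by rw [← map_mul, ← map_mul]; simp

namespace Tw

variable (S : Tw f g n)
include S

theorem ninv : n⁻¹ = n := inv_eq_of_mul_eq_one_right S.n2

theorem sw' (a : SL(2, F)) : n * g a * n⁻¹ = f a := by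
  rw [← S.sw, ← mul_assoc, ← mul_assoc, S.n2, one_mul, mul_assoc, ← mul_inv_rev, S.n2, inv_one, mul_one]

theorem n_f (a : SL(2, F)) : n * f a = g a * n := by rw [← S.sw, inv_mul_cancel_right]
theorem n_g (a : SL(2, F)) : n * g a = f a * n := by rw [← S.sw', inv_mul_cancel_right]
theorem nt : n * f (-1) = f (-1) * n := by rw [S.n_f, S.tt]
theorem n_fg (a c : SL(2, F)) : n * (f a * g c) = f c * g a * n := by
  rw [← mul_assoc, S.n_f, mul_assoc, S.n_g, ← mul_assoc, S.comm]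

theorem symm : Tw g f n where
  inj a b h := S.inj (by rw [← S.sw', h, S.sw'])
  n2 := S.n2
  sw := S.sw'
  tt := S.tt.symm
  comm a c := (S.comm c a).symm
  ns := S.ns
  big := S.big
  nx k b b' hb h1 h2 := by
    obtain ⟨a, c, h, e⟩ := S.nx (n * k * n⁻¹) b b' hb (by
      rw [← S.sw' (-1)]
      calc _ = n * (k * g (-1)) * n⁻¹ := by group
        _ = _ := by rw [h1]; group) (by rw [← S.sw' (up b), ← S.sw' (up b'), ← h2]; group)
    refine ⟨a, c, h, (MulAut.conj n).injective ?_⟩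
    rw [map_mul, MulAut.conj_apply, MulAut.conj_apply, MulAut.conj_apply, S.sw, S.sw', e]
  mix k b c hb hc h1 h2 := by
    obtain ⟨a, c, h⟩ := S.mix k c b hc hb (S.tt ▸ h1) (by rwa [S.comm])
    exact ⟨c, a, by rwa [← S.comm]⟩
  nf k h := S.nf (n * k * n⁻¹) (by rw [← S.sw' (up 1), ← S.sw' (up (-1)), ← h]; group)

theorem fg_mul (a c a' c' : SL(2, F)) : f a * g c * (f a' * g c') = f (a * a') * g (c * c') := by
  rw [map_mul, map_mul, mul_assoc, ← mul_assoc (g c), ← S.comm]; group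

theorem fgn_mul (a c a' c' : SL(2, F)) : f a * g c * n * (f a' * g c') = f (a * c') * g (c * a') * n := by
  rw [mul_assoc, S.n_fg, ← mul_assoc, S.fg_mul]

theorem fgn_sq (a c a' c' : SL(2, F)) : f a * g c * n * (f a' * g c' * n) = f (a * c') * g (c * a') := by
  rw [← mul_assoc, S.fgn_mul, mul_assoc, S.n2, mul_one]

theorem fg_pow (a c : SL(2, F)) (k : ℕ) : (f a * g c) ^ k = f (a ^ k) * g (c ^ k) := by
  rw [Commute.mul_pow (S.comm a c), map_pow, map_pow]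

theorem eq_iff {a c a' c' : SL(2, F)} : f a * g c = f a' * g c' ↔ a = a' ∧ c = c' ∨ a = -a' ∧ c = -c' := by
  refine ⟨fun h => ?_, ?_⟩
  · have e : f (a'⁻¹ * a) = g (c' * c⁻¹) := by
      rw [map_mul, map_mul, map_inv, map_inv, inv_mul_eq_iff_eq_mul, ← mul_assoc, ← h, mul_inv_cancel_right]
    rcases eq_one_or_neg_one_of_forall_commute (a := a'⁻¹ * a) fun b =>
      S.inj (by rw [map_mul, map_mul f b, e, S.comm]) with e' | e' <;> rw [e'] at e
    · exact Or.inl ⟨(inv_mul_eq_one.1 e').symm, (mul_inv_eq_one.1 (S.symm.inj (by rw [← e, map_one, map_one]))).symm⟩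
    · refine Or.inr ⟨by simpa using inv_mul_eq_iff_eq_mul.1 e', ?_⟩
      rw [mul_inv_eq_iff_eq_mul.1 (S.symm.inj (e.symm.trans S.tt.symm))]; simp
  · rintro (⟨rfl, rfl⟩ | ⟨rfl, rfl⟩)
    · rfl
    · rw [f_neg, f_neg (f := g), S.tt, ← S.tt, t_f, S.tt, mul_assoc, ← mul_assoc (f (-1)), t_t, one_mul]

theorem eq_one {a c : SL(2, F)} (h : f a * g c = 1) : a = 1 ∧ c = 1 ∨ a = -1 ∧ c = -1 :=
  S.eq_iff.1 (by rw [h, map_one, map_one, one_mul])

theorem eq_f {a c a' : SL(2, F)} (h : f a * g c = f a') : a = a' ∧ c = 1 ∨ a = -a' ∧ c = -1 :=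
  S.eq_iff.1 (by rw [h, map_one, mul_one])

theorem f_eq_g {a c : SL(2, F)} (h : f a = g c) : (a = 1 ∨ a = -1) ∧ (c = 1 ∨ c = -1) := by
  rcases S.eq_iff (a := a) (c := 1) (a' := 1) (c' := c).1 (by simpa using h) with ⟨h1, h2⟩ | ⟨h1, h2⟩
  · exact ⟨Or.inl h1, Or.inl h2.symm⟩
  · exact ⟨Or.inr h1, Or.inr (neg_eq_iff_eq_neg.1 h2.symm)⟩

theorem cf (a c x : SL(2, F)) : f a * g c * f x * (f a * g c)⁻¹ = f (a * x * a⁻¹) := by
  rw [mul_assoc (f a), ← S.comm, map_mul, map_mul, map_inv]; group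

theorem cg (a c x : SL(2, F)) : f a * g c * g x * (f a * g c)⁻¹ = g (c * x * c⁻¹) := by
  rw [S.comm, S.symm.cf]

theorem cf' (a c x : SL(2, F)) : f a * g c * n * f x * (f a * g c * n)⁻¹ = g (c * x * c⁻¹) := by
  rw [← S.cg a, ← S.sw x]; group

theorem cg' (a c x : SL(2, F)) : f a * g c * n * g x * (f a * g c * n)⁻¹ = f (a * x * a⁻¹) := by
  rw [← S.cf a c, ← S.sw' x]; group

theorem ne_n (a c a' c' : SL(2, F)) : f a * g c ≠ f a' * g c' * n := fun h => by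
  have := S.cf a c (up 1)
  rw [h, S.cf'] at this
  rcases (S.f_eq_g this.symm).1 with e | e <;> rw [mul_inv_eq_iff_eq_mul] at e
  · exact one_ne_zero (up_pm (Or.inl (mul_left_cancel (a := a) (by simpa using e))))
  · exact one_ne_zero (up_pm (Or.inr (mul_left_cancel (a := a) (by simpa using e))))

theorem mem_Y {k : G} : k ∈ Y0 f g ↔ ∃ a c, k = f a * g c := by
  refine ⟨fun h => ?_, fun ⟨a, c, h⟩ => h ▸ fg_Y a c⟩
  obtain ⟨_, ⟨a, rfl⟩, _, ⟨c, rfl⟩, rfl⟩ := (mem_sup_of_le_normalizer (by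
    rintro _ ⟨c, rfl⟩
    exact centralizer_le_normalizer _ (by rintro _ ⟨a, rfl⟩; exact S.comm a c))).1 h
  exact ⟨a, c, rfl⟩

theorem mem_H [Finite G] {k : G} : k ∈ H0 f g n ↔ ∃ a c, k = f a * g c ∨ k = f a * g c * n := by
  refine ⟨fun h => ?_, fun ⟨a, c, h⟩ => h.elim (· ▸ Y_H (fg_Y a c)) (· ▸ mul_mem (Y_H (fg_Y a c)) n_H)⟩
  obtain ⟨y, hy, u, hu, rfl⟩ := (mem_sup_of_le_normalizer (zpowers_le_of_mem (mem_normalizer_fintype fun y hy => by
    obtain ⟨a, c, rfl⟩ := S.mem_Y.1 hy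
    rw [S.n_fg, mul_inv_cancel_right]; exact fg_Y c a))).1 h
  obtain ⟨a, c, rfl⟩ := S.mem_Y.1 hy
  rcases mem_zp_two S.n2 hu with rfl | rfl
  exacts [⟨a, c, Or.inl (mul_one _)⟩, ⟨a, c, Or.inr rfl⟩]

theorem H_le : H0 f g n ≤ centralizer {f (-1)} :=
  sup_le (sup_le (by rintro _ ⟨a, rfl⟩; exact mem_centralizer_singleton_iff.2 (t_f a))
    (by rintro _ ⟨a, rfl⟩; exact mem_centralizer_singleton_iff.2 (S.comm _ _).symm))
    (zpowers_le_of_mem (mem_centralizer_singleton_iff.2 S.nt))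

variable [Finite G] [CharP F 3]

theorem sq_t {k : G} (h : k ∈ H0 f g n) (h2 : k * k = f (-1)) : ∃ a, a * a = -1 ∧ (k = f a ∨ k = g a) := by
  have ne := neg_one_ne_one (two3 (F := F))
  obtain ⟨a, c, rfl | rfl⟩ := S.mem_H.1 h
  · rw [S.fg_mul] at h2
    rcases S.eq_f h2 with ⟨h1, h3⟩ | ⟨h1, h3⟩
    · rcases eq_one_or_neg_one_of_mul_self two3 h3 with rfl | rfl
      · exact ⟨a, h1, Or.inl (by simp)⟩
      · exact ⟨-a, by simpa using h1, Or.inl (by rw [S.tt, f_neg a])⟩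
    · rcases eq_one_or_neg_one_of_mul_self two3 (by simpa using h1 : a * a = 1) with rfl | rfl
      · exact ⟨c, h3, Or.inr (by simp)⟩
      · exact ⟨-c, by simpa using h3, Or.inr (by rw [← S.tt, f_neg c, t_f c])⟩
  · rw [S.fgn_sq] at h2
    rcases S.eq_f h2 with ⟨h1, h2⟩ | ⟨h1, h2⟩
    · exact (ne (h1.symm.trans (mul_eq_one_comm.1 h2))).elim
    · exact (ne (h2.symm.trans (mul_eq_one_comm.1 (by simpa using h1)))).elim

omit S [Finite G] in
theorem cw [Finite F] {a : SL(2, F)} (h : a * a = -1) : ∃ c : SL(2, F), c * wSL * c⁻¹ = a := by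
  have := Fintype.ofFinite F
  obtain ⟨m, -, hm⟩ := FiniteField.card F 3
  exact exists_conj_wSL (hm ▸ Odd.pow (by decide)) h

omit [Finite G] [CharP F 3] in
theorem fin : Finite F := Nat.finite_of_card_ne_zero (by have := S.big; omega)

theorem conj_w {k : G} (h : k ∈ H0 f g n) (h2 : k * k = f (-1)) : ∃ h ∈ H0 f g n, h * f wSL * h⁻¹ = k := by
  have := S.fin
  obtain ⟨a, ha, rfl | rfl⟩ := S.sq_t h h2 <;> obtain ⟨c, rfl⟩ := cw ha
  · exact ⟨_, Y_H (fg_Y c 1), S.cf ..⟩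
  · exact ⟨_, mul_mem (Y_H (fg_Y 1 c)) n_H, S.cf' ..⟩

theorem sq_Y {k : G} (h : k ∈ Y0 f g) (h2 : k * k = 1) :
    k = 1 ∨ k = f (-1) ∨ ∃ h ∈ Y0 f g, h * (f wSL * g wSL) * h⁻¹ = k := by
  have := S.fin
  obtain ⟨a, c, rfl⟩ := S.mem_Y.1 h
  rw [S.fg_mul] at h2
  rcases S.eq_one h2 with ⟨h1, h3⟩ | ⟨h1, h3⟩
  · rcases eq_one_or_neg_one_of_mul_self two3 h1 with rfl | rfl <;>
      rcases eq_one_or_neg_one_of_mul_self two3 h3 with rfl | rfl <;> simp [S.tt, t_t]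
  · obtain ⟨x, rfl⟩ := cw h1
    obtain ⟨y, rfl⟩ := cw h3
    exact Or.inr (Or.inr ⟨_, fg_Y x y, by rw [← S.cf x y, ← S.cg x y]; group⟩)

omit [Finite G] [CharP F 3] in
theorem sq_n {a c : SL(2, F)} (h2 : f a * g c * n * (f a * g c * n) = 1) :
    f a * n * (f a)⁻¹ = f a * g c * n ∨ f a * (f (-1) * n) * (f a)⁻¹ = f a * g c * n := by
  rw [S.fgn_sq] at h2
  rcases S.eq_one h2 with ⟨h1, -⟩ | ⟨h1, -⟩
  · left; rw [← map_inv, mul_assoc, S.n_f, inv_eq_of_mul_eq_one_right h1, mul_assoc]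
  · right
    rw [← map_inv, mul_assoc, mul_assoc, S.n_f, ← S.tt, ← mul_assoc (g _), ← map_mul, mul_assoc (f a),
      show -1 * a⁻¹ = c by rw [mul_inv_eq_iff_eq_mul, eq_inv_mul_iff_mul_eq.2 h1]; simp]

end Tw

end Cfsg.Agent.H5
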