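import Cfsg.Agent.H5.HT2

/-!
# Two commuting copies of `SL₂(3^m)` interchanged by an involution: the Sylow `2`-subgroup
-/

set_option autoImplicit false

namespace Cfsg.Agent.H5

open Subgroup Cfsg.Agent.H8 Cfsg.Agent.H4.SL2
open scoped MatrixGroups

variable {G : Type*} [Group G] {F : Type*} [Field F] {f g : SL(2, F) →* G} {n : G}

theorem not_dvd_of_cent [Finite G] {p : ℕ} [Fact p.Prime] {B K : Subgroup G} (hB : IsPGroup p B)
    (hn : B ≤ normalizer (K : Set G)) (h : ∀ x ∈ K, x ∈ centralizer (B : Set G) → ∀ k, x ^ p ^ k = 1 → x = 1) :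
    ¬ p ∣ Nat.card K := fun hd => by
  obtain ⟨P, hP, hle⟩ := exists_isSylowIn_ge (K := K ⊔ B) hB le_sup_right
  have hK : K ⊔ B ≤ normalizer (K : Set G) := sup_le le_normalizer hn
  have h1 := hP.inf_of_le_normalizer hK
  rw [inf_eq_right.2 (le_sup_left : K ≤ K ⊔ B)] at h1
  have := hP.pgroup.isNilpotent
  obtain ⟨⟨x, hx, hc⟩, x1⟩ := ne_bot_iff_exists_ne_one.1 (L0.inf_centralizer_ne_bot_of_isNilpotent inf_le_left
    (fun a ha => mem_normalizer_fintype fun y hy => mem_inf.2 ⟨mul_mem (mul_mem ha (mem_inf.1 hy).1) (inv_mem ha),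
      (mem_normalizer_iff.1 (hK (hP.le ha)) y).1 hy.2⟩) (h1.ne_bot hd))
  obtain ⟨k, hk⟩ := hP.pgroup ⟨x, hx.1⟩
  exact x1 (Subtype.ext (h x hx.2 (centralizer_le hle hc) k (congrArg Subtype.val hk)))

theorem pg_zp {p k : ℕ} {g : G} (hk : g ^ p ^ k = 1) : IsPGroup p (zpowers g) := by
  rintro ⟨_, m, rfl⟩
  exact ⟨k, Subtype.ext (by
    change (g ^ m) ^ p ^ k = 1
    rw [← zpow_natCast, ← zpow_mul, mul_comm, zpow_mul, zpow_natCast, hk, one_zpow])⟩

theorem cj_comm {k a b : G} (h : a * b = b * a) : k * a * k⁻¹ * (k * b * k⁻¹) = k * b * k⁻¹ * (k * a * k⁻¹) := by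
  rw [conj_mul, conj_mul, h]

theorem cj_comm' {k a b : G} (h : k * a * k⁻¹ * (k * b * k⁻¹) = k * b * k⁻¹ * (k * a * k⁻¹)) : a * b = b * a := by
  simpa [mul_assoc] using cj_comm (k := k⁻¹) h

def UP (F : Type*) [Field F] : Subgroup SL(2, F) where
  carrier := {a | ∃ b, up b = a}
  mul_mem' := by rintro _ _ ⟨b, rfl⟩ ⟨c, rfl⟩; exact ⟨_, (up_mul_up b c).symm⟩
  one_mem' := ⟨0, up_zero⟩
  inv_mem' := by rintro _ ⟨b, rfl⟩; exact ⟨_, (up_inv b).symm⟩

theorem up_comm (b c : F) : up b * up c = up c * up b := by rw [up_mul_up, up_mul_up, add_comm]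

theorem four {a : SL(2, F)} (h : a * a = -1) : a ^ 2 ^ 2 = 1 := by
  rw [show a ^ 2 ^ 2 = a * a * (a * a) by simp [pow_succ, mul_assoc], h]; simp

theorem w_ne [CharP F 3] {a : SL(2, F)} (h : a * a = -1) : ¬ (a = 1 ∨ a = -1) := fun e =>
  neg_one_ne_one two3 (h.symm.trans (pm_sq e))

theorem comm_sq [CharP F 3] {a b : SL(2, F)} (ha : a * a = -1) (hb : b * b = -1) (h : a * b = b * a) :
    a = b ∨ a = -b := by
  have e : a = -(a * b * b) := by rw [mul_assoc, hb]; simp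
  rcases eq_one_or_neg_one_of_mul_self two3 (g := a * b) (by
    rw [mul_assoc, ← mul_assoc b, ← h, mul_assoc, hb, ← mul_assoc, ha]; simp) with e' | e' <;> rw [e'] at e
  · right; simpa using e
  · left; simpa using e

theorem wj_ne [CharP F 3] (hf : Function.Injective f) : f wSL * f jSL ≠ f jSL * f wSL := fun this => by
  rw [← map_mul, ← map_mul, j_w, hf.eq_iff] at this
  exact neg_one_ne_one (two3 (F := F)) (mul_left_cancel (a := wSL * jSL) (by rw [mul_neg, mul_one, ← this]))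

namespace Tw

variable (S : Tw f g n)
include S

theorem cup {k : G} {b : F} (hb : b ≠ 0) (h1 : k * f (-1) = f (-1) * k) (h2 : k * f (up b) = f (up b) * k) :
    ∃ β c, k = f (up β) * g c := by
  obtain ⟨a, c, h, rfl⟩ := S.nx k b b hb h1 (mul_inv_eq_iff_eq_mul.2 h2)
  have e := S.inj ((S.cf a c _).symm.trans (mul_inv_eq_iff_eq_mul.2 h2))
  have e1 := congrArg (fun x : SL(2, F) => x 0 1) e
  have d := det_eq a
  sl2_simp at e1
  rcases mul_self_eq_one_iff.1 (mul_right_cancel₀ hb (by grind) : a 0 0 * a 0 0 = 1) with e2 | e2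
  · exact ⟨a 0 1, c, S.eq_iff.2 (Or.inl ⟨ext4 e2 rfl h (show a 1 1 = 1 by grind), rfl⟩)⟩
  · refine ⟨-a 0 1, -c, S.eq_iff.2 (Or.inr ⟨?_, by simp⟩)⟩
    apply ext4 <;> sl2_simp <;> grind

theorem fc {a c x : SL(2, F)} (h : f a * g c * f x = f x * (f a * g c)) : a * x = x * a :=
  mul_inv_eq_iff_eq_mul.1 (S.inj ((S.cf a c x).symm.trans (mul_inv_eq_iff_eq_mul.2 h)))

theorem gc {a c x : SL(2, F)} (h : f a * g c * g x = g x * (f a * g c)) : c * x = x * c :=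
  S.symm.fc (c := a) (by rwa [← S.comm])

theorem nc {a c x : SL(2, F)} (h : f a * g c * n * f x = f x * (f a * g c * n)) : x = 1 ∨ x = -1 :=
  (S.f_eq_g ((S.cf' a c x).symm.trans (mul_inv_eq_iff_eq_mul.2 h)).symm).1

theorem pm {a c : SL(2, F)} (ha : a = 1 ∨ a = -1) (hc : c = 1 ∨ c = -1) : f a * g c = 1 ∨ f a * g c = f (-1) := by
  rcases ha with rfl | rfl <;> rcases hc with rfl | rfl <;> simp [S.tt, t_t]

variable [Finite G] [CharP F 3]

theorem cE {k : G} (h : k ∈ centralizer {f wSL, f jSL, g wSL, g jSL}) : k = 1 ∨ k = f (-1) := by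
  have : Fact (Nat.Prime 3) := ⟨Nat.prime_three⟩
  set K := centralizer {f wSL, f jSL, g wSL, g jSL}
  have mK : ∀ {k : G}, k ∈ K ↔ k * f wSL = f wSL * k ∧ k * f jSL = f jSL * k ∧ k * g wSL = g wSL * k ∧
      k * g jSL = g jSL * k := by
    intro g
    simp [K, mem_centralizer_iff, eq_comm]
  have Kt : ∀ {k : G}, k ∈ K → k * f (-1) = f (-1) * k := fun h => by
    have c : Commute _ _ := (mK.1 h).1
    rw [← wSL_mul_self, map_mul]; exact c.mul_right c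
  have key : ∀ {k : G}, k ∈ K → k ∈ H0 f g n → k = 1 ∨ k = f (-1) := fun h h' => by
    obtain ⟨h1, h2, h3, h4⟩ := mK.1 h
    obtain ⟨a, c, rfl | rfl⟩ := S.mem_H.1 h'
    · exact S.pm (wj_pm (S.fc h1) (S.fc h2)) (wj_pm (S.gc h3) (S.gc h4))
    · exact (w_ne wSL_mul_self (S.nc h1)).elim
  set B := zpowers (f (up 1)) ⊔ zpowers (g (up 1))
  have mB : ∀ x ∈ B, ∃ b c, x = f (up b) * g (up c) := fun x hx => by
    obtain ⟨_, ⟨_, ⟨b, rfl⟩, rfl⟩, _, ⟨_, ⟨c, rfl⟩, rfl⟩, rfl⟩ := (mem_sup_of_le_normalizer (by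
      rintro _ ⟨c, -, rfl⟩
      exact centralizer_le_normalizer _ (by rintro _ ⟨a, -, rfl⟩; exact S.comm a c))).1
      (sup_le_sup (zpowers_le_of_mem (mem_map_of_mem f (show up 1 ∈ UP F from ⟨1, rfl⟩)))
        (zpowers_le_of_mem (mem_map_of_mem g (show up 1 ∈ UP F from ⟨1, rfl⟩))) hx)
    exact ⟨b, c, rfl⟩
  have pB : IsPGroup 3 B := fun x => ⟨1, Subtype.ext (by
    obtain ⟨b, c, e⟩ := mB _ x.2
    simp only [SubmonoidClass.coe_pow, e, S.fg_pow, pow_one, up_pow_char, map_one, mul_one]; rfl)⟩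
  have nB : ∀ {f g : SL(2, F) →* G}, Tw f g n → ∀ x, x * f wSL = f wSL * x → x * f jSL = f jSL * x →
      (∀ c, x * g c = g c * x → f (up 1)⁻¹ * x * (f (up 1)⁻¹)⁻¹ * g c = g c * (f (up 1)⁻¹ * x * (f (up 1)⁻¹)⁻¹)) ∧
      f (up 1)⁻¹ * x * (f (up 1)⁻¹)⁻¹ * f wSL = f wSL * (f (up 1)⁻¹ * x * (f (up 1)⁻¹)⁻¹) ∧
      f (up 1)⁻¹ * x * (f (up 1)⁻¹)⁻¹ * f jSL = f jSL * (f (up 1)⁻¹ * x * (f (up 1)⁻¹)⁻¹) := fun {f g} S x h1 h2 => by
    have c1 : Commute x _ := h1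
    have c2 : Commute x _ := h2
    refine ⟨fun c h => ?_, ?_, ?_⟩
    · simpa only [S.comm, mul_inv_cancel_right] using cj_comm (k := f (up 1)⁻¹) h
    · have := cj_comm (k := f (up 1)⁻¹) c2.eq
      rwa [show f (up 1)⁻¹ * f jSL * (f (up 1)⁻¹)⁻¹ = f wSL by rw [← up_w]; simp [mul_assoc]] at this
    · have := cj_comm (k := f (up 1)⁻¹) (c1.mul_right c2).eq
      rwa [show f (up 1)⁻¹ * (f wSL * f jSL) * (f (up 1)⁻¹)⁻¹ = f jSL by
        rw [← map_mul f wSL, ← up_j]; simp [mul_assoc]] at this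
  have hn : B ≤ normalizer (K : Set G) := sup_le
    (zpowers_le_of_mem (inv_mem_iff.1 (map_inv f _ ▸ mem_normalizer_fintype fun x hx => by
      obtain ⟨h1, h2, h3, h4⟩ := mK.1 hx
      obtain ⟨e1, e2, e3⟩ := nB S x h1 h2
      exact mK.2 ⟨e2, e3, e1 _ h3, e1 _ h4⟩)))
    (zpowers_le_of_mem (inv_mem_iff.1 (map_inv g _ ▸ mem_normalizer_fintype fun x hx => by
      obtain ⟨h1, h2, h3, h4⟩ := mK.1 hx
      obtain ⟨e1, e2, e3⟩ := nB S.symm x h3 h4
      exact mK.2 ⟨e1 _ h1, e1 _ h2, e2, e3⟩)))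
  refine key h (CopAct.le_of_not_isCyclic (.of_pgroup pB (not_dvd_of_cent pB hn fun x hx hc k hk => ?_) hn)
    ⟨⟨fun x y => Subtype.ext ?_⟩⟩ (fun hc => ?_) (fun a ha a1 x hx => ?_) h)
  · obtain ⟨b, c, rfl⟩ := S.cup one_ne_zero (Kt hx) (hc _ (mem_sup_left (mem_zpowers _))).symm
    refine (key hx (Y_H (fg_Y _ _))).elim id fun e => ?_
    rw [e, ← map_pow, Odd.neg_one_pow (Odd.pow (by decide))] at hk
    rw [e, hk]
  · obtain ⟨_, _, e⟩ := mB _ x.2
    obtain ⟨_, _, e'⟩ := mB _ y.2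
    simp only [coe_mul, e, e', S.fg_mul, up_comm]
  · obtain ⟨γ, hγ⟩ := IsCyclic.exists_monoid_generator (α := B)
    obtain ⟨b, c, e⟩ := mB _ γ.2
    obtain ⟨i, hi⟩ := hγ ⟨_, mem_sup_left (mem_zpowers _)⟩
    obtain ⟨j, hj⟩ := hγ ⟨_, mem_sup_right (mem_zpowers _)⟩
    have hi := congrArg Subtype.val hi
    have hj := congrArg Subtype.val hj
    simp only [SubmonoidClass.coe_pow, e, S.fg_pow, up_pow] at hi hj
    have e1 := up_pm ((S.eq_f hi).imp And.right And.right)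
    have e2 := up_pm ((S.symm.eq_f ((S.comm ..).symm.trans hj)).imp And.right And.right)
    rcases mul_eq_zero.1 e1 with e3 | e3
    · rw [e3, zero_mul, zero_mul, up_zero, map_one, map_one, one_mul, ← map_one f] at hi
      exact one_ne_zero (up_pm (Or.inl (S.inj hi).symm))
    · rw [e2, e3, mul_zero, up_zero, map_one, map_one, one_mul, ← map_one g] at hj
      exact one_ne_zero (up_pm (Or.inl (S.symm.inj hj).symm))
  · obtain ⟨b, c, rfl⟩ := mB _ ha
    have e := mem_centralizer_singleton_iff.1 hx.2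
    by_cases hb : b = 0
    · rw [hb, up_zero, map_one, one_mul] at e a1
      obtain ⟨_, _, rfl⟩ := S.symm.cup (fun h => a1 (by rw [h, up_zero, map_one])) (S.tt ▸ Kt hx.1) e
      exact Y_H (mul_mem (g_Y _) (f_Y _))
    by_cases hc : c = 0
    · rw [hc, up_zero, map_one, mul_one] at e
      obtain ⟨_, _, rfl⟩ := S.cup hb (Kt hx.1) e
      exact Y_H (fg_Y _ _)
    exact S.mem_H.2 (S.mix x b c hb hc (Kt hx.1) e)

theorem bad {k : G} (h1 : k * f wSL * k⁻¹ = f wSL) (h2 : k * f jSL * k⁻¹ = f (wSL * jSL))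
    (h3 : k * g wSL * k⁻¹ = g wSL) (h4 : k * g jSL * k⁻¹ = g jSL ∨ k * g jSL * k⁻¹ = g (wSL * jSL)) : False := by
  have t3 := th (F := F)
  have kt : k * f (-1) * k⁻¹ = f (-1) := by rw [← wSL_mul_self, map_mul, ← conj_mul, h1]
  have h5 : k * f (wSL * jSL) * k⁻¹ = f (-jSL) := by
    rw [map_mul, ← conj_mul, h1, h2, ← map_mul, ← mul_assoc, wSL_mul_self, neg_one_mul]
  have cj : ∀ {x y : SL(2, F)}, k * f x * k⁻¹ = f y → k * f (-x) * k⁻¹ = f (-y) := fun {x y} h => by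
    rw [f_neg x, f_neg y, ← conj_mul, h, kt]
  have key : ∀ {x y z u v : SL(2, F)}, up 1 * x * (up 1)⁻¹ = y → k * f z * k⁻¹ = f y → up 1 * z * (up 1)⁻¹ = u →
      k * f u * k⁻¹ = f v → (wSL * jSL)⁻¹ * v * (wSL * jSL) = x →
      f x * (f (wSL * jSL)⁻¹ * (k * f (up 1) * k⁻¹) * f (up 1)) = f (wSL * jSL)⁻¹ * (k * f (up 1) * k⁻¹) * f (up 1) * f x :=
    fun {x y z u v} e1 e2 e3 e4 e5 => by
      rw [eq_comm, ← mul_inv_eq_iff_eq_mul]
      calc _ = f (wSL * jSL)⁻¹ * (k * (f (up 1) * (k⁻¹ * f (up 1 * x * (up 1)⁻¹) * k) * (f (up 1))⁻¹) * k⁻¹) *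
          (f (wSL * jSL)⁻¹)⁻¹ := by rw [map_mul f (_ * _), map_mul f (up 1), map_inv f (up 1)]; group
        _ = _ := by
          rw [e1, ← e2, show k⁻¹ * (k * f z * k⁻¹) * k = f z by group, ← map_inv, ← map_mul, ← map_mul, e3, e4,
            ← map_inv, ← map_mul, ← map_mul, inv_inv, e5]
  have c1 : Commute (k * f (up 1) * k⁻¹) (g wSL) := h3 ▸ cj_comm (S.comm ..)
  have c2 : Commute (k * f (up 1) * k⁻¹) (g jSL) := by
    have := cj_comm (k := k) (S.comm (up 1) jSL)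
    rcases h4 with e | e <;> rw [e] at this
    · exact this
    · simpa using c1.inv_right.mul_right this
  have cg : ∀ {c : SL(2, F)}, Commute (k * f (up 1) * k⁻¹) (g c) →
      g c * (f (wSL * jSL)⁻¹ * (k * f (up 1) * k⁻¹) * f (up 1)) = f (wSL * jSL)⁻¹ * (k * f (up 1) * k⁻¹) * f (up 1) * g c :=
    fun h => ((Commute.mul_left (S.comm ..) h).mul_left (S.comm ..)).symm
  have := S.cE (k := f (wSL * jSL)⁻¹ * (k * f (up 1) * k⁻¹) * f (up 1)) (by
    rintro _ (rfl | rfl | rfl | rfl)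
    · refine key up_w (by simpa using cj h5) (u := -wSL) ?_ (cj h1) ?_ <;>
        apply ext4 <;> simp only [jSL, wSL] <;> sl2_simp <;> grind
    · refine key up_j h2 up_j h5 ?_
      apply ext4 <;> simp only [jSL, wSL] <;> sl2_simp <;> grind
    exacts [cg c1, cg c2])
  have r3 : (k * f (up 1) * k⁻¹) ^ 3 ^ 1 = 1 := by rw [conj_pow, ← map_pow, pow_one, up_pow_char]; simp
  rw [map_inv, mul_assoc _⁻¹, inv_mul_eq_iff_eq_mul, inv_mul_eq_iff_eq_mul, ← eq_mul_inv_iff_mul_eq (c := f (up 1)),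
    ← eq_mul_inv_iff_mul_eq (c := f (up 1)), mul_one, ← map_mul, ← map_inv f (up 1), ← map_mul, ← map_mul] at this
  rcases this with e | e
  · refine S.nf (f (lo (-1)) * k) ?_
    rw [show f (lo (-1)) * k * f (up 1) * (f (lo (-1)) * k)⁻¹ = f (lo (-1)) * (k * f (up 1) * k⁻¹) * (f (lo (-1)))⁻¹ by
      group, e, ← map_inv, ← map_mul, ← map_mul]
    congr 1
    apply ext4 <;> simp only [jSL, wSL] <;> sl2_simp <;> grind
  · have : Fact (Nat.Prime 3) := ⟨Nat.prime_three⟩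
    rw [e, ← map_pow, ← map_one f] at r3
    have := trace_eq_two_of_pow (S.inj r3)
    simp only [jSL, wSL] at this
    sl2_simp at this
    grind

theorem nE {k : G} {a b c d : SL(2, F)} (ha : Q6 a) (hb : Q6 b) (hc : Q6 c) (hd : Q6 d) (h1 : k * f wSL * k⁻¹ = f a)
    (h2 : k * f jSL * k⁻¹ = f b) (h3 : k * g wSL * k⁻¹ = g c) (h4 : k * g jSL * k⁻¹ = g d) : k ∈ Y0 f g := by
  have nc : ∀ {f : SL(2, F) →* G} {a b : SL(2, F)}, Function.Injective f → k * f wSL * k⁻¹ = f a →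
      k * f jSL * k⁻¹ = f b → a * b ≠ b * a := fun {f a b} hf h1 h2 e => by
    exact wj_ne hf (cj_comm' (k := k) (by rw [h1, h2, ← map_mul, e, map_mul]))
  obtain ⟨x, x1, x2⟩ := q6_pair ha hb (nc S.inj h1 h2)
  obtain ⟨y, y1, y2⟩ := q6_pair hc hd (nc S.symm.inj h3 h4)
  have e : ∀ u, f x * g y * k * u * (f x * g y * k)⁻¹ = f x * g y * (k * u * k⁻¹) * (f x * g y)⁻¹ := fun u => by group
  have e1 := e (f wSL)
  have e2 := e (f jSL)
  have e3 := e (g wSL)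
  have e4 := e (g jSL)
  rw [h1, S.cf, x1] at e1
  rw [h2, S.cf] at e2
  rw [h3, S.cg, y1] at e3
  rw [h4, S.cg] at e4
  refine (mul_mem_cancel_left (fg_Y x y)).1 ?_
  rcases x2 with x2 | x2 <;> rw [x2] at e2
  · rcases y2 with y2 | y2 <;> rw [y2] at e4
    · rcases S.cE (k := f x * g y * k) (by
        rintro _ (rfl | rfl | rfl | rfl) <;> rw [eq_comm, ← mul_inv_eq_iff_eq_mul] <;> assumption) with e | e <;> rw [e]
      exacts [one_mem _, f_Y _]
    · exact (S.symm.bad e3 e4 e1 (Or.inl e2)).elim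
  · exact (S.bad e1 e2 e3 (y2.imp (fun h => by rw [e4, h]) fun h => by rw [e4, h])).elim

theorem syl : ∃ T, IsSylowIn 2 T ⊤ ∧ T ≤ H0 f g n := by
  have : Fact (Nat.Prime 2) := ⟨Nat.prime_two⟩
  have := S.fin
  have pQ : IsPGroup 2 (zpowers wSL ⊔ zpowers jSL : Subgroup SL(2, F)) := (pg_zp (four wSL_mul_self)).to_sup_of_normal_left'
    (pg_zp (four jSL_sq)) (zpowers_le_of_mem (mem_normalizer_fintype (by
      rintro _ ⟨i, rfl⟩
      refine ⟨-i, ?_⟩
      simp only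
      rw [← conj_zpow, j_w, inv_eq_of_mul_eq_one_right (b := -jSL) (by simp [jSL_sq]), neg_mul_neg, mul_assoc, jSL_sq,
        zpow_neg, ← inv_zpow, inv_eq_of_mul_eq_one_right (b := wSL * -1) (by simp [wSL_mul_self])])))
  obtain ⟨T, hT, hle⟩ := exists_isSylowIn_ge (K := ⊤) ((pQ.map f).to_sup_of_normal_left' (pQ.map g) (by
    rintro _ ⟨c, -, rfl⟩
    exact centralizer_le_normalizer _ (by rintro _ ⟨a, -, rfl⟩; exact S.comm a c))) le_top
  have m1 : f wSL ∈ T := hle (mem_sup_left (mem_map_of_mem f (mem_sup_left (mem_zpowers _))))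
  have m2 : f jSL ∈ T := hle (mem_sup_left (mem_map_of_mem f (mem_sup_right (mem_zpowers _))))
  have m3 : g wSL ∈ T := hle (mem_sup_right (mem_map_of_mem g (mem_sup_left (mem_zpowers _))))
  have m4 : g jSL ∈ T := hle (mem_sup_right (mem_map_of_mem g (mem_sup_right (mem_zpowers _))))
  have hc : ∀ k ∈ T, k * f (-1) = f (-1) * k := by
    have := hT.pgroup.isNilpotent
    obtain ⟨⟨z, hz0, hz⟩, z1⟩ := ne_bot_iff_exists_ne_one.1 (L0.inf_centralizer_ne_bot_of_isNilpotent (N := T) le_rfl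
      le_normalizer fun e => w_ne wSL_mul_self (Or.inl (S.inj ((mem_bot.1 (e.le m1)).trans (map_one f).symm))))
    have e := (S.cE (k := z) (by rintro _ (rfl | rfl | rfl | rfl) <;> exact hz _ ‹_›)).resolve_left
      fun e => z1 (Subtype.ext e)
    exact e ▸ hz
  refine ⟨T, hT, ?_⟩
  by_contra hn
  obtain ⟨k, hk, hk'⟩ := SetLike.exists_of_lt (lt_inf_normalizer_of_pgroup hT.pgroup
    (lt_of_le_of_ne inf_le_left fun e => hn (e.ge.trans inf_le_right) : T ⊓ H0 f g n < T))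
  refine hk' ⟨hk.1, ?_⟩
  have q6 : ∀ {φ : SL(2, F) →* G} {a : SL(2, F)}, Function.Injective φ → φ wSL ∈ T → φ jSL ∈ T → a * a = -1 → φ a ∈ T →
      Q6 a := fun {φ a} hi h1 h2 ha h => by
    have : ∀ {c}, φ c ∈ T → a * c * (a * c) = 1 ∨ a * c * (a * c) = -1 := fun {c} hc => by
      obtain ⟨i, e⟩ := hT.pgroup ⟨_, mul_mem h hc⟩
      exact two_elt S.ns (k := i) (hi (by rw [map_pow, map_mul, map_one]; exact congrArg Subtype.val e))
    exact q6_of ha (this h1) (this h2) (this (map_mul φ _ _ ▸ mul_mem h1 h2))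
  have im : ∀ {u}, u ∈ T → u ∈ Y0 f g → u * u = f (-1) →
      ∃ a, a * a = -1 ∧ Q6 a ∧ (k * u * k⁻¹ = f a ∨ k * u * k⁻¹ = g a) := fun {u} h1 h2 h3 => by
    have h4 := (mem_normalizer_iff.1 hk.2 u).1 ⟨h1, Y_H h2⟩
    obtain ⟨a, ha, e⟩ := S.sq_t h4.2 (by rw [conj_mul, h3, hc k hk.1, mul_inv_cancel_right])
    exact ⟨a, ha, e.elim (fun e => q6 S.inj m1 m2 ha (e ▸ h4.1)) fun e => q6 S.symm.inj m3 m4 ha (e ▸ h4.1), e⟩
  obtain ⟨a, a2, qa, ha⟩ := im m1 (f_Y _) (by rw [← map_mul, wSL_mul_self])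
  obtain ⟨b, b2, qb, hb⟩ := im m2 (f_Y _) (by rw [← map_mul, jSL_sq])
  obtain ⟨c, c2, qc, hc⟩ := im m3 (g_Y _) (by rw [← map_mul, wSL_mul_self, S.tt])
  obtain ⟨d, d2, qd, hd⟩ := im m4 (g_Y _) (by rw [← map_mul, jSL_sq, S.tt])
  have n1 := fun e => wj_ne S.inj (cj_comm' (k := k) e)
  have n2 := fun e => wj_ne S.symm.inj (cj_comm' (k := k) e)
  have k1 := cj_comm (k := k) (S.comm wSL wSL)
  have k2 := cj_comm (k := k) (S.comm jSL wSL)
  have th : ∀ {φ : SL(2, F) →* G}, Function.Injective φ → φ a * φ b ≠ φ b * φ a → φ a * φ c = φ c * φ a →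
      φ b * φ c = φ c * φ b → False := fun {φ} hi h1 h2 h3 => by
    rw [← map_mul, ← map_mul, hi.eq_iff] at h2 h3
    rw [← map_mul, ← map_mul] at h1
    rcases comm_sq a2 c2 h2 with rfl | rfl <;> rcases comm_sq b2 c2 h3 with rfl | rfl <;> simp at h1
  rcases ha with ha | ha <;> rcases hb with hb | hb <;> rw [ha, hb] at n1
  · rcases hc with hc | hc
    · rw [hc, ha] at k1; rw [hc, hb] at k2; exact (th S.inj n1 k1 k2).elim
    rcases hd with hd | hd
    · rw [hc, hd] at n2; exact (n2 (S.comm ..).symm).elim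
    exact Y_H (S.nE qa qb qc qd ha hb hc hd)
  · exact (n1 (S.comm ..)).elim
  · exact (n1 (S.comm ..).symm).elim
  · rcases hc with hc | hc
    swap
    · rw [hc, ha] at k1; rw [hc, hb] at k2; exact (th S.symm.inj n1 k1 k2).elim
    rcases hd with hd | hd
    swap
    · rw [hc, hd] at n2; exact (n2 (S.comm ..)).elim
    have e : ∀ u, n * k * u * (n * k)⁻¹ = n * (k * u * k⁻¹) * n⁻¹ := fun u => by group
    exact (mul_mem_cancel_left n_H).1 (Y_H (S.nE qa qb qc qd (by rw [e, ha, S.sw']) (by rw [e, hb, S.sw'])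
      (by rw [e, hc, S.sw]) (by rw [e, hd, S.sw])))

end Tw

end Cfsg.Agent.H5
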