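import Cfsg.Agent.H5.HT3
import Cfsg.Agent.H7.GlaubAut

/-!
# Two commuting copies of `SL₂(3^m)` interchanged by an involution: centralizers of elements of order four
-/

set_option autoImplicit false

namespace Cfsg.Agent.H5

open Subgroup Cfsg.Agent.H8 Cfsg.Agent.H4.SL2
open Cfsg.Agent.H7 (opp)
open scoped MatrixGroups

variable {G : Type*} [Group G] {F : Type*} [Field F] {f g : SL(2, F) →* G} {n : G}

theorem eq_one_of_opp [Finite G] {K : Subgroup G} {x : G} (h : x ∈ opp 2 K) {k : ℕ} (h2 : x ^ 2 ^ k = 1) : x = 1 :=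
  haveI : Fact (Nat.Prime 2) := ⟨Nat.prime_two⟩
  H7.eq_one_of_odd_of_two (Nat.odd_iff.2 (Nat.two_dvd_ne_zero.1 fun e =>
    H7.not_dvd_card_opp K (e.trans (orderOf_dvd_natCard _ h)))) ⟨k, h2⟩

namespace Tw

variable (S : Tw f g n) [Finite G] [CharP F 3]
include S

theorem two_le {R : Subgroup G} (hR : IsPGroup 2 R) (h : R ≤ centralizer {f (-1)}) :
    ∃ k, k * f (-1) = f (-1) * k ∧ ∀ x ∈ R, k⁻¹ * x * k ∈ H0 f g n := by
  have : Fact (Nat.Prime 2) := ⟨Nat.prime_two⟩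
  obtain ⟨T, hT, hle⟩ := S.syl
  obtain ⟨R', h1, h2⟩ := exists_isSylowIn_ge hR h
  obtain ⟨k, hk, rfl⟩ := (hT.of_le (hle.trans S.H_le) le_top).exists_cj_eq h1
  exact ⟨k, mem_centralizer_singleton_iff.1 hk, fun x hx => hle (mem_cj.1 (h2 hx))⟩

theorem cw2 {k : G} (hk : k * g wSL = g wSL * k) : k ∈ Y0 f g := by
  have : Fact (Nat.Prime 2) := ⟨Nat.prime_two⟩
  have : Fact (Nat.Prime 3) := ⟨Nat.prime_three⟩
  have := S.fin
  have := Fintype.ofFinite F
  rw [← mem_centralizer_singleton_iff] at hk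
  set C := centralizer {g wSL}
  have mC : ∀ {k : G}, k ∈ C ↔ k * g wSL = g wSL * k := mem_centralizer_singleton_iff
  have w2 : g wSL * g wSL = f (-1) := by rw [← map_mul, wSL_mul_self, S.tt]
  have Ct : ∀ {k : G}, k ∈ C → k * f (-1) = f (-1) * k := fun h => by
    have c : Commute _ _ := mC.1 h
    rw [← w2]; exact c.mul_right c
  have fC : ∀ a, f a ∈ C := fun a => mC.2 (S.comm ..)
  set X := (UP F).map f
  have mX : ∀ b, f (up b) ∈ X := fun b => mem_map_of_mem f ⟨b, rfl⟩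
  have XC : X ≤ C := by rintro _ ⟨a, -, rfl⟩; exact fC a
  have X3 : ∀ x ∈ X, x ^ 3 = 1 := by
    rintro _ ⟨_, ⟨b, rfl⟩, rfl⟩
    rw [← map_pow, up_pow_char, map_one]
  have pX : IsPGroup 3 X := fun x => ⟨1, Subtype.ext (by simpa using X3 _ x.2)⟩
  have cX : Nat.card X = Nat.card F := (Nat.card_congr (Equiv.ofBijective (fun b : F => (⟨_, mX b⟩ : X))
    ⟨fun b c h => congrArg (fun a : SL(2, F) => a 0 1) (S.inj (congrArg Subtype.val h)), by
      rintro ⟨_, _, ⟨b, rfl⟩, rfl⟩; exact ⟨b, rfl⟩⟩)).symm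
  have NX : ∀ {k : G}, k ∈ C → k ∈ normalizer (X : Set G) → ∃ a c, a 1 0 = 0 ∧ k = f a * g c := fun h h' => by
    obtain ⟨_, ⟨b, rfl⟩, e⟩ := (mem_normalizer_iff.1 h' _).1 (mX 1)
    exact S.nx _ 1 b one_ne_zero (Ct h) e.symm
  have hX : IsSylowIn 3 X C := IsSylowIn.of_normalizer XC ⟨le_inf XC le_normalizer, pX,
    fun Q hQ hp hle => le_antisymm (fun x hx => by
      obtain ⟨a, c, h0, rfl⟩ := NX (hQ hx).1 (hQ hx).2
      obtain ⟨i, hi⟩ := hp ⟨_, hx⟩
      replace hi : (f a * g c) ^ 3 ^ i = 1 := congrArg Subtype.val hi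
      have h1 := S.eq_one (S.fg_pow .. ▸ hi)
      obtain ⟨b, hb⟩ := up_three (h1.imp And.left And.left) h0
      have o : Odd (3 ^ i) := Odd.pow (by decide)
      have ne := neg_one_ne_one (two3 (F := F))
      have u : up b ^ 3 ^ i = 1 ∨ up b ^ 3 ^ i = -1 → up b ^ 3 ^ i = 1 := fun h => by
        rw [up_pow] at h ⊢; rw [up_pm h, up_zero]
      rcases w_three (h1.imp And.right And.right) (S.gc (mC.1 (hQ hx).1)) with rfl | rfl <;> rcases hb with rfl | rfl
      · simpa using mX b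
      · rw [one_pow, o.neg_pow, neg_eq_iff_eq_neg, neg_inj] at h1
        exact (ne (h1.elim (fun h => h.1.symm.trans (u (Or.inr h.1))) fun h => h.2.symm)).elim
      · rw [o.neg_one_pow] at h1
        exact (ne (h1.elim And.right fun h => h.1.symm.trans (u (Or.inr h.1)))).elim
      · rw [S.eq_iff.2 (Or.inr ⟨rfl, rfl⟩)]; simpa using mX b) hle⟩
  have nO := H7.le_normalizer_opp (p := 2) C
  have O3 : ¬ 3 ∣ Nat.card (opp 2 C) := fun h => by
    have h1 := hX.inf_of_le_normalizer nO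
    rw [inf_eq_right.2 (H7.opp_le C)] at h1
    obtain ⟨⟨_, ⟨_, ⟨b, rfl⟩, rfl⟩, hb⟩, b0⟩ := ne_bot_iff_exists_ne_one.1 (h1.ne_bot h)
    replace b0 : b ≠ 0 := fun e => b0 (Subtype.ext (show f (up b) = 1 by rw [e, up_zero, map_one]))
    have t3 := th (F := F)
    have h2 := mul_mem hb ((mem_normalizer_iff.1 (nO (fC (H4.SL2.mk 0 b (-b⁻¹) 0 (by simp [b0])))) _).1 (inv_mem hb))
    rw [← map_inv, ← map_inv, ← map_mul, ← map_mul, ← map_mul] at h2
    have e : ∀ a : SL(2, F), a * a = -1 → f a ∉ opp 2 C := fun a ha h =>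
      w_ne ha (Or.inl (S.inj ((eq_one_of_opp h (by rw [← map_pow, four ha, map_one])).trans (map_one f).symm)))
    refine e _ ?_ h2
    apply ext4 <;> sl2_simp <;> grind
  have OY : opp 2 C ≤ Y0 f g := CopAct.le_of_not_isCyclic (.of_pgroup pX O3 (XC.trans nO)) ⟨⟨by
      rintro ⟨_, _, ⟨b, rfl⟩, rfl⟩ ⟨_, _, ⟨c, rfl⟩, rfl⟩
      exact Subtype.ext (by simp only [coe_mul, ← map_mul, up_comm])⟩⟩ (fun h => by
      have h1 : Nat.card X ∣ 3 := by
        rw [← IsCyclic.exponent_eq_card]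
        exact Monoid.exponent_dvd_of_forall_pow_eq_one fun g => Subtype.ext (X3 _ g.2)
      have := Nat.le_of_dvd (by norm_num) h1
      have := S.big
      omega) (by
      rintro _ ⟨_, ⟨b, rfl⟩, rfl⟩ b0 x hx
      obtain ⟨_, _, rfl⟩ := S.cup (fun e => b0 (by rw [e, up_zero, map_one])) (Ct (H7.opp_le C hx.1))
        (mem_centralizer_singleton_iff.1 hx.2)
      exact fg_Y _ _)
  let π1 := QuotientGroup.mk' (pPrimeCore 2 C)
  let w : C := ⟨g wSL, mC.2 rfl⟩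
  have w4 : g wSL ^ 2 ^ 2 = 1 := by rw [← map_pow, four wSL_mul_self, map_one]
  have zc : zpowers (π1 w) ≤ center _ := zpowers_le_of_mem (mem_center_iff.2 fun y => by
    obtain ⟨y, rfl⟩ := QuotientGroup.mk'_surjective _ y
    rw [← map_mul, ← map_mul]; exact congrArg π1 (Subtype.ext (mC.1 y.2)))
  have : (zpowers (π1 w)).Normal := ⟨fun u hu y => by rwa [mem_center_iff.1 (zc hu) y, mul_inv_cancel_right]⟩
  let π := (QuotientGroup.mk' (zpowers (π1 w))).comp π1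
  have sj : Function.Surjective π := (QuotientGroup.mk'_surjective _).comp (QuotientGroup.mk'_surjective _)
  have kr : ∀ x : C, π x = 1 ↔ ∃ i : ℤ, (g wSL ^ i)⁻¹ * x ∈ opp 2 C := fun x => by
    refine (QuotientGroup.eq_one_iff _).trans (exists_congr fun i => ?_)
    simp only [← map_zpow π1]
    exact QuotientGroup.eq.trans ⟨fun h => ⟨_, h, rfl⟩, fun ⟨y, h, e⟩ => by
      rwa [← show y = (w ^ i)⁻¹ * x from Subtype.ext e]⟩
  have πw : ∀ (i : ℤ) (x : C), (x : G) = g wSL ^ i → π x = 1 := fun i x h => (kr x).2 ⟨i, by rw [h]; simp⟩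
  let φ := π.comp (f.codRestrict C fC)
  obtain ⟨R, hR, hle⟩ := exists_isSylowIn_ge (K := C) (pg_zp w4) (zpowers_le_of_mem w.2)
  obtain ⟨h, ht, hh⟩ := S.two_le hR.pgroup fun x hx => mem_centralizer_singleton_iff.2 (Ct (hR.le hx))
  obtain ⟨h', hh', e⟩ := S.symm.conj_w (k := h⁻¹ * g wSL * h) (by
    rw [H0_comm]; exact hh _ (hle (mem_zpowers _))) (by
    rw [S.tt, show h⁻¹ * g wSL * h * (h⁻¹ * g wSL * h) = h⁻¹ * (g wSL * g wSL * h) by group, w2, ← ht]; group)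
  rw [H0_comm] at hh'
  have hC : h * h' ∈ C := mC.2 (by rw [mul_assoc, mul_inv_eq_iff_eq_mul.1 e]; group)
  have hR' := hR.cj_of_mem_normalizer (le_normalizer (inv_mem hC))
  have hS := (isSylowIn_top hR'.toSylow).map π
  rw [← MonoidHom.range_eq_map, MonoidHom.range_eq_top.2 sj] at hS
  have nrm := gw3 S.big φ (πw 2 _ (by rw [zpow_two, w2]; rfl)) (fun h => by
      obtain ⟨i, hi⟩ := (kr _).1 h
      have c : Commute (g wSL ^ i)⁻¹ (f wSL) := (Commute.symm (S.comm ..)).zpow_left i |>.inv_left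
      have e := eq_one_of_opp hi (k := 2) (by
        change ((g wSL ^ i)⁻¹ * f wSL) ^ _ = 1
        rw [c.mul_pow, ← map_pow, four wSL_mul_self, map_one, mul_one, inv_pow, ← zpow_natCast, ← zpow_mul, mul_comm,
          zpow_mul, zpow_natCast, w4, one_zpow, inv_one])
      rw [inv_mul_eq_one, ← map_zpow] at e
      exact w_ne wSL_mul_self (S.f_eq_g e.symm).1)
    (H7.pPrimeCore_quotient_central (pg_zp (k := 2) (by
      rw [← map_pow, show w ^ 2 ^ 2 = 1 from Subtype.ext w4, map_one])) zc L0.pPrimeCore_quotient_pPrimeCore) hS (by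
      rintro _ ⟨x, hx, rfl⟩
      have h1 := mul_mem (mul_mem (inv_mem hh') (hh _ (mem_cj.1 hx))) hh'
      rw [show h'⁻¹ * (h⁻¹ * ((h * h')⁻¹⁻¹ * C.subtype x * (h * h')⁻¹) * h) * h' = x by simp [mul_assoc]] at h1
      obtain ⟨i, hi⟩ := hR'.pgroup ⟨x, hx⟩
      replace hi : (x : G) ^ 2 ^ i = 1 := congrArg Subtype.val hi
      have xc := mC.1 x.2
      obtain ⟨a, c, e | e⟩ := S.mem_H.1 h1 <;> rw [e] at hi xc
      swap
      · exact (w_ne wSL_mul_self (S.symm.nc (S.comm .. ▸ xc))).elim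
      have h2 : c ^ 2 ^ (i + 1) = 1 := by
        rw [pow_succ, pow_mul, sq, pm_sq ((S.eq_one (S.fg_pow .. ▸ hi)).imp And.right And.right)]
      obtain ⟨j, hj⟩ : ∃ j : ℤ, c = wSL ^ j := by
        rcases two_elt S.ns h2 with h | h
        · rcases eq_one_or_neg_one_of_mul_self two3 h with rfl | rfl
          exacts [⟨0, rfl⟩, ⟨2, by rw [zpow_two, wSL_mul_self]⟩]
        · rcases w_comm_sq two3 (S.gc xc) h with rfl | rfl
          exacts [⟨1, by simp⟩, ⟨-1, by rw [zpow_neg_one, inv_eq_of_mul_eq_one_right (b := -wSL) (by simp [wSL_mul_self])]⟩]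
      refine ⟨a, ?_⟩
      rw [← inv_mul_eq_one]
      exact (map_mul π (f.codRestrict C fC a)⁻¹ x).symm.trans (πw j _ (show (f a)⁻¹ * x = _ by rw [e, hj, map_zpow, inv_mul_cancel_left])))
    fun h => by
      have h1 := h.trans (card_dvd_of_surjective π sj)
      rw [← cX, hX.card_eq, ← pow_succ', Nat.prime_three.pow_dvd_iff_le_factorization Nat.card_pos.ne'] at h1
      omega
  have nN : C ≤ normalizer ((φ.range.comap π).map C.subtype : Set G) := fun c hc => mem_normalizer_fintype (by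
    rintro _ ⟨x, hx, rfl⟩
    exact ⟨_, (nrm.comap π).conj_mem x hx ⟨c, hc⟩, rfl⟩)
  obtain ⟨_, ⟨m, ⟨a, ha⟩, rfl⟩, hm⟩ := (hX.of_le (H := (φ.range.comap π).map C.subtype) (by
    rintro _ ⟨a, -, rfl⟩; exact ⟨⟨_, fC a⟩, ⟨a, rfl⟩, rfl⟩) (map_subtype_le _)).frattini (nN hk)
  obtain ⟨i, hi⟩ := (kr ((f.codRestrict C fC a)⁻¹ * m)).1 (by rw [map_mul, map_inv, ← ha]; exact inv_mul_cancel _)
  have mY : (m : G) ∈ Y0 f g := (mul_mem_cancel_left (inv_mem (f_Y a))).1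
    ((mul_mem_cancel_left (inv_mem (zpow_mem (g_Y _) i))).1 (OY hi))
  obtain ⟨_, _, -, e⟩ := NX (mul_mem m.2 hk) hm
  exact (mul_mem_cancel_left mY).1 (S.mem_Y.2 ⟨_, _, e⟩)

theorem cf4 {k : G} {a : SL(2, F)} (ha : a * a = -1) (hk : k * f a = f a * k) : k ∈ Y0 f g := by
  have := S.fin
  obtain ⟨c, rfl⟩ := cw ha
  have := S.symm.cw2 (k := (f c)⁻¹ * k * f c) (by
    rw [map_mul, map_mul, map_inv] at hk
    simpa [mul_assoc] using cj_comm (k := (f c)⁻¹) hk)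
  rw [Y0_comm] at this
  exact (mul_mem_cancel_left (inv_mem (f_Y c))).1 ((mul_mem_cancel_right (f_Y c)).1 this)

theorem cg4 {k : G} {a : SL(2, F)} (ha : a * a = -1) (hk : k * g a = g a * k) : k ∈ Y0 f g :=
  Y0_comm (f := f) ▸ S.symm.cf4 ha hk

theorem mcw {k u : G} (hk : k * f (-1) = f (-1) * k) (hu : u ∈ H0 f g n) (h2 : u * u = f (-1))
    (h : k * u * k⁻¹ ∈ H0 f g n) : k ∈ H0 f g n := by
  obtain ⟨h1, m1, rfl⟩ := S.conj_w hu h2
  obtain ⟨h2, m2, e⟩ := S.conj_w h (by rw [conj_mul, h2, hk, mul_inv_cancel_right])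
  have := S.cf4 (k := h2⁻¹ * k * h1) wSL_mul_self (by
    calc _ = h2⁻¹ * (k * (h1 * f wSL * h1⁻¹) * k⁻¹) * k * h1 := by group
      _ = _ := by rw [← e]; group)
  exact (mul_mem_cancel_left (inv_mem m2)).1 ((mul_mem_cancel_right m1).1 (Y_H this))

omit [Finite G] [CharP F 3] in
theorem ww : f wSL * f wSL = f (-1) := by rw [← map_mul, wSL_mul_self]

omit [Finite G] [CharP F 3] in
theorem yy : f wSL * g wSL * (f wSL * g wSL) = 1 := by rw [S.fg_mul, wSL_mul_self, S.tt, t_t]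

omit [Finite G] [CharP F 3] in
theorem yt : f wSL * g wSL * f (-1) = f (-1) * (f wSL * g wSL) :=
  mem_centralizer_singleton_iff.1 (S.H_le (Y_H (fg_Y _ _)))

theorem ya {u : G} (hu : u ∈ H0 f g n) (h2 : u * u = f (-1)) (h : u * (f wSL * g wSL) = f wSL * g wSL * u) :
    (f wSL)⁻¹ * u = 1 ∨ (f wSL)⁻¹ * u = f (-1) ∨ (f wSL)⁻¹ * u = f wSL * g wSL ∨
      (f wSL)⁻¹ * u = f (-1) * (f wSL * g wSL) := by
  have wi : (f wSL)⁻¹ = f (-wSL) := by rw [← map_inv, inv_eq_of_mul_eq_one_right (b := -wSL) (by simp [wSL_mul_self])]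
  obtain ⟨a, ha, rfl | rfl⟩ := S.sq_t hu h2
  · rcases w_comm_sq two3 (S.fc h.symm).symm ha with rfl | rfl
    · simp
    · simp [f_neg wSL]
  · rcases w_comm_sq two3 (S.gc h.symm).symm ha with rfl | rfl <;> rw [wi]
    · rw [← mul_assoc, ← map_mul]; simp
    · exact Or.inr (Or.inr (Or.inl (S.eq_iff.2 (Or.inr ⟨rfl, rfl⟩))))

theorem cy {k : G} (h1 : k * f (-1) = f (-1) * k) (h2 : k * (f wSL * g wSL) = f wSL * g wSL * k) : k ∈ H0 f g n := by
  have : Fact (Nat.Prime 2) := ⟨Nat.prime_two⟩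
  set y := f wSL * g wSL with hy
  set K := centralizer {f (-1), y}
  have mK : ∀ {k : G}, k ∈ K ↔ k * f (-1) = f (-1) * k ∧ k * y = y * k := by
    intro g
    simp [K, mem_centralizer_iff, eq_comm]
  have cU : K ≤ centralizer ((zpowers (f (-1)) ⊔ zpowers y : Subgroup G) : Set G) := le_centralizer_iff.1
    (sup_le (zpowers_le_of_mem fun k hk => (mK.1 hk).1) (zpowers_le_of_mem fun k hk => (mK.1 hk).2))
  have aK : f wSL ∈ K := mK.2 ⟨t_f _, by rw [hy, mul_assoc, S.comm]⟩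
  obtain ⟨P, hP, hle⟩ := exists_isSylowIn_ge (K := K) (pg_zp (p := 2) (k := 2) (by
    rw [← map_pow, four wSL_mul_self, map_one])) (zpowers_le_of_mem aK)
  have PH : P ≤ H0 f g n := fun x hx => by
    obtain ⟨h, ht, hh⟩ := S.two_le hP.pgroup fun x hx => mem_centralizer_singleton_iff.2 (mK.1 (hP.le hx)).1
    have := S.mcw (k := h⁻¹) (Commute.inv_left ht) (Y_H (f_Y _)) S.ww (by simpa using hh _ (hle (mem_zpowers _)))
    exact (mul_mem_cancel_left this).1 ((mul_mem_cancel_right (inv_mem_iff.1 this)).1 (hh x hx))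
  have tU : f (-1) ∈ zpowers (f (-1)) ⊔ zpowers y := mem_sup_left (mem_zpowers _)
  have yU : y ∈ zpowers (f (-1)) ⊔ zpowers y := mem_sup_right (mem_zpowers _)
  obtain ⟨o, ho, c, hc, rfl, e⟩ := zs_mod (U := zpowers (f (-1)) ⊔ zpowers y)
    ((pg_zp (k := 1) (by rw [pow_one, sq, t_t])).to_sup_of_normal_left' (pg_zp (k := 1) (by rw [pow_one, sq, S.yy]))
      (zpowers_le_of_mem (centralizer_le_normalizer _ (by
        rintro _ ⟨i, rfl⟩; exact ((show Commute y _ from S.yt).zpow_right i).symm))))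
    (sup_le (zpowers_le_of_mem (mK.2 ⟨rfl, S.yt.symm⟩)) (zpowers_le_of_mem (mK.2 ⟨S.yt, rfl⟩)))
    (fun k hk u hu => (cU hk u hu).symm) hP aK (S.ww ▸ tU) (fun c hc h => by
      rcases S.ya (PH h) (by rw [conj_mul, S.ww, (mK.1 hc).1, mul_inv_cancel_right]) (mK.1 (hP.le h)).2 with
        e | e | e | e <;> rw [e]
      exacts [one_mem _, tU, yU, mul_mem tU yU]) (mK.2 ⟨h1, h2⟩)
  refine mul_mem (gen2 (H7.not_dvd_card_opp K) (S.comm wSL jSL) (by rw [← map_pow, four wSL_mul_self, map_one])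
    (by rw [← map_pow, four jSL_sq, map_one]) (H7.le_normalizer_opp K aK) (H7.normalizer_le_normalizer_opp K
      (mem_normalizer_fintype fun x hx => mK.2 ?_)) (S.ww ▸ fun o ho => (mK.1 (H7.opp_le K ho)).1)
      (by rw [← map_mul, jSL_sq, S.tt]; exact fun o ho => (mK.1 (H7.opp_le K ho)).1) (fun o ho h => Y_H ?_) ho)
    (S.mcw (mK.1 hc).1 (Y_H (f_Y _)) S.ww ((mul_mem_cancel_left (inv_mem (Y_H (f_Y wSL)))).1
      (sup_le (zpowers_le_of_mem (Y_H (f_Y _))) (zpowers_le_of_mem (Y_H (fg_Y _ _))) e)))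
  · have c1 : Commute x _ := (mK.1 hx).1
    have c2 : Commute x _ := (mK.1 hx).2
    refine ⟨by simpa only [← S.comm, mul_inv_cancel_right] using cj_comm (k := g jSL) c1.eq, ?_⟩
    have := cj_comm (k := g jSL) (c2.mul_right c1).eq
    rwa [show g jSL * (y * f (-1)) * (g jSL)⁻¹ = y by
      rw [hy, ← S.tt, mul_assoc (f _), ← map_mul, ← mul_assoc, ← S.comm, mul_assoc (f _), ← map_mul, mul_assoc,
        ← map_inv, ← map_mul, mul_neg, mul_one, mul_neg, j_w, neg_neg, mul_inv_cancel_right]] at this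
  · rcases h with h | h | h
    · exact S.cf4 wSL_mul_self h
    · exact S.cg4 jSL_sq h
    · have c1 : Commute o _ := h
      have c2 : Commute o _ := (mK.1 (H7.opp_le K ho)).2
      refine S.cg4 (a := wSL⁻¹ * jSL) (by
        rw [inv_eq_of_mul_eq_one_right (b := -wSL) (by simp [wSL_mul_self]), neg_mul, neg_mul_neg, wj_sq]) ?_
      simpa [hy, mul_assoc] using (c2.inv_right.mul_right c1).eq

theorem y3 {x : G} (h1 : x * f (-1) = f (-1) * x) (h2 : x * (f wSL * g wSL) = f wSL * g wSL * x) (h3 : x ^ 3 = 1) :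
    x = 1 := by
  obtain ⟨a, c, rfl | rfl⟩ := S.mem_H.1 (S.cy h1 h2)
  · have h4 := S.eq_one (S.fg_pow .. ▸ h3)
    rw [S.fg_mul, S.fg_mul] at h2
    rcases S.eq_iff.1 h2 with ⟨e1, e2⟩ | ⟨e, -⟩
    · refine (S.pm (w_three (k := 1) (h4.imp And.left And.left) e1)
        (w_three (k := 1) (h4.imp And.right And.right) e2)).elim id fun e => ?_
      rwa [e, pow_succ, sq, t_t, one_mul, ← e] at h3
    · have e1 : SemiconjBy a wSL (-wSL) := by simpa [SemiconjBy] using e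
      have e2 : SemiconjBy a (-wSL) wSL := by simpa using e1.neg_right
      have e3 : a ^ 3 * wSL = -wSL * a ^ 3 := by simpa [pow_succ] using ((e1.mul_left e2).mul_left e1).eq
      have : (wSL : SL(2, F)) = -wSL := by
        rcases h4 with ⟨h, -⟩ | ⟨h, -⟩
        · simpa [h] using e3
        · simpa [h] using e3.symm
      exact (neg_one_ne_one two3 (mul_left_cancel (a := wSL) (by rw [mul_neg, mul_one, ← this]))).elim
  · rw [pow_succ, sq, S.fgn_sq, ← mul_assoc, S.fg_mul] at h3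
    exact (S.ne_n 1 1 _ _ (by rw [h3]; simp)).elim

omit [Finite G] in
theorem n3 {a c : SL(2, F)} (h : f a * g c * n * (f a * g c * n) = 1) :
    ∃ x : G, x ≠ 1 ∧ x ^ 3 = 1 ∧ x * f (-1) = f (-1) * x ∧ x * (f a * g c * n) = f a * g c * n * x := by
  have c1 : Commute (f (up 1) * g (up 1)) n := by rw [Commute, SemiconjBy, S.n_fg]
  have c2 : Commute (f (up 1) * g (up 1)) (f (-1)) := mem_centralizer_singleton_iff.1 (S.H_le (Y_H (fg_Y _ _)))
  refine ⟨f a * (f (up 1) * g (up 1)) * (f a)⁻¹, fun e => one_ne_zero (up_pm ((S.eq_one (a := up 1) (by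
    simpa using e)).imp And.right And.right)), by rw [conj_pow, S.fg_pow, up_pow_char]; simp,
    by simpa only [t_f a, mul_inv_cancel_right] using cj_comm (k := f a) c2.eq, ?_⟩
  rcases S.sq_n h with e | e <;> rw [← e]
  exacts [cj_comm c1, cj_comm (c2.mul_right c1)]

theorem ny {k : G} (h1 : k * f (-1) = f (-1) * k)
    (h2 : (f wSL * g wSL)⁻¹ * (k * (f wSL * g wSL) * k⁻¹) ∈ zpowers (f (-1))) : k ∈ H0 f g n := by
  rcases mem_zp_two t_t h2 with e | e <;> rw [inv_mul_eq_iff_eq_mul] at e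
  · exact S.cy h1 (mul_inv_eq_iff_eq_mul.1 (by simpa using e))
  · refine (mul_mem_cancel_left (Y_H (g_Y jSL))).1 (S.cy (Commute.mul_left (S.comm ..).symm h1)
      (mul_inv_eq_iff_eq_mul.1 ?_))
    rw [show ∀ y, g jSL * k * y * (g jSL * k)⁻¹ = g jSL * (k * y * k⁻¹) * (g jSL)⁻¹ from fun y => by group, e,
      ← S.tt, mul_assoc (f _), ← map_mul, ← mul_assoc, ← S.comm, mul_assoc (f _), ← map_mul, mul_assoc,
      ← map_inv, ← map_mul, mul_neg, mul_one, mul_neg, j_w, neg_neg, mul_inv_cancel_right]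

theorem cH {k : G} (hk : k * f (-1) = f (-1) * k) : k ∈ H0 f g n := by
  have mK : ∀ {k : G}, k ∈ centralizer {f (-1)} ↔ k * f (-1) = f (-1) * k := mem_centralizer_singleton_iff
  have t1 : f (-1) ≠ 1 := fun e => neg_one_ne_one two3 (S.inj (e.trans (map_one f).symm))
  have Uc : ∀ {k u : G}, k ∈ centralizer {f (-1)} → u ∈ zpowers (f (-1)) → k * u = u * k := fun h ⟨i, e⟩ =>
    e ▸ (show Commute _ _ from mK.1 h).zpow_right i
  have UY : zpowers (f (-1)) ≤ Y0 f g := zpowers_le_of_mem (f_Y _)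
  have bK : k * f wSL * k⁻¹ ∈ centralizer {f (-1)} := mul_mem (mul_mem (mK.2 hk) (mK.2 (t_f _))) (inv_mem (mK.2 hk))
  have b2 : k * f wSL * k⁻¹ * (k * f wSL * k⁻¹) = f (-1) := by rw [conj_mul, S.ww, hk, mul_inv_cancel_right]
  refine S.mcw hk (Y_H (f_Y _)) S.ww ?_
  rcases dih_mod (K := centralizer {f (-1)}) (U := zpowers (f (-1))) (fun k hk u hu => by
    rwa [Uc hk hu, mul_inv_cancel_right]) (mK.2 S.yt) bK (S.yy ▸ one_mem _) (b2 ▸ mem_zpowers _) with
    ⟨c, hc, e⟩ | ⟨s, hs, sU, s2, e1, e2⟩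
  · exfalso
    have c1 : c * (f wSL * g wSL) * c⁻¹ ∈ centralizer {f (-1)} := mul_mem (mul_mem hc (mK.2 S.yt)) (inv_mem hc)
    rcases mem_zp_two t_t e with e | e <;> rw [inv_mul_eq_iff_eq_mul] at e <;> rw [e] at b2
    · rw [mul_one, conj_mul, S.yy] at b2; exact t1 (by simpa using b2.symm)
    · rw [← sq, Commute.mul_pow (mK.1 c1), sq, sq, t_t, mul_one, conj_mul, S.yy] at b2
      exact t1 (by simpa using b2.symm)
  have sH := S.ny (mK.1 hs) e1
  rcases mem_zp_two t_t s2 with s2 | s2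
  swap
  · exact S.mcw (mK.1 bK) sH s2 ((mul_mem_cancel_left (inv_mem sH)).1 (Y_H (UY e2)))
  obtain ⟨a, c, rfl | rfl⟩ := S.mem_H.1 sH
  · rcases S.sq_Y (fg_Y a c) s2 with e | e | ⟨h, hh, e⟩
    · exact (sU (e ▸ one_mem _)).elim
    · exact (sU (e ▸ mem_zpowers _)).elim
    have hK := S.H_le (n := n) (Y_H hh)
    have := S.ny (k := h⁻¹ * (k * f wSL * k⁻¹) * h) (mK.1 (mul_mem (mul_mem (inv_mem hK) bK) hK)) (by
      have := Uc (inv_mem hK) e2
      rw [← e] at e2 this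
      convert e2 using 1
      rw [← mul_inv_eq_iff_eq_mul] at this
      rw [← this]; group)
    exact (mul_mem_cancel_left (inv_mem (Y_H hh))).1 ((mul_mem_cancel_right (Y_H hh)).1 this)
  exfalso
  obtain ⟨x, x1, x3, xt, xs⟩ := S.n3 s2
  generalize f a * g c * n = s at *
  have e3 : (k⁻¹ * s * k)⁻¹ * f wSL * (k⁻¹ * s * k)⁻¹⁻¹ = s⁻¹ * (k * f wSL * k⁻¹ * s * (k * f wSL * k⁻¹)⁻¹) * f wSL := by
    have := Uc (inv_mem (mK.2 hk)) e2
    rw [← mul_inv_eq_iff_eq_mul] at this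
    rw [← this]; group
  have sK : k⁻¹ * s * k ∈ centralizer {f (-1)} := mul_mem (mul_mem (inv_mem (mK.2 hk)) hs) (mK.2 hk)
  have h3 := S.mcw (mK.1 (inv_mem sK)) (Y_H (f_Y _)) S.ww (e3 ▸ Y_H (mul_mem (UY e2) (f_Y _)))
  obtain ⟨a, c, e | e⟩ := S.mem_H.1 h3
  swap
  · rw [e, S.cf'] at e3
    rcases mem_zp_two t_t e2 with e4 | e4 <;> rw [e4] at e3
    · exact w_ne wSL_mul_self (S.f_eq_g ((one_mul _).symm.trans e3.symm)).1
    · exact w_ne (a := -1 * wSL) (by simp [wSL_mul_self]) (S.f_eq_g ((map_mul f _ _).trans e3.symm)).1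
  have nU : k⁻¹ * s * k ∉ zpowers (f (-1)) := fun h => sU (by
    have := Uc (mK.2 hk) h
    rwa [show s = k⁻¹ * s * k by rw [← mul_inv_eq_iff_eq_mul] at this; rw [← this]; group])
  rcases S.sq_Y (inv_mem_iff.1 (e ▸ fg_Y a c)) (by
    rw [show k⁻¹ * s * k * (k⁻¹ * s * k) = k⁻¹ * (s * s) * k by group, s2]; group) with e | e | ⟨h, hh, e⟩
  · exact nU (e ▸ one_mem _)
  · exact nU (e ▸ mem_zpowers _)
  have hK := mul_mem (mK.2 hk) (S.H_le (n := n) (Y_H hh))
  refine x1 (conj_eq_one_iff.1 <| S.y3 (x := (k * h)⁻¹ * x * (k * h)⁻¹⁻¹) (mK.1 (mul_mem (mul_mem (inv_mem hK) (mK.2 xt))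
    (inv_mem (inv_mem hK)))) (by
      have := cj_comm (k := (k * h)⁻¹) xs
      rwa [show (k * h)⁻¹ * s * (k * h)⁻¹⁻¹ = h⁻¹ * (k⁻¹ * s * k) * h by group, ← e,
        show ∀ y, h⁻¹ * (h * y * h⁻¹) * h = y from fun y => by group] at this) (by rw [conj_pow, x3]; group))

end Tw

end Cfsg.Agent.H5
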