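import Cfsg.Agent.H5.SL2Facts
import Cfsg.Agent.H7.ZStar
import Cfsg.Agent.H9.Quat

/-!
# Two commuting copies of `SL(2, q)` with a common involution
-/

set_option autoImplicit false

namespace Cfsg.Agent.H5

open Subgroup Cfsg.Agent.H4 Cfsg.Agent.H4.SL2
open scoped MatrixGroups

variable {G : Type*} [Group G]

/-- The properties of `SL(2, q)`, `q` odd, with central involution `j`, used below. -/
structure SLLike (L : Subgroup G) (j : G) : Prop where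
  mem : j ∈ L
  ne_one : j ≠ 1
  mul_self : j * j = 1
  central : ∀ a ∈ L, j * a = a * j
  inv : ∀ a ∈ L, a * a = 1 → a = 1 ∨ a = j
  ex : ∃ a ∈ L, a * a = j
  conj : ∀ a ∈ L, ∀ b ∈ L, a * a = j → b * b = j → ∃ g ∈ L, g * a * g⁻¹ = b
  cen : ∀ a ∈ L, (∀ b ∈ L, a * b = b * a) → a = 1 ∨ a = j
  nc : ∀ x ∈ L, ∀ k ∈ L, (∀ g ∈ L, k * (g * x * g⁻¹) = (g * x * g⁻¹) * k) →
    (x = 1 ∨ x = j) ∨ (k = 1 ∨ k = j)
  sq : ∃ u ∈ L, u * u ≠ 1 ∧ u * u ≠ j
  cab : ∀ a ∈ L, a * a = j → ∀ c ∈ L, ∀ d ∈ L, c * a = a * c → d * a = a * d → c * d = d * c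
  inverts : ∀ a ∈ L, a * a = j → ∀ c ∈ L, c * a = a * j * c → c * c = j

theorem slLike_top {F : Type*} [Field F] [Fintype F] (hF : Odd (Fintype.card F)) :
    SLLike (⊤ : Subgroup SL(2, F)) (-1) := by
  have h2 := two_ne_zero_of_odd_card hF
  refine ⟨mem_top _, neg_one_ne_one h2, by simp, fun a _ => by simp,
    fun a _ h => eq_one_or_neg_one_of_mul_self h2 h, ⟨wSL, mem_top _, wSL_mul_self⟩, ?_,
    fun a _ h => eq_one_or_neg_one_of_forall_commute fun b => h b (mem_top _),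
    fun x _ k _ h => central_of_commute_conj h2 fun g => h g (mem_top _), ?_, ?_, ?_⟩
  · intro a _ b _ ha hb
    obtain ⟨g, rfl⟩ := exists_conj_wSL hF ha
    obtain ⟨g', rfl⟩ := exists_conj_wSL hF hb
    exact ⟨g' * g⁻¹, mem_top _, by group⟩
  · refine ⟨up 1, mem_top _, ?_, ?_⟩
    · intro h
      have := congrArg (fun g : SL(2, F) => g 0 1) h
      sl2_simp at this
      exact h2 (by linear_combination this)
    · intro h
      have := congrArg (fun g : SL(2, F) => g 0 0) h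
      sl2_simp at this
      exact h2 (by linear_combination this)
  · intro a _ ha c _ d _ hc hd
    obtain ⟨g, rfl⟩ := exists_conj_wSL hF ha
    have := commute_of_commute_wSL (c := g⁻¹ * c * g) (d := g⁻¹ * d * g)
      (by calc g⁻¹ * c * g * wSL = g⁻¹ * (c * (g * wSL * g⁻¹)) * g := by group
            _ = _ := by rw [hc]; group)
      (by calc g⁻¹ * d * g * wSL = g⁻¹ * (d * (g * wSL * g⁻¹)) * g := by group
            _ = _ := by rw [hd]; group)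
    calc c * d = g * (g⁻¹ * c * g * (g⁻¹ * d * g)) * g⁻¹ := by group
      _ = _ := by rw [this]; group
  · intro a _ ha c _ hc
    obtain ⟨g, rfl⟩ := exists_conj_wSL hF ha
    have := mul_self_of_anticommute_wSL (c := g⁻¹ * c * g)
      (by calc g⁻¹ * c * g * wSL = g⁻¹ * (c * (g * wSL * g⁻¹)) * g := by group
            _ = _ := by rw [hc]; simp only [mul_neg, neg_mul, mul_one]; group)
    calc c * c = g * (g⁻¹ * c * g * (g⁻¹ * c * g)) * g⁻¹ := by group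
      _ = _ := by rw [this]; simp

theorem SLLike.map {G' : Type*} [Group G'] {L : Subgroup G} {j : G} (h : SLLike L j)
    (f : G →* G') (hf : Function.Injective f) : SLLike (L.map f) (f j) := by
  have e1 : ∀ a, f a = 1 ↔ a = 1 := fun a => map_eq_one_iff f hf
  refine ⟨⟨j, h.mem, rfl⟩, fun h' => h.ne_one ((e1 _).mp h'), by rw [← map_mul, h.mul_self, map_one],
    ?_, ?_, ?_, ?_, ?_, ?_, ?_, ?_, ?_⟩
  · rintro _ ⟨a, ha, rfl⟩
    rw [← map_mul, h.central a ha, map_mul]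
  · rintro _ ⟨a, ha, rfl⟩ h'
    rw [← map_mul, e1] at h'
    rw [e1, hf.eq_iff]; exact h.inv a ha h'
  · obtain ⟨a, ha, h'⟩ := h.ex
    exact ⟨f a, ⟨a, ha, rfl⟩, by rw [← map_mul, h']⟩
  · rintro _ ⟨a, ha, rfl⟩ _ ⟨b, hb, rfl⟩ h1 h2
    rw [← map_mul, hf.eq_iff] at h1 h2
    obtain ⟨g, hg, rfl⟩ := h.conj a ha b hb h1 h2
    exact ⟨f g, ⟨g, hg, rfl⟩, by simp⟩
  · rintro _ ⟨a, ha, rfl⟩ h'
    rw [e1, hf.eq_iff]
    refine h.cen a ha fun b hb => hf ?_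
    rw [map_mul, map_mul]; exact h' _ ⟨b, hb, rfl⟩
  · rintro _ ⟨x, hx, rfl⟩ _ ⟨k, hk, rfl⟩ h'
    rw [e1, e1, hf.eq_iff, hf.eq_iff]
    refine h.nc x hx k hk fun g hg => hf ?_
    simpa using h' _ ⟨g, hg, rfl⟩
  · obtain ⟨u, hu, h1, h2⟩ := h.sq
    refine ⟨f u, ⟨u, hu, rfl⟩, ?_, ?_⟩
    · rw [← map_mul, Ne, e1]; exact h1
    · rw [← map_mul, Ne, hf.eq_iff]; exact h2
  · rintro _ ⟨a, ha, rfl⟩ h1 _ ⟨c, hc, rfl⟩ _ ⟨d, hd, rfl⟩ h2 h3
    simp only [← map_mul, hf.eq_iff] at h1 h2 h3 ⊢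
    exact h.cab a ha h1 c hc d hd h2 h3
  · rintro _ ⟨a, ha, rfl⟩ h1 _ ⟨c, hc, rfl⟩ h2
    simp only [← map_mul, hf.eq_iff] at h1 h2 ⊢
    exact h.inverts a ha h1 c hc h2

theorem slLike_of_equiv {F : Type*} [Field F] [Fintype F] (hF : Odd (Fintype.card F))
    {L : Subgroup G} (e : L ≃* SL(2, F)) {j : G} (hjL : j ∈ L) (hj : orderOf j = 2) :
    SLLike L j := by
  have h := (slLike_top hF).map (L.subtype.comp e.symm.toMonoidHom)
    (L.subtype_injective.comp e.symm.injective)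
  have hr : (⊤ : Subgroup SL(2, F)).map (L.subtype.comp e.symm.toMonoidHom) = L := by
    rw [← map_map, map_top_of_surjective _ e.symm.surjective, ← MonoidHom.range_eq_map,
      range_subtype]
  rw [hr] at h
  have hjj : j * j = 1 := by rw [← sq, ← hj, pow_orderOf_eq_one]
  rcases h.inv j hjL hjj with h1 | h1
  · rw [h1, orderOf_one] at hj; omega
  · rw [h1]; exact h

/-- Two commuting `SL₂`'s with common involution. -/
structure SLPair (L₁ L₂ : Subgroup G) (j : G) : Prop where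
  h₁ : SLLike L₁ j
  h₂ : SLLike L₂ j
  comm : ∀ x ∈ L₁, ∀ y ∈ L₂, x * y = y * x
  inter : ∀ x ∈ L₁, x ∈ L₂ → x = 1 ∨ x = j

theorem SLPair.symm {L₁ L₂ : Subgroup G} {j : G} (h : SLPair L₁ L₂ j) : SLPair L₂ L₁ j :=
  ⟨h.h₂, h.h₁, fun x hx y hy => (h.comm y hy x hx).symm, fun x hx hx' => h.inter x hx' hx⟩

theorem slPair_of_equiv [Finite G] {F₁ : Type*} [Field F₁] [Fintype F₁] {F₂ : Type*} [Field F₂] [Fintype F₂]
    (hF₁ : Odd (Fintype.card F₁)) (hF₂ : Odd (Fintype.card F₂)) {L₁ L₂ : Subgroup G}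
    (e₁ : L₁ ≃* SL(2, F₁)) (e₂ : L₂ ≃* SL(2, F₂))
    (hc : ∀ x ∈ L₁, ∀ y ∈ L₂, x * y = y * x) {j : G} (hj : orderOf j = 2)
    (hm : L₁ ⊓ L₂ = zpowers j) : SLPair L₁ L₂ j := by
  have hj' : j ∈ L₁ ⊓ L₂ := hm ▸ mem_zpowers j
  refine ⟨slLike_of_equiv hF₁ e₁ hj'.1 hj, slLike_of_equiv hF₂ e₂ hj'.2 hj, hc, fun x h1 h2 => ?_⟩
  have : x ∈ zpowers j := hm ▸ ⟨h1, h2⟩
  exact H9.eq_one_or_eq_of_card_le_two (H := zpowers j) (by rw [Nat.card_zpowers, hj])
    (mem_zpowers j) (fun h => by rw [h, orderOf_one] at hj; omega) this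

theorem exists_mul_of_mem_sup_of_comm {L₁ L₂ : Subgroup G}
    (hc : ∀ x ∈ L₁, ∀ y ∈ L₂, x * y = y * x) {y : G} (hy : y ∈ L₁ ⊔ L₂) :
    ∃ a ∈ L₁, ∃ b ∈ L₂, y = a * b := by
  have hn : L₁ ≤ normalizer (L₂ : Set G) := by
    intro x hx
    rw [mem_normalizer_iff]
    intro z
    constructor
    · intro hz; rw [hc x hx z hz]; simpa using hz
    · intro hz
      have := hc x⁻¹ (inv_mem hx) _ hz
      have h2 : z = x * z * x⁻¹ := by
        calc z = x⁻¹ * (x * z * x⁻¹) * x := by group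
          _ = _ := by rw [this]; group
      rw [h2]; exact hz
  have : y ∈ ((L₁ ⊔ L₂ : Subgroup G) : Set G) := hy
  rw [coe_mul_of_left_le_normalizer_right L₁ L₂ hn] at this
  obtain ⟨a, ha, b, hb, rfl⟩ := this
  exact ⟨a, ha, b, hb, rfl⟩

namespace SLPair

variable {L₁ L₂ : Subgroup G} {j : G}

/-- Uniqueness of the factorization up to `j`. -/
theorem eq_of_mul_eq (h : SLPair L₁ L₂ j) {a a' b b' : G} (ha : a ∈ L₁) (ha' : a' ∈ L₁)
    (hb : b ∈ L₂) (hb' : b' ∈ L₂) (e : a * b = a' * b') :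
    (a = a' ∧ b = b') ∨ (a = a' * j ∧ b = b' * j) := by
  have e1 : a'⁻¹ * a = b' * b⁻¹ := by
    calc a'⁻¹ * a = a'⁻¹ * (a * b) * b⁻¹ := by group
      _ = _ := by rw [e]; group
  rcases h.inter (a'⁻¹ * a) (mul_mem (inv_mem ha') ha) (e1 ▸ mul_mem hb' (inv_mem hb)) with h1 | h1
  · left
    have := inv_mul_eq_one.mp h1
    subst this
    exact ⟨rfl, mul_left_cancel e⟩
  · right
    have e2 : a = a' * j := by rw [← h1]; group
    refine ⟨e2, ?_⟩
    rw [e2, mul_assoc] at e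
    have e3 := mul_left_cancel e
    rw [← e3, h.h₂.central b hb, mul_assoc, h.h₁.mul_self, mul_one]

theorem mul_mul (h : SLPair L₁ L₂ j) {a a' b b' : G} (ha' : a' ∈ L₁)
    (hb : b ∈ L₂) : a * b * (a' * b') = a * a' * (b * b') := by
  calc a * b * (a' * b') = a * (b * a') * b' := by group
    _ = a * (a' * b) * b' := by rw [h.comm a' ha' b hb]
    _ = _ := by group

theorem conj_mul (h : SLPair L₁ L₂ j) {a c b d : G} (ha : a ∈ L₁) (hc : c ∈ L₁)
    (hb : b ∈ L₂) (hd : d ∈ L₂) :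
    c * d * (a * b) * (c * d)⁻¹ = (c * a * c⁻¹) * (d * b * d⁻¹) := by
  rw [h.mul_mul ha hd, h.comm c hc d hd, mul_inv_rev, h.mul_mul (inv_mem hc) (mul_mem hd hb)]

theorem invol (h : SLPair L₁ L₂ j) {y : G} (hy : y ∈ L₁ ⊔ L₂) (hyy : y * y = 1) :
    y = 1 ∨ y = j ∨ ∃ a ∈ L₁, ∃ b ∈ L₂, a * a = j ∧ b * b = j ∧ y = a * b := by
  obtain ⟨a, ha, b, hb, rfl⟩ := exists_mul_of_mem_sup_of_comm h.comm hy
  rw [h.mul_mul ha hb] at hyy
  rcases h.eq_of_mul_eq (mul_mem ha ha) (one_mem _) (mul_mem hb hb) (one_mem _)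
    (hyy.trans (one_mul 1).symm) with ⟨h1, h2⟩ | ⟨h1, h2⟩
  · rcases h.h₁.inv a ha h1 with rfl | rfl <;> rcases h.h₂.inv b hb h2 with rfl | rfl
    · simp
    · simp
    · simp
    · left; exact hyy ▸ h1
  · rw [one_mul] at h1 h2
    exact Or.inr (Or.inr ⟨a, ha, b, hb, h1, h2, rfl⟩)

theorem mul_ne (h : SLPair L₁ L₂ j) {a b : G} (ha : a ∈ L₁) (hb : b ∈ L₂) (h1 : a * a = j) :
    a * b ≠ 1 ∧ a * b ≠ j := by
  have key : ∀ z, (z = 1 ∨ z = j) → a * b ≠ z := by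
    intro z hz e
    have hz2 : z ∈ L₂ := by rcases hz with rfl | rfl; exacts [one_mem _, h.h₂.mem]
    have haL : a ∈ L₂ := by
      have : a = z * b⁻¹ := by rw [← e]; group
      rw [this]; exact mul_mem hz2 (inv_mem hb)
    rcases h.inter a ha haL with rfl | rfl
    · exact h.h₁.ne_one (by simpa using h1.symm)
    · exact h.h₁.ne_one (h1.symm.trans h.h₁.mul_self)
  exact ⟨key 1 (Or.inl rfl), key j (Or.inr rfl)⟩

theorem mul_mul_self (h : SLPair L₁ L₂ j) {a b : G} (ha : a ∈ L₁) (hb : b ∈ L₂) (h1 : a * a = j)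
    (h2 : b * b = j) : a * b * (a * b) = 1 := by
  rw [h.mul_mul ha hb, h1, h2, h.h₁.mul_self]

theorem invol_conj (h : SLPair L₁ L₂ j) {a b : G} (ha : a ∈ L₁) (hb : b ∈ L₂) (h1 : a * a = j)
    (h2 : b * b = j) {y : G} (hy : y ∈ L₁ ⊔ L₂) (hyy : y * y = 1) :
    y = 1 ∨ y = j ∨ ∃ g ∈ L₁ ⊔ L₂, g * (a * b) * g⁻¹ = y := by
  rcases h.invol hy hyy with h' | h' | ⟨a', ha', b', hb', h1', h2', rfl⟩
  · exact Or.inl h'
  · exact Or.inr (Or.inl h')
  · obtain ⟨c, hc, rfl⟩ := h.h₁.conj a ha a' ha' h1 h1'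
    obtain ⟨d, hd, rfl⟩ := h.h₂.conj b hb b' hb' h2 h2'
    exact Or.inr (Or.inr ⟨c * d, mul_mem (mem_sup_left hc) (mem_sup_right hd),
      h.conj_mul ha hc hb hd⟩)

/-- Krull--Schmidt type step. -/
theorem le_or_le (h : SLPair L₁ L₂ j) {M₁ M₂ : Subgroup G} (hM : M₁ ⊔ M₂ = L₁ ⊔ L₂)
    (hc : ∀ x ∈ M₁, ∀ y ∈ M₂, x * y = y * x) : M₁ ≤ L₂ ∨ M₂ ≤ L₂ := by
  -- the projections to `L₁` commute up to `j`
  have key : ∀ {M M' : Subgroup G}, M ⊔ M' = L₁ ⊔ L₂ → (∀ x ∈ M, ∀ y ∈ M', x * y = y * x) →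
      ∀ a ∈ L₁, ∀ b ∈ L₂, a * b ∈ M → a * a ≠ 1 → a * a ≠ j → M' ≤ L₂ := by
    intro M M' hMM hcc a ha b hb hab ha1 ha2 m hm
    obtain ⟨k, hk, l, hl, rfl⟩ := exists_mul_of_mem_sup_of_comm h.comm
      (hMM ▸ mem_sup_right hm : m ∈ L₁ ⊔ L₂)
    have hnc := h.h₁.nc (a * a) (mul_mem ha ha) k hk (by
      intro g hg
      -- `g (a b) g⁻¹ ∈ M`
      have hgM : g * (a * b) * g⁻¹ ∈ M := by
        obtain ⟨u, hu, v, hv, rfl⟩ := exists_mul_of_mem_sup_of_comm hcc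
          (hMM ▸ mem_sup_left hg : g ∈ M ⊔ M')
        have : u * v * (a * b) * (u * v)⁻¹ = u * (a * b) * u⁻¹ := by
          calc u * v * (a * b) * (u * v)⁻¹ = u * (v * (a * b)) * v⁻¹ * u⁻¹ := by group
            _ = _ := by rw [← hcc _ hab v hv]; group
        rw [this]; exact mul_mem (mul_mem hu hab) (inv_mem hu)
      have e0 : g * (a * b) * g⁻¹ = (g * a * g⁻¹) * b := by
        have := h.conj_mul ha hg hb (one_mem L₂)
        simpa using this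
      set a' := g * a * g⁻¹ with ha'
      have ha'L : a' ∈ L₁ := mul_mem (mul_mem hg ha) (inv_mem hg)
      have e1 := hcc _ hgM _ hm
      rw [e0, h.mul_mul hk hb, h.mul_mul ha'L hl] at e1
      have e2 : g * (a * a) * g⁻¹ = a' * a' := by rw [ha']; group
      rw [e2]
      rcases h.eq_of_mul_eq (mul_mem ha'L hk) (mul_mem hk ha'L) (mul_mem hb hl) (mul_mem hl hb) e1
        with ⟨h1, -⟩ | ⟨h1, -⟩
      · calc k * (a' * a') = k * a' * a' := by group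
          _ = a' * k * a' := by rw [h1]
          _ = a' * (k * a') := by group
          _ = _ := by rw [← h1]; group
      · have hj1 := h.h₁.central a' ha'L
        have hj2 := h.h₁.central k hk
        have h1' : k * a' = a' * k * j := by rw [h1, mul_assoc, h.h₁.mul_self, mul_one]
        calc k * (a' * a') = k * a' * a' := by group
          _ = a' * k * (j * a') := by rw [h1']; group
          _ = a' * (k * a') * j := by rw [hj1]; group
          _ = a' * a' * k * (j * j) := by rw [h1']; group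
          _ = _ := by rw [h.h₁.mul_self, mul_one])
    rcases hnc with (h1 | h1) | (rfl | rfl)
    · exact absurd h1 ha1
    · exact absurd h1 ha2
    · simpa using hl
    · exact mul_mem h.h₂.mem hl
  obtain ⟨u, hu, hu1, hu2⟩ := h.h₁.sq
  obtain ⟨m₁, hm₁, m₂, hm₂, e⟩ := exists_mul_of_mem_sup_of_comm hc
    (hM ▸ mem_sup_left hu : u ∈ M₁ ⊔ M₂)
  obtain ⟨a, ha, b, hb, rfl⟩ := exists_mul_of_mem_sup_of_comm h.comm
      (hM ▸ mem_sup_left hm₁ : m₁ ∈ L₁ ⊔ L₂)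
  obtain ⟨c, hc', d, hd, rfl⟩ := exists_mul_of_mem_sup_of_comm h.comm
      (hM ▸ mem_sup_right hm₂ : m₂ ∈ L₁ ⊔ L₂)
  by_cases h1 : a * a ≠ 1 ∧ a * a ≠ j
  · exact Or.inr (key hM hc a ha b hb hm₁ h1.1 h1.2)
  by_cases h2 : c * c ≠ 1 ∧ c * c ≠ j
  · exact Or.inl (key (by rw [sup_comm, hM]) (fun x hx y hy => (hc y hy x hx).symm) c hc' d hd hm₂
      h2.1 h2.2)
  exfalso
  have h1' : a * a = 1 ∨ a * a = j := by tauto
  have h2' : c * c = 1 ∨ c * c = j := by tauto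
  have e1 : u * u = (a * a) * (c * c) * ((b * b) * (d * d)) := by
    calc u * u = a * b * (c * d * (a * b)) * (c * d) := by rw [e]; group
      _ = a * b * (a * b) * (c * d * (c * d)) := by rw [← hc _ hm₁ _ hm₂]; group
      _ = _ := by rw [h.mul_mul ha hb, h.mul_mul hc' hd, h.mul_mul (mul_mem hc' hc') (mul_mem hb hb)]
  have hjL : ∀ z, (z = 1 ∨ z = j) → z ∈ L₂ := by
    rintro z (rfl | rfl); exacts [one_mem _, h.h₂.mem]
  have : u * u ∈ L₂ := e1 ▸ mul_mem (mul_mem (hjL _ h1') (hjL _ h2'))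
    (mul_mem (mul_mem hb hb) (mul_mem hd hd))
  rcases h.inter _ (mul_mem hu hu) this with h3 | h3
  exacts [hu1 h3, hu2 h3]

theorem not_le (h : SLPair L₁ L₂ j) : ¬ L₁ ≤ L₂ := by
  intro hle
  obtain ⟨u, hu, hu1, hu2⟩ := h.h₁.sq
  rcases h.inter _ (mul_mem hu hu) (hle (mul_mem hu hu)) with h3 | h3
  exacts [hu1 h3, hu2 h3]

theorem normalizes_or_swaps [Finite G] (h : SLPair L₁ L₂ j) {n : G}
    (hn : (L₁ ⊔ L₂).map (MulAut.conj n).toMonoidHom = L₁ ⊔ L₂) :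
    (L₁.map (MulAut.conj n).toMonoidHom = L₁ ∧ L₂.map (MulAut.conj n).toMonoidHom = L₂) ∨
    (L₁.map (MulAut.conj n).toMonoidHom = L₂ ∧ L₂.map (MulAut.conj n).toMonoidHom = L₁) := by
  have hinj : Function.Injective (MulAut.conj n).toMonoidHom := (MulAut.conj n).injective
  have hp : SLPair (L₁.map (MulAut.conj n).toMonoidHom) (L₂.map (MulAut.conj n).toMonoidHom)
      ((MulAut.conj n).toMonoidHom j) := by
    refine ⟨h.h₁.map _ hinj, h.h₂.map _ hinj, ?_, ?_⟩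
    · rintro _ ⟨x, hx, rfl⟩ _ ⟨y, hy, rfl⟩
      rw [← map_mul, h.comm x hx y hy, map_mul]
    · rintro _ ⟨x, hx, rfl⟩ ⟨y, hy, e⟩
      have := hinj e
      subst this
      rcases h.inter y hx hy with rfl | rfl
      · simp
      · simp
  rw [Subgroup.map_sup] at hn
  have c1 := card_map_of_injective (K := L₁) hinj
  have c2 := card_map_of_injective (K := L₂) hinj
  set M₁ := L₁.map (MulAut.conj n).toMonoidHom
  set M₂ := L₂.map (MulAut.conj n).toMonoidHom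
  have hsup : ∀ L, M₁ ≤ L → M₂ ≤ L → L₁ ⊔ L₂ ≤ L := fun L h1 h2 => hn ▸ sup_le h1 h2
  rcases h.le_or_le hn hp.comm with h1 | h1 <;>
    rcases h.symm.le_or_le (hn.trans (sup_comm _ _)) hp.comm with h2 | h2
  · exfalso
    obtain ⟨u, hu, hu1, hu2⟩ := hp.h₁.sq
    rcases h.inter u (h2 hu) (h1 hu) with rfl | rfl
    · simp at hu1
    · exact hu1 h.h₁.mul_self
  · right
    have a1 := card_le_of_le h1
    have a2 := card_le_of_le h2
    exact ⟨eq_of_le_of_card_ge h1 (by omega), eq_of_le_of_card_ge h2 (by omega)⟩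
  · left
    exact ⟨eq_of_le_of_card_ge h2 c1.ge, eq_of_le_of_card_ge h1 c2.ge⟩
  · exfalso
    obtain ⟨u, hu, hu1, hu2⟩ := hp.h₂.sq
    rcases h.inter u (h2 hu) (h1 hu) with rfl | rfl
    · simp at hu1
    · exact hu1 h.h₁.mul_self

end SLPair

end Cfsg.Agent.H5
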