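import Cfsg.Agent.H5.SL2Pair

/-!
# An element of order four interchanging two commuting copies of `SL(2, q)`
-/

set_option autoImplicit false

namespace Cfsg.Agent.H5

open Subgroup

variable {G : Type*} [Group G]

theorem conj_mem_iff_of_relIndex_two {Y C : Subgroup G} (hle : Y ≤ C) (hi : Y.relIndex C = 2)
    {n : G} (hn : n ∈ C) : Y.map (MulAut.conj n).toMonoidHom = Y := by
  have hN : (Y.subgroupOf C).Normal := normal_of_index_eq_two hi
  have key : ∀ m ∈ C, ∀ y ∈ Y, m * y * m⁻¹ ∈ Y := fun m hm y hy =>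
    hN.conj_mem ⟨y, hle hy⟩ hy ⟨m, hm⟩
  apply le_antisymm
  · rintro _ ⟨y, hy, rfl⟩
    exact key n hn y hy
  · intro y hy
    refine ⟨n⁻¹ * y * n⁻¹⁻¹, key _ (inv_mem hn) y hy, ?_⟩
    simp [MulAut.conj_apply, mul_assoc]

theorem mul_mem_of_relIndex_two {Y C : Subgroup G} (hi : Y.relIndex C = 2)
    {a b : G} (ha : a ∈ C) (hb : b ∈ C) (ha' : a ∉ Y) (hb' : b ∉ Y) : a * b ∈ Y := by
  have := (mul_mem_iff_of_index_two (H := Y.subgroupOf C) hi (a := ⟨a, ha⟩) (b := ⟨b, hb⟩)).mpr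
    (iff_of_false ha' hb')
  exact this

/-- Counting square roots coset by coset. -/
theorem card_sqrt_lt [Finite G] (C : Set G) (T : Subgroup G) (hT : ∀ s ∈ T, ∀ t ∈ T, s * t = t * s)
    (hCT : ∀ r ∈ C, ∀ t ∈ T, r * t ∈ C) (hN : ∀ r ∈ C, ∀ t ∈ T, r⁻¹ * t * r ∈ T) (x z : G)
    (h1 : ∀ r ∈ C, r * r = x → ∃ t ∈ T, r * t * (r * t) = z)
    (h2 : ∃ s ∈ C, s * s = z ∧ ∀ t ∈ T, s * t * (s * t) ≠ x) :
    Nat.card {r // r ∈ C ∧ r * r = x} < Nat.card {r // r ∈ C ∧ r * r = z} := by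
  have key : ∀ q : G ⧸ T, ∃ τ ∈ T, ∀ r ∈ C, (r : G ⧸ T) = q → r * r = x →
      r * τ * (r * τ) = z := by
    intro q
    by_cases hq : ∃ r ∈ C, (r : G ⧸ T) = q ∧ r * r = x
    · obtain ⟨r₀, hr₀, hq₀, hx₀⟩ := hq
      obtain ⟨τ, hτ, hz⟩ := h1 r₀ hr₀ hx₀
      refine ⟨τ, hτ, fun r hr hq' hx => ?_⟩
      have ht' : r₀⁻¹ * r ∈ T := QuotientGroup.eq.mp (hq₀.trans hq'.symm)
      obtain ⟨t, ht, rfl⟩ : ∃ t ∈ T, r = r₀ * t := ⟨_, ht', by group⟩
      have e1 : r₀⁻¹ * t * r₀ * t = 1 := by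
        have : r₀ * r₀ * (r₀⁻¹ * t * r₀ * t) = r₀ * r₀ := by
          calc r₀ * r₀ * (r₀⁻¹ * t * r₀ * t) = r₀ * t * (r₀ * t) := by group
            _ = _ := by rw [hx, hx₀]
        exact mul_left_cancel (this.trans (mul_one _).symm)
      calc r₀ * t * τ * (r₀ * t * τ)
          = r₀ * r₀ * (r₀⁻¹ * t * r₀) * ((r₀⁻¹ * τ * r₀) * t) * τ := by group
        _ = r₀ * r₀ * (r₀⁻¹ * t * r₀ * t) * (r₀⁻¹ * τ * r₀) * τ := by
            rw [hT _ (hN r₀ hr₀ τ hτ) t ht]; group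
        _ = z := by rw [e1, ← hz]; group
    · exact ⟨1, one_mem _, fun r hr hq' hx => absurd ⟨r, hr, hq', hx⟩ hq⟩
  choose τ hτ hτ' using key
  let f : {r // r ∈ C ∧ r * r = x} → {r // r ∈ C ∧ r * r = z} := fun r =>
    ⟨r.1 * τ (r.1 : G ⧸ T), hCT _ r.2.1 _ (hτ _), hτ' _ _ r.2.1 rfl r.2.2⟩
  have hf : Function.Injective f := by
    intro r r' e
    have e1 : r.1 * τ (r.1 : G ⧸ T) = r'.1 * τ (r'.1 : G ⧸ T) := congrArg Subtype.val e
    have e2 : (r.1 : G ⧸ T) = r'.1 := by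
      have := congrArg (fun g : G => (g : G ⧸ T)) e1
      simpa only [QuotientGroup.mk_mul_of_mem _ (hτ _)] using this
    rw [e2] at e1
    exact Subtype.ext (mul_right_cancel e1)
  obtain ⟨s, hs, hsz, hsx⟩ := h2
  haveI := Fintype.ofFinite {r // r ∈ C ∧ r * r = x}
  haveI := Fintype.ofFinite {r // r ∈ C ∧ r * r = z}
  rw [Nat.card_eq_fintype_card, Nat.card_eq_fintype_card]
  refine Fintype.card_lt_of_injective_of_notMem f hf (b := ⟨s, hs, hsz⟩) ?_
  rintro ⟨r, hr⟩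
  have e1 : r.1 * τ (r.1 : G ⧸ T) = s := congrArg Subtype.val hr
  apply hsx (τ (r.1 : G ⧸ T))⁻¹ (inv_mem (hτ _))
  rw [← e1]
  simpa using r.2.2

namespace SLPair

variable {L₁ L₂ : Subgroup G} {j : G}

theorem exists_sq_of_swap (h : SLPair L₁ L₂ j) {n : G}
    (h1 : L₁.map (MulAut.conj n).toMonoidHom = L₂) (h2 : L₂.map (MulAut.conj n).toMonoidHom = L₁)
    (hnn : n * n ∈ L₁ ⊔ L₂) : ∃ a ∈ L₁, (n * a) * (n * a) = 1 ∨ (n * a) * (n * a) = j := by
  obtain ⟨a, ha, b, hb, e⟩ := exists_mul_of_mem_sup_of_comm h.comm hnn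
  have c1 : n * a * n⁻¹ ∈ L₂ := h1 ▸ ⟨a, ha, rfl⟩
  have c2 : n * b * n⁻¹ ∈ L₁ := h2 ▸ ⟨b, hb, rfl⟩
  have e1 : (n * b * n⁻¹) * (n * a * n⁻¹) = a * b := by
    rw [h.comm _ c2 _ c1]
    calc n * a * n⁻¹ * (n * b * n⁻¹) = n * (a * b) * n⁻¹ := by group
      _ = _ := by rw [← e]; group
  refine ⟨a⁻¹, inv_mem ha, ?_⟩
  have e2 : n * a⁻¹ * (n * a⁻¹) = (n * a * n⁻¹)⁻¹ * (a * b * a⁻¹) := by rw [← e]; group
  have e3 : a * b * a⁻¹ = b := by rw [h.comm a ha b hb]; group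
  rw [e2, e3]
  rcases h.eq_of_mul_eq c2 ha c1 hb e1 with ⟨-, h'⟩ | ⟨-, h'⟩
  · left; rw [h']; group
  · right; rw [h', mul_inv_rev, mul_assoc, inv_mul_cancel, mul_one,
      inv_eq_of_mul_eq_one_left h.h₁.mul_self]

theorem isolated_of_swap [Finite G] (h : SLPair L₁ L₂ j)
    (hle : L₁ ⊔ L₂ ≤ centralizer {j}) (hi : (L₁ ⊔ L₂).relIndex (centralizer {j}) = 2)
    {n : G} (hn : n ∈ centralizer {j}) (hn2 : n * n = j)
    (hswap : L₁.map (MulAut.conj n).toMonoidHom = L₂) : H7.Isolated j := by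
  have hjj := h.h₁.mul_self
  have hjinv : j⁻¹ = j := inv_eq_of_mul_eq_one_left hjj
  have hnj : n * j = j * n := mem_centralizer_singleton_iff.mp hn
  have c12 : ∀ a ∈ L₁, n * a * n⁻¹ ∈ L₂ := fun a ha => hswap ▸ ⟨a, ha, rfl⟩
  have cc : ∀ a ∈ L₁ ⊔ L₂, n * (n * a * n⁻¹) * n⁻¹ = a := by
    intro a ha
    have := mem_centralizer_singleton_iff.mp (hle ha)
    calc n * (n * a * n⁻¹) * n⁻¹ = (n * n) * a * (n * n)⁻¹ := by group
      _ = a := by rw [hn2, ← this]; group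
  have c21 : ∀ b ∈ L₂, n * b * n⁻¹ ∈ L₁ := by
    intro b hb
    rw [← hswap] at hb
    obtain ⟨a, ha, rfl⟩ := hb
    change n * (n * a * n⁻¹) * n⁻¹ ∈ L₁
    rw [cc a (mem_sup_left ha)]; exact ha
  have ci : ∀ a ∈ L₁ ⊔ L₂, n⁻¹ * a * n = n * a * n⁻¹ := by
    intro a ha
    conv_lhs => rw [← cc a ha]
    group
  have hnY : n ∉ L₁ ⊔ L₂ := by
    intro hnY
    apply h.symm.not_le
    rw [← hswap]
    rintro _ ⟨a, ha, rfl⟩
    obtain ⟨c, hc, d, hd, rfl⟩ := exists_mul_of_mem_sup_of_comm h.comm hnY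
    have := h.conj_mul ha hc (one_mem L₂) hd
    simp only [mul_one, mul_inv_cancel] at this
    change c * d * a * (c * d)⁻¹ ∈ L₁
    rw [this]; exact mul_mem (mul_mem hc ha) (inv_mem hc)
  -- elements of `C(j)` outside `Y`
  have hout : ∀ r ∈ centralizer ({j} : Set G), r ∉ L₁ ⊔ L₂ →
      ∃ c ∈ L₁, ∃ d ∈ L₂, r = c * d * n := by
    intro r hr hr'
    obtain ⟨c, hc, d, hd, e⟩ := exists_mul_of_mem_sup_of_comm h.comm
      (mul_mem_of_relIndex_two hi hr (inv_mem hn) hr' (fun h' => hnY (inv_mem_iff.mp h')))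
    exact ⟨c, hc, d, hd, by rw [← e]; group⟩
  have hsq : ∀ c ∈ L₁, ∀ d ∈ L₂, c * d * n * (c * d * n) =
      (c * (n * d * n⁻¹) * j) * (d * (n * c * n⁻¹)) := by
    intro c hc d hd
    calc c * d * n * (c * d * n) = c * d * ((n * c * n⁻¹) * (n * d * n⁻¹)) * (n * n) := by group
      _ = c * d * ((n * d * n⁻¹) * (n * c * n⁻¹)) * j := by
          rw [hn2, h.comm _ (c21 d hd) _ (c12 c hc)]
      _ = _ := by
          rw [h.mul_mul (c21 d hd) hd, mul_assoc, ← h.h₂.central _ (mul_mem hd (c12 c hc))]; group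
  have hnoinv : ∀ r ∈ centralizer ({j} : Set G), r * r = 1 → r ∈ L₁ ⊔ L₂ := by
    intro r hr hrr
    by_contra hr'
    obtain ⟨c, hc, d, hd, rfl⟩ := hout r hr hr'
    rw [hsq c hc d hd] at hrr
    have e0 : n * (c * (n * d * n⁻¹)) * n⁻¹ = (n * c * n⁻¹) * d := by
      calc n * (c * (n * d * n⁻¹)) * n⁻¹ = (n * c * n⁻¹) * (n * (n * d * n⁻¹) * n⁻¹) := by group
        _ = _ := by rw [cc d (mem_sup_right hd)]
    rcases h.eq_of_mul_eq (mul_mem (mul_mem hc (c21 d hd)) h.h₁.mem) (one_mem _)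
      (mul_mem hd (c12 c hc)) (one_mem _) (hrr.trans (one_mul 1).symm) with ⟨e1, e2⟩ | ⟨e1, e2⟩
    · have e3 : c * (n * d * n⁻¹) = j := by rw [← hjinv]; exact eq_inv_of_mul_eq_one_left e1
      have e4 : (n * c * n⁻¹) * d = 1 := mul_eq_one_comm.mp e2
      rw [e3, e4, hnj] at e0
      exact h.h₁.ne_one (by simpa using e0)
    · rw [one_mul] at e1 e2
      have e3 : c * (n * d * n⁻¹) = 1 := by simpa using e1
      rw [e3] at e0
      have e4 : d * (n * c * n⁻¹) = 1 := mul_eq_one_comm.mp (by simpa using e0.symm)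
      exact h.h₁.ne_one (e2.symm.trans e4)
  obtain ⟨a, ha, haa⟩ := h.h₁.ex
  set b := n * a * n⁻¹ with hbdef
  have hb : b ∈ L₂ := c12 a ha
  have hbb : b * b = j := by
    calc b * b = n * (a * a) * n⁻¹ := by rw [hbdef]; group
      _ = j := by rw [haa, hnj]; group
  have hnb : n * b * n⁻¹ = a := cc a (mem_sup_left ha)
  set x := a * b with hxdef
  have hnx : n * x * n⁻¹ = x := by
    calc n * x * n⁻¹ = b * (n * b * n⁻¹) := by rw [hxdef, hbdef]; group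
      _ = x := by rw [hnb, hxdef, h.comm a ha b hb]
  have hconj : ∀ y ∈ centralizer ({j} : Set G), y * y = 1 → y ≠ 1 → y ≠ j →
      ∃ g ∈ centralizer ({j} : Set G), g * x * g⁻¹ = y := by
    intro y hy hyy h1 h2
    rcases h.invol_conj ha hb haa hbb (hnoinv y hy hyy) hyy with h' | h' | ⟨g, hg, e⟩
    · exact absurd h' h1
    · exact absurd h' h2
    · exact ⟨g, hle hg, e⟩
  have hxj : x * j = j * x := mem_centralizer_singleton_iff.mp
    (hle (mul_mem (mem_sup_left ha) (mem_sup_right hb)))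
  have hx1 := (h.mul_ne ha hb haa).1
  have hx2 := (h.mul_ne ha hb haa).2
  have hxx := h.mul_mul_self ha hb haa hbb
  refine H7.Isolated.of_commute hjj fun g hg => ?_
  by_contra hne
  -- an element interchanging `j` and `x`
  obtain ⟨g₁, hg₁⟩ : ∃ g₁ : G, g₁ * j * g₁⁻¹ = x := by
    obtain ⟨k, -, e⟩ := hconj (g * j * g⁻¹) (mem_centralizer_singleton_iff.mpr hg.eq.symm)
      (by calc g * j * g⁻¹ * (g * j * g⁻¹) = g * (j * j) * g⁻¹ := by group
            _ = 1 := by rw [hjj]; group)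
      (fun e => h.h₁.ne_one (by simpa using e)) hne
    exact ⟨k⁻¹ * g, by calc k⁻¹ * g * j * (k⁻¹ * g)⁻¹ = k⁻¹ * (g * j * g⁻¹) * k := by group
      _ = x := by rw [← e]; group⟩
  obtain ⟨g₂, hg₂, hg₂'⟩ : ∃ g₂ : G, g₂ * j * g₂⁻¹ = x ∧ g₂ * x * g₂⁻¹ = j := by
    obtain ⟨k, hk, e⟩ := hconj (g₁⁻¹ * j * g₁) (mem_centralizer_singleton_iff.mpr (by
        calc g₁⁻¹ * j * g₁ * j = g₁⁻¹ * (j * (g₁ * j * g₁⁻¹)) * g₁ := by group
          _ = g₁⁻¹ * ((g₁ * j * g₁⁻¹) * j) * g₁ := by rw [hg₁, hxj]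
          _ = _ := by group))
      (by calc g₁⁻¹ * j * g₁ * (g₁⁻¹ * j * g₁) = g₁⁻¹ * (j * j) * g₁ := by group
            _ = 1 := by rw [hjj]; group)
      (fun e => h.h₁.ne_one (by
        calc j = g₁ * (g₁⁻¹ * j * g₁) * g₁⁻¹ := by group
          _ = 1 := by rw [e]; group))
      (fun e => hx2 (by rw [← hxdef, ← hg₁]; conv_lhs => rw [← e]
                        group))
    have hk' := mem_centralizer_singleton_iff.mp hk
    refine ⟨g₁ * k, ?_, ?_⟩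
    · calc g₁ * k * j * (g₁ * k)⁻¹ = g₁ * (k * j) * k⁻¹ * g₁⁻¹ := by group
        _ = x := by rw [hk', ← hg₁]; group
    · calc g₁ * k * x * (g₁ * k)⁻¹ = g₁ * (k * x * k⁻¹) * g₁⁻¹ := by group
        _ = j := by rw [e]; group
  let C : Set G := {r | r * j = j * r ∧ r * x = x * r}
  have hcard : Nat.card {r // r ∈ C ∧ r * r = x} = Nat.card {r // r ∈ C ∧ r * r = j} := by
    refine Nat.card_congr (Equiv.subtypeEquiv (MulAut.conj g₂).toEquiv fun r => ?_)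
    have e1 : j = MulAut.conj g₂ x := hg₂'.symm
    have e2 : x = MulAut.conj g₂ j := hg₂.symm
    change (r * j = j * r ∧ r * x = x * r) ∧ r * r = x ↔
      (MulAut.conj g₂ r * j = j * MulAut.conj g₂ r ∧ MulAut.conj g₂ r * x = x * MulAut.conj g₂ r)
        ∧ MulAut.conj g₂ r * MulAut.conj g₂ r = j
    have i1 : MulAut.conj g₂ r * j = j * MulAut.conj g₂ r ↔ r * x = x * r := by
      rw [e1, ← map_mul, ← map_mul, (MulAut.conj g₂).apply_eq_iff_eq]
    have i2 : MulAut.conj g₂ r * x = x * MulAut.conj g₂ r ↔ r * j = j * r := by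
      conv_lhs => rw [e2, ← map_mul, ← map_mul, (MulAut.conj g₂).apply_eq_iff_eq]
    have i3 : MulAut.conj g₂ r * MulAut.conj g₂ r = j ↔ r * r = x := by
      conv_lhs => rw [e1, ← map_mul, (MulAut.conj g₂).apply_eq_iff_eq]
    rw [i1, i2, i3]; tauto
  let T : Subgroup G := (L₁ ⊓ centralizer {a}) ⊔ (L₂ ⊓ centralizer {b})
  have hTc : ∀ u ∈ L₁ ⊓ centralizer {a}, ∀ v ∈ L₂ ⊓ centralizer {b}, u * v = v * u :=
    fun u hu v hv => h.comm u hu.1 v hv.1
  have hT : ∀ t ∈ T, ∃ c ∈ L₁, ∃ d ∈ L₂, c * a = a * c ∧ d * b = b * d ∧ t = c * d := by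
    intro t ht
    obtain ⟨c, hc, d, hd, e⟩ := exists_mul_of_mem_sup_of_comm hTc ht
    exact ⟨c, hc.1, d, hd.1, mem_centralizer_singleton_iff.mp hc.2,
      mem_centralizer_singleton_iff.mp hd.2, e⟩
  have hT' : ∀ c ∈ L₁, ∀ d ∈ L₂, c * a = a * c → d * b = b * d → c * d ∈ T :=
    fun c hc d hd h1 h2 => mul_mem (mem_sup_left ⟨hc, mem_centralizer_singleton_iff.mpr h1⟩)
      (mem_sup_right ⟨hd, mem_centralizer_singleton_iff.mpr h2⟩)
  -- elements of `Y` centralizing `x`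
  have hYx : ∀ c ∈ L₁, ∀ d ∈ L₂, c * d * x = x * (c * d) →
      (c * a = a * c ∧ d * b = b * d) ∨ (c * a = a * j * c ∧ d * b = b * j * d) := by
    intro c hc d hd e
    have e1 : (c * a * c⁻¹) * (d * b * d⁻¹) = a * b := by
      rw [← h.conj_mul ha hc hb hd, ← hxdef, e]; group
    rcases h.eq_of_mul_eq (mul_mem (mul_mem hc ha) (inv_mem hc)) ha
      (mul_mem (mul_mem hd hb) (inv_mem hd)) hb e1 with ⟨e2, e3⟩ | ⟨e2, e3⟩
    · left; exact ⟨mul_inv_eq_iff_eq_mul.mp e2, mul_inv_eq_iff_eq_mul.mp e3⟩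
    · right; exact ⟨mul_inv_eq_iff_eq_mul.mp e2, mul_inv_eq_iff_eq_mul.mp e3⟩
  have hnT : ∀ t ∈ T, n⁻¹ * t * n ∈ T := by
    intro t ht
    obtain ⟨c, hc, d, hd, h1, h2, rfl⟩ := hT t ht
    rw [ci _ (mul_mem (mem_sup_left hc) (mem_sup_right hd))]
    have : n * (c * d) * n⁻¹ = (n * d * n⁻¹) * (n * c * n⁻¹) := by
      rw [h.comm c hc d hd]; group
    rw [this]
    refine hT' _ (c21 d hd) _ (c12 c hc) ?_ ?_
    · rw [← hnb]
      calc n * d * n⁻¹ * (n * b * n⁻¹) = n * (d * b) * n⁻¹ := by group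
        _ = _ := by rw [h2]; group
    · rw [hbdef]
      calc n * c * n⁻¹ * (n * a * n⁻¹) = n * (c * a) * n⁻¹ := by group
        _ = _ := by rw [h1]; group
  have hconjC : ∀ {L : Subgroup G} (hL : SLLike L j) {a : G}, a ∈ L → ∀ c ∈ L, ∀ u ∈ L,
      (c * a = a * c ∨ c * a = a * j * c) → u * a = a * u → (c⁻¹ * u * c) * a = a * (c⁻¹ * u * c) := by
    intro L hL a ha c hc u hu h1 h2
    rcases h1 with h1 | h1
    · have h3 : a * c⁻¹ = c⁻¹ * a := by
        calc a * c⁻¹ = c⁻¹ * (c * a) * c⁻¹ := by group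
          _ = _ := by rw [h1]; group
      calc c⁻¹ * u * c * a = c⁻¹ * u * (c * a) := by group
        _ = c⁻¹ * (u * a) * c := by rw [h1]; group
        _ = _ := by rw [h2, ← mul_assoc, ← h3]; group
    · have h3 : a * c⁻¹ = c⁻¹ * (a * j) := by
        calc a * c⁻¹ = c⁻¹ * (c * a) * c⁻¹ := by group
          _ = _ := by rw [h1]; group
      calc c⁻¹ * u * c * a = c⁻¹ * u * (c * a) := by group
        _ = c⁻¹ * (u * a) * j * c := by rw [h1]; group
        _ = c⁻¹ * a * (u * j) * c := by rw [h2]; group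
        _ = c⁻¹ * (a * j) * u * c := by rw [← hL.central u hu]; group
        _ = _ := by rw [← h3]; group
  have hYT : ∀ c ∈ L₁, ∀ d ∈ L₂, c * d * x = x * (c * d) → ∀ t ∈ T,
      (c * d)⁻¹ * t * (c * d) ∈ T := by
    intro c hc d hd e t ht
    obtain ⟨u, hu, v, hv, h1, h2, rfl⟩ := hT t ht
    have e1 : (c * d)⁻¹ * (u * v) * (c * d) = (c⁻¹ * u * c) * (d⁻¹ * v * d) := by
      have := h.conj_mul hu (inv_mem hc) hv (inv_mem hd)
      rw [inv_inv, inv_inv] at this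
      rw [← this, h.comm c hc d hd, mul_inv_rev, mul_inv_rev, inv_inv, inv_inv]
    rw [e1]
    have := hYx c hc d hd e
    exact hT' _ (mul_mem (mul_mem (inv_mem hc) hu) hc) _ (mul_mem (mul_mem (inv_mem hd) hv) hd)
      (hconjC h.h₁ ha c hc u hu (by tauto) h1) (hconjC h.h₂ hb d hd v hv (by tauto) h2)
  have hnx' : n * x = x * n := mul_inv_eq_iff_eq_mul.mp hnx
  have hdec : ∀ r ∈ C, ∃ c ∈ L₁, ∃ d ∈ L₂, c * d * x = x * (c * d) ∧
      (r = c * d ∨ r = c * d * n) := by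
    intro r hr
    by_cases hY : r ∈ L₁ ⊔ L₂
    · obtain ⟨c, hc, d, hd, rfl⟩ := exists_mul_of_mem_sup_of_comm h.comm hY
      exact ⟨c, hc, d, hd, hr.2, Or.inl rfl⟩
    · obtain ⟨c, hc, d, hd, rfl⟩ := hout r (mem_centralizer_singleton_iff.mpr hr.1) hY
      refine ⟨c, hc, d, hd, ?_, Or.inr rfl⟩
      have := hr.2
      rw [mul_assoc _ n, hnx', ← mul_assoc (c * d), ← mul_assoc x] at this
      exact mul_right_cancel this
  have hTC : ∀ t ∈ T, t ∈ C := by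
    intro t ht
    obtain ⟨c, hc, d, hd, h1, h2, rfl⟩ := hT t ht
    refine ⟨mem_centralizer_singleton_iff.mp (hle (mul_mem (mem_sup_left hc) (mem_sup_right hd))),
      ?_⟩
    rw [hxdef, h.mul_mul ha hd, h.mul_mul hc hb, h1, h2]
  have hlt := card_sqrt_lt C T ?_ ?_ ?_ x j ?_ ?_
  · omega
  · intro s hs t ht
    obtain ⟨c, hc, d, hd, h1, h2, rfl⟩ := hT s hs
    obtain ⟨c', hc', d', hd', h1', h2', rfl⟩ := hT t ht
    rw [h.mul_mul hc' hd, h.mul_mul hc hd', h.h₁.cab a ha haa c hc c' hc' h1 h1',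
      h.h₂.cab b hb hbb d hd d' hd' h2 h2']
  · intro r hr t ht
    have := hTC t ht
    exact ⟨((show Commute r j from hr.1).mul_left (show Commute t j from this.1)),
      ((show Commute r x from hr.2).mul_left (show Commute t x from this.2))⟩
  · intro r hr t ht
    obtain ⟨c, hc, d, hd, e, rfl | rfl⟩ := hdec r hr
    · exact hYT c hc d hd e t ht
    · have := hnT _ (hYT c hc d hd e t ht)
      convert this using 1; group
  · intro r hr hrr
    obtain ⟨c, hc, d, hd, e, rfl | rfl⟩ := hdec r hr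
    · rcases hYx c hc d hd e with ⟨h1, h2⟩ | ⟨h1, h2⟩
      · refine ⟨(c * d)⁻¹ * a, mul_mem (inv_mem (hT' c hc d hd h1 h2)) ?_,
          by rw [← haa]; group⟩
        simpa using hT' a ha 1 (one_mem _) rfl (by simp)
      · exfalso
        rw [h.mul_mul_self hc hd (h.h₁.inverts a ha haa c hc h1)
          (h.h₂.inverts b hb hbb d hd h2)] at hrr
        exact hx1 hrr.symm
    · rcases hYx c hc d hd e with ⟨h1, h2⟩ | ⟨h1, h2⟩
      · refine ⟨n⁻¹ * (c * d)⁻¹ * n, hnT _ (inv_mem (hT' c hc d hd h1 h2)), ?_⟩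
        rw [← hn2]; group
      · have hcc := h.h₁.inverts a ha haa c hc h1
        set c' := n * c * n⁻¹ with hc'
        have hc'L : c' ∈ L₂ := c12 c hc
        have h3 : c' * b = b * j * c' := by
          calc c' * b = n * (c * a) * n⁻¹ := by rw [hc', hbdef]; group
            _ = b * (n * j * n⁻¹) * c' := by rw [h1, hc', hbdef]; group
            _ = _ := by rw [hnj]; group
        refine ⟨n⁻¹ * (d⁻¹ * c') * n, hnT _ ?_, ?_⟩
        · have := hT' 1 (one_mem _) (d⁻¹ * c') (mul_mem (inv_mem hd) hc'L) (by simp) (by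
            calc d⁻¹ * c' * b = d⁻¹ * (b * j * d) * d⁻¹ * c' := by rw [mul_assoc, h3]; group
              _ = _ := by rw [← h2]; group)
          simpa using this
        · have e1 : c * d * n * (n⁻¹ * (d⁻¹ * c') * n) = c * c' * n := by group
          rw [e1, hsq c hc c' hc'L, hc', cc c (mem_sup_left hc), hcc, hjj, one_mul]
          calc n * c * n⁻¹ * (n * c * n⁻¹) = n * (c * c) * n⁻¹ := by group
            _ = j := by rw [hcc, hnj]; group
  · refine ⟨n, ⟨hnj, hnx'⟩, hn2, fun t ht e => ?_⟩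
    -- write `n t = t' n`
    obtain ⟨c, hc, d, hd, h1, h2, e1⟩ := hT (n * t * n⁻¹) (by
      rw [← ci t (hT t ht |>.elim fun c ⟨hc, d, hd, _, _, e⟩ =>
        e ▸ mul_mem (mem_sup_left hc) (mem_sup_right hd))]
      exact hnT t ht)
    have e2 : n * t = c * d * n := by rw [← e1]; group
    rw [e2, hsq c hc d hd] at e
    have e0 : n * (c * (n * d * n⁻¹)) * n⁻¹ = d * (n * c * n⁻¹) := by
      calc n * (c * (n * d * n⁻¹)) * n⁻¹ = (n * c * n⁻¹) * (n * (n * d * n⁻¹) * n⁻¹) := by group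
        _ = (n * c * n⁻¹) * d := by rw [cc d (mem_sup_right hd)]
        _ = _ := h.h₂.cab b hb hbb _ (c12 c hc) d hd (by
          rw [hbdef]
          calc n * c * n⁻¹ * (n * a * n⁻¹) = n * (c * a) * n⁻¹ := by group
            _ = _ := by rw [h1]; group) h2
    rcases h.eq_of_mul_eq (mul_mem (mul_mem hc (c21 d hd)) h.h₁.mem) ha
      (mul_mem hd (c12 c hc)) hb e with ⟨e3, e4⟩ | ⟨e3, e4⟩
    · have e5 : c * (n * d * n⁻¹) = a * j := by rw [← e3, mul_assoc _ j j, hjj, mul_one]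
      rw [e5, e4] at e0
      have : b * j = b := by
        calc b * j = n * a * (n⁻¹ * j * n) * n⁻¹ := by rw [hbdef]; group
          _ = n * (a * j) * n⁻¹ := by rw [mul_assoc n⁻¹, ← hnj]; group
          _ = b := e0
      exact h.h₁.ne_one (by simpa using this)
    · have e5 : c * (n * d * n⁻¹) = a := mul_right_cancel e3
      rw [e5, e4] at e0
      exact h.h₁.ne_one (by simpa [hbdef] using e0.symm)

end SLPair

end Cfsg.Agent.H5
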